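import Cfsg.Agent.Acd.Base

/-! The master inequality for coprime abelian-by-abelian groups. -/

set_option autoImplicit false
set_option maxHeartbeats 400000
set_option linter.unusedSectionVars false

namespace Cfsg.Acd

open Cfsg.FT
open scoped Pointwise Classical commutatorElement

variable {G : Type*} [Group G] [Finite G]
variable {L H K V : Subgroup G} {θ χ : G → ℂ} {g v w x : G}

/-- the elements of a subgroup as a `Finset` -/
noncomputable def fs (H : Subgroup G) : Finset G := (Set.toFinite (H : Set G)).toFinset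

@[simp] theorem mem_fs : x ∈ fs H ↔ x ∈ H := by simp [fs]

theorem card_fs (H : Subgroup G) : (fs H).card = Nat.card H := by
  rw [fs, ← Set.ncard_eq_toFinset_card]; rfl

theorem card_fs_filter (H K : Subgroup G) :
    ((fs H).filter (· ∈ K)).card = Nat.card ↥(H ⊓ K) := by
  rw [← card_fs]; congr 1; ext x; simp

/-- the orbit of `v` under conjugation by `K` -/
noncomputable def orb (K : Subgroup G) (v : G) : Finset G := (fs K).image fun k => k * v * k⁻¹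

theorem mem_orb : w ∈ orb K v ↔ ∃ k ∈ K, w = k * v * k⁻¹ := by simp [orb, eq_comm]

theorem orb_self (K : Subgroup G) (v : G) : v ∈ orb K v := mem_orb.2 ⟨1, one_mem _, by simp⟩

theorem conj_mem_orb (hg : g ∈ K) (v : G) : g * v * g⁻¹ ∈ orb K v := mem_orb.2 ⟨g, hg, rfl⟩

theorem orb_eq (h : w ∈ orb K v) : orb K w = orb K v := by
  obtain ⟨k, hk, rfl⟩ := mem_orb.1 h
  ext y
  simp only [mem_orb]
  exact ⟨fun ⟨a, ha, e⟩ => ⟨a * k, mul_mem ha hk, by rw [e]; group⟩,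
    fun ⟨a, ha, e⟩ => ⟨a * k⁻¹, mul_mem ha (inv_mem hk), by rw [e]; group⟩⟩

theorem orb_symm (h : w ∈ orb K v) : v ∈ orb K w := orb_eq h ▸ orb_self K v

theorem card_orb (K : Subgroup G) (v : G) : (orb K v).card = 𝐂₁[v].relIndex K := by
  have h1 : NormedTI {v} K (K ⊓ 𝐂₁[v]) := ⟨⟨v, rfl⟩, inf_le_left, by
    rintro _ rfl g hg
    rw [Set.mem_singleton_iff, mul_inv_eq_iff_eq_mul, Subgroup.mem_inf, mem_cent1]; simp [hg]⟩
  have h2 := card_support_normedTI h1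
  rw [Set.ncard_singleton, one_mul, inf_comm, Subgroup.inf_relIndex_right] at h2
  rw [← h2, ← Set.ncard_coe_finset]
  congr 1
  ext y
  simp [mem_orb, classSupp]

theorem idx_orb (h : w ∈ orb K v) : 𝐂₁[w].relIndex K = 𝐂₁[v].relIndex K := by
  rw [← card_orb, ← card_orb, orb_eq h]

theorem orb_sub (hn : K ≤ 𝐍[V]) (hv : v ∈ V) (h : w ∈ orb K v) : w ∈ V := by
  obtain ⟨k, hk, rfl⟩ := mem_orb.1 h
  exact (memJ_norm (hn hk)).2 hv

theorem idx_eq_one : 𝐂₁[v].relIndex K = 1 ↔ v ∈ 𝐂[K] := by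
  rw [Subgroup.relIndex_eq_one, le_cent1]

theorem card_over_le (hH : H ⊴ L) (hχ : IsIrr L χ) :
    ((irr H).filter (fun θ => dot H χ θ ≠ 0)).card ≤ charDegree χ := by
  obtain ⟨θ, hθ, h0⟩ := hχ.exists_under hH.1
  obtain ⟨e, he⟩ := hχ.isChar.exists_dot_Res hH.1 hθ.isChar
  have he0 : e ≠ 0 := by rintro rfl; exact h0 (by simpa using he)
  rw [clifford_charDegree hH hχ hθ he0 he, ← card_cfclass hH.2]
  refine le_trans (Finset.card_le_card fun φ hφ => ?_) (Nat.le_mul_of_pos_left _ (by omega) |>.trans'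
    (Nat.le_mul_of_pos_right _ hθ.charDegree_pos))
  rw [Finset.mem_filter, mem_irr] at hφ
  exact clifford_mem_cfclass hH hχ hθ hφ.1 h0 hφ.2

theorem mem_inertia_of_comm (hθ : IsLin V θ) (hx : x ∈ 𝐍[V]) (h : ⁅V, ⟪x⟫⁆ ≤ cfker V θ) :
    x ∈ inertia V θ := by
  refine mem_inertia_of_forall (fun y hy => hθ.isCF.off hy) hx fun y hy => ?_
  have h1 : ⁅x, y⁆ ∈ cfker V θ := h (by
    rw [commGC]; exact mem_commg (Subgroup.mem_zpowers x) hy)
  rw [← cfkerMl h1 y, commutatorElement_def]; congr 1; group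

theorem ab_sum_deg (hV : IsMulCommutative V) (hK : IsMulCommutative K) (hn : K ≤ 𝐍[V])
    (hc : (Nat.card V).Coprime (Nat.card K)) :
    ∑ v ∈ fs V, Nat.card ↥(K ⊓ 𝐂₁[v]) ≤ ∑ χ ∈ irr (V ⊔ K), charDegree χ := by
  have hs := sdprodEY hn (coprime_TIg hc)
  calc ∑ v ∈ fs V, Nat.card ↥(K ⊓ 𝐂₁[v]) = ∑ x ∈ fs K, Nat.card ↥(V ⊓ 𝐂₁[x]) := by
        simp only [← card_fs_filter, Finset.card_filter]
        rw [Finset.sum_comm]
        simp only [cent1C]
    _ ≤ ∑ x ∈ fs K, ((irr V).filter (fun θ => x ∈ inertia V θ)).card := by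
        refine Finset.sum_le_sum fun x hx => ?_
        have hx := mem_fs.1 hx
        have hxn : ⟪x⟫ ≤ 𝐍[V] := (Subgroup.zpowers_le.2 hx).trans hn
        have hd := coprime_abelian_cent_dprod hxn (coprimegS (Subgroup.zpowers_le.2 hx) hc) hV
        rw [← cent_cycle, ← index_sdprod hd.sdprod,
          ← card_irr_ker_abelian hd.normal (by rw [derG1P.2 hV]; exact bot_le)]
        refine Finset.card_le_card fun θ hθ => ?_
        rw [Finset.mem_filter, mem_irr] at hθ ⊢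
        exact ⟨hθ.1, mem_inertia_of_comm (hθ.1.isLin_of_abelian hV) (hn hx) hθ.2⟩
    _ = ∑ θ ∈ irr V, ((irr (V ⊔ K)).filter (fun χ => dot V χ θ ≠ 0)).card := by
        simp only [Finset.card_filter]
        rw [Finset.sum_comm]
        refine Finset.sum_congr rfl fun θ hθ => ?_
        have hθ := mem_irr.1 hθ
        have h1 := sdprod_modl' hs (hθ.isCF.sub_Inertia hs.left_le) inf_le_left
        have h2 := index_sdprod h1
        rw [← Finset.card_filter, ← Finset.card_filter, (cfInd_Hall_central_Inertia hs.normal hθ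
          ((dergS inf_le_left).trans (hs.der_le hK)) (h2 ▸ coprimegS inf_le_left hc)).2.2, h2,
          card_fs_filter, ← inf_assoc, inf_eq_left.2 hs.right_le]
    _ ≤ _ := by
        simp only [Finset.card_filter]
        rw [Finset.sum_comm]
        refine Finset.sum_le_sum fun χ hχ => ?_
        rw [← Finset.card_filter]
        exact card_over_le hs.normal (mem_irr.1 hχ)

theorem ab_class_rep (hV : IsMulCommutative V) (hn : K ≤ 𝐍[V])
    (hc : (Nat.card V).Coprime (Nat.card K)) (hg : g ∈ V ⊔ K) :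
    ∃ v ∈ V, ∃ x ∈ K, x ∈ 𝐂₁[v] ∧ ∃ k ∈ V, g = k * (v * x) * k⁻¹ := by
  have hs := sdprodEY hn (coprime_TIg hc)
  set π := primesOf (Nat.card V)
  have hπ : PiSub π V := piSub_primesOf V
  have hπ' : PiSub πᶜ K := coprime_iff_piNat.1 hc
  have h1 : constt π g ∈ V := (mem_normal_Hall (hs.hall_iff.2 ⟨hπ, hπ'⟩) hs.normal
    (constt_mem π hg)).2 (p_elt_constt π g)
  obtain ⟨k, hk, h2⟩ := SchurZassenhaus_trans_sub hs hc (Subgroup.zpowers_le.2 (constt_mem πᶜ hg))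
    (hπ.coprime (piSub_cycle.2 (p_elt_constt πᶜ g))) (Or.inl (abelian_sol hV))
  refine ⟨k⁻¹ * constt π g * k, mul_mem (mul_mem (inv_mem hk) h1) hk, k⁻¹ * constt πᶜ g * k,
    mem_conj.1 (h2 (Subgroup.mem_zpowers _)), ?_, k, hk, ?_⟩
  · have := (commute_constt_constt πᶜ π g).eq
    rw [mem_cent1]
    calc _ = k⁻¹ * (constt πᶜ g * constt π g) * k := by group
      _ = _ := by rw [this]; group
  · conv_lhs => rw [← consttC π g]
    group

theorem ab_card_irr (hV : IsMulCommutative V) (hK : IsMulCommutative K) (hn : K ≤ 𝐍[V])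
    (hc : (Nat.card V).Coprime (Nat.card K)) :
    ((irr (V ⊔ K)).card : ℚ) ≤ ∑ v ∈ fs V, (Nat.card ↥(K ⊓ 𝐂₁[v]) : ℚ) / 𝐂₁[v].relIndex K := by
  haveI := Fintype.ofFinite (ConjClasses ↥(V ⊔ K))
  set P := (fs V ×ˢ fs K).filter (fun p => p.2 ∈ 𝐂₁[p.1]) with hP
  let f : G × G → ConjClasses ↥(V ⊔ K) := fun p =>
    if h : p.1 * p.2 ∈ V ⊔ K then ConjClasses.mk ⟨_, h⟩ else 1
  have e1 : ∑ v ∈ fs V, (Nat.card ↥(K ⊓ 𝐂₁[v]) : ℚ) / 𝐂₁[v].relIndex K =
      ∑ p ∈ P, (1 : ℚ) / 𝐂₁[p.1].relIndex K := by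
    rw [hP, Finset.sum_filter, Finset.sum_product]
    refine Finset.sum_congr rfl fun v _ => ?_
    rw [← Finset.sum_filter]
    simp only [Finset.sum_const, card_fs_filter, nsmul_eq_mul, mul_one_div]
  rw [e1, ← Finset.sum_fiberwise P f, card_irr_classes, Nat.card_eq_fintype_card,
    ← Finset.card_univ, Finset.card_eq_sum_ones]
  push_cast
  refine Finset.sum_le_sum fun C _ => ?_
  obtain ⟨⟨g, hg⟩, rfl⟩ := ConjClasses.mk_surjective C
  obtain ⟨v, hv, x, hx, hvx, k, hk, rfl⟩ := ab_class_rep hV hn hc hg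
  have h1 : (1 : ℚ) = ∑ p ∈ (orb K v).image (fun w => (w, x)), (1 : ℚ) / 𝐂₁[p.1].relIndex K := by
    rw [Finset.sum_image fun a _ b _ e => (Prod.mk.inj e).1,
      Finset.sum_congr rfl fun w hw => by rw [idx_orb hw], Finset.sum_const, card_orb, nsmul_eq_mul,
      mul_one_div_cancel (Nat.cast_ne_zero.2 (relIndex_pos _ _).ne')]
  refine h1.trans_le (Finset.sum_le_sum_of_subset_of_nonneg (fun p hp => ?_)
    fun _ _ _ => by positivity)
  obtain ⟨w, hw, rfl⟩ := Finset.mem_image.1 hp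
  have hwV := orb_sub hn hv hw
  obtain ⟨a, ha, rfl⟩ := mem_orb.1 hw
  have e2 : a * x = x * a := comm_of_abelian hK ha hx
  have e3 : a * v * a⁻¹ * x = a * (v * x) * a⁻¹ := by
    rw [mul_assoc _ a⁻¹, (show Commute a x from e2).inv_left.eq]; group
  have hm : a * v * a⁻¹ * x ∈ V ⊔ K := mul_mem (Subgroup.mem_sup_left hwV) (Subgroup.mem_sup_right hx)
  simp only [hP, Finset.mem_filter, Finset.mem_product, mem_fs, f, dif_pos hm]
  refine ⟨⟨⟨hwV, hx⟩, ?_⟩, ?_⟩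
  · rw [mem_cent1, e3, ← mem_cent1.1 hvx, ← mul_assoc a, e2]; group
  · rw [ConjClasses.mk_eq_mk_iff_isConj, isConj_iff]
    refine ⟨⟨k * a⁻¹, mul_mem (Subgroup.mem_sup_left hk) (Subgroup.mem_sup_right (inv_mem ha))⟩,
      Subtype.ext ?_⟩
    simp only [Subgroup.coe_mul, Subgroup.coe_inv, e3]; group

/-- the master inequality -/
theorem ab_master (hV : IsMulCommutative V) (hK : IsMulCommutative K) (hn : K ≤ 𝐍[V])
    (hc : (Nat.card V).Coprime (Nat.card K)) (h : Acd (V ⊔ K)) (S : Finset G)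
    (hS : ∀ v ∈ S, v ∈ V ∧ v ∉ 𝐂[K]) :
    ∑ v ∈ S, ((𝐂₁[v].relIndex K : ℚ) - 2) / (𝐂₁[v].relIndex K : ℚ) ^ 2 ≤
      (Nat.card ↥(V ⊓ 𝐂[K]) : ℚ) := by
  have h1 := ab_sum_deg hV hK hn hc
  have h2 := ab_card_irr hV hK hn hc
  have h3 := acd_iff.1 h
  have h4 : ∑ v ∈ fs V, (Nat.card K : ℚ) *
      (((𝐂₁[v].relIndex K : ℚ) - 2) / (𝐂₁[v].relIndex K : ℚ) ^ 2) ≤ 0 := by
    have h5 : ((∑ v ∈ fs V, Nat.card ↥(K ⊓ 𝐂₁[v]) : ℕ) : ℚ) ≤ 2 * (irr (V ⊔ K)).card := by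
      exact_mod_cast h1.trans h3
    push_cast at h5
    have h6 := h5.trans (mul_le_mul_of_nonneg_left h2 zero_le_two)
    rw [Finset.mul_sum, ← sub_nonpos, ← Finset.sum_sub_distrib] at h6
    refine le_of_eq_of_le (Finset.sum_congr rfl fun v _ => ?_) h6
    have h7 : (Nat.card K : ℚ) = Nat.card ↥(K ⊓ 𝐂₁[v]) * 𝐂₁[v].relIndex K := by
      rw [← Subgroup.inf_relIndex_left]
      exact_mod_cast (card_mul_relIndex inf_le_left).symm
    have h8 : (𝐂₁[v].relIndex K : ℚ) ≠ 0 := Nat.cast_ne_zero.2 (relIndex_pos _ _).ne'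
    rw [h7]; field_simp
  rw [← Finset.mul_sum] at h4
  have h5 := nonpos_of_mul_nonpos_right h4 (Nat.cast_pos.2 Nat.card_pos)
  rw [← Finset.sum_filter_add_sum_filter_not _ (· ∈ 𝐂[K]),
    Finset.sum_congr rfl (g := fun _ => (-1 : ℚ)) fun v hv => by
      rw [idx_eq_one.2 (Finset.mem_filter.1 hv).2]; norm_num,
    Finset.sum_const, card_fs_filter] at h5
  have h6 : ∑ v ∈ S, ((𝐂₁[v].relIndex K : ℚ) - 2) / (𝐂₁[v].relIndex K : ℚ) ^ 2 ≤
      ∑ v ∈ (fs V).filter (fun v => ¬ v ∈ 𝐂[K]),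
        ((𝐂₁[v].relIndex K : ℚ) - 2) / (𝐂₁[v].relIndex K : ℚ) ^ 2 := by
    refine Finset.sum_le_sum_of_subset_of_nonneg (fun v hv => by simpa using hS v hv) fun v hv _ => ?_
    have h7 := (Finset.mem_filter.1 hv).2
    rw [← idx_eq_one] at h7
    have h8 := relIndex_pos 𝐂₁[v] K
    have h9 : (2 : ℚ) ≤ 𝐂₁[v].relIndex K := by exact_mod_cast (by omega : 2 ≤ 𝐂₁[v].relIndex K)
    exact div_nonneg (by linarith) (by positivity)
  simp only [nsmul_eq_mul] at h5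
  linarith

theorem abR (hV : IsMulCommutative V) (hK : IsMulCommutative K) (hn : K ≤ 𝐍[V])
    (hc : (Nat.card V).Coprime (Nat.card K)) (h : XS (V ⊔ K)) (R : Finset G)
    (hR : ∀ v ∈ R, v ∈ V ∧ v ∉ 𝐂[K]) (hd : ∀ v ∈ R, ∀ w ∈ R, ∀ k ∈ K, w = k * v * k⁻¹ → v = w) :
    ∑ v ∈ R, (1 - 2 / (𝐂₁[v].relIndex K : ℚ)) ≤ Nat.card ↥(V ⊓ 𝐂[K]) := by
  refine le_of_eq_of_le ?_ (ab_master hV hK hn hc h.acd (R.biUnion (orb K)) fun w hw => ?_)
  · rw [Finset.sum_biUnion]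
    · refine Finset.sum_congr rfl fun v _ => ?_
      have h8 : (𝐂₁[v].relIndex K : ℚ) ≠ 0 := Nat.cast_ne_zero.2 (relIndex_pos _ _).ne'
      rw [Finset.sum_congr rfl fun w hw => by rw [idx_orb hw], Finset.sum_const, card_orb,
        nsmul_eq_mul]
      field_simp
    · intro v hv w hw hne
      refine Finset.disjoint_left.2 fun y h1 h2 => hne ?_
      obtain ⟨k, hk, e⟩ := mem_orb.1 (orb_eq h1 ▸ orb_symm h2)
      exact hd v hv w hw k hk e
  · obtain ⟨v, hv, hw⟩ := Finset.mem_biUnion.1 hw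
    refine ⟨orb_sub hn (hR v hv).1 hw, fun e => (hR v hv).2 ?_⟩
    rw [← idx_eq_one, ← idx_orb hw, idx_eq_one]; exact e

theorem abS (hV : IsMulCommutative V) (hK : IsMulCommutative K) (hn : K ≤ 𝐍[V])
    (hc : (Nat.card V).Coprime (Nat.card K)) (h : XS (V ⊔ K)) (n : ℕ) (S : Finset G)
    (hS : ∀ v ∈ S, v ∈ V ∧ 𝐂₁[v].relIndex K = n) :
    S.card * (n - 2) ≤ n ^ 2 * Nat.card ↥(V ⊓ 𝐂[K]) := by
  rcases le_or_gt n 2 with h2 | h2
  · rw [Nat.sub_eq_zero_of_le h2]; simp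
  have h1 := ab_master hV hK hn hc h.acd S fun v hv =>
    ⟨(hS v hv).1, fun e => by have := (hS v hv).2; rw [idx_eq_one.2 e] at this; omega⟩
  rw [Finset.sum_congr rfl fun v hv => by rw [(hS v hv).2], Finset.sum_const, nsmul_eq_mul,
    ← mul_div_assoc, div_le_iff₀ (by positivity)] at h1
  have h3 : ((n - 2 : ℕ) : ℚ) = n - 2 := by push_cast [Nat.cast_sub h2.le]; ring
  rw [← h3, mul_comm (_ : ℚ) (_ ^ 2)] at h1
  exact_mod_cast h1

end Cfsg.Acd
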