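import Cfsg.Agent.Acd.Base

/-! A weak form of Alperin's fusion theorem. -/

set_option autoImplicit false
set_option maxHeartbeats 400000

namespace Cfsg.Acd

open Cfsg.FT
open scoped Pointwise

variable {G : Type*} [Group G] [Finite G] {p : ℕ} [Fact p.Prime] {P T₀ : Subgroup G}

/-- `E` is controlled by `T₀` -/
def Ctl (P T₀ E : Subgroup G) : Prop := ∀ g : G, g •ᶜ E ≤ P → ∀ a ∈ E, g * a * g⁻¹ * a⁻¹ ∈ T₀

/-- Alperin-lite: it suffices to control the normalisers of fully normalised subgroups (and one may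
use the conclusion for larger subgroups). -/
theorem alperin (hP : Syl p P ⊤)
    (h : ∀ E ≤ P, E ≠ ⊥ → Syl p (P ⊓ 𝐍[E]) 𝐍[E] →
      (∀ E' ≤ P, Nat.card E < Nat.card E' → Ctl P T₀ E') →
      ∀ g ∈ 𝐍[E], ∀ a ∈ E, g * a * g⁻¹ * a⁻¹ ∈ T₀) : ∀ E ≤ P, Ctl P T₀ E := by
  intro E
  induction hn : Nat.card P - Nat.card E using Nat.strong_induction_on generalizing E with
  | _ n ih =>
  intro hE g hg a ha
  have ih' : ∀ E' ≤ P, Nat.card E < Nat.card E' → Ctl P T₀ E' := fun E' h1 h2 =>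
    ih _ (by have := Subgroup.card_le_of_le h1; omega) E' rfl h1
  by_cases hb : E = ⊥
  · subst hb
    rw [Subgroup.mem_bot.1 ha]; simp
  by_cases hEP : E = P
  · subst hEP
    refine h E le_rfl hb ?_ ih' g (mem_norm_of_conj_le hg) a ha
    rw [inf_eq_left.2 (normG E)]
    exact hP.subl (normG E) le_top
  have hnil := pgroup_nil hP.pgroup
  have hlt : ∀ F ≤ P, Nat.card F = Nat.card E → Nat.card E < Nat.card ↥(P ⊓ 𝐍[F]) := by
    intro F hF e
    have h1 : F < P := lt_of_le_of_ne hF fun e' => hEP (card_eq_of_le hE (by rw [← e, e']))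
    have h2 := nilpotent_proper_norm hnil h1
    rw [← e]
    exact lt_of_le_of_ne (Subgroup.card_le_of_le h2.le) fun e' => h2.ne (card_eq_of_le h2.le e'.ge)
  obtain ⟨S, hS, hS1⟩ := Sylow_superset (inf_le_right : P ⊓ 𝐍[E] ≤ 𝐍[E]) (hP.pgroup.to_le inf_le_left)
  obtain ⟨x, -, hx⟩ := Sylow_Jsub hP le_top hS.pgroup
  have hES : E ≤ S := (le_inf hE (normG E)).trans hS1
  have h0 : x •ᶜ E ≤ P := (conj_le_conj.2 hES).trans hx
  have hS0 : Syl p (P ⊓ 𝐍[x •ᶜ E]) 𝐍[x •ᶜ E] := by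
    have h1 : Syl p (x •ᶜ S) 𝐍[x •ᶜ E] := norm_conj x E ▸ hS.conj x
    rw [h1.eq_of_le (hP.pgroup.to_le inf_le_left) (le_inf hx h1.le) inf_le_right]
    exact h1
  have h2 : g⁻¹ •ᶜ (P ⊓ 𝐍[g •ᶜ E]) ≤ 𝐍[E] := by
    rw [conj_le_iff, inv_inv, ← norm_conj]; exact inf_le_right
  obtain ⟨m, hm, hm'⟩ := Sylow_Jsub hS h2 (isPGroup_conj.2 (hP.pgroup.to_le inf_le_left))
  have a1 := ih' _ inf_le_left (hlt E hE rfl) x ((conj_le_conj.2 hS1).trans hx) a ⟨hE ha, normG E ha⟩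
  have hb1 : g * a * g⁻¹ ∈ g •ᶜ E := conj_mem_conj.2 ha
  have a2 := ih' _ inf_le_left (hlt _ hg (card_conj g E)) (x * m * g⁻¹) (by
    rw [← conj_conj, ← conj_conj]; exact (conj_le_conj.2 hm').trans hx) _ ⟨hg hb1, normG _ hb1⟩
  have a3 := h _ h0 (conj_ne_bot.2 hb) hS0 (by rw [card_conj]; exact ih') (x * m * x⁻¹)
    (by rw [norm_conj]; exact conj_mem_conj.2 hm) _ (conj_mem_conj.2 ha : x * a * x⁻¹ ∈ x •ᶜ E)
  have := T₀.mul_mem (T₀.mul_mem (T₀.inv_mem a2) a3) a1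
  convert this using 1
  group

/-- focal subgroup consequence in a perfect group -/
theorem le_of_ctl (hP : Syl p P ⊤) (hG : commutator G = ⊤) (h : ∀ E ≤ P, Ctl P T₀ E) : P ≤ T₀ := by
  obtain ⟨S, rfl⟩ := syl_top_iff.1 hP
  have := sylow_inf_commutator_le S (K := T₀) fun x hx g hg =>
    h ⟪x⟫ (Subgroup.zpowers_le.2 hx) g (by rw [conj_zpowers]; exact Subgroup.zpowers_le.2 hg) x
      (Subgroup.mem_zpowers x)
  rwa [hG, inf_top_eq] at this

end Cfsg.Acd
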