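import Cfsg.Agent.Acd.Base
import Cfsg.Agent.Gag.FinBase
import Cfsg.Agent.Blk.InvCount
import Cfsg.Agent.Blk.ZStar

/-! # A special case of the Brauer-Suzuki theorem -/

set_option autoImplicit false

namespace Cfsg.Acd

open Cfsg.FT Subgroup
open scoped Pointwise ComplexConjugate

universe u

variable {G : Type u} [Group G] [Finite G] {T : Subgroup G} {z a e y : G}

omit [Finite G] in
theorem IsQ.eq_of_sq (h : IsQ T z) (ha : a ∈ T) (h1 : a ≠ 1) (h2 : a * a = 1) : a = z :=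
  ((h.root a ha).resolve_left h1).resolve_right fun e => h.ne (e.symm.trans h2)

omit [Finite G] in
theorem IsQ.norm_le (h : IsQ T z) : 𝐍[T] ≤ 𝐂₁[z] := fun g hg =>
  mem_cent1.2 (mul_inv_eq_iff_eq_mul.1 (h.eq_of_sq ((memJ_norm hg).2 h.mem)
    (fun e => h.ne (by simpa using e)) (conj_mul_self_eq_one h.sq g)))

omit [Finite G] in
theorem IsQ.card_z (h : IsQ T z) : Nat.card ⟪z⟫ = 2 :=
  (Nat.card_zpowers z).trans (orderOf_eq_prime (by rw [pow_two, h.sq]) h.ne)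

theorem IsQ.relIndex_z (h : IsQ T z) : (⟪z⟫).relIndex T = 4 := by
  have := card_mul_relIndex (zpowers_le.2 h.mem)
  rw [h.card_z, h.card] at this
  omega

theorem IsQ.cube (h : IsQ T z) (he : e ∈ 𝐍[T]) (ho : Odd (orderOf e)) : e ^ 3 ∈ 𝐂[T] := by
  have h1 : 𝐍[T] ≤ 𝐂[⟪z⟫] := by rw [cent_cycle]; exact h.norm_le
  have h2 : 𝐍[T] ≤ 𝐍[⟪z⟫] := h1.trans (cent_sub _)
  have h3 : Gag.Klein (T ⁄ ⟪z⟫) := ⟨by rw [card_quotient (le_normalizer.trans h2), h.relIndex_z], by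
    intro t ht
    obtain ⟨x, hx, hx', rfl⟩ := mem_quo.1 ht
    rw [← coset_mul hx' hx']
    rcases h.root x hx with e | e | e
    · rw [e, mul_one, coset_one]
    · rw [e, h.sq, coset_one]
    · rw [e, coset_id (mem_zpowers z)]⟩
  have h4 := Gag.Fin5.klein_cube h3 (quotient_norm T _ (mem_quotient _ he))
    (ho.of_dvd_nat (orderOf_coset_dvd _ e))
  have h5 : ⟪e ^ 3⟫ ≤ 𝐍[T] := zpowers_le.2 (pow_mem he 3)
  refine zpowers_le.1 (stable_factor_cent (h5.trans h1) ?_ ?_)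
  · rw [commutator_comm, ← quotient_cents2 (h5.trans h2) (le_normalizer.trans h2),
      quotient_cycle (h2 (pow_mem he 3)), zpowers_le, coset_pow (h2 he)]
    exact h4
  · rw [h.card_z, Nat.card_zpowers]
    exact Nat.coprime_two_left.2 (ho.of_dvd_nat (orderOf_pow_dvd 3))

theorem IsQ.exists_theta (h : IsQ T z) : ∃ θ, IsIrr T θ ∧ θ 1 = 2 ∧ θ z = -2 ∧
    ∀ x, x ≠ 1 → x ≠ z → θ x = 0 := by
  obtain ⟨θ, hθ, h1⟩ := exists_irr_not_le_cfker (zpowers_le.2 h.mem) (by simpa using h.ne)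
  have h2 : ⟪z⟫ ≤ 𝐙[T] := zpowers_le.2 ⟨h.mem, fun t ht =>
    mem_cent1.1 (h.norm_le (le_normalizer ht))⟩
  have h3 := hθ.sq_charDegree_le (h2.trans hθ.center_le_cfcenter)
  have h4 : charDegree θ ≠ 1 := fun e => h1 (h.der ▸ hθ.isLin_iff_der.1 (hθ.isLin_iff.2 e))
  have h5 : charDegree θ = 2 := by
    have := hθ.charDegree_pos
    rw [h.relIndex_z] at h3
    have : charDegree θ < 3 := by nlinarith
    omega
  have h6 : θ 1 = 2 := by rw [hθ.one_eq, h5]; rfl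
  obtain ⟨l, hl, -, h7, -⟩ := hθ.exists_lin_of_central h2
  refine ⟨θ, hθ, h6, ?_, fun x hx hx' => ((hθ.sq_charDegree_eq_iff
    (h2.trans hθ.center_le_cfcenter)).1 (by rw [h5, h.relIndex_z]; rfl)).off fun hz =>
      (Gag.Fin5.mem_cycle2 h.sq hz).elim hx hx'⟩
  have h8 := h7 z (mem_zpowers z) 1
  rw [mul_one] at h8
  rcases mul_self_eq_one_iff.1 ((hl.map_mul (mem_zpowers z) (mem_zpowers z)).symm.trans
    (by rw [h.sq, hl.one])) with e | e
  · exact absurd (zpowers_le.2 (hθ.mem_cfker.2 (by rw [h8, e, one_mul]))) h1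
  · rw [h8, e, h6]; ring

theorem bs_local (hT : Syl 2 T ⊤) (h : IsQ T z) (hy : y ∈ 𝐍[T]) (ho : Odd (orderOf y))
    (hc : y ∉ 𝐂[T]) : ∃ ω η : G → ℂ, IsLin 𝐍[T] ω ∧ IsIrr 𝐍[T] η ∧ η 1 = 2 ∧ η z = -2 ∧ ω z = 1 ∧
      ω y ≠ 1 ∧ (∀ x ∈ 𝐍[T], ω x ^ 3 = 1) ∧
      ∀ x ∈ 𝐍[T], Odd (orderOf x) → η x = ω x + conj (ω x) := by
  obtain ⟨θ, hθ, t1, tz, t0⟩ := h.exists_theta
  have hS := hT.subl le_normalizer le_top
  obtain ⟨E, hE⟩ := SchurZassenhaus_split hS.hallSub (normalG T)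
  have hEo : Odd (Nat.card E) := by
    rw [← index_sdprod hE, ← Nat.not_even_iff_odd, even_iff_two_dvd]; exact hS.index
  obtain ⟨η, hη, hr⟩ := extend_coprime hθ le_normalizer (fun g hg => mem_inertia_of_forall
    (fun _ => hθ.isCF.off) hg fun x _ => by
      have h1 := mem_cent1.1 (h.norm_le hg)
      by_cases e : x = 1
      · simp [e]
      by_cases e' : x = z
      · rw [e', h1, mul_inv_cancel_right]
      rw [t0 x e e', t0 _ (by simpa using e) fun e => e' (by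
        rw [← mul_inv_cancel_right z g, ← h1] at e; simpa using e)]) hS.hallSub.coprime
  have hηT : ∀ t ∈ T, η t = θ t := fun t ht => by rw [← hr, Res_of_mem _ ht]
  have h1 := hη.isChar.Res hE.right_le
  have h2 : Res E η 1 = 2 := by rw [Res_one, hηT 1 (one_mem _), t1]
  obtain ⟨l, hl, h3⟩ := h1.exists_constt fun e => by rw [e] at h2; norm_num at h2
  have hl' : IsLin E l := by
    have h4 := h1.charDegree_le_of_constt hl h3
    have h5 := hl.odd_charDegree hEo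
    have h6 : charDegree (Res E η) = 2 := by exact_mod_cast h1.one_eq.symm.trans h2
    rw [hl.isLin_iff]
    obtain ⟨k, hk⟩ := h5
    omega
  have hl2 : IsLin E (Res E η - l) := ⟨h1.sub_constt hl h3, by
    rw [Pi.sub_apply, h2, hl'.one]; norm_num⟩
  obtain ⟨m, hm⟩ := id hEo
  have hμ := (hl'.mul hl2).pow (n := 3 * m + 1) (by omega)
  set μ := (l * (Res E η - l)) ^ (3 * m + 1) with hμe
  have hω := (hμ.mul hl').cfSdprod hE
  have hη' := (hμ.cfSdprod hE).mul_irr hη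
  set ω := cfSdprod 𝐍[T] T E (μ * l) with hωe
  set η' := cfSdprod 𝐍[T] T E μ * η with hη'e
  have h4 : ∀ t ∈ T, η' t = θ t := fun t ht => by
    rw [hη'e, Pi.mul_apply, hE.cfSdprod_left _ ht, hμ.one, one_mul, hηT t ht]
  have h5 : ∀ x ∈ 𝐍[T], Odd (orderOf x) → η' x = ω x + (ω x)⁻¹ := fun x hx hxo => by
    obtain ⟨k, hk, h6⟩ := SchurZassenhaus_trans_sub hE (coprime_of_two_odd hT.pgroup hEo)
      (zpowers_le.2 hx) (coprime_of_two_odd hT.pgroup (by rwa [Nat.card_zpowers]))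
      (solOr_cycle T x)
    have h7 := mem_conj.1 (h6 (mem_zpowers x))
    rw [← hη'.isCF.conj' (le_normalizer hk), ← hω.isCF.conj' (le_normalizer hk), hη'e, Pi.mul_apply,
      hE.cfSdprod_right _ h7, hωe, hE.cfSdprod_right _ h7]
    have h8 := (hl'.mul hl2).pow_card h7
    rw [← eq_inv_of_mul_eq_one_right (b := (μ * (Res E η - l)) (k⁻¹ * x * k)) ?_]
    · simp only [Pi.mul_apply, Pi.sub_apply, Res_of_mem _ h7]; ring
    · rw [← one_pow 3, ← h8, hm]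
      simp only [hμe, Pi.mul_apply, Pi.pow_apply]; ring
  have h6 : ∀ c ∈ 𝐂[T], Odd (orderOf c) → ω c = 1 := fun c hc hco => by
    have hcN := cent_sub _ hc
    have h7 : T ⊔ ⟪c⟫ ≤ 𝐍[T] := sup_le le_normalizer (zpowers_le.2 hcN)
    have h8 := (hη'.isChar.Res h7).isIrr_of_Res le_sup_left (by
      rw [Res_Res le_sup_left, Res_congr h4, hθ.isCF.Res_eq]; exact hθ)
    have h9 : c ∈ T ⊔ ⟪c⟫ := mem_sup_right (mem_zpowers c)
    obtain ⟨-, k, hk⟩ := mem_cfcenter.1 (h8.center_le_cfcenter (show c ∈ 𝐙[T ⊔ ⟪c⟫] from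
      ⟨h9, by rw [centY]; exact ⟨hc, by rw [cent_cycle]; exact mem_cent1.2 rfl⟩⟩))
    have a1 := hk 1
    have a2 := hk c
    rw [mul_one, Res_of_mem _ h9, Res_one, h4 1 (one_mem _), t1, h5 c hcN hco] at a1
    rw [Res_of_mem _ (mul_mem h9 h9), Res_of_mem _ h9, h5 c hcN hco, h5 _ (mul_mem hcN hcN)
      (hco.of_dvd_nat (by rw [← sq]; exact orderOf_pow_dvd 2)), hω.map_mul hcN hcN, a1,
      mul_inv] at a2
    have a3 := mul_inv_cancel₀ (hω.apply_ne_zero hcN)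
    have a4 : (ω c * ω c - 1) ^ 2 = 0 := by
      linear_combination (ω c) ^ 2 * (2 * a2 + 2 * a3 - (ω c + (ω c)⁻¹ + 2 * k) * a1) -
        (ω c * (ω c)⁻¹ + 1) * a3
    obtain ⟨j, hj⟩ := hco
    have a5 := hω.pow_orderOf hcN
    rwa [hj, pow_succ, pow_mul, sq, sub_eq_zero.1 (pow_eq_zero_iff two_ne_zero |>.1 a4), one_pow,
      one_mul] at a5
  refine ⟨ω, η', hω, hη', (h4 1 (one_mem _)).trans t1, (h4 z h.mem).trans tz,
    (hE.cfSdprod_left _ h.mem).trans (hμ.mul hl').one, fun e => hc fun t ht => ?_, fun x hx => ?_,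
    fun x hx hxo => by rw [h5 x hx hxo, hω.conj_eq_inv]⟩
  · have h7 : y ∈ cfker 𝐍[T] η' := hη'.mem_cfker.2 (by
      rw [h5 y hy ho, e, h4 1 (one_mem _), t1]; norm_num)
    have h8 := hη'.mem_cfker.1 (mul_mem ((memJ_norm (hη'.isCF.cfker_normal.2
      (le_normalizer ht))).2 h7) (inv_mem h7))
    have h9 : t * y * t⁻¹ * y⁻¹ ∈ T := by
      simpa only [mul_assoc] using mul_mem ht ((memJ_norm hy).2 (inv_mem ht))
    rw [h4 _ h9, h4 1 (one_mem _), t1] at h8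
    by_contra h10
    have h11 : t * y * t⁻¹ * y⁻¹ ≠ 1 := fun e => h10 (by simpa [mul_inv_eq_iff_eq_mul] using e)
    by_cases h12 : t * y * t⁻¹ * y⁻¹ = z
    · rw [h12, tz] at h8; norm_num at h8
    · rw [t0 _ h11 h12] at h8; norm_num at h8
  · obtain ⟨t, ht, c, hc, rfl⟩ := hE.exists_mul hx
    have h7 : Odd (orderOf c) := hEo.of_dvd_nat (E.orderOf_dvd_natCard hc)
    rw [hωe, hE.cfSdprod_apply _ ht hc, ← hE.cfSdprod_right (μ * l) hc,
      ← hω.map_pow (hE.right_le hc)]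
    exact h6 _ (h.cube (hE.right_le hc) h7) (h7.of_dvd_nat (orderOf_pow_dvd 3))

theorem exists_sub_of_norm2 {L : Subgroup G} {δ : G → ℂ} (h : IsVChar L δ) (h2 : dot L δ δ = 2)
    (h1 : δ 1 = -1) : ∃ χ ψ, IsIrr L χ ∧ IsIrr L ψ ∧ δ = χ - ψ := by
  obtain ⟨a, b, ha | ha, hb | hb, -, rfl⟩ := h.norm2 h2
  · have := congrArg Complex.re h1
    have := ha.re_one_pos
    have := hb.re_one_pos
    simp at *; linarith
  · exact ⟨a, -b, ha, hb, by ring⟩
  · exact ⟨b, -a, hb, ha, by ring⟩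
  · obtain ⟨m, hm, h3⟩ := ha.exists_one
    obtain ⟨n, hn, h4⟩ := hb.exists_one
    have : ((m + n : ℕ) : ℂ) = (1 : ℕ) := by
      simp only [Pi.add_apply, Pi.neg_apply] at h1 h3 h4
      push_cast; linear_combination -h1 - h3 - h4
    have := Nat.cast_injective this
    omega

theorem bs_core (hG : commutator G = ⊤) (hz : z * z = 1) (Φ : (G → ℂ) →ₗ[ℂ] ℂ) {n : ℂ} (hn : n ≠ 0)
    (hΦ : ∀ ξ, IsIrr ⊤ ξ → ξ 1 * Φ ξ = n * ξ z ^ 2) {α β : G → ℂ} (hα : IsVChar ⊤ α)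
    (hβ : IsVChar ⊤ β) (d1 : dot ⊤ α α = 3) (d2 : dot ⊤ β β = 3) (d3 : dot ⊤ α (cf1 ⊤) = 0)
    (d4 : dot ⊤ β (cf1 ⊤) = 1) (d5 : dot ⊤ α β = 1) (d6 : dot ⊤ α (star β) = 1)
    (d7 : dot ⊤ β (star β) = 1) (a1 : α 1 = 0) (b1 : β 1 = 0) (az : α z = 4) (bz : β z = 4)
    (aΦ : Φ α = 0) (bΦ : Φ β = 0) : False := by
  classical
  have h1 := isIrr_cf1 (⊤ : Subgroup G)
  have hl : ∀ ξ, IsIrr (⊤ : Subgroup G) ξ → ξ 1 = 1 → ξ = cf1 ⊤ := fun ξ h e =>
    h.le_cfker_self.1 (hG.ge.trans (h.isLin e).der_le_cfker)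
  obtain ⟨χ, ψ, hχ, hψ, e⟩ := exists_sub_of_norm2 (hβ.sub h1.isVChar) (by
    rw [dot_sub_left, dot_sub_right, dot_sub_right, d2, d4, h1.isVChar.dot_comm hβ, d4,
      dot_cf1_cf1]; norm_num) (by simp [b1])
  obtain rfl : β = cf1 ⊤ + χ - ψ := by rw [add_sub_assoc, ← e]; ring
  obtain ⟨x, hx, c1⟩ := hχ.exists_one
  have c2 : ψ 1 = x + 1 := by
    simp only [Pi.sub_apply, Pi.add_apply, cf1_one] at b1; linear_combination c1 - b1
  have c3 : ψ z = χ z - 3 := by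
    simp only [Pi.sub_apply, Pi.add_apply, cf1_of_mem (mem_top z)] at bz; linear_combination -bz
  have r1 : ∀ ξ, IsIrr (⊤ : Subgroup G) ξ → star ξ z = ξ z := fun ξ h => by
    have := h.apply_inv z
    rw [inv_eq_of_mul_eq_one_left hz] at this
    exact this.symm
  have hx0 : (x : ℂ) ≠ 0 := Nat.cast_ne_zero.2 hx.ne'
  have hx1 : (x : ℂ) + 1 ≠ 0 := by exact_mod_cast Nat.succ_ne_zero x
  have hx2 : (x : ℂ) + 2 ≠ 0 := by exact_mod_cast Nat.succ_ne_zero (x + 1)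
  have c4 := hχ.isChar.star_one.trans c1
  have c5 := hψ.isChar.star_one.trans c2
  have n0 : ∀ {φ φ' : G → ℂ}, φ 1 = x → φ' 1 = x + 1 → φ ≠ φ' := fun h h' e => by
    rw [e, h'] at h; simp at h
  have n1 : ψ ≠ cf1 ⊤ := fun e => hx0 (by simpa [e] using c2)
  have n2 : χ ≠ cf1 ⊤ := fun e => by
    rw [dot_sub_left, dot_add_left, hψ.dot_of_ne h1 n1, e, dot_cf1_cf1] at d4; norm_num at d4
  have n3 : star ψ ≠ cf1 ⊤ := mt star_eq_cf1.1 n1
  have n4 : star χ ≠ cf1 ⊤ := mt star_eq_cf1.1 n2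
  simp only [star_sub, star_add, star_cf1, dot_sub_left, dot_add_left, dot_sub_right, dot_add_right,
    dot_cf1_cf1, hχ.dot_of_ne h1 n2, hψ.dot_of_ne h1 n1, h1.dot_of_ne hχ.star n4.symm,
    h1.dot_of_ne hψ.star n3.symm, hχ.dot_of_ne hψ.star (n0 c1 c5),
    hψ.dot_of_ne hχ.star (n0 c4 c2).symm, d3] at d5 d6 d7
  have n5 : χ ≠ star χ := fun e => by
    rw [hχ.dot_eq hχ.star, hψ.dot_eq hψ.star, if_pos e] at d7
    split_ifs at d7 <;> norm_num at d7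
  have n6 : ψ ≠ star ψ := fun e => by
    rw [hχ.dot_of_ne hχ.star n5, hψ.dot_eq hψ.star, if_pos e] at d7
    norm_num at d7
  obtain ⟨q, hq⟩ := hα.exists_dot hψ.isVChar
  obtain ⟨r, hr⟩ := hα.exists_dot hψ.star.isVChar
  have hp : dot ⊤ α χ = (q + 1 : ℤ) := by push_cast; linear_combination d5 + hq
  have hs : dot ⊤ α (star χ) = (r + 1 : ℤ) := by push_cast; linear_combination d6 + hr
  have hρ := hα.sub ((((hχ.isVChar.zsmul (q + 1)).add (hψ.isVChar.zsmul q)).add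
    (hχ.star.isVChar.zsmul (r + 1))).add (hψ.star.isVChar.zsmul r))
  set ρ := α - ((q + 1) • χ + q • ψ + (r + 1) • star χ + r • star ψ) with hρe
  have e1 : dot ⊤ ρ ρ = (3 - ((q + 1) ^ 2 + q ^ 2 + (r + 1) ^ 2 + r ^ 2) : ℤ) := by
    simp only [hρe, dot_sub_left, dot_add_left, dot_sub_right, dot_add_right, dot_zsmul_left,
      dot_zsmul_right, d1, hp, hq, hr, hs, dot_comm_of_int hp, dot_comm_of_int hq,
      dot_comm_of_int hr, dot_comm_of_int hs, hχ.dot_self, hψ.dot_self, hχ.star.dot_self,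
      hψ.star.dot_self, hχ.dot_of_ne hψ (n0 c1 c2), hψ.dot_of_ne hχ (n0 c1 c2).symm,
      hχ.dot_of_ne hχ.star n5, hχ.star.dot_of_ne hχ n5.symm, hψ.dot_of_ne hψ.star n6,
      hψ.star.dot_of_ne hψ n6.symm, hχ.dot_of_ne hψ.star (n0 c1 c5),
      hψ.star.dot_of_ne hχ (n0 c1 c5).symm, hψ.dot_of_ne hχ.star (n0 c4 c2).symm,
      hχ.star.dot_of_ne hψ (n0 c4 c2), hχ.star.dot_of_ne hψ.star (n0 c4 c5),
      hψ.star.dot_of_ne hχ.star (n0 c4 c5).symm]
    push_cast; ring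
  have e2 : dot ⊤ ρ (cf1 ⊤) = 0 := by
    simp only [hρe, dot_sub_left, dot_add_left, dot_zsmul_left, d3, hχ.dot_of_ne h1 n2,
      hψ.dot_of_ne h1 n1, hχ.star.dot_of_ne h1 n4, hψ.star.dot_of_ne h1 n3]
    ring
  have e3 : (q + 1) ^ 2 + q ^ 2 + (r + 1) ^ 2 + r ^ 2 ≤ 3 := by
    have h2 := nsq_nonneg ⊤ ρ
    rw [dot_self] at e1
    have h3 : nsq ⊤ ρ = (3 - ((q + 1) ^ 2 + q ^ 2 + (r + 1) ^ 2 + r ^ 2) : ℤ) := by exact_mod_cast e1
    rw [h3] at h2
    have h4 : (0 : ℤ) ≤ 3 - ((q + 1) ^ 2 + q ^ 2 + (r + 1) ^ 2 + r ^ 2) := by exact_mod_cast h2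
    omega
  have e4 : q = 0 ∨ q = -1 := by
    have : -2 < q := by nlinarith
    have : q < 1 := by nlinarith
    omega
  have e5 : r = 0 ∨ r = -1 := by
    have : -2 < r := by nlinarith
    have : r < 1 := by nlinarith
    omega
  have e6 : IsDirr ⊤ ρ := hρ.isDirr (by
    rw [e1]; rcases e4 with rfl | rfl <;> rcases e5 with rfl | rfl <;> norm_num)
  have f1 : ρ 1 * Φ ρ = n * ρ z ^ 2 := e6.elim (hΦ ρ) fun h => by simpa using hΦ _ h
  have f2 := hΦ χ hχ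
  have f3 := hΦ ψ hψ
  have f4 := hΦ _ hχ.star
  have f5 := hΦ _ hψ.star
  have f6 := hΦ _ h1
  have f7 : ρ 1 ≠ 1 := fun e => by
    rw [hl ρ (e6.isIrr_of_one (by simp [e])) e, dot_cf1_cf1] at e2
    exact one_ne_zero e2
  rw [map_sub, map_add] at bΦ
  simp only [hρe, map_sub, map_add, map_zsmul, Pi.sub_apply, Pi.add_apply, Pi.smul_apply, a1, az,
    aΦ, c1, c2, c3, c4, c5, r1 χ hχ, r1 ψ hψ, cf1_of_mem (mem_top _)] at f1 f2 f3 f4 f5 f6 f7
  simp only [zsmul_eq_mul] at f1 f7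
  have g1 : (x : ℂ) ^ 2 - 8 * x + χ z ^ 2 + 6 * χ z * x = 0 := mul_left_cancel₀ hn (by
    linear_combination x * (x + 1) * (bΦ - f6) - (x + 1) * f2 + x * f3)
  rcases e4 with rfl | rfl <;> rcases e5 with rfl | rfl
  · have g2 : χ z = 1 := mul_left_cancel₀ hn (by
      push_cast at f1; linear_combination (1 / 16) * f1 - (1 / 8) * (f2 + f4))
    have g3 : ((x : ℂ) - 1) ^ 2 = 0 := by rw [g2] at g1; linear_combination g1
    exact n2 (hl χ hχ (c1.trans (sub_eq_zero.1 (pow_eq_zero_iff two_ne_zero |>.1 g3))))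
  · exact f7 (by push_cast; ring)
  · exact f7 (by push_cast; ring)
  · have g2 : χ z = 2 := mul_left_cancel₀ hn (by
      push_cast at f1; linear_combination (1 / 8) * (f3 + f5) - (1 / 16) * f1)
    exact hx2 (pow_eq_zero_iff two_ne_zero |>.1 (by rw [g2] at g1; linear_combination g1))

theorem stBS : StBS.{u} := by
  intro G _ _ T z y hG hT h hC hy ho hc
  classical
  have := Fintype.ofFinite G
  obtain ⟨ω, η, hω, hη, e1, ez, wz, wy, w3, hodd⟩ := bs_local hT h hy ho hc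
  have hS := hT.subl le_normalizer le_top
  have i1 : ∀ t ∈ 𝐍[T], t ≠ 1 → t * t = 1 → t = z := fun t ht h1 h2 => h.eq_of_sq
    (zpowers_le.1 (sub_normal_Sylow hS (normalG T) (zpowers_le.2 ht) (IsPGroup.of_card (n := 1)
      ((Nat.card_zpowers t).trans (orderOf_eq_two_of_mul_self h2 h1))))) h1 h2
  have i2 : ∀ a ∈ 𝐍[T], Even (orderOf a) → a ^ (orderOf a / 2) = z := fun a ha ⟨k, hk⟩ => by
    have := orderOf_pos a
    refine i1 _ (pow_mem ha _) (pow_ne_one_of_lt_orderOf (by omega) (by omega)) ?_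
    rw [← pow_add, show orderOf a / 2 + orderOf a / 2 = orderOf a by omega, pow_orderOf_eq_one]
  have hz2 := orderOf_eq_two_of_mul_self h.sq h.ne
  have oc : ∀ g a : G, orderOf (g * a * g⁻¹) = orderOf a := fun g a => (MulAut.conj g).orderOf_eq a
  have hzN : z ∈ 𝐍[T] := le_normalizer h.mem
  let A : Set G := {g | g ∈ 𝐍[T] ∧ Even (orderOf g)}
  have hzA : z ∈ A := ⟨hzN, by simp [hz2]⟩
  have hA : A ⊆ 𝐍[T] := fun _ h => h.1
  have hTI : NormedTI A ⊤ 𝐍[T] := ⟨⟨z, hzA⟩, le_top, fun a ha g _ => ⟨fun h1 => hC (by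
      have h2 := i2 _ h1.1 h1.2
      rw [oc, conj_pow, i2 a ha.1 ha.2] at h2
      exact mem_cent1.2 (mul_inv_eq_iff_eq_mul.1 h2)),
    fun hg => ⟨mul_mem (mul_mem hg ha.1) (inv_mem hg), by rw [oc]; exact ha.2⟩⟩⟩
  have h1 := isIrr_cf1 𝐍[T]
  have hω' := hω.star
  have hα := (hω.isVChar.add hω'.isVChar).sub hη.isVChar
  have hη' := hη.mul_lin hω
  have hβ := (h1.isVChar.add hω'.isVChar).sub hη'.isVChar
  have w4 : ∀ x ∈ 𝐍[T], conj (ω x) = ω x ^ 2 := fun x hx => by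
    rw [hω.conj_eq_inv]; exact inv_eq_of_mul_eq_one_right (by rw [← w3 x hx]; ring)
  have cα : CFon 𝐍[T] A (ω + star ω - η) := ⟨hα.isCF, fun x hx => by
    by_cases hx' : x ∈ 𝐍[T]
    · rw [Pi.sub_apply, hodd x hx' (Nat.not_even_iff_odd.1 fun e => hx ⟨hx', e⟩)]
      exact sub_self _
    · exact hα.isCF.off hx'⟩
  have cβ : CFon 𝐍[T] A (cf1 𝐍[T] + star ω - η * ω) := by
    convert cα.mul_right hω.isCF using 1
    refine hβ.isCF.ext (cα.mul_right hω.isCF).isCF fun x hx => ?_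
    simp only [Pi.sub_apply, Pi.add_apply, Pi.mul_apply, Pi.star_apply, cf1_of_mem hx]
    rw [← starRingEnd_apply, w4 x hx]
    linear_combination -w3 x hx
  have ny : ∀ {φ ψ : G → ℂ}, φ y ≠ ψ y → φ ≠ ψ := fun h e => h (congrFun e y)
  have n1 : ∀ {φ ψ : G → ℂ}, φ 1 = 1 → ψ 1 = 2 → φ ≠ ψ := fun h h' e => by
    rw [e, h'] at h; norm_num at h
  have y1 : ω y ^ 2 + ω y + 1 = 0 :=
    mul_left_cancel₀ (sub_ne_zero.2 wy) (by linear_combination w3 y hy)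
  have y2 : star ω y = -1 - ω y := by
    rw [Pi.star_apply, ← starRingEnd_apply, w4 y hy]; linear_combination y1
  have y3 : η y = -1 := by rw [hodd y hy ho, w4 y hy]; linear_combination y1
  have y4 : star η y = -1 := by rw [Pi.star_apply, y3]; simp
  have y5 : cf1 𝐍[T] y = 1 := cf1_of_mem hy
  have o1 := hω.one
  have o2 := hω'.one
  have o3 : (η * ω) 1 = 2 := by rw [Pi.mul_apply, e1, o1, mul_one]
  have o4 := hη'.isChar.star_one.trans o3
  have o5 := cf1_one 𝐍[T]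
  have m1 : ω ≠ cf1 𝐍[T] := ny (by rwa [y5])
  have m2 : star ω ≠ cf1 𝐍[T] := mt star_eq_cf1.1 m1
  have m3 : ω ≠ star ω := ny (by
    rw [y2]; intro e; have : (3 : ℂ) = 0 := by linear_combination 4 * y1 - (2 * ω y + 1) * e
    norm_num at this)
  have m4 : η ≠ η * ω := ny (by rw [Pi.mul_apply, y3]; intro e; exact wy (by linear_combination e))
  have m5 : η ≠ star (η * ω) := ny (by
    rw [star_mul, Pi.mul_apply, y2, y3, y4]; intro e
    have : (3 : ℂ) = 0 := by linear_combination y1 + (ω y - 1) * e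
    norm_num at this)
  have m6 : η * ω ≠ star (η * ω) := ny (by
    rw [star_mul, Pi.mul_apply, Pi.mul_apply, y2, y3, y4]; intro e
    have : (3 : ℂ) = 0 := by linear_combination 4 * y1 + (2 * ω y + 1) * e
    norm_num at this)
  have hΦ0 : ∀ {φ}, CFon 𝐍[T] A φ → ∑ s with IsConj z s, ∑ t with IsConj z t,
      Ind ⊤ 𝐍[T] φ (s * t) = 0 := fun hφ => Finset.sum_eq_zero fun s hs => Finset.sum_eq_zero
    fun t ht => (hφ.Ind ⊤).off fun ⟨a, ha, g, _, e⟩ => by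
      have h2 := odd_orderOf_mul_of_isolated h.sq (fun t h1 h2 => i1 t (hC (mem_cent1.2 h2.symm))
        (fun e => h.ne (isConj_one_left.1 (e ▸ h1))) (mul_self_eq_one_of_isConj h.sq h1))
        (Finset.mem_filter.1 hs).2 (Finset.mem_filter.1 ht).2
      rw [e, oc] at h2
      exact Nat.not_even_iff_odd.2 h2 ha.2
  refine bs_core hG h.sq (∑ s with IsConj z s, ∑ t with IsConj z t, LinearMap.proj (s * t))
    (n := (𝐂₁[z]).index * (𝐂₁[z]).index) (by simp [FiniteIndex.index_ne_zero]) (fun ξ hξ => ?_)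
    (hα.Ind le_top) (hβ.Ind le_top) ?_ ?_ ?_ ?_ ?_ ?_ ?_ ?_ ?_ ?_ ?_ ?_ ?_
  · simpa [LinearMap.sum_apply, sq] using IrrCharacter.one_mul_sum_sum_isConj
      ⟨ξ, hξ.2.comp_surjective (topEquiv (G := G)).symm.toMonoidHom topEquiv.symm.surjective⟩ z z
  iterate 7
    simp only [star_Ind, hTI.dot_Ind hA cα cα, hTI.dot_Ind hA cβ cβ, hTI.dot_Ind hA cα cβ,
      hTI.dot_Ind hA cα cβ.star, hTI.dot_Ind hA cβ cβ.star, dot_Ind_cf1 le_top]
    simp only [star_sub, star_add, star_cf1, star_star, dot_sub_left, dot_add_left, dot_sub_right,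
      dot_add_right, h1.dot_eq, hω.isIrr.dot_eq, hω'.isIrr.dot_eq, hη.dot_eq, hη'.dot_eq, h1,
      hω.isIrr, hω'.isIrr, hη, hη', hη'.star, m1, m2, m3, m4, m5, m6, m1.symm, m2.symm, m3.symm,
      m4.symm, n1 o1 e1, n1 o2 e1, n1 o5 e1, n1 o1 o3, n1 o2 o3, n1 o5 o3, n1 o1 o4, n1 o2 o4,
      n1 o5 o4, (n1 o1 e1).symm, (n1 o2 e1).symm, (n1 o5 e1).symm, (n1 o1 o3).symm,
      (n1 o2 o3).symm, (n1 o5 o3).symm, if_true, if_false]
    norm_num
  · rw [Ind_one le_top, cα.off fun h => by simp [A] at h, mul_zero]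
  · rw [Ind_one le_top, cβ.off fun h => by simp [A] at h, mul_zero]
  · rw [hTI.Ind_apply cα hzA hA]; simp [wz, ez]; norm_num
  · rw [hTI.Ind_apply cβ hzA hA]; simp [wz, ez, cf1_of_mem hzN]; norm_num
  · simpa [LinearMap.sum_apply] using hΦ0 cα
  · simpa [LinearMap.sum_apply] using hΦ0 cβ

end Cfsg.Acd
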