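import Cfsg.Agent.Acd.CountB
import Cfsg.Agent.Lin.Scott

/-! # The class equation in the dihedral case: order `360` does not occur -/

set_option autoImplicit false

namespace Cfsg.Acd

open Cfsg.FT Subgroup
open scoped Pointwise

universe u

variable {G : Type u} [Group G] [Finite G] {M : Subgroup G} {z a b g t : G}

/-- Scott's lemma for the regular representation -/
theorem scott_reg (h : ⟪a⟫ ⊔ ⟪b⟫ = ⊤) :
    ⟪a⟫.index + ⟪b⟫.index + ⟪a * b⟫.index ≤ Nat.card G + 2 := by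
  classical
  have := Fintype.ofFinite G
  have h0 : (Nat.card G : ℂ) ≠ 0 := Nat.cast_ne_zero.2 Nat.card_pos.ne'
  have h1 := isCharacter_regular.sub_irr (IrrCharacter.triv G) (by
    simp [classInner_def, IrrCharacter.triv])
  have h2 : ∀ P : Subgroup G, fixDim P ((fun g => if g = 1 then (Nat.card G : ℂ) else 0) -
      (IrrCharacter.triv G).1) + 1 = P.index := fun P => by
    have := Fintype.ofFinite P
    have h3 := h1.card_mul_fixDim P
    have h4 : (Nat.card P : ℂ) ≠ 0 := Nat.cast_ne_zero.2 Nat.card_pos.ne'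
    apply Nat.cast_injective (R := ℂ)
    refine mul_left_cancel₀ h4 ?_
    rw [← Nat.cast_mul _ P.index, card_mul_index, Nat.cast_add, mul_add, h3]
    simp [IrrCharacter.triv]
  have h3 := h1.one_eq_charDegree
  generalize hd : charDegree (G := G) _ = d at h3
  simp only [IrrCharacter.triv, Pi.sub_apply, if_true, sub_eq_iff_eq_add] at h3
  norm_cast at h3
  by_contra! h4
  refine h1.fixDim_sup_ne_zero (mem_zpowers a) (mem_zpowers b) le_rfl le_rfl ?_ ?_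
  · have := h2 ⟪a⟫; have := h2 ⟪b⟫; have := h2 ⟪a * b⟫
    omega
  · simpa [h] using h2 ⊤

theorem ncard_le_card {S : Set G} {K : Subgroup G} (h : ∀ x ∈ S, ∀ y ∈ S, x⁻¹ * y ∈ K) :
    S.ncard ≤ Nat.card K := by
  rcases S.eq_empty_or_nonempty with rfl | ⟨x, hx⟩
  · simp
  · exact (Set.ncard_le_ncard_of_injOn (x⁻¹ * ·) (h x hx)
      (mul_right_injective _).injOn).trans_eq (Nat.card_coe_set_eq _).symm

theorem ncard_le_mul {α β : Type*} [Finite α] [Finite β] {s : Set α} {t : Set β} (f : α → β)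
    (n : ℕ) (hf : ∀ a ∈ s, f a ∈ t) (hn : ∀ b ∈ t, {a ∈ s | f a = b}.ncard ≤ n) :
    s.ncard ≤ n * t.ncard := by
  classical
  rw [Set.ncard_eq_toFinset_card s, Set.ncard_eq_toFinset_card t]
  refine Finset.card_le_mul_card_image_of_maps_to (f := f) (by simpa using hf) n fun b hb => ?_
  rw [← Set.ncard_coe_finset]
  simpa using hn b (by simpa using hb)

omit [Group G] in
theorem ncard_pairs {X : Set (G × G)} {t : Set G} (f g : G × G → G) (S : G → Set G) (n : ℕ)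
    (hi : ∀ p q, f p = f q → g p = g q → p = q) (hf : ∀ p ∈ X, f p ∈ t ∧ g p ∈ S (f p))
    (hn : ∀ b ∈ t, (S b).ncard ≤ n) : X.ncard ≤ n * t.ncard :=
  ncard_le_mul f n (fun p hp => (hf p hp).1) fun b hb => (Set.ncard_le_ncard_of_injOn g
    (fun p hp => hp.2 ▸ (hf p hp.1).2) fun p hp q hq => hi p q (hp.2.trans hq.2.symm)).trans (hn b hb)

/-- elements of order three whose product with `c` has order three -/
def N3 (c : G) : Set G := {b | b ≠ 1 ∧ b ^ 3 = 1 ∧ (c * b) ^ 3 = 1}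

variable (h : DData z M) (hM : Nat.card M = 4)
include h hM

theorem DData.exists_four : ∃ m ∈ M, m ≠ 1 ∧ m ≠ z := by
  by_contra! h1
  have := card_le_of_le (show M ≤ ⟪z⟫ from fun m hm => by
    by_cases e : m = 1
    · exact e ▸ one_mem _
    · exact h1 m hm e ▸ mem_zpowers m)
  rw [Nat.card_zpowers, orderOf_eq_two_of_mul_self h.sq h.ne] at this
  omega

theorem DData.cube (ha : a ≠ 1) (h9 : cC a = 9) (h4 : iC a = 4) : a ^ 3 = 1 := by
  have ho : Odd (cC a) := h9 ▸ by decide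
  obtain ⟨Y, g, h1, h2, -, h3⟩ := h.exists_compl ha ho (h4.symm ▸ by norm_num : 2 ∣ iC a)
  obtain rfl : Y = g •ᶜ M := eq_of_le_of_card_ge h1 (by rw [card_conj, hM, h3]; exact h4.ge)
  obtain ⟨m, hm, m1, m2⟩ := h.exists_four hM
  have h5 := h2 (conj_mem_conj.2 hm)
  have h6 : m * m ≠ 1 := fun e => m2 (h.eq_z hm m1 e)
  have h7 : m * m * (m * m) = 1 := by
    have := congrArg Subtype.val (pow_card_eq_one' (x := (⟨m, hm⟩ : M)))
    rw [hM] at this
    simpa [pow_succ, mul_assoc] using this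
  have h8 := h.inverts ha ho (mul_mem h5 h5) (by rw [conj_mul]; exact mt conj_eq_one_iff.1 h6)
    (by rw [conj_mul]; exact conj_mul_self_eq_one h7 g) (cent1id a)
  generalize g * m * g⁻¹ = y at h5 h8
  have h10 : orderOf a ∣ 3 ^ 2 := (orderOf_dvd_natCard _ (cent1id a)).trans h9.dvd
  obtain ⟨i, hi, h11⟩ := (Nat.dvd_prime_pow Nat.prime_three).1 h10
  rcases hi.lt_or_eq with hi | rfl
  · exact orderOf_dvd_iff_pow_eq_one.1 (h11 ▸ pow_dvd_pow 3 (Nat.le_of_lt_succ hi))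
  have h12 : ⟪a⟫ = 𝐂₁[a] := eq_of_le_of_card_ge (zpowers_le.2 (cent1id a))
    (by rw [Nat.card_zpowers, h11]; exact h9.le)
  obtain ⟨k, hk⟩ := mem_powers_iff_mem_zpowers.2 (h12.ge ((memJ_norm h5).2 (cent1id a)))
  have h13 : a ^ (k * k + 1) = 1 := by
    rw [pow_succ, pow_mul, ← eq_inv_iff_mul_eq_one, ← h8, show a ^ k = _ from hk, conj_pow,
      show a ^ k = _ from hk]
    group
  have h14 := (dvd_pow_self 3 two_ne_zero).trans (h11 ▸ orderOf_dvd_of_pow_eq_one h13)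
  have h15 := Nat.mod_eq_zero_of_dvd h14
  rw [Nat.add_mod, Nat.mul_mod] at h15
  have := Nat.mod_lt k three_pos
  interval_cases k % 3 <;> omega

theorem DData.N3_le (h1 : t ≠ 1) (h2 : t * t = 1) : (N3 t).ncard ≤ 16 := by
  obtain ⟨g, rfl⟩ := h.conj t h1 h2
  refine (Set.ncard_le_ncard_of_injOn (t := N3 z) (MulAut.conj g⁻¹) (fun b hb => ?_)
    (MulAut.conj g⁻¹).injective.injOn).trans ?_
  · refine ⟨(MulEquiv.map_ne_one_iff _).2 hb.1, by rw [← map_pow, hb.2.1, map_one], ?_⟩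
    rw [← map_one (MulAut.conj g⁻¹), ← hb.2.2, map_pow, map_mul]
    simp [mul_assoc]
  have hC := h.card_cent
  have key : ∀ b ∈ N3 z, z * (b * z * b⁻¹) = (b * (b * z * b⁻¹) * b⁻¹)⁻¹ := fun b hb => by
    have e : b⁻¹ * b⁻¹ = b := by
      rw [← mul_inv_rev, inv_eq_iff_mul_eq_one, ← hb.2.1, pow_three']
    have e' : b * b = b⁻¹ := by rw [eq_inv_iff_mul_eq_one, ← hb.2.1, pow_three']
    rw [eq_inv_iff_mul_eq_one, ← hb.2.2]
    calc _ = z * b * z * b⁻¹ * (b * b) * z * (b⁻¹ * b⁻¹) := by group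
      _ = z * b * z * (b⁻¹ * b⁻¹) * z * b := by rw [e', mul_assoc _ b⁻¹ b⁻¹, e]
      _ = _ := by rw [e, pow_three']; group
  refine (ncard_le_mul (t := (𝐂₁[z] : Set G) \ M) (fun b => b * z * b⁻¹) 4 (fun b hb => ?_)
    fun d hd => ?_).trans ?_
  · have h3 := conj_mul_self_eq_one h.sq b
    refine ⟨mem_cent1.2 ?_, fun e => ?_⟩
    · have h4 := key b hb
      rw [inv_eq_of_mul_eq_one_left (conj_mul_self_eq_one h3 b)] at h4
      rw [← inv_inj, h4, inv_eq_of_mul_eq_one_left (conj_mul_self_eq_one h3 b), ← h4, mul_inv_rev,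
        inv_eq_of_mul_eq_one_left h3, inv_eq_of_mul_eq_one_left h.sq]
    · have := orderOf_dvd_natCard _ (mem_cent1.2 (mul_inv_eq_iff_eq_mul.1
        (h.eq_z e (mt conj_eq_one_iff.1 h.ne) h3)))
      rw [orderOf_eq_prime hb.2.1 hb.1, hC, hM] at this
      omega
  · refine (ncard_le_card (K := 𝐂₁[z] ⊓ 𝐂₁[d]) fun x hx y hy => ⟨mem_cent1.2 ?_, mem_cent1.2 ?_⟩).trans ?_
    · calc x⁻¹ * y * z = x⁻¹ * (y * z * y⁻¹) * y := by group
        _ = _ := by rw [hy.2, ← hx.2]; group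
    · have h3 := key x hx.1
      rw [hx.2, ← hy.2, key y hy.1, hy.2, inv_inj] at h3
      calc x⁻¹ * y * d = x⁻¹ * (y * d * y⁻¹) * y := by group
        _ = _ := by rw [h3]; group
    · obtain ⟨m, hm, m1, m2⟩ := h.exists_four hM
      have h3 := card_dvd_of_le (inf_le_left : 𝐂₁[z] ⊓ 𝐂₁[d] ≤ _)
      have h4 : Nat.card ↥(𝐂₁[z] ⊓ 𝐂₁[d]) ≠ 8 := fun e => hd.2 (h.cent m hm m1 m2 ▸ cent1C.1
        ((eq_of_le_of_card_ge inf_le_left (by rw [e, hC, hM])).ge (h.le hm)).2)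
      rw [hC, hM] at h3
      have := Nat.le_of_dvd (by norm_num) h3
      interval_cases Nat.card ↥(𝐂₁[z] ⊓ 𝐂₁[d]) <;> omega
  · rw [Set.ncard_diff (by exact h.le), ← Nat.card_coe_set_eq, ← Nat.card_coe_set_eq]
    simp only [SetLike.coe_sort_coe, hC, hM]
    rfl

variable (hG : Nat.card G = 360) (hs : ∀ H : Subgroup G, H ≠ ⊤ → Group.IsSolvable H)
  (ho : ∀ a : G, a ≠ 1 → Odd (cC a) → cC a = 5 ∧ iC a = 2 ∨ cC a = 9 ∧ iC a = 4)
include hG hs ho

theorem DData.no235 (h2 : orderOf t = 2) (h3 : orderOf a = 3) (h5 : orderOf (t * a) = 5) : False := by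
  by_cases e : ⟪t⟫ ⊔ ⟪a⟫ = ⊤
  · have h1 := scott_reg e
    have e2 := ⟪t⟫.card_mul_index
    have e3 := ⟪a⟫.card_mul_index
    have e5 := ⟪t * a⟫.card_mul_index
    rw [Nat.card_zpowers] at e2 e3 e5
    rw [h2] at e2; rw [h3] at e3; rw [h5] at e5
    omega
  obtain ⟨K, hK⟩ := Hall_exists {2}ᶜ (hs _ e)
  have d3 := hK.dvd_card Nat.prime_three (by simp) (h3 ▸ orderOf_dvd_natCard _
    (mem_sup_right (mem_zpowers a)))
  have d5 := hK.dvd_card Nat.prime_five (by simp) (h5 ▸ orderOf_dvd_natCard _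
    (mul_mem_sup (mem_zpowers t) (mem_zpowers a)))
  obtain ⟨E, hE, h6⟩ := minnormal_exists (U := K) (fun e => by simp [e] at d3) le_normalizer
  obtain ⟨b, hb, b1⟩ := exists_ne_one hE.ne_bot
  have h7 : Odd (cC b) := Nat.not_even_iff_odd.1 fun e => by
    have h8 := orderOf_dvd_of_pow_eq_one (h.pow_card e)
    rw [hM] at h8
    obtain ⟨p, hp, h9⟩ := Nat.exists_prime_and_dvd (mt orderOf_eq_one_iff.1 b1)
    exact hK.pi p hp (h9.trans (orderOf_dvd_natCard _ (h6 hb)))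
      ((Nat.prime_dvd_prime_iff_eq hp Nat.prime_two).1 (hp.dvd_of_dvd_pow (n := 2) (h9.trans h8)))
  have h8 := card_dvd_of_le ((le_inf le_top hE.norm).trans ((h.oddTI b1 h7).norm_le
    (le_cent1.2 (hE.abelian (solvableS (h6.trans hK.le) (hs _ e)) |> abelian_iff.1 <| hb)) hE.ne_bot))
  rw [← card_mul_relIndex le_normalizer] at h8
  have e3 := d3.trans h8
  have e5 := d5.trans h8
  rcases ho b b1 h7 with ⟨e1, e2⟩ | ⟨e1, e2⟩ <;> simp only [cC, iC] at e1 e2 <;>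
    rw [e1, e2] at e3 e5 <;> omega

theorem DData.not360 (h80 : {g : G | g ≠ 1 ∧ cC g = 9 ∧ iC g ≠ 2}.ncard = 80) : False := by
  have := Fact.mk Nat.prime_five
  set A := {g : G | g ≠ 1 ∧ cC g = 9 ∧ iC g ≠ 2}
  set T := {t : G | t ≠ 1 ∧ t * t = 1}
  set S := {g : G | g ≠ 1 ∧ Even (cC g)}
  have hA : ∀ a ∈ A, a ^ 3 = 1 := fun a ha => h.cube hM ha.1 ha.2.1 (by
    have := ho a ha.1 (ha.2.1 ▸ by decide); have := ha.2.1; omega)
  have h1 : S.ncard * (2 * Nat.card M) = _ := h.card_even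
  have h2 := Set.ncard_diff_add_ncard_of_subset (show T ⊆ S from fun t ht => ⟨ht.1, even_iff_two_dvd.2
    (orderOf_eq_two_of_mul_self ht.2 ht.1 ▸ orderOf_dvd_natCard _ (cent1id t))⟩)
  have h3 := ncard_le_mul (s := Set.univ) (t := T) (fun g => g * z * g⁻¹) (Nat.card 𝐂₁[z])
    (fun g _ => ⟨mt conj_eq_one_iff.1 h.ne, conj_mul_self_eq_one h.sq g⟩) fun d _ =>
      ncard_le_card fun x hx y hy => mem_cent1.2 (by
        calc x⁻¹ * y * z = x⁻¹ * (y * z * y⁻¹) * y := by group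
          _ = _ := by rw [hy.2, ← hx.2]; group)
  have b2 := ncard_pairs (X := {p ∈ T ×ˢ A | p.1 * p.2 * (p.1 * p.2) = 1}) (t := A) Prod.snd Prod.fst
    (fun a => {t | t * t = 1 ∧ t * a * (t * a) = 1}) 9 (fun p q e1 e2 => Prod.ext e2 e1)
    (fun p hp => ⟨hp.1.2, hp.1.1.2, hp.2⟩) fun a ha => (ncard_le_card fun x hx y hy =>
      mem_cent1.2 (by
        have e : ∀ {x}, x * x = 1 → x * a * (x * a) = 1 → x * a = a⁻¹ * x := fun h1 h2 => by
          rw [eq_inv_of_mul_eq_one_left h2, mul_inv_rev, inv_eq_of_mul_eq_one_left h1]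
        rw [mul_assoc, e hy.1 hy.2, inv_eq_of_mul_eq_one_left hx.1, ← mul_assoc, ← mul_assoc,
          mul_left_inj, mul_inv_eq_iff_eq_mul, mul_assoc, e hx.1 hx.2, mul_inv_cancel_left])).trans ha.2.1.le
  have b3 := ncard_pairs (X := {p ∈ T ×ˢ A | (p.1 * p.2) ^ 3 = 1}) (t := T) Prod.fst Prod.snd
    N3 16 (fun p q => Prod.ext) (fun p hp => ⟨hp.1.1, hp.1.2.1, hA _ hp.1.2, hp.2⟩)
    fun t ht => h.N3_le hM ht.1 ht.2
  have b4 := ncard_pairs (X := {p ∈ T ×ˢ A | p.1 * p.2 ∈ S \ T}) (t := S \ T) (fun p => p.1 * p.2)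
    (fun p => p.2⁻¹) (fun x => N3 (x * x)) 16 (fun p q e1 e2 => by
      have e3 := inv_injective e2
      exact Prod.ext (mul_right_cancel (e1.trans (e3 ▸ rfl))) e3)
    (fun p hp => ⟨hp.2, inv_ne_one.2 hp.1.2.1, by rw [inv_pow, hA _ hp.1.2, inv_one], by
      rw [show p.1 * p.2 * (p.1 * p.2) * p.2⁻¹ = p.1 * p.2 * p.1⁻¹ by
        rw [inv_eq_of_mul_eq_one_left hp.1.1.2]; group, conj_pow, hA _ hp.1.2]
      simp⟩)
    fun x hx => h.N3_le hM (fun e => hx.2 ⟨hx.1.1, e⟩) (by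
      simpa [hM, pow_succ, mul_assoc] using h.pow_card hx.1.2)
  have h4 := (Set.ncard_le_ncard (show T ×ˢ A ⊆ {p ∈ T ×ˢ A | p.1 * p.2 * (p.1 * p.2) = 1} ∪
      {p ∈ T ×ˢ A | (p.1 * p.2) ^ 3 = 1} ∪ {p ∈ T ×ˢ A | p.1 * p.2 ∈ S \ T} from fun p hp => by
    have h5 := orderOf_eq_prime (hA _ hp.2) hp.2.1
    have h6 := orderOf_eq_two_of_mul_self hp.1.2 hp.1.1
    have h7 : p.1 * p.2 ≠ 1 := fun e => by
      rw [eq_inv_of_mul_eq_one_left e, orderOf_inv, h5] at h6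
      omega
    rcases (cC (p.1 * p.2)).even_or_odd with e | e
    · by_cases e' : p.1 * p.2 * (p.1 * p.2) = 1
      exacts [.inl (.inl ⟨hp, e'⟩), .inr ⟨hp, ⟨h7, e⟩, fun e'' => e' e''.2⟩]
    rcases ho _ h7 e with e' | e'
    · exact (h.no235 hM hG hs ho h6 h5 (orderOf_eq_prime (orderOf_dvd_iff_pow_eq_one.1
        (e'.1 ▸ orderOf_dvd_natCard _ (cent1id _))) h7)).elim
    · exact .inl (.inr ⟨hp, h.cube hM h7 e'.1 e'.2⟩))).trans
    ((Set.ncard_union_le _ _).trans (Nat.add_le_add_right (Set.ncard_union_le _ _) _))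
  rw [Set.ncard_prod] at h4
  rw [Set.ncard_univ, h.card_cent] at h3
  rw [hM, hG, h80] at *
  omega

omit h hM hG hs ho in
theorem stCount : StCount.{u} := fun _ _ _ _ _ h hs =>
  h.class_eq.resolve_right fun e => h.not360 e.2.1 e.1 hs e.2.2.2 e.2.2.1

end Cfsg.Acd
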