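import Cfsg.Agent.Acd.Base
import Cfsg.Agent.Blk.ZStar
import Cfsg.Agent.Gag.FinBase

/-! # The class equation in the dihedral case -/

set_option autoImplicit false

namespace Cfsg.Acd

open Cfsg.FT Subgroup
open scoped Pointwise

universe u

theorem cnt_arith0 {g a b c0 c1 c R E : ℕ} (hs : g = 1 + c0 + c1 + c)
    (h0 : c0 * (2 * (a + 1)) = a * g) (h1 : c1 * ((b + 1) * 2) = b * g) (hc : c * R = E * g)
    (hR : 0 < R) (hd : 2 * (a + 1) * (b + 1) * R ∣ g) :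
    g = 2 * (a + 1) * (b + 1) * R ∧ R * (a + b + 2) = 2 * E * (a + 1) * (b + 1) + 1 := by
  obtain ⟨k, hk⟩ := hd
  have e0 : c0 = a * (b + 1) * R * k :=
    Nat.eq_of_mul_eq_mul_right (by omega : 0 < 2 * (a + 1)) (by rw [h0, hk]; ring)
  have e1 : c1 = b * (a + 1) * R * k :=
    Nat.eq_of_mul_eq_mul_right (by omega : 0 < (b + 1) * 2) (by rw [h1, hk]; ring)
  have e2 : c = E * (2 * (a + 1) * (b + 1)) * k :=
    Nat.eq_of_mul_eq_mul_right hR (by rw [hc, hk]; ring)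
  have e3 : R * (a + b + 2) * k = 2 * E * (a + 1) * (b + 1) * k + 1 := by
    rw [e0, e1, e2, hk] at hs; zify at hs ⊢; linear_combination hs
  obtain rfl : k = 1 := Nat.dvd_one.1 ((Nat.dvd_add_right (dvd_mul_left k _)).1
    (e3 ▸ dvd_mul_left k _))
  exact ⟨by simpa using hk, by simpa using e3⟩

theorem cnt_small {R E a b : ℕ} (h : R * (a + b + 2) = 2 * E * (a + 1) * (b + 1) + 1)
    (hE : R ≤ 9 * E) : a < 8 ∨ b < 8 := by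
  by_contra! h1
  obtain ⟨a, rfl⟩ := Nat.exists_eq_add_of_le h1.1
  obtain ⟨b, rfl⟩ := Nat.exists_eq_add_of_le h1.2
  have := Nat.mul_le_mul_right (8 + a + (8 + b) + 2) hE
  nlinarith [Nat.zero_le (E * a * b), Nat.zero_le (E * a), Nat.zero_le (E * b)]

theorem cnt_arith {g m0 m1 c0 c1 c5 c7 c9 r5 r7 r9 : ℕ} (hs : g = 1 + c0 + c1 + (c5 + c7 + c9))
    (h0 : c0 * (2 * m0) = (m0 - 1) * g) (h1 : c1 * (m1 * 2) = (m1 - 1) * g) (hm0 : 4 ≤ m0)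
    (he : 2 ∣ m0) (ho : m1 % 2 = 1)
    (h5 : r5 = 1 ∧ c5 = 0 ∨ r5 = 5 ∧ c5 * 5 = g ∧ 4 ∣ m0)
    (h7 : r7 = 1 ∧ c7 = 0 ∨ r7 = 7 ∧ (c7 * 7 = 2 * g ∨ c7 * 7 = g ∧ 6 ∣ m0))
    (h9 : r9 = 1 ∧ c9 = 0 ∨ r9 = 9 ∧ (c9 * 9 = 2 * g ∧ 4 ∣ m0 ∨ c9 * 9 = g ∧ 8 ∣ m0))
    (hd : 2 * m0 * m1 * (r5 * r7 * r9) ∣ g) :
    g = 168 ∨ (g = 360 ∧ m0 = 4 ∧ m1 = 5 ∧ r5 = 1 ∧ r7 = 1 ∧ c9 = 80) := by
  obtain ⟨a, rfl⟩ : ∃ a, m0 = a + 1 := ⟨m0 - 1, by omega⟩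
  obtain ⟨b, rfl⟩ : ∃ b, m1 = b + 1 := ⟨m1 - 1, by omega⟩
  obtain ⟨e5, a5, b5⟩ : ∃ e, c5 * r5 = e * g ∧ (r5 = 1 ∧ e = 0 ∨ r5 = 5 ∧ e = 1 ∧ 4 ∣ a + 1) := by
    rcases h5 with ⟨rfl, rfl⟩ | ⟨rfl, h⟩
    exacts [⟨0, by omega⟩, ⟨1, by omega⟩]
  obtain ⟨e7, a7, b7⟩ : ∃ e, c7 * r7 = e * g ∧ (r7 = 1 ∧ e = 0 ∨ r7 = 7 ∧ e = 2 ∨
      r7 = 7 ∧ e = 1 ∧ 6 ∣ a + 1) := by
    rcases h7 with ⟨rfl, rfl⟩ | ⟨rfl, h | h⟩
    exacts [⟨0, by omega⟩, ⟨2, by omega⟩, ⟨1, by omega⟩]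
  obtain ⟨e9, a9, b9⟩ : ∃ e, c9 * r9 = e * g ∧ (r9 = 1 ∧ e = 0 ∨ r9 = 9 ∧ e = 2 ∧ 4 ∣ a + 1 ∨
      r9 = 9 ∧ e = 1 ∧ 8 ∣ a + 1) := by
    rcases h9 with ⟨rfl, rfl⟩ | ⟨rfl, h | h⟩
    exacts [⟨0, by omega⟩, ⟨2, by omega⟩, ⟨1, by omega⟩]
  obtain ⟨h2, h3⟩ := cnt_arith0 (E := e5 * r7 * r9 + e7 * r5 * r9 + e9 * r5 * r7) hs h0 h1
    (by zify at a5 a7 a9 ⊢; linear_combination r7 * r9 * a5 + r5 * r9 * a7 + r5 * r7 * a9)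
    (Nat.mul_pos (Nat.mul_pos (by omega) (by omega)) (by omega)) hd
  have h4 := cnt_small h3
  clear hs h0 h1 h5 h7 h9 hd a5 a7
  rcases b5 with ⟨rfl, rfl⟩ | ⟨rfl, rfl, _⟩ <;> rcases b7 with ⟨rfl, rfl⟩ | ⟨rfl, rfl⟩ | ⟨rfl, rfl, _⟩ <;>
    rcases b9 with ⟨rfl, rfl⟩ | ⟨rfl, rfl, _⟩ | ⟨rfl, rfl, _⟩ <;>
    first
    | omega
    | (rcases h4 (by norm_num) with h | h
       · interval_cases a <;> omega
       · interval_cases b <;> omega)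

variable {G : Type u} [Group G] [Finite G] {M : Subgroup G} {z a b g : G} (h : DData z M)
include h

theorem DData.card_cent : Nat.card 𝐂₁[z] = 2 * Nat.card M := by
  rw [← card_mul_relIndex h.le, h.idx, mul_comm]

omit [Finite G] in
theorem DData.eq_z (ha : a ∈ M) (h1 : a ≠ 1) (h2 : a * a = 1) : a = z :=
  (h.uniq a ha h2).resolve_left h1

omit [Finite G] in
theorem DData.ti : NormedTI (nz M) ⊤ 𝐂₁[z] := by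
  have key : ∀ g, g * z * g⁻¹ ∈ M → g ∈ 𝐂₁[z] := fun g e => mem_cent1.2 (mul_inv_eq_iff_eq_mul.1
    (h.eq_z e (mt conj_eq_one_iff.1 h.ne) (conj_mul_self_eq_one h.sq g)))
  refine normedTI_iff.2 ⟨⟨z, h.mem, h.ne⟩, le_top, fun g hg x hx => ⟨?_, mt conj_eq_one_iff.1 hx.2⟩,
    fun g _ x hx e => key g ?_⟩
  · have := (normal_of_index_eq_two h.idx).conj_mem ⟨x, h.le hx.1⟩ hx.1 ⟨g, hg⟩
    exact this
  · by_cases e1 : x = z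
    · exact e1 ▸ e.1
    rw [← h.cent _ e.1 e.2 fun e2 => e1 (h.eq_z hx.1 hx.2 (by
      simpa [← e2, mul_assoc] using conj_mul_self_eq_one h.sq g⁻¹)), cent1_conj,
      h.cent x hx.1 hx.2 e1]
    exact conj_mem_conj.2 h.mem

theorem DData.even_iff : g ∈ classSupp (nz M) ⊤ ↔ g ≠ 1 ∧ Even (Nat.card 𝐂₁[g]) := by
  constructor
  · rintro ⟨a, ha, g, -, rfl⟩
    refine ⟨mt conj_eq_one_iff.1 ha.2, ?_⟩
    rw [cent1_conj, card_conj, even_iff_two_dvd, ← orderOf_eq_two_of_mul_self h.sq h.ne]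
    exact orderOf_dvd_natCard _ (cent1C.1 (h.le ha.1))
  · rintro ⟨h1, h2⟩
    obtain ⟨t, ht⟩ := exists_prime_orderOf_dvd_card' 2 h2.two_dvd
    rw [← orderOf_coe] at ht
    obtain ⟨k, hk⟩ := h.conj t (fun e => by simp [e] at ht) (mul_self_of_orderOf_eq_two ht)
    have h3 : k⁻¹ * g * k ∈ 𝐂₁[z] := mem_conj.1 (by rw [← cent1_conj, ← hk]; exact cent1C.1 t.2)
    have h4 : k⁻¹ * g * k ≠ 1 := fun e => h1 (by
      simpa [mul_assoc] using congrArg (fun x => k * x * k⁻¹) e)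
    by_cases h5 : k⁻¹ * g * k ∈ M
    · exact ⟨_, ⟨h5, h4⟩, k, trivial, by group⟩
    · obtain ⟨l, hl⟩ := h.conj _ h4 (h.out _ h3 h5)
      exact ⟨z, ⟨h.mem, h.ne⟩, k * l, trivial, by
        rw [mul_inv_rev, ← mul_assoc, mul_assoc k, mul_assoc k, ← hl]; group⟩

theorem DData.pow_card (h1 : Even (Nat.card 𝐂₁[g])) : g ^ Nat.card M = 1 := by
  by_cases e : g = 1
  · simp [e]
  obtain ⟨a, ha, g, -, rfl⟩ := h.even_iff.2 ⟨e, h1⟩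
  rw [conj_pow, show a ^ Nat.card M = 1 from congrArg Subtype.val (pow_card_eq_one' (x :=
    (⟨a, ha.1⟩ : M)))]
  simp

omit [Finite G] in
theorem DData.oddTI (ha : a ≠ 1) (ho : Odd (Nat.card 𝐂₁[a])) :
    NormedTI (nz 𝐂₁[a]) ⊤ 𝐍[𝐂₁[a]] :=
  normedTI_nz_iff.2 ⟨ne_bot_of_mem (cent1id a) ha, le_top, le_rfl, fun g _ e => by
    obtain ⟨x, ⟨h1, h2⟩, h3⟩ := exists_ne_one e
    obtain ⟨y, hy, rfl⟩ := mem_conj_iff_exists.1 h2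
    have := (h.odd a ha ho).2.1
    rw [← conj_eq_iff_mem_norm, ← this y hy (mt conj_eq_one_iff.2 h3), ← cent1_conj, this _ h1 h3,
      this y hy (mt conj_eq_one_iff.2 h3)]⟩

theorem DData.exists_syl (ha : a ≠ 1) (ho : Odd (Nat.card 𝐂₁[a])) {p : ℕ} [Fact p.Prime]
    (hp : p ∣ Nat.card 𝐂₁[a]) : ∃ P, Syl p P ⊤ ∧ P ≤ 𝐂₁[a] := by
  obtain ⟨Q, hQ⟩ := Sylow_exists p 𝐂₁[a]
  obtain ⟨P, hP, h1⟩ := Sylow_superset le_top hQ.pgroup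
  obtain ⟨x, hx, h2⟩ := exists_ne_one (hQ.ne_bot hp)
  obtain ⟨c, hc, h3⟩ := exists_ne_one (center_nil_ne_bot (pgroup_nil hP.pgroup)
    (ne_bot_of_mem (h1 hx) h2))
  have := (h.odd a ha ho).2.1
  refine ⟨P, hP, ?_⟩
  rw [← this c (this x (hQ.le hx) h2 ▸ cent_le_cent1 (h1 hx) hc.2) h3]
  exact le_cent1.2 hc.2

theorem DData.mem_supp (ha : a ≠ 1) (ho : Odd (Nat.card 𝐂₁[a])) (hb : b ≠ 1)
    (hc : ¬ (Nat.card 𝐂₁[a]).Coprime (Nat.card 𝐂₁[b])) : b ∈ classSupp (nz 𝐂₁[a]) ⊤ := by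
  obtain ⟨p, hp, h1, h2⟩ := Nat.Prime.not_coprime_iff_dvd.1 hc
  have := Fact.mk hp
  obtain ⟨P, hP, h3⟩ := h.exists_syl ha ho h1
  obtain ⟨Q, hQ⟩ := Sylow_exists p 𝐂₁[b]
  obtain ⟨x, hx, h4⟩ := exists_ne_one (hQ.ne_bot h2)
  obtain ⟨g, -, hg⟩ := Sylow_subJ hP le_top hQ.pgroup
  obtain ⟨y, hy, rfl⟩ := mem_conj_iff_exists.1 (hg hx)
  have h5 := cent1C.1 (hQ.le hx)
  rw [cent1_conj, (h.odd a ha ho).2.1 y (h3 hy) (mt conj_eq_one_iff.2 h4)] at h5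
  obtain ⟨c, hc', rfl⟩ := mem_conj_iff_exists.1 h5
  exact ⟨c, ⟨hc', mt conj_eq_one_iff.2 hb⟩, g, trivial, rfl⟩

omit [Finite G] in
theorem DData.cent_of_supp (ha : a ≠ 1) (ho : Odd (Nat.card 𝐂₁[a]))
    (hb : b ∈ classSupp (nz 𝐂₁[a]) ⊤) : b ≠ 1 ∧ ∃ g : G, 𝐂₁[b] = g •ᶜ 𝐂₁[a] := by
  obtain ⟨c, hc, g, -, rfl⟩ := hb
  exact ⟨mt conj_eq_one_iff.1 hc.2, g, by rw [cent1_conj, (h.odd a ha ho).2.1 c hc.1 hc.2]⟩

theorem DData.coprime (ha : a ≠ 1) (ho : Odd (Nat.card 𝐂₁[a])) (hb : b ≠ 1)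
    (hc : Nat.card 𝐂₁[a] ≠ Nat.card 𝐂₁[b]) : (Nat.card 𝐂₁[a]).Coprime (Nat.card 𝐂₁[b]) :=
  by_contra fun h1 => by
    obtain ⟨-, g, hg⟩ := h.cent_of_supp ha ho (h.mem_supp ha ho hb h1)
    exact hc (by rw [hg, card_conj])

omit h in
theorem one_lt_card_cent1 (ha : a ≠ 1) : 1 < Nat.card 𝐂₁[a] :=
  (one_lt_card_iff_ne_bot _).2 (ne_bot_of_mem (cent1id a) ha)

omit h in
theorem ncard_supp {K N : Subgroup G} (h : NormedTI (nz K) ⊤ N) :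
    (classSupp (nz K) ⊤).ncard * Nat.card N = (Nat.card K - 1) * Nat.card G := by
  rw [card_support_normedTI h, card_nz, relIndex_top_right, mul_assoc, index_mul_card]

theorem DData.fiber (ha : a ≠ 1) (ho : Odd (Nat.card 𝐂₁[a])) :
    {g : G | g ≠ 1 ∧ Nat.card 𝐂₁[g] = Nat.card 𝐂₁[a]}.ncard *
      (Nat.card 𝐂₁[a] * 𝐂₁[a].relIndex 𝐍[𝐂₁[a]]) = (Nat.card 𝐂₁[a] - 1) * Nat.card G := by
  rw [card_mul_relIndex le_normalizer, ← ncard_supp (h.oddTI ha ho)]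
  congr 2
  ext g
  refine ⟨fun hg => h.mem_supp ha ho hg.1 fun e => ?_, fun hg => ?_⟩
  · rw [hg.2, Nat.coprime_self] at e
    exact (one_lt_card_cent1 ha).ne' e
  · obtain ⟨h1, k, hk⟩ := h.cent_of_supp ha ho hg
    exact ⟨h1, by rw [hk, card_conj]⟩

/-- an involution of `N(C(a))` inverts `C(a)` -/
theorem DData.inverts (ha : a ≠ 1) (ho : Odd (Nat.card 𝐂₁[a])) {u : G} (hu : u ∈ 𝐍[𝐂₁[a]])
    (h1 : u ≠ 1) (h2 : u * u = 1) (hb : b ∈ 𝐂₁[a]) : u * b * u⁻¹ = b⁻¹ := by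
  obtain ⟨h3, h4, -⟩ := h.odd a ha ho
  have h5 := (memJ_norm hu).2 hb
  rw [eq_inv_iff_mul_eq_one]
  by_contra h6
  have h8 : u * b * u ∈ 𝐂₁[a] := by rwa [inv_eq_of_mul_eq_one_left h2] at h5
  have h7 : u ∈ 𝐂₁[u * b * u⁻¹ * b] := mem_cent1.2 (by
    rw [comm_of_abelian h3 h5 hb, inv_eq_of_mul_eq_one_left h2]
    calc u * (b * (u * b * u)) = u * b * u * b * u := by group
      _ = b * (u * b * u) * u := by rw [← comm_of_abelian h3 h8 hb])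
  rw [h4 _ (mul_mem h5 hb) h6] at h7
  exact ho.not_two_dvd_nat (orderOf_eq_two_of_mul_self h2 h1 ▸ orderOf_dvd_natCard _ h7)

theorem DData.exists_compl (ha : a ≠ 1) (ho : Odd (Nat.card 𝐂₁[a]))
    (he : 2 ∣ 𝐂₁[a].relIndex 𝐍[𝐂₁[a]]) : ∃ (Y : Subgroup G) (g : G), Y ≤ g •ᶜ M ∧
      Y ≤ 𝐍[𝐂₁[a]] ∧ 𝐂₁[a] ⊓ Y = ⊥ ∧ Nat.card Y = 𝐂₁[a].relIndex 𝐍[𝐂₁[a]] := by
  obtain ⟨⟨u, hu⟩, h1⟩ := exists_prime_orderOf_dvd_card' (G := 𝐍[𝐂₁[a]]) 2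
    (he.trans (Subgroup.relIndex_dvd_card _ _))
  rw [orderOf_mk] at h1
  have h2 := mul_self_of_orderOf_eq_two h1
  have h3 : u ≠ 1 := fun e => by simp [e] at h1
  have h4 : ∀ v ∈ 𝐍[𝐂₁[a]], v ≠ 1 → v * v = 1 → v * u ∈ 𝐂₁[a] := fun v hv v1 v2 =>
    mem_cent1.2 (mul_inv_eq_iff_eq_mul.1 (by
      calc v * u * a * (v * u)⁻¹ = v * (u * a * u⁻¹) * v⁻¹ := by group
        _ = a := by
          rw [h.inverts ha ho hu h3 h2 (cent1id a), h.inverts ha ho hv v1 v2 (inv_mem (cent1id a)),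
            inv_inv]))
  have h5 : 𝐂₁[a] ⊓ (𝐍[𝐂₁[a]] ⊓ 𝐂[⟪u⟫]) = ⊥ := eq_bot_iff.2 fun b hb => by
    have h6 := h.inverts ha ho hu h3 h2 hb.1
    rw [hb.2.2 u (mem_zpowers u), mul_inv_cancel_right, eq_inv_iff_mul_eq_one] at h6
    by_contra h7
    exact ho.not_two_dvd_nat (orderOf_eq_two_of_mul_self h6 h7 ▸ orderOf_dvd_natCard _ hb.1)
  have h6 := coprime_sub_join_cent (A := ⟪u⟫) le_normalizer (zpowers_le.2 hu)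
    (by rw [Nat.card_zpowers, h1]; exact Nat.coprime_two_right.2 ho) (solOr_cycle _ u) le_rfl le_rfl
    (commg_le_iff.2 fun x hx y hy => by
      rcases Gag.Fin5.mem_cycle2 h2 hy with rfl | rfl
      · simp
      · rw [inv_eq_of_mul_eq_one_left h2]
        exact h4 _ (mul_mem (mul_mem hx hu) (inv_mem hx)) (mt conj_eq_one_iff.1 h3)
          (conj_mul_self_eq_one h2 x))
  obtain ⟨g, rfl⟩ := h.conj u h3 h2
  refine ⟨_, g, fun y hy => by_contra fun h7 => ?_, inf_le_left, h5, (index_sdprod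
    (sdprod_of_normal (normalG _) (le_antisymm (sup_le le_normalizer inf_le_left) h6) h5)).symm⟩
  have h8 : y ∈ 𝐂[⟪g * z * g⁻¹⟫] := hy.2
  rw [cent_cycle, cent1_conj, mem_conj] at h8
  have h9 : y * y = 1 := by
    simpa [mul_assoc] using congrArg (fun x => g * x * g⁻¹) (h.out _ h8 (mt mem_conj.2 h7))
  have h10 : y * (g * z * g⁻¹) ∈ (⊥ : Subgroup G) := h5 ▸ ⟨h4 y hy.1 (fun e => h7 (e ▸ one_mem _)) h9,
    mul_mem hy ⟨hu, by rw [cent_cycle]; exact cent1id _⟩⟩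
  rw [eq_inv_of_mul_eq_one_left (mem_bot.1 h10)] at h7
  exact h7 (inv_mem (conj_mem_conj.2 h.mem))

theorem DData.idx_dvd (ha : a ≠ 1) (ho : Odd (Nat.card 𝐂₁[a]))
    (he : 2 ∣ 𝐂₁[a].relIndex 𝐍[𝐂₁[a]]) : 𝐂₁[a].relIndex 𝐍[𝐂₁[a]] ∣ Nat.card M := by
  obtain ⟨Y, g, h1, -, -, h2⟩ := h.exists_compl ha ho he
  rw [← h2, ← card_conj g M]
  exact card_dvd_of_le h1

end Cfsg.Acd
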