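import Cfsg.Agent.Acd.CountA

/-! # The class equation in the dihedral case: the possible orders -/

set_option autoImplicit false

namespace Cfsg.Acd

open Cfsg.FT Subgroup
open scoped Pointwise

universe u

variable {G : Type u} [Group G] [Finite G] {M : Subgroup G} {z a b g : G}

/-- order of the centraliser -/
noncomputable abbrev cC (a : G) : ℕ := Nat.card 𝐂₁[a]
/-- automiser of the centraliser -/
noncomputable abbrev iC (a : G) : ℕ := 𝐂₁[a].relIndex 𝐍[𝐂₁[a]]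

omit [Group G] in
open Classical in
theorem ncard_eq_sum_ite [Fintype G] (p : G → Prop) :
    {a | p a}.ncard = ∑ a, if p a then 1 else 0 := by
  rw [← Finset.card_filter, ← Set.ncard_coe_finset]
  congr 1
  ext
  simp

variable (h : DData z M)
include h

theorem DData.idx_eq (ha : a ≠ 1) (ho : Odd (cC a)) (hb : b ≠ 1) (e : cC b = cC a) :
    iC b = iC a := by
  have h1 := h.fiber ha ho
  have h2 := h.fiber hb (show Odd (cC b) from e ▸ ho)
  simp only [cC] at e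
  rw [e, ← h1] at h2
  refine Nat.eq_of_mul_eq_mul_left Nat.card_pos (Nat.eq_of_mul_eq_mul_left ?_ h2)
  exact (Set.ncard_pos).2 ⟨a, ha, rfl⟩

theorem DData.card_even : {g : G | g ≠ 1 ∧ Even (cC g)}.ncard * (2 * Nat.card M) =
    (Nat.card M - 1) * Nat.card G := by
  rw [← h.card_cent, ← ncard_supp h.ti]
  congr 2
  exact Set.ext fun _ => h.even_iff.symm

theorem DData.two_uniq (ha : a ≠ 1) (ho : Odd (cC a)) (hi : iC a = 2) (hb : b ≠ 1)
    (ho' : Odd (cC b)) (hi' : iC b = 2) : cC a = cC b := by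
  classical
  have := Fintype.ofFinite G
  by_contra e
  have h0 := h.card_even
  have h1 := h.fiber ha ho
  have h2 := h.fiber hb ho'
  have h3 := one_lt_card_cent1 ha
  have h4 := one_lt_card_cent1 hb
  have h5 : {g : G | g ≠ 1 ∧ Even (cC g)}.ncard + {g : G | g ≠ 1 ∧ cC g = cC a}.ncard +
      {g : G | g ≠ 1 ∧ cC g = cC b}.ncard ≤ Nat.card G := by
    simp only [ncard_eq_sum_ite, ← Finset.sum_add_distrib]
    rw [Nat.card_eq_fintype_card, ← Finset.card_univ, Finset.card_eq_sum_ones]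
    refine Finset.sum_le_sum fun g _ => ?_
    rw [Nat.odd_iff] at ho ho'
    rw [Nat.even_iff]
    split_ifs <;> omega
  simp only [iC] at hi hi'
  rw [hi] at h1
  rw [hi'] at h2
  have h6 := h.big
  have h7 := Nat.card_pos (α := G)
  obtain ⟨m, hm⟩ := ho
  obtain ⟨m', hm'⟩ := ho'
  simp only [cC] at *
  obtain ⟨k, hk⟩ := Nat.exists_eq_add_of_le h6
  generalize {g : G | g ≠ 1 ∧ Even (Nat.card 𝐂₁[g])}.ncard = x at *
  generalize {g : G | g ≠ 1 ∧ Nat.card 𝐂₁[g] = Nat.card 𝐂₁[a]}.ncard = y at *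
  generalize {g : G | g ≠ 1 ∧ Nat.card 𝐂₁[g] = Nat.card 𝐂₁[b]}.ncard = y' at *
  rw [hk, show 4 + k - 1 = 3 + k by omega] at h0
  have key : ∀ {y m : ℕ}, 1 < 2 * m + 1 → y * ((2 * m + 1) * 2) = (2 * m + 1 - 1) * Nat.card G →
      Nat.card G ≤ 3 * y := fun {y m} h1 h2 => by
    obtain ⟨m, rfl⟩ : ∃ n, m = n + 1 := ⟨m - 1, by omega⟩
    rw [Nat.add_sub_cancel] at h2
    by_contra! h3
    nlinarith
  have e1 := key (hm ▸ h3) (hm ▸ h1)
  have e2 := key (hm' ▸ h4) (hm' ▸ h2)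
  have e3 : 3 * Nat.card G ≤ 8 * x := by
    by_contra! h8
    nlinarith
  omega

theorem DData.cop_two (ha : a ≠ 1) (ho : Odd (cC a)) : (2 * Nat.card M).Coprime (cC a) := by
  rw [← h.card_cent]
  refine (h.coprime ha ho h.ne fun e => ho.not_two_dvd_nat ?_).symm
  rw [cC, e, h.card_cent]
  exact dvd_mul_right _ _

theorem DData.exists_two : ∃ m, {g : G | g ≠ 1 ∧ Odd (cC g) ∧ iC g = 2}.ncard * (m * 2) =
    (m - 1) * Nat.card G ∧ m % 2 = 1 ∧ m ∣ Nat.card G ∧ (2 * Nat.card M).Coprime m ∧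
    (∀ b : G, b ≠ 1 → iC b ≠ 2 → m.Coprime (cC b)) ∧
    ∀ a : G, a ≠ 1 → Odd (cC a) → iC a = 2 → cC a = m := by
  by_cases e : ∃ a : G, a ≠ 1 ∧ Odd (cC a) ∧ iC a = 2
  · obtain ⟨a, ha, ho, hi⟩ := e
    refine ⟨cC a, ?_, Nat.odd_iff.1 ho, card_subgroup_dvd_card _, h.cop_two ha ho,
      fun b hb e => h.coprime ha ho hb fun e' => e ((h.idx_eq ha ho hb e'.symm).trans hi),
      fun b hb ho' hi' => h.two_uniq hb ho' hi' ha ho hi⟩
    rw [← h.fiber ha ho, ← hi]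
    congr 2
    exact Set.ext fun b => ⟨fun hb => ⟨hb.1, h.two_uniq hb.1 hb.2.1 (hb.2.2.trans hi) ha ho hi⟩,
      fun hb => ⟨hb.1, (show cC b = cC a from hb.2) ▸ ho, h.idx_eq ha ho hb.1 hb.2⟩⟩
  · refine ⟨1, ?_, rfl, one_dvd _, by simp, by simp, fun a h1 h2 h3 => (e ⟨a, h1, h2, h3⟩).elim⟩
    exact (Nat.mul_eq_zero.2 (.inl ((Set.ncard_eq_zero).2 (Set.eq_empty_of_forall_notMem
      fun a ha => e ⟨a, ha⟩)))).trans (by simp)

theorem DData.exists_exc {n m : ℕ} (hn : Odd n) (hm : ∀ b : G, b ≠ 1 → iC b ≠ 2 → m.Coprime (cC b)) :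
    ∃ r, r ∣ Nat.card G ∧ (2 * Nat.card M * m).Coprime r ∧
      (r = 1 ∧ {g : G | g ≠ 1 ∧ cC g = n ∧ iC g ≠ 2}.ncard = 0 ∨
      r = n ∧ ∃ j, {g : G | g ≠ 1 ∧ cC g = n ∧ iC g ≠ 2}.ncard * (n * j) = (n - 1) * Nat.card G ∧
        (2 ∣ j → j ∣ Nat.card M) ∧
        (n = 5 ∧ j = 4 ∨ n = 7 ∧ (j = 3 ∨ j = 6) ∨ n = 9 ∧ (j = 4 ∨ j = 8))) := by
  by_cases e : ∃ a : G, a ≠ 1 ∧ cC a = n ∧ iC a ≠ 2
  · obtain ⟨a, ha, rfl, hi⟩ := e
    refine ⟨cC a, card_subgroup_dvd_card _, (h.cop_two ha hn).mul_left (hm a ha hi),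
      .inr ⟨rfl, iC a, ?_, h.idx_dvd ha hn, (h.odd a ha hn).2.2.resolve_left hi⟩⟩
    rw [← h.fiber ha hn]
    congr 2
    exact Set.ext fun b => ⟨fun hb => ⟨hb.1, hb.2.1⟩,
      fun hb => ⟨hb.1, hb.2, (h.idx_eq ha hn hb.1 hb.2).trans_ne hi⟩⟩
  · exact ⟨1, one_dvd _, by simp, .inl ⟨rfl,
      (Set.ncard_eq_zero).2 (Set.eq_empty_of_forall_notMem fun a ha => e ⟨a, ha⟩)⟩⟩

theorem DData.class_eq : Nat.card G = 168 ∨ (Nat.card G = 360 ∧ Nat.card M = 4 ∧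
    {g : G | g ≠ 1 ∧ cC g = 9 ∧ iC g ≠ 2}.ncard = 80 ∧
    ∀ a : G, a ≠ 1 → Odd (cC a) → cC a = 5 ∧ iC a = 2 ∨ cC a = 9 ∧ iC a = 4) := by
  classical
  have := Fintype.ofFinite G
  obtain ⟨m, h1, h2, h3, h4, h5, h6⟩ := h.exists_two
  obtain ⟨r5, d5, k5, e5⟩ := h.exists_exc (n := 5) (by decide) h5
  obtain ⟨r7, d7, k7, e7⟩ := h.exists_exc (n := 7) (by decide) h5
  obtain ⟨r9, d9, k9, e9⟩ := h.exists_exc (n := 9) (by decide) h5
  have h7 : 2 ∣ Nat.card M := orderOf_eq_two_of_mul_self h.sq h.ne ▸ orderOf_dvd_natCard _ h.mem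
  refine (cnt_arith (r5 := r5) (r7 := r7) (r9 := r9)
    (c5 := {g : G | g ≠ 1 ∧ cC g = 5 ∧ iC g ≠ 2}.ncard)
    (c7 := {g : G | g ≠ 1 ∧ cC g = 7 ∧ iC g ≠ 2}.ncard)
    (c9 := {g : G | g ≠ 1 ∧ cC g = 9 ∧ iC g ≠ 2}.ncard) ?_ h.card_even h1 h.big h7 h2
    ?_ ?_ ?_ ?_).imp_right ?_
  · rw [← Set.ncard_singleton (1 : G), ← Set.setOf_eq_eq_singleton]
    simp only [ncard_eq_sum_ite, ← Finset.sum_add_distrib]
    rw [Nat.card_eq_fintype_card, ← Finset.card_univ, Finset.card_eq_sum_ones]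
    refine Finset.sum_congr rfl fun g _ => ?_
    by_cases e : g = 1
    · simp [e]
    have := fun ho => (h.odd g e (Nat.odd_iff.2 ho)).2.2
    simp only [e, ne_eq, not_false_eq_true, true_and, if_false, Nat.odd_iff, Nat.even_iff]
    clear e5 e7 e9
    split_ifs <;> simp only [cC, iC] at * <;> omega
  · rcases e5 with e | ⟨e, j, e1, e2, e3⟩
    · exact .inl e
    · obtain rfl : j = 4 := by omega
      exact .inr ⟨e, by omega, e2 (by norm_num)⟩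
  · rcases e7 with e | ⟨e, j, e1, e2, e3⟩
    · exact .inl e
    · obtain rfl | rfl : j = 3 ∨ j = 6 := by omega
      exacts [.inr ⟨e, .inl (by omega)⟩, .inr ⟨e, .inr ⟨by omega, e2 (by norm_num)⟩⟩]
  · rcases e9 with e | ⟨e, j, e1, e2, e3⟩
    · exact .inl e
    · obtain rfl | rfl : j = 4 ∨ j = 8 := by omega
      exacts [.inr ⟨e, .inl ⟨by omega, e2 (by norm_num)⟩⟩, .inr ⟨e, .inr ⟨by omega, e2 (by norm_num)⟩⟩]
  · refine ((k5.mul_right k7).mul_right k9).mul_dvd_of_dvd_of_dvd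
      (h4.mul_dvd_of_dvd_of_dvd (h.card_cent ▸ card_subgroup_dvd_card _) h3)
      (Nat.Coprime.mul_dvd_of_dvd_of_dvd ?_ (Nat.Coprime.mul_dvd_of_dvd_of_dvd ?_ d5 d7) d9)
    all_goals
      obtain rfl | rfl := e5.imp And.left And.left <;> obtain rfl | rfl := e7.imp And.left And.left <;>
        obtain rfl | rfl := e9.imp And.left And.left <;> norm_num
  · rintro ⟨a1, a2, rfl, rfl, rfl, a3⟩
    refine ⟨a1, a2, a3, fun a ha ho => ?_⟩
    have b5 := (Set.ncard_eq_zero).1 (e5.resolve_right (by omega)).2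
    have b7 := (Set.ncard_eq_zero).1 (e7.resolve_right (by omega)).2
    have c5 : ¬ (cC a = 5 ∧ iC a ≠ 2) := fun e => b5.subset ⟨ha, e⟩
    have c7 : ¬ (cC a = 7 ∧ iC a ≠ 2) := fun e => b7.subset ⟨ha, e⟩
    have c1 := h6 a ha ho
    have c2 := (h.odd a ha ho).2.2
    have c3 : iC a ≠ 8 := fun e => by
      have := h.idx_dvd ha ho
      rw [a2, show 𝐂₁[a].relIndex 𝐍[𝐂₁[a]] = 8 from e] at this
      omega
    clear e5 e7 e9
    simp only [cC, iC] at c1 c3 c5 c7 ⊢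
    omega

end Cfsg.Acd
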