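import Cfsg.Agent.Acd.D2

/-!
# Piece `StD` of S4753
-/

set_option autoImplicit false
set_option linter.unusedSectionVars false

universe u

namespace Cfsg.Acd.DD

open Cfsg.FT Subgroup
open scoped Pointwise

variable {G : Type u} [Group G] [Finite G] {T : Subgroup G} {σ τ a b s : G} {m : ℕ}

namespace DH
variable (h : DH T σ τ m)
include h

theorem odd_prop (ho : Odd (Nat.card 𝐂₁[a])) (hb : b ∈ 𝐂₁[a]) (b1 : b ≠ 1) :
    Odd (Nat.card 𝐂₁[b]) := Nat.not_even_iff_odd.1 fun e => by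
  obtain ⟨s, hs, s2⟩ := Cauchy Nat.prime_two e.two_dvd
  have := odd_of_mem ho (cent1C.1 (h.cent_le (by rintro rfl; simp at s2)
    (mul_self_eq_one_of_orderOf_two s2) b1 (odd_of_mem ho hb) (cent1C.1 hs) (cent1C.1 hb)))
  rw [s2] at this
  exact absurd this (by decide)

theorem inv_cent (a1 : a ≠ 1) (ho : Odd (Nat.card 𝐂₁[a])) (hs : IsPGroup 2 ⟪s⟫)
    (e : s * a * s⁻¹ = a⁻¹) (hb : b ∈ 𝐂₁[a]) : s * b * s⁻¹ = b⁻¹ := by
  have c : s * s ∈ 𝐂₁[a] := mem_cent1.2 (by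
    rw [← mul_inv_eq_iff_eq_mul, show s * s * a * (s * s)⁻¹ = s * (s * a * s⁻¹) * s⁻¹ by group, e,
      show s * a⁻¹ * s⁻¹ = (s * a * s⁻¹)⁻¹ by group, e, inv_inv])
  refine inv_of_fpf (cent_cycle a ▸ cent_norm _ (norm_of_inv e)) (eq_one_of_two hs
    (mul_mem (mem_zpowers s) (mem_zpowers s)) (odd_of_mem ho c)) (fun n hn e' => by_contra
      fun n1 => a1 (eq_one_of_inv (odd_of_mem ho (cent1id a)) ?_)) hb
  rw [← e, eq_one_of_two hs (mem_zpowers s) (odd_of_mem (h.odd_prop ho hn n1) (mem_cent1.2 e'))]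
  group

theorem ab_prime (a1 : a ≠ 1) (ho : Odd (Nat.card 𝐂₁[a])) (hp : (orderOf a).Prime) :
    IsMulCommutative 𝐂₁[a] := by
  by_cases e : ∃ s, IsPGroup 2 ⟪s⟫ ∧ s * a * s⁻¹ = a⁻¹
  · obtain ⟨s, hs, e⟩ := e
    exact abelian_iff_forall.2 fun x hx y hy => comm_of_inv (h.inv_cent a1 ho hs e hx)
      (h.inv_cent a1 ho hs e hy) (h.inv_cent a1 ho hs e (mul_mem hx hy))
  have key : ∀ b ∈ 𝐂₁[a], (orderOf b).Prime → ∃ P, Syl (orderOf b) P ⊤ ∧ b ∈ P ∧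
      IsMulCommutative P ∧ orderOf b = 7 := fun b hb hq => by
    have := Fact.mk hq
    have b1 : b ≠ 1 := by rintro rfl; simp [Nat.not_prime_one] at hq
    obtain ⟨P, hP, hl, hab, -, ⟨s, hs, i⟩ | ⟨h7, -⟩⟩ := exists_syl h.of (fun e => by
      have := odd_of_mem ho hb; rw [e] at this; exact absurd this (by decide))
      (prime_pgroup (Nat.card_zpowers b)) (mt zpowers_eq_bot.1 b1)
    · exact absurd ⟨s, hs, h.inv_cent b1 (h.odd_prop ho hb b1) hs (i b (hl (mem_zpowers b)))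
        (cent1C.1 hb)⟩ e
    · exact ⟨P, hP, hl (mem_zpowers b), hab, (Nat.prime_dvd_prime_iff_eq hq (by norm_num)).1
        (h7 ▸ orderOf_dvd_natCard P (hl (mem_zpowers b)))⟩
  obtain ⟨P, hP, ha, hab, h7⟩ := key a (cent1id a) hp
  refine abelianS (le_of_exists_syl fun q hq hd => ?_) hab
  obtain ⟨b, hb, rfl⟩ := Cauchy hq hd
  obtain ⟨-, -, -, -, h7'⟩ := key b hb hq
  have := Fact.mk hp
  exact ⟨P, h7'.trans h7.symm ▸ hP.subl (le_cent1.2 (abelian_iff.1 hab ha)) le_top, le_rfl⟩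

theorem ab (a1 : a ≠ 1) (ho : Odd (Nat.card 𝐂₁[a])) : IsMulCommutative 𝐂₁[a] := by
  obtain ⟨p, hp, -, b, hb, rfl⟩ := exists_prime_pow a1 (odd_of_mem ho (cent1id a))
  have b1 : b ≠ 1 := by rintro rfl; simp [Nat.not_prime_one] at hp
  exact abelianS (cent1_le_cent1_of_mem hb)
    (h.ab_prime b1 (h.odd_prop ho (zpowers_le.2 (cent1id a) hb) b1) hp)

theorem cent_eq (a1 : a ≠ 1) (ho : Odd (Nat.card 𝐂₁[a])) (hb : b ∈ 𝐂₁[a]) (b1 : b ≠ 1) :
    𝐂₁[b] = 𝐂₁[a] :=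
  le_antisymm (le_cent1.2 (abelian_iff.1 (h.ab b1 (h.odd_prop ho hb b1)) (cent1C.1 hb)))
    (le_cent1.2 (abelian_iff.1 (h.ab a1 ho) hb))

theorem idx (a1 : a ≠ 1) (ho : Odd (Nat.card 𝐂₁[a])) :
    𝐂₁[a].relIndex 𝐍[𝐂₁[a]] = 2 ∨
      (Nat.card 𝐂₁[a] = 5 ∧ 𝐂₁[a].relIndex 𝐍[𝐂₁[a]] = 4) ∨
      (Nat.card 𝐂₁[a] = 7 ∧ (𝐂₁[a].relIndex 𝐍[𝐂₁[a]] = 3 ∨ 𝐂₁[a].relIndex 𝐍[𝐂₁[a]] = 6)) ∨
      (Nat.card 𝐂₁[a] = 9 ∧ (𝐂₁[a].relIndex 𝐍[𝐂₁[a]] = 4 ∨ 𝐂₁[a].relIndex 𝐍[𝐂₁[a]] = 8)) := by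
  classical
  have hab := h.ab a1 ho
  have ce := fun b => h.cent_eq (b := b) a1 ho
  have hA : 𝐂₁[a] ≠ ⊥ := ne_bot_of_mem (cent1id a) a1
  generalize 𝐂₁[a] = A at *
  have key : ∀ p, p.Prime → p ∣ Nat.card A → ¬ p ∣ A.relIndex 𝐍[A] ∧ ⁅𝐍[A], 𝐍[A]⁆ ≤ A ∧
      ¬ 𝐍[A] ≤ A := fun p hp hd => by
    obtain ⟨b, hb, rfl⟩ := Cauchy hp hd
    have := Fact.mk hp
    have b1 : b ≠ 1 := by rintro rfl; simp [Nat.not_prime_one] at hp
    have h2 : orderOf b ≠ 2 := fun e => by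
      have := odd_of_mem ho hb; rw [e] at this; exact absurd this (by decide)
    obtain ⟨P, hP, hl, hc, hN, -⟩ := exists_syl h.of h2 (prime_pgroup (Nat.card_zpowers b))
      (mt zpowers_eq_bot.1 b1)
    have bP := hl (mem_zpowers b)
    have PA : P ≤ A := ce b hb b1 ▸ le_cent1.2 (abelian_iff.1 hc bP)
    refine ⟨fun d => (hP.subl (PA.trans (normG A)) le_top).index (d.trans (indexgS _ PA)),
      ((dergS ((hP.subl PA le_top).char (sub_abelian_normal hab PA)).norm_le).trans hN).trans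
        (ce b hb b1 ▸ cent_le_cent1 bP), fun e => exists_norm_not_cent h.of b1 hp h2 ?_⟩
    exact (cent_norm _).trans (by rwa [cent_cycle, ce b hb b1])
  obtain ⟨Y, hY⟩ := SchurZassenhaus_split ⟨normG A, Nat.coprime_of_dvd fun p hp hd =>
    (key p hp hd).1⟩ (normalG A)
  obtain ⟨p, hp, hd⟩ := exists_prime_dvd_card hA
  obtain ⟨-, k1, k2⟩ := key p hp hd
  have reg : Semiregular A Y := semiregular_sym.1 fun x hx x1 => by rw [ce x hx x1, hY.inf_eq']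
  have ay : IsMulCommutative Y := derG1P.1 (eq_bot_iff.2 (hY.inf_eq ▸ le_inf
    ((dergS hY.right_le).trans k1) (der_sub Y)))
  have xs : ∀ X ≤ Y, XS (A ⊔ X) := fun X hX => h.ms.xs_of_norm hA (abelian_sol hab)
    (sup_le (normG A) (hX.trans hY.right_le))
  have dv := regular_norm_dvd_pred hY.norm reg
  have co := fun X (hX : X ≤ Y) => regular_norm_coprime (hX.trans hY.norm) (reg.mono le_rfl hX)
  have A1 := (one_lt_card_iff_ne_bot A).2 hA
  rw [index_sdprod hY]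
  by_cases e : ∃ q, q.Prime ∧ q ∣ Nat.card Y ∧ q ≠ 2
  · obtain ⟨q, hq, hd, q2⟩ := e
    obtain ⟨y, hy, rfl⟩ := Cauchy hq hd
    have yY := zpowers_le.2 hy
    have y1 : ⟪y⟫ ≠ ⊥ := ne_bot_of_prime (by rwa [Nat.card_zpowers])
    have h7 := (h.l0.seven ho (cycle_abelian y) (Nat.card_zpowers y ▸ hq.odd_of_ne_two q2)
      (yY.trans hY.norm) (co _ yY) (xs _ yY) fun c =>
        (reg.eq_bot_of_cent le_rfl yY (centsC.1 c)).elim hA y1).1
    rw [reg.commg_eq hY.norm yY y1] at h7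
    rw [h7] at dv
    have := Nat.le_of_dvd (by norm_num) dv
    have h3 : orderOf y = 3 := (Nat.prime_dvd_prime_iff_eq hq Nat.prime_three).1
      (((Nat.Prime.dvd_mul hq).1 (hd.trans dv : _ ∣ 2 * 3)).resolve_left fun d =>
        q2 ((Nat.prime_dvd_prime_iff_eq hq Nat.prime_two).1 d))
    rw [h3] at hd
    have h8 : 0 < Nat.card Y := Nat.card_pos
    rw [h7]
    omega
  obtain ⟨n, hn⟩ : ∃ n, Nat.card Y = 2 ^ n := ⟨_, Nat.eq_prime_pow_of_unique_prime_dvd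
    Nat.card_pos.ne' fun hq hd => by_contra fun q2 => e ⟨_, hq, hd, q2⟩⟩
  rcases n with _ | _ | n
  · exact absurd (hY.sup_eq.ge.trans (by rw [card_eq_one.1 hn]; simp)) k2
  · exact Or.inl hn
  have pY := IsPGroup.of_card hn
  obtain ⟨X, hX, -, h4⟩ := exists_norm_card_pow (n := 2) pY pY (normG Y)
    (hn ▸ pow_dvd_pow 2 (by omega))
  have := h.l0.abS hab (abelianS hX ay) (hX.trans hY.norm) (co X hX) (xs X hX) 4
    ((Set.toFinite (A : Set G)).toFinset.erase 1) fun v hv => by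
      simp only [Finset.mem_erase, Set.Finite.mem_toFinset, SetLike.mem_coe] at hv
      refine ⟨hv.2, ?_⟩
      rw [ce v hv.2 hv.1, ← (mulEq_of_sup (hX.trans hY.norm) rfl).relIndex_eq, index_sdprod
        (sdprodEY (hX.trans hY.norm) (eq_bot_iff.2 (hY.inf_eq ▸ inf_le_inf_left A hX))), h4]
      rfl
  rw [cent_semiregular reg hX (by rintro rfl; simp at h4), card_bot, Finset.card_erase_of_mem
    (by simp), ← Set.ncard_eq_toFinset_card, ← Nat.card_coe_set_eq, SetLike.coe_sort_coe] at this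
  have h5 := Nat.le_of_dvd (by omega) dv
  have h6 : 4 ∣ Nat.card Y := hn ▸ pow_dvd_pow 2 (show 2 ≤ n + 1 + 1 by omega)
  have h7 := h6.trans dv
  have h8 : 0 < Nat.card Y := Nat.card_pos
  omega

theorem main : (∀ t ∈ T, t ≠ 1 → 𝐂₁[t] = T) ∨ ∃ (z : G) (M : Subgroup G), DData z M := by
  have hd := h.dih
  have J1 := J_ne hd
  have J2 := J_sq hd
  have Jm : σ ^ m ∈ ⟪σ⟫ := pow_mem (mem_zpowers σ) m
  have sd := (pnil h.syl hd J1 J2).sdprod (h.syl.subl hd.le_centralizer_J le_top)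
  set O := core {2}ᶜ 𝐂₁[σ ^ m]
  have iv : ∀ v ∈ T, v ∉ ⟪σ⟫ → ∀ k ∈ O, v * k * v⁻¹ = k⁻¹ := fun v hv hv' k hk =>
    h.inv J1 J2 (fun e => hv' (e ▸ one_mem _)) (hd.mul_self_of_notMem hv hv')
      (fun e => hv' (e ▸ Jm)) (hd.le_centralizer_J hv) (sd.left_le hk) (odd_of_mem (odd_core _) hk)
  have σO : ⟪σ⟫ ≤ 𝐂[O] := zpowers_le.2 (mem_cent.2 fun k hk => by
    have e := iv _ (mul_mem hd.mem_σ hd.mem_τ) (hd.mul_τ_notMem (mem_zpowers σ)) k hk
    rw [show σ * τ * k * (σ * τ)⁻¹ = σ * (τ * k * τ⁻¹) * σ⁻¹ by group, iv τ hd.mem_τ hd.notMem k hk,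
      mul_inv_eq_iff_eq_mul, mul_inv_eq_iff_eq_mul, mul_assoc, eq_inv_mul_iff_mul_eq] at e
    exact e)
  have ab : IsMulCommutative ↥(O ⊔ ⟪σ⟫) := abelianY.2 ⟨abelian_iff_forall.2 fun x hx y hy =>
    h.comm_odd J1 J2 (sd.left_le hx) (sd.left_le hy) (odd_of_mem (odd_core _) hx)
      (odd_of_mem (odd_core _) hy), cycle_abelian σ, σO⟩
  have le : O ⊔ ⟪σ⟫ ≤ 𝐂₁[σ ^ m] := sup_le sd.left_le (hd.zpowers_le.trans sd.right_le)
  have out : ∀ a ∈ 𝐂₁[σ ^ m], a ∉ O ⊔ ⟪σ⟫ → a * a = 1 ∧ a * τ ∈ O ⊔ ⟪σ⟫ := fun a ha ha' => by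
    obtain ⟨k, hk, v, hv, rfl⟩ := sd.exists_mul ha
    have hv' : v ∉ ⟪σ⟫ := fun e => ha' (mul_mem (mem_sup_left hk) (mem_sup_right e))
    refine ⟨?_, mul_assoc k v τ ▸ mul_mem (mem_sup_left hk)
      (mem_sup_right ((hd.cases v hv).resolve_left hv'))⟩
    rw [show k * v * (k * v) = k * (v * k * v⁻¹) * (v * v) by group, iv v hv hv' k hk,
      hd.mul_self_of_notMem hv hv', mul_inv_cancel, one_mul]
  have uniq : ∀ a ∈ O ⊔ ⟪σ⟫, a * a = 1 → a = 1 ∨ a = σ ^ m := fun a ha e => by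
    obtain ⟨k, hk, s, hs, rfl⟩ := (mem_join_norm (cents_norm σO)).1 ha
    rw [show k * s * (k * s) = k * (s * k) * s by group, ← mem_cent.1 (σO hs) k hk,
      show k * (k * s) * s = k * k * (s * s) by group, ← one_mul (1 : G)] at e
    obtain ⟨e1, e2⟩ := eq_of_mul_eq_of_TI sd.inf_eq (mul_mem hk hk) (one_mem _)
      (hd.zpowers_le (mul_mem hs hs)) (one_mem _) e
    rw [eq_one_of_inv (odd_of_mem (odd_core _) hk) (eq_inv_of_mul_eq_one_left e1), one_mul]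
    exact or_iff_not_imp_left.2 fun s1 => hd.eq_J hs (ord_two s1 e2)
  have τM : τ ∉ O ⊔ ⟪σ⟫ := fun e => hd.notMem ((uniq τ e hd.sq).elim (· ▸ one_mem _) (· ▸ Jm))
  have ix : (O ⊔ ⟪σ⟫).relIndex 𝐂₁[σ ^ m] = 2 := relIndex_eq_two_iff_exists_notMem_and.2
    ⟨τ, hd.le_centralizer_J hd.mem_τ, τM, fun b hb => or_iff_not_imp_right.2 fun e => (out b hb e).2⟩
  by_cases big : 4 ≤ Nat.card ↥(O ⊔ ⟪σ⟫)
  · refine Or.inr ⟨_, _, J1, J2, fun t => h.conjJ, mem_sup_right Jm, ab, le, ix,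
      fun a ha ha' => (out a ha ha').1, uniq, fun a ha a1 aJ => ?_, big, fun a a1 ho =>
        ⟨h.ab a1 ho, fun b => h.cent_eq a1 ho, h.idx a1 ho⟩⟩
    have hc : 𝐂₁[a] ≤ 𝐂₁[σ ^ m] := by
      rcases Nat.even_or_odd (orderOf a) with e | e
      · obtain ⟨z, hz, z2⟩ := exists_orderOf_two_mem_zpowers e.two_dvd
        rw [← (uniq z (zpowers_le.2 ha hz) (mul_self_eq_one_of_orderOf_two z2)).resolve_left
          (by rintro rfl; simp at z2)]
        exact cent1_le_cent1_of_mem hz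
      · exact h.cent_le J1 J2 a1 e (le ha)
    refine le_antisymm (fun x hx => by_contra fun x' => ?_) (le_cent1.2 (abelian_iff.1 ab ha))
    have e := (out (x * a) (mul_mem (hc hx) (le ha)) (mt (mul_mem_cancel_right ha).1 x')).1
    rw [show x * a * (x * a) = x * (a * x) * a by group, ← mem_cent1.1 hx,
      show x * (x * a) * a = x * x * (a * a) by group, (out x (hc hx) x').1, one_mul] at e
    exact (uniq a ha e).elim a1 aJ
  · have c1 := card_mul_relIndex le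
    have c2 := card_dvd_of_le sd.right_le
    have c3 := hd.card
    have := hd.pos
    have c4 : 0 < Nat.card ↥(O ⊔ ⟪σ⟫) := Nat.card_pos
    rw [← c1, ix, c3] at c2
    have c5 := Nat.le_of_dvd (by omega) c2
    obtain rfl : m = 1 := by omega
    rw [ix] at c1
    have e : 𝐂₁[σ ^ 1] = T := (eq_of_le_of_card_ge sd.right_le (by omega)).symm
    refine Or.inl fun t ht t1 => ?_
    by_cases ht' : t ∈ ⟪σ⟫
    · have : t * t = 1 := by
        rw [← pow_two]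
        exact orderOf_dvd_iff_pow_eq_one.1 ((orderOf_dvd_of_mem_zpowers ht').trans hd.ord.dvd)
      rwa [hd.eq_J ht' (ord_two t1 this)]
    · obtain ⟨g, -, e'⟩ := h.conj t ht ht'
      refine (eq_of_le_of_card_ge (fun x hx => mem_cent1.2 ?_) (by
        rw [e', cent1_conj, card_conj, e])).symm
      have : IsMulCommutative T := card_p2group_abelian (p := 2) c3
      exact comm_of_abelian this hx ht

end DH

end DD

theorem stD (h0 : StLoc0.{u}) (h1 : StLoc1.{u}) (h2 : StLoc2.{u}) : StD.{u} := by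
  intro G _ _ T hG ho hS h
  obtain ⟨σ, τ, m, h⟩ := DD.exists_dh hG ho (h0 G) (h1 G) (h2 G) hS h
  exact h.main

end Cfsg.Acd
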