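import Cfsg.Agent.Acd.T1

/-! S4753, piece E: elementary abelian Sylow `2`-subgroups. -/

set_option autoImplicit false
set_option maxHeartbeats 400000

namespace Cfsg.Acd

open Cfsg.FT Subgroup
open scoped Pointwise commutatorElement

universe u

namespace E

variable {G : Type*} [Group G] [Finite G]
variable {T K : Subgroup G} {a b k s t u : G} {p : ℕ}

theorem prime7 (hO : OddFact G) (hT : Syl 2 T ⊤) (hk : k ∈ 𝐂[T]) (hp : p.Prime) (h2 : p ≠ 2)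
    (ho : orderOf k = p) : Nat.card ⟪k⟫ = 7 ∧ 𝐂[⟪k⟫].relIndex 𝐍[⟪k⟫] = 3 := by
  haveI := Fact.mk hp
  have k1 : k ≠ 1 := fun e => hp.ne_one (by rw [← ho, e, orderOf_one])
  obtain ⟨P, hP, hkP⟩ := Sylow_superset (le_top : ⟪k⟫ ≤ ⊤)
    (prime_pgroup ((Nat.card_zpowers k).trans ho))
  have kP := hkP (mem_zpowers k)
  obtain ⟨-, -, ⟨u, hu, hu'⟩ | ⟨h7, h3⟩⟩ := hO p hp h2 P hP (ne_bot_of_mem kP k1)
  · have e := hu' k kP
    have h1 : u ∈ 𝐍[⟪k⟫] := conj_eq_iff_mem_norm.1 (by rw [conj_zpowers, e, zpowers_inv])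
    have h3 : T ≤ 𝐂[⟪k⟫] := centsC.1 (zpowers_le.2 hk)
    obtain ⟨g, hg, h4⟩ := Sylow_subJ (hT.subl (h3.trans (cent_sub _)) le_top) (zpowers_le.2 h1) hu
    have h5 := mem_cent.1 ((h4.trans (conj_le_of_mem_norm (cent_norm _ hg) h3)) (mem_zpowers u)) k
      (mem_zpowers k)
    rw [← h5, mul_inv_cancel_right, eq_inv_iff_mul_eq_one, ← sq] at e
    exact absurd ((Nat.prime_dvd_prime_iff_eq hp Nat.prime_two).1
      (ho ▸ orderOf_dvd_of_pow_eq_one e)) h2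
  · obtain rfl := nt_gen_prime (h7 ▸ (by norm_num : Nat.Prime 7)) kP k1
    exact ⟨h7, h3⟩

theorem no_odd (H : Acd.T.Ctx G) (hO : OddFact G) (hT : Syl 2 T ⊤) (h : Sp T K)
    (ha : IsMulCommutative T) (hk : k ∈ 𝐂[T]) (hp : p.Prime) (h2 : p ≠ 2) (ho : orderOf k = p) :
    False := by
  classical
  obtain ⟨h7, h3⟩ := prime7 hO hT hk hp h2 ho
  have kT : ⟪k⟫ ≤ 𝐂[T] := zpowers_le.2 hk
  rw [(Frattini_arg (cent_normal ⟪k⟫) (hT.subl (centsC.1 kT) le_top)).relIndex_eq] at h3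
  generalize ⟪k⟫ = P at *
  have P7 : (Nat.card P).Prime := h7 ▸ (by norm_num : Nat.Prime 7)
  obtain ⟨X, hX⟩ := Sylow_exists 3 (𝐍[P] ⊓ 𝐍[T])
  obtain ⟨x, hx, hx'⟩ := SetLike.not_le_iff_exists.1 fun e : X ≤ 𝐂[P] =>
    hX.index (h3 ▸ indexgS _ e)
  have x3 : IsPGroup 3 ⟪x⟫ := hX.pgroup.to_le (zpowers_le.2 hx)
  have xP : ⟪x⟫ ≤ 𝐍[P] := zpowers_le.2 (hX.le hx).1
  have xT : ⟪x⟫ ≤ 𝐍[T] := zpowers_le.2 (hX.le hx).2
  have ti : 𝐂[T] ⊓ ⟪x⟫ = ⊥ := by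
    by_contra hn
    obtain ⟨y, hy, y3⟩ := exists_order_p x3.to_inf_right hn
    have := (prime7 hO hT hy.1 Nat.prime_three (by norm_num) y3).1
    rw [Nat.card_zpowers, y3] at this
    omega
  have xo := odd_card_of_pgroup x3 (by norm_num)
  have hs := sp_comm h.two (cycle_abelian x) xo xT fun e => hx' (by
    rw [mem_bot.1 (ti.le ⟨e (mem_zpowers x), mem_zpowers x⟩)]; exact one_mem _)
  rw [← H.s2 h hs ((commg_subl.2 xT).trans (abelian_iff.1 ha))] at hs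
  have c3 : Nat.card ⟪x⟫ = 3 := by
    have h4 := (H.l0.spPrime hs (H.xs hs)).1
    rw [← inf_relIndex_right, ti, relIndex_bot_left] at h4
    obtain ⟨n, hn⟩ := exists_card_pgroup x3
    rw [hn] at h4 ⊢
    rw [h4.eq_one_of_pow, pow_one]
  have cV := sdprod_card (sdprodEY (cents_norm kT) (coprime_TIg (coprime_of_two_odd h.two
    (h7 ▸ (by decide : Odd 7)))))
  have hV : (T ⊔ P) ⊓ 𝐂[⟪x⟫] = ⊥ := by
    rw [coprime_cent_join (cents_norm kT) xT xP hs.coprime (solOr_cycle _ _), H.ti hs ha,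
      prime_TIg P7 fun e => hx' (centsC.1 e (mem_zpowers x)), bot_sup_eq]
  have := H.l0.abS (abelianY.2 ⟨ha, cyclic_abelian (prime_cyclic P7), kT⟩) (cycle_abelian x)
    (normsY xT xP) (by rw [← cV]; exact Nat.Coprime.mul_left hs.coprime (by rw [h7, c3]; norm_num))
    (H.ms.xs_of_norm h.ne (pgroup_sol h.two) (sup_le (sup_le (normG T) (cents_norm kT)) xT)) 3
    ((Set.toFinite ((T ⊔ P : Subgroup G) : Set G)).toFinset.erase 1) fun v hv => by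
      rw [Finset.mem_erase, Set.Finite.mem_toFinset] at hv
      refine ⟨hv.2, ((Nat.dvd_prime Nat.prime_three).1 (c3 ▸ FT.relIndex_dvd_card _ _)).resolve_left
        fun e => hv.1 ?_⟩
      exact mem_bot.1 (hV ▸ (⟨hv.2, le_cent1.1 (relIndex_eq_one.1 e)⟩ : v ∈ (T ⊔ P) ⊓ 𝐂[⟪x⟫]))
  rw [hV, card_bot, Finset.card_erase_of_mem (by simp), ← Set.ncard_eq_toFinset_card,
    ← Nat.card_coe_set_eq] at this
  change (Nat.card ↥(T ⊔ P) - 1) * _ ≤ _ at this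
  have h5 := (one_lt_card_iff_ne_bot T).2 h.ne
  rw [← cV, h7] at this
  omega

theorem cent_eq (H : Acd.T.Ctx G) (hO : OddFact G) (hT : Syl 2 T ⊤) (h : Sp T K)
    (ha : IsMulCommutative T) : 𝐂[T] = T := by
  refine le_antisymm (le_of_exists_syl fun p hp hd => ?_) (abelian_iff.1 ha)
  by_cases h2 : p = 2
  · exact ⟨T, h2 ▸ hT.subl (abelian_iff.1 ha) le_top, le_rfl⟩
  obtain ⟨k, hk, ho⟩ := Cauchy hp hd
  exact (no_odd H hO hT h ha hk hp h2 ho).elim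

theorem pnil (H : Acd.T.Ctx G) (hT : Syl 2 T ⊤) (h : Sp T K) (ha : IsMulCommutative T) (ht : t ∈ T)
    (t1 : t ≠ 1) : PNil 2 𝐂₁[t] := by
  have hl : T ≤ 𝐂₁[t] := le_cent1.2 (abelian_iff.1 ha ht)
  refine Burnside_normal_complement (hT.subl hl le_top) (le_of_exists_syl fun p hp _ => ?_)
  by_cases h2 : p = 2
  · exact ⟨T, h2 ▸ hT.subl (le_inf hl (normG T)) le_top, abelian_iff.1 ha⟩
  haveI := Fact.mk hp
  obtain ⟨R, hR⟩ := Sylow_exists p (𝐂₁[t] ⊓ 𝐍[T])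
  refine ⟨R, hR, fun y hy => ?_⟩
  by_contra hc
  have yT : ⟪y⟫ ≤ 𝐍[T] := zpowers_le.2 (hR.le hy).2
  have hs := sp_comm h.two (cycle_abelian y)
    (odd_card_of_pgroup (hR.pgroup.to_le (zpowers_le.2 hy)) h2) yT fun e => hc (e (mem_zpowers y))
  rw [← H.s2 h hs ((commg_subl.2 yT).trans (abelian_iff.1 ha))] at hs
  exact t1 (mem_bot.1 (H.ti hs ha ▸ (⟨ht, by rw [cent_cycle]; exact cent1C.1 (hR.le hy).1⟩ :
    t ∈ T ⊓ 𝐂[⟪y⟫])))

/-- odd elements inverted by half of `T` -/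
def Inv (T : Subgroup G) : Set G :=
  {a | PiElt {2}ᶜ a ∧ a ∉ 𝐂[T] ∧ ∀ s ∈ T, s * a * s⁻¹ = a ∨ s * a * s⁻¹ = a⁻¹}

theorem Inv.idx (h : a ∈ Inv T) : 𝐂₁[a].relIndex T ≤ 2 := by
  obtain ⟨s, hs, hs'⟩ := SetLike.not_le_iff_exists.1 (mt le_cent1.1 h.2.1)
  have key : ∀ r ∈ T, r ∉ 𝐂₁[a] → r * a * r⁻¹ = a⁻¹ := fun r hr hr' =>
    (h.2.2 r hr).resolve_left fun e => hr' (mem_cent1.2 (mul_inv_eq_iff_eq_mul.1 e))
  refine (relIndex_eq_two_iff.2 ⟨s, hs, fun b hb => ?_⟩).le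
  by_cases e : b ∈ 𝐂₁[a]
  · exact .inr ⟨e, fun e' => hs' ((𝐂₁[a].mul_mem_cancel_left e).1 e')⟩
  refine .inl ⟨mem_cent1.2 (mul_inv_eq_iff_eq_mul.1 ?_), e⟩
  calc b * s * a * (b * s)⁻¹ = b * (s * a * s⁻¹) * b⁻¹ := by group
    _ = (b * a * b⁻¹)⁻¹ := by rw [key s hs hs']; group
    _ = a := by rw [key b hb e, inv_inv]

theorem Inv.mem_comm {U : Subgroup G} (h : a ∈ Inv T) (hs : s ∈ T) (hs' : s ∉ 𝐂₁[a]) (hU : a ∈ U) :
    a ∈ ⁅U, ⟪s⟫⁆ := by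
  have e := (h.2.2 s hs).resolve_left fun e => hs' (mem_cent1.2 (mul_inv_eq_iff_eq_mul.1 e))
  have h1 := mem_commg hU (mem_zpowers s)
  have e' : ⁅a, s⁆ = a ^ 2 := by
    calc ⁅a, s⁆ = a * (s * a * s⁻¹)⁻¹ := by rw [commutatorElement_def]; group
      _ = a ^ 2 := by rw [e, inv_inv, sq]
  obtain ⟨m, hm⟩ := exists_pow_eq_self_of_coprime (x := a) (n := 2)
    ((Nat.Prime.coprime_iff_not_dvd Nat.prime_two).2 (piElt_compl.1 h.1))
  exact hm ▸ pow_mem (e' ▸ h1) m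

theorem Inv.comm (H : Acd.T.Ctx G) (hT : Syl 2 T ⊤) (h : Sp T K) (hA : IsMulCommutative T)
    (h8 : 8 ≤ Nat.card T) (ha : a ∈ Inv T) (hb : b ∈ Inv T) : a * b = b * a := by
  obtain ⟨u, hu, u1⟩ := exists_ne_one (A := 𝐂₁[a] ⊓ 𝐂₁[b] ⊓ T) fun e => by
    have h1 := relIndex_inf_le (H := 𝐂₁[a]) (K := 𝐂₁[b]) (L := T)
    rw [← inf_relIndex_right, e, relIndex_bot_left] at h1
    have := Nat.mul_le_mul (Inv.idx ha) (Inv.idx hb)
    omega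
  obtain ⟨s, hs, sa, sb⟩ : ∃ s ∈ T, s ∉ 𝐂₁[a] ∧ s ∉ 𝐂₁[b] := by
    obtain ⟨s, hs, hs'⟩ := SetLike.not_le_iff_exists.1 (mt le_cent1.1 ha.2.1)
    obtain ⟨r, hr, hr'⟩ := SetLike.not_le_iff_exists.1 (mt le_cent1.1 hb.2.1)
    by_cases e : s ∈ 𝐂₁[b]
    · by_cases e' : r ∈ 𝐂₁[a]
      · exact ⟨s * r, mul_mem hs hr, fun e => hs' ((𝐂₁[a].mul_mem_cancel_right e').1 e),
          fun e' => hr' ((𝐂₁[b].mul_mem_cancel_left e).1 e')⟩
      · exact ⟨r, hr, e', hr'⟩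
    · exact ⟨s, hs, hs', e⟩
  have hn := pNil_iff_forall.1 (pnil H hT h hA hu.2 u1)
  have hO := pcore_normal {2}ᶜ 𝐂₁[u]
  have su : ⟪s⟫ ≤ 𝐂₁[u] := zpowers_le.2 (mem_cent1.2 (comm_of_abelian hA hs hu.2))
  exact comm_of_abelian (H.l0.odd (odd_core 𝐂₁[u]) (cycle_abelian s) (su.trans hO.norm)
    (coprime_of_two_odd (h.two.to_le (zpowers_le.2 hs)) (odd_core _)).symm
    ((H.ms.xs_cent1 u1).mono (sup_le hO.le su)))
    (Inv.mem_comm ha hs sa (hn a (cent1C.1 hu.1.1) ha.1))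
    (Inv.mem_comm hb hs sb (hn b (cent1C.1 hu.1.2) hb.1))

theorem Inv.empty (H : Acd.T.Ctx G) (hT : Syl 2 T ⊤) (h : Sp T K) (hA : IsMulCommutative T)
    (h8 : 8 ≤ Nat.card T) (ha : a ∈ Inv T) : False := by
  have h1 : IsMulCommutative (closure (Inv T)) := abelian_iff.2 (by
    rw [cent_closure, closure_le]
    exact fun x hx => mem_centralizer_iff.2 fun y hy => Inv.comm H hT h hA h8 hy hx)
  have h2 : closure (Inv T) ≤ core {2}ᶜ (closure (Inv T)) := (closure_le _).2 fun x hx =>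
    pNil_iff_forall.1 (nil_pNil 2 (abelian_nil h1)) x (subset_closure hx) hx.1
  have h3 : 𝐍[T] ≤ 𝐍[closure (Inv T)] := norms_gen fun g hg x hx => by
    refine ⟨hx.1.conj g, fun e => hx.2.1 ((memJ_norm (cent_norm T hg)).1 e), fun s hs => ?_⟩
    have e : s * (g * x * g⁻¹) * s⁻¹ = g * (g⁻¹ * s * g * x * (g⁻¹ * s * g)⁻¹) * g⁻¹ := by group
    rcases hx.2.2 _ ((memJ_norm' hg).2 hs) with e' | e' <;> rw [e, e']
    · exact .inl rfl
    · exact .inr (by group)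
  have h4 := H.l1.wc h (oddSg h2 (odd_core _)) ((normG T).trans h3) (h.norm.trans h3)
    (H.ms.xs_of_norm (ne_bot_of_mem (subset_closure ha) fun e => ha.2.1 (e ▸ one_mem _))
      (abelian_sol h1) (sup_le (sup_le (normG _) ((normG T).trans h3)) (h.norm.trans h3)))
  exact ha.2.1 (centsC.1 h4 (subset_closure ha))

theorem cent1_eq (H : Acd.T.Ctx G) (hT : Syl 2 T ⊤) (h : Sp T K) (he : IsElementaryAbelian 2 T)
    (hC : 𝐂[T] = T) (h8 : 8 ≤ Nat.card T) (ht : t ∈ T) (t1 : t ≠ 1) : 𝐂₁[t] = T := by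
  have hl : T ≤ 𝐂₁[t] := le_cent1.2 (abelian_iff.1 he.1 ht)
  have hO := pcore_normal {2}ᶜ 𝐂₁[t]
  have hTO := hl.trans hO.norm
  have h1 : core {2}ᶜ 𝐂₁[t] ≤ 𝐂[T] := by
    refine coprime_abelian_gen_cent_le he.1 hTO (coprime_of_two_odd h.two (odd_core _)).symm
      fun B hB hc a ha => ?_
    obtain ⟨s, hs, e⟩ := exists_join_cycle_of_cyclic_quo (sub_abelian_normal he.1 hB) hc
    have ss : s * s = 1 := sq s ▸ he.2 s hs
    have sB : ⟪s⟫ ≤ 𝐍[B] := (zpowers_le.2 hs).trans (sub_abelian_norm he.1 hB)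
    by_contra hn
    have hb : a * (s * a * s⁻¹)⁻¹ ∈ core {2}ᶜ 𝐂₁[t] ⊓ 𝐂[B] := mul_mem ha (inv_mem
      ((memJ_norm (normsI hTO (norms_cent (sub_abelian_norm he.1 hB)) hs)).2 ha))
    have b1 : a * (s * a * s⁻¹)⁻¹ ≠ 1 := fun e' => hn (by
      rw [e, centY, cent_cycle]
      exact ⟨ha.2, mem_cent1.2 (eq_mul_inv_iff_mul_eq.1 (mul_inv_eq_one.1 e'))⟩)
    have bi : s * (a * (s * a * s⁻¹)⁻¹) * s⁻¹ = (a * (s * a * s⁻¹)⁻¹)⁻¹ := by
      calc s * (a * (s * a * s⁻¹)⁻¹) * s⁻¹ = s * a * s⁻¹ * (s * s) * a⁻¹ * (s * s)⁻¹ := by group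
        _ = _ := by rw [ss]; group
    generalize a * (s * a * s⁻¹)⁻¹ = b at hb b1 bi
    have bo := (pcore_pgroup _ _).piElt hb.1
    refine Inv.empty H hT h he.1 h8 (a := b) ⟨bo, fun e' => ?_, fun r hr => ?_⟩
    · rw [mem_cent.1 e' s hs, mul_inv_cancel_right, eq_inv_iff_mul_eq_one, ← sq] at bi
      exact piElt_compl.1 bo (orderOf_eq_prime bi b1 ▸ dvd_rfl)
    · obtain ⟨y, hy, c, hc, rfl⟩ := (mem_join_norm' sB).1 (e ▸ hr)
      have e' : y * c * b * (y * c)⁻¹ = y * b * y⁻¹ := by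
        rw [mul_assoc y, mem_cent.1 hb.2 c hc]; group
      rcases Acd.T.cyc2 ss hy with rfl | rfl
      · exact .inl (by simpa using e')
      · exact .inr (e'.trans bi)
  rw [hC] at h1
  rw [← Hall.sup_eq (hT.subl hl le_top).hall (pnil H hT h he.1 ht t1), sup_eq_left.2 h1]

end E

theorem stE (h0 : StLoc0.{u}) (h1 : StLoc1.{u}) (h2 : StLoc2.{u}) : StE.{u} := by
  rintro G _ _ S hG hO hS ⟨K, h, he⟩
  have H : T.Ctx G := ⟨hG, h0 G, h1 G, h2 G⟩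
  have hC := E.cent_eq H hO hS h he.1
  exact ⟨hC, fun h8 t ht t1 => E.cent1_eq H hS h he hC h8 ht t1⟩

end Cfsg.Acd
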