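import Cfsg.Agent.Acd.Loc1B

/-! Second layer, part D: an involution inverting an abelian group of odd order. -/

set_option autoImplicit false
set_option linter.style.haveILetI false
set_option linter.unusedSectionVars false

namespace Cfsg.Acd.L1

open Subgroup Cfsg.FT
open scoped Pointwise Classical

variable {G : Type*} [Group G] [Finite G] {K V W L T A C P X : Subgroup G} {x y u k a b c : G}

/-- the elements fixing or inverting `a` -/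
def pm (a : G) : Subgroup G where
  carrier := {w | w * a * w⁻¹ = a ∨ w * a * w⁻¹ = a⁻¹}
  one_mem' := Or.inl (by group)
  mul_mem' := by
    intro v w hv hw
    have e : v * w * a * (v * w)⁻¹ = v * (w * a * w⁻¹) * v⁻¹ := by group
    simp only [Set.mem_ofPred_eq] at *
    rcases hw with h | h <;> rw [e, h]
    · exact hv
    · rw [← conj_inv, inv_eq_iff_eq_inv, inv_inj]; exact hv.symm
  inv_mem' := by
    intro w hw
    simp only [Set.mem_ofPred_eq] at *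
    rcases hw with h | h
    · left; nth_rewrite 1 [← h]; group
    · right; nth_rewrite 1 [← inv_inv a, ← h]; group

theorem eig_of (ha : a ∈ A) (h1 : a ≠ 1) (hx : x * a * x⁻¹ = a ∨ x * a * x⁻¹ = a⁻¹)
    (hy : y * a * y⁻¹ = a ∨ y * a * y⁻¹ = a⁻¹) : Eig A (⟪x⟫ ⊔ ⟪y⟫) a :=
  ⟨ha, h1, fun _ hw => (sup_le (zpowers_le.2 hx) (zpowers_le.2 hy) : ⟪x⟫ ⊔ ⟪y⟫ ≤ pm a) hw⟩

theorem conj_split (h : A ⊓ C = ⊥) (hA : k ∈ 𝐍[A]) (hC : k ∈ 𝐍[C]) (ha : a ∈ A) (hc : c ∈ C)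
    {a' c' : G} (ha' : a' ∈ A) (hc' : c' ∈ C) (e : a' * c' = k * (a * c) * k⁻¹) :
    a' = k * a * k⁻¹ ∧ c' = k * c * k⁻¹ :=
  eq_of_mul_eq_of_TI h ha' ((memJ_norm hA).2 ha) hc' ((memJ_norm hC).2 hc) (by rw [e, conj_mul])

theorem cent_split (h : A ⊓ C = ⊥) (hA : k ∈ 𝐍[A]) (hC : k ∈ 𝐍[C]) (ha : a ∈ A) (hc : c ∈ C)
    (e : k ∈ 𝐂₁[a * c]) : k ∈ 𝐂₁[a] ∧ k ∈ 𝐂₁[c] :=
  (conj_split h hA hC ha hc ha hc (conj_of_cent e).symm).imp (fun e => cent_of_conj e.symm)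
    fun e => cent_of_conj e.symm

theorem pow_idx_mem (hK : IsMulCommutative K) (hx : x ∈ K) : x ^ T.relIndex K ∈ T := by
  haveI := hK
  exact pow_index_mem (T.subgroupOf K) ⟨x, hx⟩

theorem five_le_idx (hK : IsMulCommutative K) (hu : u ∈ K) (hx : x ∈ K) (hu2 : u * u = 1)
    (ho : Odd (orderOf x)) (h1 : u ∉ T) (h2 : x ∉ T) : 5 ≤ T.relIndex K := by
  have a1 := pow_idx_mem (T := T) hK hu
  have a2 := pow_idx_mem (T := T) hK hx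
  have a3 := relIndex_pos T K
  by_contra h
  have b1 : ¬ (T.relIndex K).Coprime 2 := fun e =>
    h1 (mem_of_pow_coprime a1 (by rw [pow_two, hu2]; exact T.one_mem) e)
  have b2 : ¬ (T.relIndex K).Coprime (orderOf x) := fun e =>
    h2 (mem_of_pow_coprime a2 (by rw [pow_orderOf_eq_one]; exact T.one_mem) e)
  have b3 := Nat.coprime_two_left.2 ho
  rcases (by omega : T.relIndex K = 1 ∨ T.relIndex K = 2 ∨ T.relIndex K = 3 ∨ T.relIndex K = 4)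
    with e | e | e | e <;> rw [e] at b1 b2
  · exact b1 (by norm_num)
  · exact b2 b3
  · exact b1 (by norm_num)
  · exact b2 (Nat.Coprime.pow_left 2 b3)

theorem idx_lt (hl : ∀ k ∈ K, k ∈ T → k ∈ L) (hk : k ∈ K) (h1 : k ∈ L) (h2 : k ∉ T) :
    L.relIndex K < T.relIndex K := by
  have e := relIndex_mul_relIndex (T ⊓ K) (L ⊓ K) K (fun k h => ⟨hl k h.2 h.1, h.2⟩) inf_le_right
  rw [inf_relIndex_right, inf_relIndex_right] at e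
  have a1 := relIndex_pos (T ⊓ K) (L ⊓ K)
  have a2 : (T ⊓ K).relIndex (L ⊓ K) ≠ 1 := fun h => h2 (relIndex_eq_one.1 h (mem_inf.2 ⟨h1, hk⟩)).1
  have a3 := relIndex_pos L K
  have : 2 * L.relIndex K ≤ _ := Nat.mul_le_mul_right _ (by omega : 2 ≤ (T ⊓ K).relIndex (L ⊓ K))
  omega

theorem exists_sq_mem (hy : IsPGroup 2 ⟪y⟫) (h : y ∉ T) : ∃ x ∈ ⟪y⟫, x ∉ T ∧ x * x ∈ T := by
  obtain ⟨n, hn⟩ := hy ⟨y, mem_zpowers y⟩
  have hn' : y ^ 2 ^ n ∈ T := by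
    have : y ^ 2 ^ n = 1 := congrArg Subtype.val hn
    rw [this]; exact T.one_mem
  clear hn
  induction n with
  | zero => exact absurd (by simpa using hn') h
  | succ n ih =>
    by_cases h' : y ^ 2 ^ n ∈ T
    · exact ih h'
    · exact ⟨_, npow_mem_zpowers y _, h', by rwa [← pow_two, ← pow_mul, ← pow_succ]⟩

theorem inv_step (h : Loc0 G) (hP : IsMulCommutative P) (ho : Odd (Nat.card P))
    (hX : IsMulCommutative X) (hn : X ≤ 𝐍[P]) (hc : (Nat.card P).Coprime (Nat.card X))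
    (hx : XS (P ⊔ X)) (hf : X ⊓ 𝐂[P] = ⊥) (h0 : P ⊓ 𝐂[X] = ⊥) (hu : u ∈ X) (hu2 : u * u = 1)
    (hu1 : u ≠ 1) (hC : P ⊓ 𝐂₁[u] ≠ ⊥) :
    ∃ v ∈ X, v * v = 1 ∧ v ≠ 1 ∧ ⁅P, ⟪u⟫⁆ < ⁅P, ⟪v⟫⁆ := by
  have hU : ⟪u⟫ ≤ X := zpowers_le.2 hu
  have hd := coprime_abelian_cent_dprod (hU.trans hn) (coprimegS hU hc) hP
  rw [cent_cycle] at hd
  have hi := h.inv ho (pgroup_cycle2 hu2) (hn hu) (hu2 ▸ one_mem _) (hx.mono (sup_le_sup_left hU _))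
  have hA1 : ⁅P, ⟪u⟫⁆ ≠ ⊥ := fun e =>
    hu1 (mem_bot.1 (hf ▸ mem_inf.2 ⟨hu, commG1P'.1 e (mem_zpowers u)⟩))
  have hXA : X ≤ 𝐍[⁅P, ⟪u⟫⁆] := normsR hn (sub_abelian_norm hX hU)
  have hXC : X ≤ 𝐍[P ⊓ 𝐂₁[u]] := normsI hn (norms_cent1 (le_cent1.2 (abelian_iff.1 hX hu)))
  have hCu : P ⊓ 𝐂₁[u] ≤ 𝐂₁[u] := inf_le_right
  generalize ⁅P, ⟪u⟫⁆ = A at *
  generalize P ⊓ 𝐂₁[u] = C at *
  have hAP := hd.left_le
  have hCP := hd.right_le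
  have hAo := oddSg hAP ho
  have hCo := oddSg hCP ho
  have uA : ∀ a ∈ A, a ≠ 1 → u ∉ 𝐂₁[a] := fun a ha h1 e =>
    h1 (eq_one_of_inv hAo ha (by rw [← hi a ha, conj_of_cent e]))
  have uC : ∀ c ∈ C, u ∈ 𝐂₁[c] := fun c hc => cent1C.1 (hCu hc)
  -- the configuration attached to an element not centralising `C`
  have conf : ∀ x ∈ X, x ∉ 𝐂[C] → ∃ D ≤ C, D ≠ ⊥ ∧ D = ⁅C, ⟪x⟫⁆ ∧ X ≤ 𝐍[D] ∧
      (∀ c ∈ D, c ≠ 1 → x ∉ 𝐂₁[c]) ∧ (A ⊔ D) ⊓ 𝐂[⟪u⟫ ⊔ ⟪x⟫] = ⊥ := by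
    intro x hx h1
    have hX' : ⟪x⟫ ≤ X := zpowers_le.2 hx
    have hD : ⁅C, ⟪x⟫⁆ ≤ C := commg_subl.2 (hX'.trans hXC)
    have hXD : X ≤ 𝐍[⁅C, ⟪x⟫⁆] := normsR hXC (sub_abelian_norm hX hX')
    have ht := coprime_abel_cent_TI (hX'.trans hXC) (coprimeSg hCP (coprimegS hX' hc))
      (abelianS hCP hP)
    rw [cent_cycle] at ht
    have xD : ∀ c ∈ ⁅C, ⟪x⟫⁆, c ≠ 1 → x ∉ 𝐂₁[c] := fun c hc h1 e =>
      h1 (mem_bot.1 (ht ▸ mem_inf.2 ⟨hc, cent1C.1 e⟩))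
    refine ⟨_, hD, fun e => h1 (commG1P'.1 e (mem_zpowers x)), rfl, hXD, xD, eq_bot_iff.2 ?_⟩
    rintro v ⟨hv, hv'⟩
    obtain ⟨a, ha, c, hc, rfl⟩ := (mem_join_norm (hD.trans (cents_norm hd.cent))).1 hv
    rw [SetLike.mem_coe, centY, cent_cycle, cent_cycle] at hv'
    have e1 : a = 1 := by
      by_contra e
      exact uA a ha e (cent_split hd.inf_eq (hXA hu) (hXC hu) ha (hD hc) (cent1C.1 hv'.1)).1
    have e2 : c = 1 := by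
      by_contra e
      exact xD c hc e (cent_split hd.inf_eq (hXA hx) (hXC hx) ha (hD hc) (cent1C.1 hv'.2)).2
    rw [e1, e2, mul_one]; exact one_mem _
  obtain ⟨y, hy, hyC⟩ : ∃ y ∈ X, y ∉ 𝐂[C] := by
    by_contra e
    push Not at e
    exact hC (eq_bot_iff.2 (h0 ▸ le_inf hCP (centsC.1 e)))
  by_cases hy2 : constt {2} y ∈ 𝐂[C]
  · exfalso
    have hx' := constt_mem {2}ᶜ hy
    have xo : Odd (orderOf (constt {2}ᶜ y)) := Nat.not_even_iff_odd.1 fun e =>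
      piElt_compl.1 (p_elt_constt {2}ᶜ y) (even_iff_two_dvd.1 e)
    have xC : constt {2}ᶜ y ∉ 𝐂[C] := fun e => hyC (consttC {2} y ▸ mul_mem hy2 e)
    generalize constt {2}ᶜ y = x at *
    obtain ⟨D, hD, hD1, -, hXD, xD, h3⟩ := conf x hx' xC
    have hK : ⟪u⟫ ⊔ ⟪x⟫ ≤ X := sup_le hU (zpowers_le.2 hx')
    have hV : A ⊔ D ≤ P := sup_le hAP (hD.trans hCP)
    obtain ⟨a, ha, a1⟩ := exists_ne_one hA1
    obtain ⟨c, hc', c1⟩ := exists_ne_one hD1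
    have idx : ∀ c ∈ D, c ≠ 1 → 5 ≤ 𝐂₁[a * c].relIndex (⟪u⟫ ⊔ ⟪x⟫) := fun c hc c1 =>
      five_le_idx (abelianS hK hX) (mem_sup_left (mem_zpowers u)) (mem_sup_right (mem_zpowers x))
        hu2 xo (fun e => uA a ha a1 (cent_split hd.inf_eq (hXA hu) (hXC hu) ha (hD hc) e).1)
        fun e => xD c hc c1 (cent_split hd.inf_eq (hXA hx') (hXC hx') ha (hD hc) e).2
    refine abR2 h (abelianS hV hP) (abelianS hK hX) (hK.trans (normsY hXA hXD))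
      (coprimeSg hV (coprimegS hK hc)) (hx.mono (sup_le_sup hV hK)) h3
      (mul_mem_sup ha hc') (mul_mem_sup ha (D.inv_mem hc')) (le_trans (by norm_num) (idx c hc' c1))
      (idx _ (D.inv_mem hc') (inv_ne_one.2 c1)) fun k hk e => ?_
    have e1 := (conj_split hd.inf_eq (hXA (hK hk)) (hXC (hK hk)) ha (hD hc') ha
      (C.inv_mem (hD hc')) e).2
    obtain ⟨s, hs, t, ht, rfl⟩ := (mem_join_norm' ((zpowers_le.2 hx').trans
      (sub_abelian_norm hX hU))).1 hk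
    have e2 : t * c * t⁻¹ = c := conj_of_cent (zpowers_le.2 (uC c (hD hc')) ht)
    rw [show s * t * c * (s * t)⁻¹ = s * (t * c * t⁻¹) * s⁻¹ by group, e2] at e1
    have e3 : s ∈ 𝐂₁[c] := mem_of_sq_odd (Odd.of_dvd_nat xo (orderOf_dvd_of_mem_zpowers hs))
      (cent_of_conj (by
        rw [show s * s * c * (s * s)⁻¹ = s * (s * c * s⁻¹) * s⁻¹ by group, ← e1, ← conj_inv, ← e1,
          inv_inv]))
    exact c1 (eq_one_of_inv hCo (hD hc') (by rw [e1, conj_of_cent e3]))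
  have y2 := piElt_singleton_iff_pgroup.1 (p_elt_constt {2} y)
  obtain ⟨x, hx1, xC, xx⟩ := exists_sq_mem y2 hy2
  have hx' : x ∈ X := zpowers_le.2 (constt_mem {2} hy) hx1
  have x2 : IsPGroup 2 ⟪x⟫ := y2.to_le (zpowers_le.2 hx1)
  have hX' : ⟪x⟫ ≤ X := zpowers_le.2 hx'
  obtain ⟨D, hD, hD1, eD, hXD, xD, h3⟩ := conf x hx' xC
  have xi := h.inv hCo x2 (hXC hx') xx (hx.mono (sup_le_sup hCP hX'))
  rw [← eD] at xi
  have hK : ⟪u⟫ ⊔ ⟪x⟫ ≤ X := sup_le hU hX'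
  have hV : A ⊔ D ≤ P := sup_le hAP (hD.trans hCP)
  have hK2 : IsPGroup 2 ↥(⟪u⟫ ⊔ ⟪x⟫) :=
    pgroup_sup (pgroup_cycle2 hu2) x2 (hX'.trans (sub_abelian_norm hX hU))
  have uK : u ∈ ⟪u⟫ ⊔ ⟪x⟫ := mem_sup_left (mem_zpowers u)
  have xK : x ∈ ⟪u⟫ ⊔ ⟪x⟫ := mem_sup_right (mem_zpowers x)
  have ux : u * x * (u * x) = x * x := by
    rw [comm_of_abelian hX hu hx', mul_assoc, ← mul_assoc u, comm_of_abelian hX hu hx',
      mul_assoc, hu2, mul_one]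
  obtain ⟨c, hc', c1⟩ := exists_ne_one hD1
  have xA : x * x ∈ 𝐂[A] := by
    by_contra e
    obtain ⟨a, ha, e1⟩ : ∃ a ∈ A, x * x ∉ 𝐂₁[a] := by
      by_contra e'
      push Not at e'
      exact e (mem_cent.2 fun a ha => (mem_cent1.1 (e' a ha)).symm)
    have a1 : a ≠ 1 := by rintro rfl; exact e1 (by simp)
    have st : ∀ c ∈ D, ∀ k ∈ ⟪u⟫ ⊔ ⟪x⟫, k ∈ 𝐂₁[a * c] → k ∈ 𝐂₁[a] ∧ k ∈ 𝐂₁[c] := fun c hc k hk e =>
      cent_split hd.inf_eq (hXA (hK hk)) (hXC (hK hk)) ha (hD hc) e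
    have idx : ∀ c ∈ D, 4 ≤ 𝐂₁[a * c].relIndex (⟪u⟫ ⊔ ⟪x⟫) := fun c hc =>
      four_le_idx hK2 uK xK (fun e => uA a ha a1 (st c hc u uK e).1)
        (fun e => e1 (mul_mem (st c hc x xK e).1 (st c hc x xK e).1))
        fun e => e1 (ux ▸ mul_mem (st c hc _ (mul_mem uK xK) e).1 (st c hc _ (mul_mem uK xK) e).1)
    have idx1 := idx 1 D.one_mem
    rw [mul_one] at idx1
    have nc : ∀ c ∈ D, c ≠ 1 → ∀ k ∈ ⟪u⟫ ⊔ ⟪x⟫, a * c ≠ k * a * k⁻¹ := fun c hc c1 k hk e =>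
      c1 (by simpa using (conj_split hd.inf_eq (hXA (hK hk)) (hXC (hK hk)) ha C.one_mem ha (hD hc)
        (by rw [e, mul_one])).2)
    by_cases e2 : ∃ k ∈ ⟪u⟫ ⊔ ⟪x⟫, k ∈ 𝐂₁[a] ∧ k ∉ 𝐂₁[c]
    · obtain ⟨k, hk, k1, k2⟩ := e2
      exact abR2 h (abelianS hV hP) (abelianS hK hX) (hK.trans (normsY hXA hXD))
        (coprimeSg hV (coprimegS hK hc)) (hx.mono (sup_le_sup hV hK)) h3 (mem_sup_left ha)
        (mul_mem_sup ha hc') idx1 (lt_of_le_of_lt idx1 (idx_lt (fun k hk e => (st c hc' k hk e).1)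
          hk k1 fun e => k2 (st c hc' k hk e).2)) (nc c hc' c1)
    · push Not at e2
      refine abR3 h (abelianS hV hP) (abelianS hK hX) (hK.trans (normsY hXA hXD))
        (coprimeSg hV (coprimegS hK hc)) (hx.mono (sup_le_sup hV hK)) h3 (mem_sup_left ha)
        (mul_mem_sup ha hc') (mul_mem_sup ha (D.inv_mem hc')) idx1 (idx c hc') (idx _ (D.inv_mem hc'))
        (nc c hc' c1) (nc _ (D.inv_mem hc') (inv_ne_one.2 c1)) fun k hk e => ?_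
      obtain ⟨f1, f2⟩ := conj_split hd.inf_eq (hXA (hK hk)) (hXC (hK hk)) ha (hD hc') ha
        (C.inv_mem (hD hc')) e
      exact c1 (eq_one_of_inv hCo (hD hc') (by
        rw [f2, conj_of_cent (e2 k hk (cent_of_conj f1.symm))]))
  have xx1 : x * x = 1 := mem_bot.1 (hf ▸ mem_inf.2 ⟨X.mul_mem hx' hx', by
    rw [← hd.sup_eq, centY]; exact mem_inf.2 ⟨xA, xx⟩⟩)
  obtain ⟨v, hv, v2, vA, vD⟩ : ∃ v ∈ X, v * v = 1 ∧ A ⊓ 𝐂₁[v] = ⊥ ∧ D ⊓ 𝐂₁[v] = ⊥ := by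
    by_cases e1 : A ⊓ 𝐂₁[x] = ⊥
    · exact ⟨x, hx', xx1, e1, fpf_of_inv (oddSg hD hCo) xi⟩
    refine ⟨u * x, X.mul_mem hu hx', ux.trans xx1, ?_, eq_bot_iff.2 fun c hc => ?_⟩
    · by_contra e2
      obtain ⟨a, ha, a1⟩ := exists_ne_one e1
      obtain ⟨b, hb, b1⟩ := exists_ne_one e2
      have xa := cent1C.1 ha.2
      have xb : x ∉ 𝐂₁[b] := fun e =>
        uA b hb.1 b1 ((Subgroup.mul_mem_cancel_right _ e).1 (cent1C.1 hb.2))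
      have xb' : x * b * x⁻¹ = b⁻¹ := by
        have f1 := conj_of_cent (cent1C.1 hb.2)
        rw [comm_of_abelian hX hu hx', show x * u * b * (x * u)⁻¹ = x * (u * b * u⁻¹) * x⁻¹ by group,
          hi b hb.1, ← conj_inv] at f1
        exact inv_eq_iff_eq_inv.1 f1
      refine eig3 h (abelianS hV hP) (oddSg hV ho) hK2 (abelianS hK hX) (hK.trans (normsY hXA hXD))
        (hx.mono (sup_le_sup hV hK)) h3
        (eig_of (mem_sup_left ha.1) a1 (Or.inr (hi a ha.1)) (Or.inl (conj_of_cent xa)))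
        (eig_of (mem_sup_left hb.1) b1 (Or.inr (hi b hb.1)) (Or.inr xb'))
        (eig_of (mem_sup_right hc') c1 (Or.inl (conj_of_cent (uC c (hD hc')))) (Or.inr (xi c hc')))
        (fun e => xb (e ▸ mem_inf.2 ⟨xK, xa⟩).2) (fun e => xD c hc' c1 (e ▸ mem_inf.2 ⟨xK, xa⟩).2)
        fun e => uA b hb.1 b1 (e ▸ mem_inf.2 ⟨uK, uC c (hD hc')⟩).2
    · by_contra c1
      exact xD c hc.1 (by simpa using c1)
        ((Subgroup.mul_mem_cancel_left _ (uC c (hD hc.1))).1 (cent1C.1 hc.2))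
  refine ⟨v, hv, v2, ?_, lt_of_le_of_ne ((fpf_le_commg (hXA hv) vA).trans (commSg _ hAP)) fun e => ?_⟩
  · rintro rfl
    exact hA1 (by simpa using vA)
  · exact hD1 (eq_bot_iff.2 (hd.inf_eq ▸ le_inf (e ▸ (fpf_le_commg (hXD hv) vD).trans
      (commSg _ (hD.trans hCP))) hD))

theorem exists_inv (h : Loc0 G) (hP : IsMulCommutative P) (ho : Odd (Nat.card P))
    (hX : IsMulCommutative X) (hn : X ≤ 𝐍[P]) (hc : (Nat.card P).Coprime (Nat.card X))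
    (hx : XS (P ⊔ X)) (hf : X ⊓ 𝐂[P] = ⊥) (h0 : P ⊓ 𝐂[X] = ⊥) (he : 2 ∣ Nat.card X) :
    ∃ u ∈ X, u * u = 1 ∧ ∀ a ∈ P, u * a * u⁻¹ = a⁻¹ := by
  obtain ⟨t, ht, t2⟩ := Cauchy Nat.prime_two he
  obtain ⟨u, ⟨hu, u2, u1⟩, hm⟩ := Set.Finite.exists_maximalFor (fun v : G => ⁅P, ⟪v⟫⁆)
    {v | v ∈ X ∧ v * v = 1 ∧ v ≠ 1} (Set.toFinite _)
    ⟨t, ht, by rw [← pow_two, ← t2, pow_orderOf_eq_one], by rintro rfl; simp at t2⟩
  have hU : ⟪u⟫ ≤ X := zpowers_le.2 hu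
  refine ⟨u, hu, u2, fun a ha => h.inv ho (pgroup_cycle2 u2) (hn hu) (u2 ▸ one_mem _)
    (hx.mono (sup_le_sup_left hU _)) a (fpf_le_commg (hn hu) ?_ ha)⟩
  by_contra hC
  obtain ⟨v, hv, v2, v1, hl⟩ := inv_step h hP ho hX hn hc hx hf h0 hu u2 u1 hC
  exact hl.not_ge (hm ⟨hv, v2, v1⟩ hl.le)

end Cfsg.Acd.L1
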