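import Cfsg.Agent.Acd.Loc1C
import Cfsg.Agent.Acd.Loc1D

/-! Second layer: coprime automorphism groups of odd `p`-groups, and `stLoc1`. -/

set_option autoImplicit false
set_option linter.style.haveILetI false
set_option linter.unusedSectionVars false

namespace Cfsg.Acd.L1

open Subgroup Cfsg.FT
open scoped Pointwise Classical commutatorElement

universe u

variable {G : Type u} [Group G] [Finite G] {T P X : Subgroup G} {p : ℕ}

theorem exists_der2 (hT : IsPGroup 2 T) (hn : ¬ IsMulCommutative T) :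
    ∃ Y ≤ T, ∃ u, u ≠ 1 ∧ u * u = 1 ∧ ⁅Y, Y⁆ = ⟪u⟫ := by
  obtain ⟨L, h1, h2, -, h4, h5⟩ := exists_norm_index_p hT hT
    (lt_of_le_of_ne inf_le_left fun e => hn (center_eq_iff.1 e)) (center_normal T).norm (normG T)
  obtain ⟨a, ha, ha'⟩ : ∃ a ∈ L, a ∉ 𝐙[T] := by
    by_contra e
    push Not at e
    rw [relIndex_eq_one.2 e] at h4; omega
  have a2 : a * a ∈ 𝐙[T] := mul_self_mem_of_index_two h4 ⟨a, ha⟩
  obtain ⟨b, hb, hab⟩ : ∃ b ∈ T, ⁅a, b⁆ ≠ 1 := by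
    by_contra e
    push Not at e
    exact ha' ⟨h2 ha, mem_cent.2 fun b hb => (commutatorElement_eq_one_iff_mul_comm.1 (e b hb)).symm⟩
  have hu := h5 (mem_commg ha hb)
  have hY : ⟪a⟫ ⊔ ⟪b⟫ ≤ T := sup_le (zpowers_le.2 (h2 ha)) (zpowers_le.2 hb)
  have hN : T ≤ 𝐍[⟪⁅a, b⁆⟫] := norms_cycle (le_cent1.2 hu.2)
  refine ⟨_, hY, ⁅a, b⁆, hab, ?_, le_antisymm (der1_min (hY.trans hN) ?_) (zpowers_le.2
    (mem_commg (mem_sup_left (mem_zpowers a)) (mem_sup_right (mem_zpowers b))))⟩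
  · have e1 := mem_cent.1 hu.2 a (h2 ha)
    have e2 := mem_cent.1 a2.2 b hb
    calc ⁅a, b⁆ * ⁅a, b⁆ = a * (⁅a, b⁆ * a⁻¹) * ⁅a, b⁆ := by
          rw [← mul_assoc, e1, mul_inv_cancel_right]
      _ = (a * a * b) * (b * (a * a))⁻¹ := by simp only [commutatorElement_def]; group
      _ = 1 := by rw [e2, mul_inv_cancel]
  · rw [quotientY (le_sup_left.trans (hY.trans hN)) (le_sup_right.trans (hY.trans hN)),
      quotient_cycle (hN (h2 ha)), quotient_cycle (hN hb), abelianY, cent_cycle]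
    refine ⟨cycle_abelian _, cycle_abelian _, zpowers_le.2 (mem_cent1.2
      (commutatorElement_eq_one_iff_mul_comm.1 ?_).symm)⟩
    rw [← coset_commg (hN (h2 ha)) (hN hb)]
    exact coset_id (mem_zpowers _)

theorem ol_ab (h0 : StLoc0.{u}) (ho : Odd (Nat.card P)) (hc : (Nat.card P).Coprime (Nat.card X))
    (hn : X ≤ 𝐍[P]) (hx : XS (P ⊔ X)) (hf : X ⊓ 𝐂[P] = ⊥) : IsMulCommutative X := by
  have h := h0 G
  have hN : PNil 2 X := Frobenius_normal_complement fun E hE hE2 _ x hx' hxo => by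
    by_contra e
    have hs := sp_comm_cycle hE2 (Nat.not_even_iff_odd.1 fun e =>
      piElt_compl.1 hxo (even_iff_two_dvd.1 e)) hx'.2 e
    have hX : ⟪x⟫ ≤ X := zpowers_le.2 hx'.1
    have hW : ⁅E, ⟪x⟫⁆ ≤ X := comm_subG hE hX
    exact hs.ne (eq_bot_iff.2 (hf ▸ le_inf hW (wc h0 hs ho (hW.trans hn) (hX.trans hn)
      (hx.mono (sup_le (sup_le_sup_left hW _) (hX.trans le_sup_right))))))
  have three : ∀ Y ≤ X, IsMulCommutative Y → Odd (Nat.card Y) → Y ≠ ⊥ →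
      Nat.card ↥⁅P, Y⁆ = 7 ∧ Nat.card Y = 3 := fun Y hY ha hYo h1 => by
    have := h.seven ho ha hYo (hY.trans hn) (coprimegS hY hc) (hx.mono (sup_le_sup_left hY _))
      fun e => h1 (eq_bot_iff.2 (hf ▸ le_inf hY e))
    refine ⟨this.1, ?_⟩
    rw [← this.2, ← inf_relIndex_right, eq_bot_iff.2 (hf ▸ le_inf (inf_le_right.trans hY) inf_le_left :
      𝐂[P] ⊓ Y ≤ ⊥), relIndex_bot_left]
  have hO := pcore_normal {2}ᶜ X
  have hOo := odd_core X
  have hOc : X ≤ 𝐂[core {2}ᶜ X] := by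
    by_cases e : core {2}ᶜ X = ⊥
    · rw [e]; exact cents1 X
    generalize core {2}ᶜ X = O at *
    obtain ⟨q, V, -, hV, hm, hVO⟩ := sol_exists_normal_abelem
      (hx.mono (hO.le.trans le_sup_right)).sol e hO.norm
    have hVX := hVO.trans hO.le
    obtain ⟨h7, h3⟩ := three V hVX hV.1 (oddSg hVO hOo) hm.ne_bot
    have p3 : (Nat.card V).Prime := h3 ▸ Nat.prime_three
    have hOV : O ≤ 𝐂[V] := cents_prime_of_coprime p3 (hO.le.trans hm.norm) (by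
      rw [h3]; exact (Nat.coprime_two_right).2 hOo)
    have e1 : O = V := le_antisymm (fun y hy => by
      have hY : V ⊔ ⟪y⟫ ≤ O := sup_le hVO (zpowers_le.2 hy)
      have := (three _ (hY.trans hO.le) (abelianY.2 ⟨hV.1, cycle_abelian y, zpowers_le.2 (hOV hy)⟩)
        (oddSg hY hOo) fun e => hm.ne_bot (eq_bot_iff.2 (e ▸ le_sup_left))).2
      rw [card_eq_of_le (le_sup_left : V ≤ V ⊔ ⟪y⟫) (by omega)]
      exact mem_sup_right (mem_zpowers y)) hVO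
    rw [e1, ← commG1P', eq_bot_iff]
    have e2 := der1_cent_cyclic (prime_cyclic (h7 ▸ by norm_num : (Nat.card ↥⁅P, V⁆).Prime))
      (normsR hn hm.norm)
    rw [← prime_TIg p3 (B := 𝐂[⁅P, V⁆]) fun e => by
      have := commG1P'.2 e
      rw [coprime_commGid (hVX.trans hn) (coprimegS hVX hc)] at this
      rw [this, Subgroup.card_bot] at h7; omega]
    exact le_inf (commg_subl.2 hm.norm) ((commSg X hVX).trans e2)
  obtain ⟨T, hT⟩ := Sylow_exists (p := 2) X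
  have hTa : IsMulCommutative T := by
    by_contra e
    obtain ⟨Y, hY, u, u1, u2, hd⟩ := exists_der2 hT.pgroup e
    have hYX := hY.trans hT.le
    have hU : ⟪u⟫ ≤ X := hd ▸ (der_sub Y).trans hYX
    have hx1 := hx.mono (sup_le_sup_left hU P)
    have hA : ⁅P, ⟪u⟫⁆ ≤ P := commg_subl.2 (hU.trans hn)
    exact na (h.odd ho (cycle_abelian u) (hU.trans hn) (coprimegS hU hc) hx1) (oddSg hA ho)
      (fun e => u1 (mem_bot.1 (hf ▸ mem_inf.2 ⟨hU (mem_zpowers u), commG1P'.1 e (mem_zpowers u)⟩)))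
      (hT.pgroup.to_le hY) (normsR (hYX.trans hn) (hd ▸ der_norm Y)) hd u2
      (h.inv ho (pgroup_cycle2 u2) (hn (hU (mem_zpowers u))) (u2 ▸ one_mem _) hx1)
      (hx.mono (sup_le_sup hA hYX))
  rw [← (hN.sdprod hT).sup_eq]
  exact abelianY.2 ⟨abelian_iff.2 (hO.le.trans hOc), hTa, hT.le.trans hOc⟩

theorem ol0 (h0 : StLoc0.{u}) (ho : Odd (Nat.card P)) (hP1 : P ≠ ⊥)
    (hc : (Nat.card P).Coprime (Nat.card X)) (hn : X ≤ 𝐍[P]) (hPX : ⁅P, X⁆ = P) (hx : XS (P ⊔ X))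
    (hf : X ⊓ 𝐂[P] = ⊥) : IsMulCommutative P ∧ IsMulCommutative X ∧
      ((∃ u ∈ X, u * u = 1 ∧ ∀ a ∈ P, u * a * u⁻¹ = a⁻¹) ∨ (Nat.card P = 7 ∧ Nat.card X = 3)) := by
  have h := h0 G
  have hX := ol_ab h0 ho hc hn hx hf
  have hP : IsMulCommutative P := hPX ▸ h.odd ho hX hn hc hx
  refine ⟨hP, hX, ?_⟩
  rcases Nat.even_or_odd (Nat.card X) with e | e
  · exact Or.inl (exists_inv h hP ho hX hn hc hx hf (hPX ▸ coprime_abel_cent_TI hn hc hP)
      (even_iff_two_dvd.1 e))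
  · have := h.seven ho hX e hn hc hx fun e => hP1 (hPX ▸ commG1P'.2 e)
    rw [hPX, ← inf_relIndex_right, inf_comm, hf, relIndex_bot_left] at this
    exact Or.inr this

theorem ol (h0 : StLoc0.{u}) (hp : p.Prime) (h2 : p ≠ 2) (hP : IsPGroup p P) (hP1 : P ≠ ⊥)
    (hX : ¬ p ∣ Nat.card X) (hn : X ≤ 𝐍[P]) (hPX : ⁅P, X⁆ = P) (hx : XS (P ⊔ X)) :
    IsMulCommutative P ∧ ⁅X, X⁆ ≤ 𝐂[P] ∧
      ((∃ u ∈ X, IsPGroup 2 ⟪u⟫ ∧ ∀ a ∈ P, u * a * u⁻¹ = a⁻¹) ∨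
        (Nat.card P = 7 ∧ 𝐂[P].relIndex X = 3)) := by
  haveI := Fact.mk hp
  have hc := coprime_pgroup hP hX
  have hZ : X ⊓ 𝐂[P] ⊴ X := subcent_normal' hn
  have hPZ : P ≤ 𝐍[X ⊓ 𝐂[P]] := cents_norm (centsC.1 inf_le_right)
  have hcZ := (coprimegS hZ.le hc).symm
  have hti := coprime_TIg hcZ
  have hxq := hx.quo (X ⊓ 𝐂[P])
  rw [quotientY hPZ hZ.norm] at hxq
  obtain ⟨a1, a2, a3⟩ := ol0 h0 (quotient_odd _ (odd_card_of_pgroup hP h2))
    (fun e => hP1 (eq_bot_iff.2 (hti ▸ le_inf ((quotient_sub1 hPZ).1 e) le_rfl)))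
    (coprime_quo2 _ hc) (quotient_norms _ hn) (coprime_quo_commg_eq hPZ hZ.norm hPX) hxq (by
      rw [coprime_cent_quotient_pgroup hP hPZ hcZ, ← quotientGI hZ.le, trivg_quotient])
  refine ⟨derG1P.1 (eq_bot_iff.2 (hti ▸ le_inf (der1_min hPZ a1) (der_sub P))),
    (der1_min hZ.norm a2).trans inf_le_right, a3.imp ?_ ?_⟩
  · rintro ⟨v, hv, v2, hi⟩
    obtain ⟨y, hy, hy', rfl⟩ := mem_quo.1 hv
    have hu := constt_mem {2} hy
    have e : coset (X ⊓ 𝐂[P]) (constt {2} y) = coset (X ⊓ 𝐂[P]) y := by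
      rw [coset_constt _ hy']
      exact constt_p_elt (piElt_singleton_iff_pgroup.2 (pgroup_cycle2 v2))
    refine ⟨_, hu, piElt_singleton_iff_pgroup.1 (p_elt_constt {2} y), fun a ha => ?_⟩
    have ha' := (memJ_norm (hn hu)).2 ha
    refine eq_inv_of_mul_eq_one_left (mem_bot.1 (hti ▸ mem_inf.2 ⟨?_, P.mul_mem ha' ha⟩))
    refine coset_idr (hPZ (P.mul_mem ha' ha)) ?_
    rw [coset_mul (hPZ ha') (hPZ ha), coset_conj (hZ.norm hu) (hPZ ha), e,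
      hi _ (mem_quotient _ ha), inv_mul_cancel]
  · rintro ⟨e1, e2⟩
    rw [card_quotient_of_TI hPZ hti] at e1
    rw [card_quotient hZ.norm, inf_comm, inf_relIndex_right] at e2
    exact ⟨e1, e2⟩

end Cfsg.Acd.L1

namespace Cfsg.Acd

universe u

theorem stLoc1 (h0 : StLoc0.{u}) : StLoc1.{u} := fun _ _ _ =>
  ⟨L1.wc h0, L1.pc h0, L1.ol h0⟩

end Cfsg.Acd
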