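import Cfsg.Agent.Acd.Base

/-! Second layer, part A: elementary tools and a nonabelian `2`-group acting on an odd group. -/

set_option autoImplicit false
set_option linter.style.haveILetI false
set_option linter.unusedSectionVars false

namespace Cfsg.Acd.L1

open Subgroup Cfsg.FT
open scoped Pointwise Classical

variable {G : Type*} [Group G] {K M L T A X : Subgroup G} {x y u v a : G}

theorem mem_of_pow_coprime {a b : ℕ} (ha : x ^ a ∈ K) (hb : x ^ b ∈ K) (h : a.Coprime b) :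
    x ∈ K := by
  have e : x = (x ^ a) ^ (Nat.gcdA a b) * (x ^ b) ^ (Nat.gcdB a b) := by
    rw [← zpow_natCast, ← zpow_natCast, ← zpow_mul, ← zpow_mul, ← zpow_add,
      ← Nat.gcd_eq_gcd_ab, h, Nat.cast_one, zpow_one]
  rw [e]
  exact K.mul_mem (K.zpow_mem ha _) (K.zpow_mem hb _)

theorem mem_of_sq_odd (ho : Odd (orderOf x)) (h : x * x ∈ K) : x ∈ K :=
  mem_of_pow_coprime (a := 2) (b := orderOf x) (by rwa [pow_two])
    (by rw [pow_orderOf_eq_one]; exact K.one_mem) (Nat.coprime_two_left.2 ho)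

theorem odd_order (hA : Odd (Nat.card A)) (ha : a ∈ A) : Odd (orderOf a) :=
  Odd.of_dvd_nat hA (Subgroup.orderOf_dvd_natCard A ha)

theorem eq_one_of_sq (hA : Odd (Nat.card A)) (ha : a ∈ A) (h : a * a = 1) : a = 1 :=
  mem_bot.1 (mem_of_sq_odd (odd_order hA ha) (h ▸ one_mem _))

theorem eq_one_of_inv (hA : Odd (Nat.card A)) (ha : a ∈ A) (h : a⁻¹ = a) : a = 1 :=
  eq_one_of_sq hA ha (by nth_rewrite 1 [← h]; exact inv_mul_cancel a)

theorem mem_cycle2 (hv : v * v = 1) (hx : x ∈ ⟪v⟫) : x = 1 ∨ x = v := by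
  obtain ⟨k, rfl⟩ := hx
  have h2 : v ^ (2 : ℤ) = 1 := by rw [zpow_two, hv]
  rcases Int.emod_two_eq_zero_or_one k with h | h
  · left; show v ^ k = 1
    rw [← Int.emod_add_mul_ediv k 2, h, zero_add, zpow_mul, h2, one_zpow]
  · right; show v ^ k = v
    rw [← Int.emod_add_mul_ediv k 2, h, zpow_add, zpow_mul, h2, one_zpow, mul_one, zpow_one]

theorem card_cycle2 (hv : v * v = 1) (h1 : v ≠ 1) : Nat.card ⟪v⟫ = 2 := by
  rw [Nat.card_zpowers]
  exact orderOf_eq_prime (by rw [pow_two, hv]) h1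

theorem pgroup_cycle2 (hv : v * v = 1) : IsPGroup 2 ⟪v⟫ := fun g =>
  ⟨1, Subtype.ext (by
    rcases mem_cycle2 hv g.2 with h | h <;> simp [h, pow_two, hv])⟩

theorem conj_of_cent (h : x ∈ 𝐂₁[a]) : x * a * x⁻¹ = a := by
  rw [mem_cent1.1 h, mul_inv_cancel_right]

theorem cent_of_conj (h : x * a * x⁻¹ = a) : x ∈ 𝐂₁[a] :=
  mem_cent1.2 (by rw [← mul_inv_eq_iff_eq_mul, h])

theorem fpf_of_inv (hA : Odd (Nat.card A)) (hi : ∀ a ∈ A, u * a * u⁻¹ = a⁻¹) :
    A ⊓ 𝐂₁[u] = ⊥ := by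
  refine eq_bot_iff.2 fun a ha => mem_bot.2 (eq_one_of_inv hA ha.1 ?_)
  rw [← hi a ha.1, conj_of_cent (cent1C.1 ha.2)]

theorem der_le_of_idx [Finite G] (h : T.relIndex L ≤ 2) : ⁅L, L⁆ ≤ T := by
  have h0 := relIndex_pos T L
  refine commg_le_iff.2 fun x hx y hy => ?_
  rcases (by omega : T.relIndex L = 1 ∨ T.relIndex L = 2) with e | e
  · exact relIndex_eq_one.1 e (L.mul_mem (L.mul_mem (L.mul_mem hx hy) (L.inv_mem hx)) (L.inv_mem hy))
  · have k : ∀ a b : L, a * b ∈ T.subgroupOf L ↔ (a ∈ T.subgroupOf L ↔ b ∈ T.subgroupOf L) :=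
      fun a b => mul_mem_iff_of_index_two e
    have : (⟨x, hx⟩ * ⟨y, hy⟩ * ⟨x, hx⟩⁻¹ * ⟨y, hy⟩⁻¹ : L) ∈ T.subgroupOf L := by
      rw [k, k, k, inv_mem_iff, inv_mem_iff]; tauto
    exact this

theorem four_le_of_dvd {n : ℕ} [Finite G] (hX : IsPGroup 2 X) (hn : n ∣ Nat.card X) (h : 2 < n) :
    4 ≤ n := by
  obtain ⟨k, hk⟩ := exists_card_pgroup hX
  rw [hk] at hn
  obtain ⟨j, -, rfl⟩ := (Nat.dvd_prime_pow Nat.prime_two).1 hn
  rcases j with _ | _ | j
  · omega
  · omega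
  · rw [pow_succ, pow_succ]; have := Nat.two_pow_pos j; omega

variable [Finite G]

/-- a `2`-group with derived group `⟪u⟫ ≠ 1` cannot act on an odd abelian group inverted by `u` -/
theorem na (hA : IsMulCommutative A) (hAo : Odd (Nat.card A)) (hA1 : A ≠ ⊥) (hX : IsPGroup 2 X)
    (hn : X ≤ 𝐍[A]) (hd : ⁅X, X⁆ = ⟪u⟫) (hu2 : u * u = 1)
    (hi : ∀ a ∈ A, u * a * u⁻¹ = a⁻¹) (hxs : XS (A ⊔ X)) : False := by
  have hfpf := fpf_of_inv hAo hi
  have huX : u ∈ X := der_sub X (hd ▸ mem_zpowers u)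
  have hu1 : u ≠ 1 := by
    rintro rfl
    exact hA1 (by simpa using hfpf)
  have hc : (Nat.card A).Coprime (Nat.card X) := (coprime_of_two_odd hX hAo).symm
  have hs : SDProd A X (A ⊔ X) := sdprodEY hn (coprime_TIg hc)
  set L := A ⊔ X with hL
  have hAL : A ⊴ L := hs.normal
  have huX' : ⟪u⟫ ≤ X := zpowers_le.2 huX
  have hdL : A ⊔ ⟪u⟫ ≤ ⁅L, L⁆ :=
    sup_le ((fpf_le_commg (hn huX) hfpf).trans (commgSS le_sup_left (huX'.trans le_sup_right)))
      (hd ▸ dergS le_sup_right)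
  have hN : 2 * ⁅L, L⁆.relIndex L ≤ Nat.card X := by
    have e1 := card_mul_relIndex (der_sub L)
    have e2 := sdprod_card hs
    have e3 := sdprod_card (sdprod_subr hs huX')
    have e4 := Subgroup.card_le_of_le hdL
    rw [card_cycle2 hu2 hu1] at e3
    have e5 : 0 < Nat.card A := Nat.card_pos
    refine Nat.le_of_mul_le_mul_left ?_ e5
    rw [e2, ← e1, ← mul_assoc, e3]
    exact Nat.mul_le_mul_right _ e4
  have hacd : exc L ≤ ⁅L, L⁆.relIndex L := hxs.acd
  have key : ∀ μ, IsIrr A μ → μ ≠ cf1 A →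
      Nat.card X ≤ 2 * excOver L A μ ∧ (cfclass L μ).card ≤ 4 := by
    intro μ hμ h1
    set T := L ⊓ inertia A μ with hT
    have hAT : A ≤ T := hμ.isCF.sub_Inertia hAL.le
    have hTL : T ≤ L := inf_le_left
    have huT : u ∉ T := fun h => h1 (eq_cf1_of_cent1 h.2 hμ hfpf)
    have hsT : SDProd A (X ⊓ T) T := sdprod_modl' hs hAT hTL
    have hab : IsMulCommutative ↥(X ⊓ T) := derG1P.1 (eq_bot_iff.2 fun y hy => by
      rcases mem_cycle2 hu2 (hd ▸ dergS inf_le_left hy) with e | e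
      · exact mem_bot.2 e
      · exact absurd (e ▸ (der_sub _ hy).2) huT)
    obtain ⟨χ, hχ, he⟩ := extend_coprime hμ hAT inf_le_right (by
      rw [index_sdprod hsT]; exact coprimegS inf_le_left hc)
    have h2 := exc_over_lin hAL hμ hT hχ.isChar he
    rw [sup_eq_left.2 (hsT.der_le hab), index_sdprod hsT, (hμ.isLin_of_abelian hA).charDegree_eq,
      mul_one] at h2
    have e1 : Nat.card ↥(X ⊓ T) * T.relIndex L = Nat.card X := by
      have a1 := card_mul_relIndex hTL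
      rw [← sdprod_card hsT, ← sdprod_card hs, mul_assoc] at a1
      exact Nat.eq_of_mul_eq_mul_left Nat.card_pos a1
    have h4 : 4 ≤ T.relIndex L := four_le_of_dvd hX (Dvd.intro_left _ e1) (by
      by_contra h
      exact huT (der_le_of_idx (not_lt.1 h) (hdL (le_sup_right (a := A) (mem_zpowers u)))))
    have h5 := excOver_le L A μ
    rw [card_cfclass hAL.norm, ← hT]
    have e5 : 0 < Nat.card ↥(X ⊓ T) := Nat.card_pos
    generalize T.relIndex L = i at *
    generalize Nat.card ↥(X ⊓ T) = m at *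
    obtain ⟨j, rfl⟩ : ∃ j, i = j + 4 := ⟨i - 4, by omega⟩
    rw [show j + 4 - 2 = j + 2 by omega] at h2
    refine ⟨by nlinarith, ?_⟩
    by_contra h
    have : m * 1 ≤ m * j := Nat.mul_le_mul_left _ (by omega)
    nlinarith
  obtain ⟨μ, hμ, h1⟩ := exists_lin_ne_cf1 (L := A) (by
    rw [derG1P.2 hA]; exact bot_lt_iff_ne_bot.2 hA1)
  obtain ⟨k1, k2⟩ := key μ hμ.isIrr h1
  have hsub : irr A ⊆ insert (cf1 A) (cfclass L μ) := by
    intro φ hφ
    by_contra h
    rw [Finset.mem_insert, not_or] at h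
    have k3 := (key φ (mem_irr.1 hφ) h.1).1
    have k4 := excOver_add_le hAL hμ.isIrr (mem_irr.1 hφ) h.2
    have : 0 < Nat.card X := Nat.card_pos
    omega
  have h5 := (Finset.card_le_card hsub).trans (Finset.card_insert_le _ _)
  rw [card_irr_abelian hA] at h5
  have h6 : Nat.card A ≠ 1 := fun e => hA1 (Subgroup.card_eq_one.1 e)
  have hp : (Nat.card A).Prime := by
    rw [Nat.odd_iff] at hAo
    rcases (by omega : Nat.card A = 3 ∨ Nat.card A = 5) with e | e <;> rw [e] <;> norm_num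
  have hc := der1_cent_cyclic (prime_cyclic hp) hn
  rw [hd] at hc
  exact hA1 (by rw [← hfpf, left_eq_inf]; exact le_cent1.2 (hc (mem_zpowers u)))

end Cfsg.Acd.L1
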