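import Cfsg.Agent.Acd.Loc1A

/-! Second layer, part B: special pairs centralise the odd groups they normalise. -/

set_option autoImplicit false
set_option linter.style.haveILetI false
set_option linter.unusedSectionVars false

namespace Cfsg.Acd.L1

open Subgroup Cfsg.FT
open scoped Pointwise Classical

universe u

section
variable {G : Type*} [Group G] [Finite G] {K V W L T A U : Subgroup G} {x y w a b c : G}

theorem two_lt_idx (hx : x ∈ L) (hy : y ∈ L) (h1 : x ∉ T) (h2 : y ∉ T) (h3 : x * y ∉ T) :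
    2 < T.relIndex L := by
  have h0 := relIndex_pos T L
  by_contra h
  rcases (by omega : T.relIndex L = 1 ∨ T.relIndex L = 2) with e | e
  · exact h1 (relIndex_eq_one.1 e hx)
  · have k := (mul_mem_iff_of_index_two e (a := ⟨x, hx⟩) (b := ⟨y, hy⟩)).2
      (iff_of_false h1 h2)
    exact h3 k

theorem four_le_idx (hL : IsPGroup 2 L) (hx : x ∈ L) (hy : y ∈ L) (h1 : x ∉ T) (h2 : y ∉ T)
    (h3 : x * y ∉ T) : 4 ≤ T.relIndex L :=
  four_le_of_dvd hL (FT.relIndex_dvd_card _ _) (two_lt_idx hx hy h1 h2 h3)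

theorem not_cent_of_idx (h : 2 ≤ 𝐂₁[a].relIndex K) : a ∉ 𝐂[K] := fun hc => by
  rw [relIndex_eq_one.2 (le_cent1.2 hc)] at h; omega

theorem frac_le {n m : ℕ} (h0 : 0 < m) (h : m ≤ n) : (1 - 2 / m : ℚ) ≤ 1 - 2 / n := by
  have : (0 : ℚ) < m := by exact_mod_cast h0
  have : (m : ℚ) ≤ n := by exact_mod_cast h
  gcongr

theorem conj_symm (h : ∀ k ∈ K, b ≠ k * a * k⁻¹) : ∀ k ∈ K, a ≠ k * b * k⁻¹ := fun k hk e =>
  h k⁻¹ (K.inv_mem hk) (by rw [e]; group)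

theorem ne_of_nc (h : ∀ k ∈ K, b ≠ k * a * k⁻¹) : a ≠ b := fun e =>
  h 1 K.one_mem (by rw [e]; group)

theorem abR2 (h : Loc0 G) (hV : IsMulCommutative V) (hK : IsMulCommutative K) (hn : K ≤ 𝐍[V])
    (hc : (Nat.card V).Coprime (Nat.card K)) (hx : XS (V ⊔ K)) (h0 : V ⊓ 𝐂[K] = ⊥)
    (ha : a ∈ V) (hb : b ∈ V) (ia : 4 ≤ 𝐂₁[a].relIndex K) (ib : 5 ≤ 𝐂₁[b].relIndex K)
    (hab : ∀ k ∈ K, b ≠ k * a * k⁻¹) : False := by
  have := h.abR hV hK hn hc hx {a, b} (by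
    simp only [Finset.mem_insert, Finset.mem_singleton]
    rintro v (rfl | rfl)
    · exact ⟨ha, not_cent_of_idx (by omega)⟩
    · exact ⟨hb, not_cent_of_idx (by omega)⟩) (by
    simp only [Finset.mem_insert, Finset.mem_singleton]
    rintro v (rfl | rfl) w (rfl | rfl) k hk e
    · rfl
    · exact absurd e (hab k hk)
    · exact absurd e (conj_symm hab k hk)
    · rfl)
  rw [Finset.sum_pair (ne_of_nc hab), h0, Subgroup.card_bot] at this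
  have e1 := frac_le (by norm_num) ia
  have e2 := frac_le (by norm_num) ib
  norm_num at e1 e2 this
  linarith

theorem abR3 (h : Loc0 G) (hV : IsMulCommutative V) (hK : IsMulCommutative K) (hn : K ≤ 𝐍[V])
    (hc : (Nat.card V).Coprime (Nat.card K)) (hx : XS (V ⊔ K)) (h0 : V ⊓ 𝐂[K] = ⊥)
    (ha : a ∈ V) (hb : b ∈ V) (hc' : c ∈ V) (ia : 4 ≤ 𝐂₁[a].relIndex K)
    (ib : 4 ≤ 𝐂₁[b].relIndex K) (ic : 4 ≤ 𝐂₁[c].relIndex K)
    (hab : ∀ k ∈ K, b ≠ k * a * k⁻¹) (hac : ∀ k ∈ K, c ≠ k * a * k⁻¹)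
    (hbc : ∀ k ∈ K, c ≠ k * b * k⁻¹) : False := by
  have := h.abR hV hK hn hc hx {a, b, c} (by
    simp only [Finset.mem_insert, Finset.mem_singleton]
    rintro v (rfl | rfl | rfl)
    · exact ⟨ha, not_cent_of_idx (by omega)⟩
    · exact ⟨hb, not_cent_of_idx (by omega)⟩
    · exact ⟨hc', not_cent_of_idx (by omega)⟩) (by
    simp only [Finset.mem_insert, Finset.mem_singleton]
    rintro v (rfl | rfl | rfl) w (rfl | rfl | rfl) k hk e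
    · rfl
    · exact absurd e (hab k hk)
    · exact absurd e (hac k hk)
    · exact absurd e (conj_symm hab k hk)
    · rfl
    · exact absurd e (hbc k hk)
    · exact absurd e (conj_symm hac k hk)
    · exact absurd e (conj_symm hbc k hk)
    · rfl)
  rw [Finset.sum_insert (by simp [ne_of_nc hab, ne_of_nc hac]), Finset.sum_pair (ne_of_nc hbc), h0,
    Subgroup.card_bot] at this
  have e1 := frac_le (by norm_num) ia
  have e2 := frac_le (by norm_num) ib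
  have e3 := frac_le (by norm_num) ic
  norm_num at e1 e2 e3 this
  linarith

/-- `a` is a common eigenvector of `W` -/
structure Eig (A W : Subgroup G) (a : G) : Prop where
  mem : a ∈ A
  ne : a ≠ 1
  or : ∀ w ∈ W, w * a * w⁻¹ = a ∨ w * a * w⁻¹ = a⁻¹

theorem Eig.inv (h : Eig A W a) : Eig A W a⁻¹ :=
  ⟨A.inv_mem h.mem, inv_ne_one.2 h.ne, fun w hw => (h.or w hw).imp
    (fun e => by rw [← conj_inv, e]) fun e => by rw [← conj_inv, e]⟩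

theorem Eig.sq (h : Eig A W a) (ho : Odd (Nat.card A)) : Eig A W (a * a) :=
  ⟨A.mul_mem h.mem h.mem, fun e => h.ne (eq_one_of_sq ho h.mem e), fun w hw => (h.or w hw).imp
    (fun e => by rw [← conj_mul, e]) fun e => by rw [← conj_mul, e, mul_inv_rev]⟩

theorem Eig.conj (h : Eig A W a) (hA : x ∈ 𝐍[A]) (hW : x ∈ 𝐍[W]) : Eig A W (x * a * x⁻¹) :=
  ⟨(memJ_norm hA).2 h.mem, by simpa using h.ne, fun w hw =>
    (h.or _ ((memJ_norm' hW).2 hw)).imp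
      (fun e => by nth_rewrite 2 [← e]; group) fun e => by rw [conj_inv, ← e]; group⟩

theorem Eig.inv_of (h : Eig A W a) (hw : w ∈ W) (h1 : w ∉ 𝐂₁[a]) : w * a * w⁻¹ = a⁻¹ :=
  (h.or w hw).resolve_left fun e => h1 (cent_of_conj e)

theorem exists_sep (h : W ⊓ 𝐂₁[a] ≠ W ⊓ 𝐂₁[b]) :
    ∃ w ∈ W, (w ∈ 𝐂₁[a] ∧ w ∉ 𝐂₁[b]) ∨ (w ∈ 𝐂₁[b] ∧ w ∉ 𝐂₁[a]) := by
  by_contra h'
  push Not at h'
  exact h (le_antisymm (fun w hw => ⟨hw.1, (h' w hw.1).1 hw.2⟩) fun w hw => ⟨hw.1, (h' w hw.1).2 hw.2⟩)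

theorem ind3' (hA : IsMulCommutative A) (ho : Odd (Nat.card A)) (ha : Eig A W a) (hb : Eig A W b)
    (hc : Eig A W c) (hw : w ∈ W) (h1 : w ∈ 𝐂₁[a]) (h2 : w ∉ 𝐂₁[b]) : a * b * c ≠ 1 := by
  intro e
  have e' := congrArg (fun t => w * t * w⁻¹) e
  simp only [← conj_mul, conj_of_cent h1, hb.inv_of hw h2, mul_one, mul_inv_cancel] at e'
  rcases hc.or w hw with k | k <;> rw [k] at e'
  · exact hb.ne (eq_one_of_inv ho hb.mem (mul_left_cancel (mul_right_cancel (e'.trans e.symm))))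
  · have : b * c = 1 := eq_one_of_inv ho (A.mul_mem hb.mem hc.mem) (by
      rw [comm_of_abelian hA hb.mem hc.mem, mul_inv_rev, comm_of_abelian hA hc.mem hb.mem]
      exact mul_left_cancel (a := a) (by rw [← mul_assoc, e', ← mul_assoc, e]))
    rw [mul_assoc, this, mul_one] at e
    exact ha.ne e

theorem ind3 (hA : IsMulCommutative A) (ho : Odd (Nat.card A)) (ha : Eig A W a) (hb : Eig A W b)
    (hc : Eig A W c) (h : W ⊓ 𝐂₁[a] ≠ W ⊓ 𝐂₁[b]) : a * b * c ≠ 1 := by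
  obtain ⟨w, hw, h | h⟩ := exists_sep h
  · exact ind3' hA ho ha hb hc hw h.1 h.2
  · rw [comm_of_abelian hA ha.mem hb.mem]; exact ind3' hA ho hb ha hc hw h.1 h.2

theorem eig_nc (hA : IsMulCommutative A) (ho : Odd (Nat.card A)) (ha : Eig A W a) (hb : Eig A W b)
    (hc : Eig A W c) (h : W ⊓ 𝐂₁[b] ≠ W ⊓ 𝐂₁[c]) : ∀ w ∈ W, a * c ≠ w * (a * b) * w⁻¹ := by
  intro w hw e
  obtain ⟨b', hb', e1, e2⟩ : ∃ b', Eig A W b' ∧ 𝐂₁[b'] = 𝐂₁[b] ∧ w * b * w⁻¹ = b'⁻¹ := by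
    rcases hb.or w hw with k | k
    · exact ⟨b⁻¹, hb.inv, cent1_inv b, by rw [k, inv_inv]⟩
    · exact ⟨b, hb, rfl, k⟩
  rw [← conj_mul, e2] at e
  rcases ha.or w hw with k | k <;> rw [k] at e
  · rw [mul_left_cancel e, cent1_inv, e1] at h
    exact h rfl
  · refine ind3 hA ho hb' hc (ha.sq ho) (e1 ▸ h) ?_
    rw [← mul_assoc, mul_assoc b', comm_of_abelian hA hc.mem ha.mem, e,
      comm_of_abelian hA (A.inv_mem ha.mem) (A.inv_mem hb'.mem)]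
    group

theorem eig_idx' (hA : IsMulCommutative A) (ho : Odd (Nat.card A)) (hW : IsPGroup 2 W)
    (h0 : A ⊓ 𝐂[W] = ⊥) (ha : Eig A W a) (hb : Eig A W b) (hw : w ∈ W) (h1 : w ∈ 𝐂₁[a])
    (h2 : w ∉ 𝐂₁[b]) : 4 ≤ 𝐂₁[a * b].relIndex W := by
  have key : ∀ v ∈ W, v ∈ 𝐂₁[a * b] → v ∈ 𝐂₁[a] ∧ v ∈ 𝐂₁[b] := by
    intro v hv hc
    have e := conj_of_cent hc
    rw [← conj_mul] at e
    rcases ha.or v hv with k | k <;> rw [k] at e
    · exact ⟨cent_of_conj k, cent_of_conj (mul_left_cancel e)⟩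
    · exfalso
      rcases hb.or v hv with l | l <;> rw [l] at e
      · exact ha.ne (eq_one_of_inv ho ha.mem (mul_right_cancel e))
      · have : a * b = 1 := eq_one_of_inv ho (A.mul_mem ha.mem hb.mem) (by
          rw [mul_inv_rev, comm_of_abelian hA (A.inv_mem hb.mem) (A.inv_mem ha.mem), e])
        rw [eq_inv_of_mul_eq_one_right this, cent1_inv] at h2
        exact h2 h1
  obtain ⟨v, hv, h3⟩ : ∃ v ∈ W, v ∉ 𝐂₁[a] := by
    by_contra h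
    push Not at h
    exact ha.ne (mem_bot.1 (h0 ▸ mem_inf.2 ⟨ha.mem, le_cent1.1 h⟩))
  exact four_le_idx hW hw hv (fun h => h2 (key w hw h).2) (fun h => h3 (key v hv h).1)
    fun h => h3 ((Subgroup.mul_mem_cancel_left _ h1).1 (key _ (W.mul_mem hw hv) h).1)

theorem eig_idx (hA : IsMulCommutative A) (ho : Odd (Nat.card A)) (hW : IsPGroup 2 W)
    (h0 : A ⊓ 𝐂[W] = ⊥) (ha : Eig A W a) (hb : Eig A W b) (h : W ⊓ 𝐂₁[a] ≠ W ⊓ 𝐂₁[b]) :
    4 ≤ 𝐂₁[a * b].relIndex W := by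
  obtain ⟨w, hw, h | h⟩ := exists_sep h
  · exact eig_idx' hA ho hW h0 ha hb hw h.1 h.2
  · rw [comm_of_abelian hA ha.mem hb.mem]; exact eig_idx' hA ho hW h0 hb ha hw h.1 h.2

/-- three eigenvectors with different stabilisers are impossible -/
theorem eig3 (h : Loc0 G) (hA : IsMulCommutative A) (ho : Odd (Nat.card A)) (hW : IsPGroup 2 W)
    (hWa : IsMulCommutative W) (hn : W ≤ 𝐍[A]) (hx : XS (A ⊔ W))
    (h0 : A ⊓ 𝐂[W] = ⊥) (ha : Eig A W a) (hb : Eig A W b) (hc : Eig A W c)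
    (hab : W ⊓ 𝐂₁[a] ≠ W ⊓ 𝐂₁[b]) (hac : W ⊓ 𝐂₁[a] ≠ W ⊓ 𝐂₁[c]) (hbc : W ⊓ 𝐂₁[b] ≠ W ⊓ 𝐂₁[c]) :
    False := by
  refine abR3 h hA hWa hn (coprime_of_two_odd hW ho).symm hx h0 (A.mul_mem ha.mem hb.mem)
    (A.mul_mem ha.mem hc.mem) (A.mul_mem hb.mem hc.mem) (eig_idx hA ho hW h0 ha hb hab)
    (eig_idx hA ho hW h0 ha hc hac) (eig_idx hA ho hW h0 hb hc hbc) (eig_nc hA ho ha hb hc hbc) ?_ ?_
  · rw [comm_of_abelian hA ha.mem hb.mem]; exact eig_nc hA ho hb ha hc hac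
  · rw [comm_of_abelian hA ha.mem hc.mem, comm_of_abelian hA hb.mem hc.mem]
    exact eig_nc hA ho hc ha hb hab

theorem exists_eig (hA : IsMulCommutative A) (ho : Odd (Nat.card A)) (hA1 : A ≠ ⊥)
    (hW : IsElementaryAbelian 2 W) (hn : W ≤ 𝐍[A]) (h0 : A ⊓ 𝐂[W] = ⊥) (h4 : 4 ≤ Nat.card W) :
    ∃ a, Eig A W a ∧ W ⊓ 𝐂₁[a] ≠ ⊥ := by
  obtain ⟨B, hB, hc, h1⟩ : ∃ B ≤ W, IsCyclic (W ⁄ B) ∧ A ⊓ 𝐂[B] ≠ ⊥ := by
    by_contra h
    push Not at h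
    exact hA1 (le_bot_iff.1 (coprime_abelian_gen_cent_le hW.1 hn
      (coprime_of_two_odd (abelem_pgroup hW) ho).symm fun B hB hc => (h B hB hc).le))
  obtain ⟨x, hx, e⟩ := exists_join_cycle_of_cyclic_quo (sub_abelian_normal hW.1 hB) hc
  obtain ⟨a, ha, a1⟩ := exists_ne_one h1
  have hx2 : x * x = 1 := by rw [← pow_two]; exact hW.2 x hx
  have hxB : x ∈ 𝐂[B] := sub_abelian_cent hW.1 hB hx
  have hxa : x * a * x⁻¹ ∈ A := (memJ_norm (hn hx)).2 ha.1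
  have hi : x * a * x⁻¹ = a⁻¹ := by
    refine eq_inv_of_mul_eq_one_right (mem_bot.1 (h0 ▸ mem_inf.2 ⟨A.mul_mem ha.1 hxa, ?_⟩))
    rw [e, centY, cent_cycle]
    refine mem_inf.2 ⟨mul_mem ha.2 (mul_mem (mul_mem hxB ha.2) (inv_mem hxB)),
      cent1C.1 (cent_of_conj ?_)⟩
    calc x * (a * (x * a * x⁻¹)) * x⁻¹ = x * a * x⁻¹ * ((x * x) * a * (x * x)⁻¹) := by group
      _ = _ := by rw [hx2, one_mul, inv_one, mul_one, comm_of_abelian hA ha.1 hxa]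
  refine ⟨a, ⟨ha.1, a1, fun w hw => ?_⟩, fun h => ?_⟩
  · rw [e] at hw
    obtain ⟨y, hy, b, hb, rfl⟩ := (mem_join_norm' (zpowers_le.2 (cent_sub _ hxB))).1 hw
    have : b * a * b⁻¹ = a := conj_of_cent (le_cent1.2 ha.2 hb)
    rw [show y * b * a * (y * b)⁻¹ = y * (b * a * b⁻¹) * y⁻¹ by group, this]
    rcases mem_cycle2 hx2 hy with rfl | rfl
    · left; group
    · right; exact hi
  · have hB1 : B = ⊥ := eq_bot_iff.2 (h ▸ le_inf hB (le_cent1.2 ha.2))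
    rw [hB1, bot_sup_eq] at e
    have := Nat.le_of_dvd two_pos (card_dvd_of_abelem_cyclic hW (e ▸ cycle_cyclic x))
    omega

theorem wcE (h : Loc0 G) (hs : Sp W K) (he : SpE W K) (hU : Odd (Nat.card U)) (hWU : W ≤ 𝐍[U])
    (hKU : K ≤ 𝐍[U]) (hx : XS (U ⊔ W ⊔ K)) : W ≤ 𝐂[U] := by
  have hc := (coprime_of_two_odd hs.two hU).symm
  have hA := h.odd hU he.abelem.1 hWU hc (hx.mono le_sup_left)
  have hAU : ⁅U, W⁆ ≤ U := commg_subl.2 hWU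
  have ho := oddSg hAU hU
  have hn := commg_normr U W
  have hK := normsR hKU hs.norm
  have h0 := coprime_abel_cent_TI hn (coprimeSg hAU hc) hA
  rw [coprime_commGid hWU hc] at h0
  rw [← commG1P']
  by_contra hA1
  generalize ⁅U, W⁆ = A at *
  obtain ⟨a, ha, hB⟩ := exists_eig hA ho hA1 he.abelem hn h0 he.four
  obtain ⟨b, hb, b1⟩ := exists_ne_one hB
  obtain ⟨v, hv, h3⟩ : ∃ v ∈ W, v ∉ 𝐂₁[a] := by
    by_contra h
    push Not at h
    exact ha.ne (mem_bot.1 (h0 ▸ mem_inf.2 ⟨ha.mem, le_cent1.1 h⟩))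
  obtain ⟨k, hk, e⟩ := he.trans b hb.1 b1 v hv fun e => h3 (e ▸ one_mem _)
  have hkB : k ∉ 𝐍[W ⊓ 𝐂₁[a]] := fun h => h3 (e ▸ ((memJ_norm h).2 hb).2)
  have hkB2 : k * k ∉ 𝐍[W ⊓ 𝐂₁[a]] := fun h => hkB (mem_of_sq_odd (odd_order hs.odd hk) h)
  have ec : ∀ c : G, W ⊓ 𝐂₁[k * c * k⁻¹] = k •ᶜ (W ⊓ 𝐂₁[c]) := fun c => by
    rw [conj_inf, cent1_conj, conj_eq_of_mem_norm (hs.norm hk)]
  have a2 := ha.conj (hK hk) (hs.norm hk)
  refine eig3 h hA ho hs.two he.abelem.1 hn (hx.mono ((sup_le_sup_right hAU _).trans le_sup_left))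
    h0 ha a2 (a2.conj (hK hk) (hs.norm hk)) ?_ ?_ ?_
  · rw [ec]; exact fun e => hkB (conj_eq_iff_mem_norm.1 e.symm)
  · rw [ec, ec, conj_conj]; exact fun e => hkB2 (conj_eq_iff_mem_norm.1 e.symm)
  · rw [ec (k * a * k⁻¹), ec]; exact fun e => hkB (conj_eq_iff_mem_norm.1 (conj_inj.1 e).symm)

end

theorem wc (h0 : StLoc0.{u}) {G : Type u} [Group G] [Finite G] {W K U : Subgroup G} (hs : Sp W K)
    (hU : Odd (Nat.card U)) (hWU : W ≤ 𝐍[U]) (hKU : K ≤ 𝐍[U]) (hx : XS (U ⊔ W ⊔ K)) :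
    W ≤ 𝐂[U] := by
  have h := h0 G
  rcases h.sp hs (hx.mono (sup_le (le_sup_right.trans le_sup_left) le_sup_right)) with he | ⟨z, hz⟩
  · exact wcE h hs he hU hWU hKU hx
  have hZW : ⟪z⟫ ≤ W := zpowers_le.2 hz.mem
  have hZ2 := pgroup_cycle2 hz.sq
  have hc := (coprime_of_two_odd hZ2 hU).symm
  have hx1 : XS (U ⊔ ⟪z⟫) := hx.mono ((sup_le_sup_left hZW _).trans le_sup_left)
  have hWZ : W ≤ 𝐍[⟪z⟫] := hz.der ▸ der_norm W
  have hKZ : K ≤ 𝐍[⟪z⟫] := hz.der ▸ normsR hs.norm hs.norm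
  have hAU : ⁅U, ⟪z⟫⁆ ≤ U := commg_subl.2 (hZW.trans hWU)
  have hUZ : U ≤ 𝐂[⟪z⟫] := by
    rw [← commG1P]
    by_contra hA1
    exact na (h.odd hU (cycle_abelian z) (hZW.trans hWU) hc hx1) (oddSg hAU hU) hA1 hs.two
      (normsR hWU hWZ) hz.der hz.sq
      (h.inv hU hZ2 (hWU hz.mem) (hz.sq ▸ one_mem _) hx1)
      (hx.mono ((sup_le_sup_right hAU _).trans le_sup_left))
  have hUZ' := cents_norm hUZ
  have hc2 := card_cycle2 hz.sq hz.ne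
  have hq := hs.quo hWZ hKZ fun h => by
    have := Subgroup.card_le_of_le h
    rw [hz.card, hc2] at this; omega
  have hxq := hx.quo ⟪z⟫
  rw [quotientY (sup_le hUZ' hWZ) hKZ, quotientY hUZ' hWZ] at hxq
  have h' := h0 (Q ⟪z⟫)
  have he : SpE (W ⁄ ⟪z⟫) (K ⁄ ⟪z⟫) := by
    refine (h'.sp hq (hxq.mono (sup_le (le_sup_right.trans le_sup_left) le_sup_right))).resolve_right ?_
    rintro ⟨y, hy⟩
    have := card_quo_mul (K := ⟪z⟫) (X := W) ⟨hZW, hWZ⟩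
    rw [hy.card, hz.card, hc2] at this; omega
  have := (quotient_cents2 hWZ hUZ').1 (wcE h' hq he (quotient_odd _ hU) (quotient_norms _ hWU)
    (quotient_norms _ hKU) hxq)
  rw [← commG1P, eq_bot_iff, ← coprime_TIg hc]
  exact le_inf (commg_subr.2 hWU) this

end Cfsg.Acd.L1
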