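import Cfsg.Agent.Acd.Loc1B

/-! Second layer, part C: `p`-length one for odd `p`. -/

set_option autoImplicit false
set_option linter.style.haveILetI false
set_option linter.unusedSectionVars false

namespace Cfsg.Acd.L1

open Subgroup Cfsg.FT
open scoped Pointwise Classical

universe u

variable {G : Type u} [Group G] [Finite G] {H R S P : Subgroup G} {x : G} {p q : ℕ}

theorem pc_act (h0 : StLoc0.{u}) [Fact p.Prime] [Fact q.Prime] (h2 : p ≠ 2) (hpq : p ≠ q)
    (hx : XS H) (hR : R ⊴ H) (hRp : IsPGroup p R) (hc : H ⊓ 𝐂[R] ≤ R) (hS : S ≤ H)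
    (hSq : IsPGroup q S) (hP : P ≤ H) (hPp : IsPGroup p P) (hn : P ≤ 𝐍[S]) : P ≤ 𝐂[S] := by
  intro x hxP
  by_contra h1
  have h := h0 G
  have hX : ⟪x⟫ ≤ P := zpowers_le.2 hxP
  have hXo := odd_card_of_pgroup (hPp.to_le hX) h2
  have hRo := odd_card_of_pgroup hRp h2
  have hA : ⁅S, ⟪x⟫⁆ ≤ S := commg_subl.2 (hX.trans hn)
  have hAH := hA.trans hS
  by_cases hq : q = 2
  · subst hq
    have hs := sp_comm_cycle hSq (by rwa [← Nat.card_zpowers]) (hn hxP) h1
    exact hs.not_le_odd hRo ((le_inf hAH (wc h0 hs hRo (hAH.trans hR.norm)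
      (hX.trans (hP.trans hR.norm)) (hx.mono (sup_le (sup_le hR.le hAH) (hX.trans hP))))).trans hc)
  have hSo := odd_card_of_pgroup hSq hq
  have h7 := (h.seven hSo (cycle_abelian x) hXo (hX.trans hn)
    (coprime_pgroups hSq (hPp.to_le hX) hpq.symm) (hx.mono (sup_le hS (hX.trans hP)))
    fun e => h1 (e (mem_zpowers x))).1
  have hcp := coprime_pgroups hRp (hSq.to_le hA) hpq
  have h3 := (h.seven hRo (cyclic_abelian (prime_cyclic (h7 ▸ by norm_num))) (oddSg hA hSo)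
    (hAH.trans hR.norm) hcp (hx.mono (sup_le hR.le hAH)) fun e => by
      have : ⁅S, ⟪x⟫⁆ = ⊥ := by
        rw [eq_bot_iff, ← coprime_TIg hcp]
        exact le_inf ((le_inf hAH e).trans hc) le_rfl
      rw [this, Subgroup.card_bot] at h7; omega).2
  have := FT.relIndex_dvd_card 𝐂[R] ⁅S, ⟪x⟫⁆
  rw [h3, h7] at this
  omega

theorem pc_core (h0 : StLoc0.{u}) [Fact p.Prime] (h2 : p ≠ 2) (hx : XS H) (h1 : core {p}ᶜ H = ⊥) :
    Syl p (core {p} H) H := by
  obtain ⟨P, hP⟩ := Sylow_exists (p := p) H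
  have hR := pcore_normal {p} H
  have hRp := pcore_pgroup' p H
  have hc := cent_sub_pcore hx.sol h1
  have hb := trivg_pcore_quotient {p} H
  have hRP := pcore_sub_Sylow hP
  generalize core {p} H = R at *
  suffices P ≤ R by rwa [le_antisymm hRP this]
  have hPN := hP.le.trans hR.norm
  have hPq := hP.quo hPN
  rw [← quotient_sub1 hPN, eq_bot_iff, ← hb]
  refine pgroup_le_Fitting hPq.pgroup ((le_inf hPq.le (centsC.1 (Fitting_le_of_forall fun q hq => ?_))).trans
    (cent_sub_Fitting (hx.quo R).sol))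
  by_cases hpq : p = q
  · rw [← hpq, hb]; exact bot_le
  haveI := Fact.mk hq
  have hM : pre R (core {q} (H ⁄ R)) ⊴ H := (pcore_normal {q} (H ⁄ R)).pre hR
  obtain ⟨S, hS⟩ := Sylow_exists (p := q) (pre R (core {q} (H ⁄ R)))
  have hSH := hS.le.trans hM.le
  have hSN := hSH.trans hR.norm
  have e1 : S ⁄ R = core {q} (H ⁄ R) := by
    have := hS.quo hSN
    rw [cosetpreK] at this
    exact this.eq_self (pcore_pgroup' q _)
  have e2 : (H ⊓ 𝐍[S]) ⁄ R = H ⁄ R := by
    have := (Frattini_arg hM hS).sup_eq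
    rw [← e1, quotientK hSN, sup_assoc, sup_eq_right.2 (le_inf hSH (normG S))] at this
    rw [← quotientYidl (inf_le_left.trans hR.norm), this]
  obtain ⟨T, hT⟩ := Sylow_exists (p := p) (H ⊓ 𝐍[S])
  have hTH := hT.le.trans inf_le_left
  have hTq := hT.quo (hTH.trans hR.norm)
  rw [e2] at hTq
  obtain ⟨g, hg, e⟩ := Sylow_trans hTq hPq
  have := quotient_cents R (pc_act h0 h2 hpq hx hR hRp hc hSH hS.pgroup hTH hT.pgroup
    (hT.le.trans inf_le_right))
  rw [e1] at this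
  rw [e, ← (pcore_normal {q} (H ⁄ R)).conj_eq hg]
  exact conj_cents g (centsC.1 this)

theorem pc (h0 : StLoc0.{u}) (hp : p.Prime) (h2 : p ≠ 2) (hx : XS H) (hP : Syl p P H) :
    H ≤ 𝐍[core {p}ᶜ H ⊔ P] := by
  haveI := Fact.mk hp
  refine ((plength1_iff_normal hP).1 ((p'quo_plength1 (pcore_normal _ H) (p'core_not_dvd p H)).1 ?_)).norm
  have hb := trivg_pcore_quotient {p}ᶜ H
  exact (plength1_pcore_Sylow hb).2 (pc_core h0 h2 (hx.quo _) hb)

end Cfsg.Acd.L1
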