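import Cfsg.Agent.Acd.S3

/-! Uniqueness of special subgroups. -/

set_option autoImplicit false
set_option maxHeartbeats 400000
set_option linter.unusedSectionVars false

namespace Cfsg.Acd

open Cfsg.FT
open scoped Pointwise Classical commutatorElement

universe u

variable {G : Type*} [Group G] [Finite G]
variable {H K W K₁ W₁ K₂ W₂ Q P S O : Subgroup G} {g y : G}

theorem Sp.quo_core (h : Sp W K) (hW : W ≤ H) (hK : K ≤ H) :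
    Sp (W ⁄ core {2}ᶜ H) (K ⁄ core {2}ᶜ H) :=
  h.quo (hW.trans (pcore_normal _ H).2) (hK.trans (pcore_normal _ H).2) (h.not_le_odd (odd_core H))

theorem sp_uniq (hx : XS H) (h1 : Sp W₁ K₁) (h2 : Sp W₂ K₂) (a1 : W₁ ≤ H) (b1 : K₁ ≤ H) (a2 : W₂ ≤ H)
    (b2 : K₂ ≤ H) : W₁ ≤ core {2}ᶜ H ⊔ W₂ :=
  (quotientSK (a1.trans (pcore_normal _ H).2) (a2.trans (pcore_normal _ H).2)).1
    ((struct0 (hx.quo _) (trivg_pcore_quotient _ H) (h2.quo_core a2 b2) (quotientS _ a2)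
      (quotientS _ b2)).2.2 _ _ (h1.quo_core a1 b1) (quotientS _ a1) (quotientS _ b1)).le

theorem le_of_le_odd_sup (hO : Odd (Nat.card O)) (hn : W₂ ≤ 𝐍[O]) (hQ : IsPGroup 2 Q) (h1 : W₁ ≤ Q)
    (h2 : W₂ ≤ Q) (h : W₁ ≤ O ⊔ W₂) : W₁ ≤ W₂ := by
  have := le_inf h h1
  rwa [group_modr hn h2, inf_comm, coprime_TIg (coprime_of_two_odd hQ hO), bot_sup_eq] at this

theorem sp_uniq' (hx : XS H) (h1 : Sp W₁ K₁) (h2 : Sp W₂ K₂) (a1 : W₁ ≤ H) (b1 : K₁ ≤ H)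
    (a2 : W₂ ≤ H) (b2 : K₂ ≤ H) (hQ : IsPGroup 2 Q) (c1 : W₁ ≤ Q) (c2 : W₂ ≤ Q) : W₁ = W₂ :=
  le_antisymm
    (le_of_le_odd_sup (odd_core H) (a2.trans (pcore_normal _ H).2) hQ c1 c2 (sp_uniq hx h1 h2 a1 b1 a2 b2))
    (le_of_le_odd_sup (odd_core H) (a1.trans (pcore_normal _ H).2) hQ c2 c1 (sp_uniq hx h2 h1 a2 b2 a1 b1))

theorem sp_normal (hx : XS H) (h : Sp W K) (hK : K ≤ H) (hQ : IsPGroup 2 Q) (hW : W ≤ Q) (hH : Q ≤ H) :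
    Q ≤ 𝐍[W] := normsP'.2 fun g hg =>
  sp_uniq' hx (h.conj g) h (conj_le_of_mem (hH hg) (hW.trans hH)) (conj_le_of_mem (hH hg) hK)
    (hW.trans hH) hK hQ (conj_le_of_mem hg hW) hW

theorem join_cent_normal (W : Subgroup G) : W ⊔ 𝐂[W] ⊴ 𝐍[W] := normalY (normalG W) (cent_normal W)

theorem mem_cent_of_odd (hW : IsPGroup 2 W) (ho : Odd (orderOf y)) (h : y ∈ W ⊔ 𝐂[W]) : y ∈ 𝐂[W] := by
  refine PiElt.mem_of_relIndex (π := {2}ᶜ) (piElt_compl.2 ho.not_two_dvd_nat)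
    ((join_cent_normal W).1.trans (cent_norm W)) h ?_
  rw [compl_compl, (mulEq_of_norm (cent_sub W)).symm.relIndex_eq]
  exact (piSub_singleton.2 hW).relIndex _

theorem sp_fix (h : Sp W K) (hx : XS 𝐍[W]) (hP : IsPGroup 2 P) (h1 : W ≤ P) (h2 : P ≤ W ⊔ 𝐂[W]) :
    ∃ K', Sp W K' ∧ K' ≤ 𝐍[P] ∧ ⁅P, K'⁆ = W := by
  obtain ⟨S, hS, hPS⟩ := Sylow_superset h2 hP
  obtain ⟨k, hk, hk'⟩ := SetLike.not_le_iff_exists.1 h.not_cent
  have hn := join_cent_normal W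
  obtain ⟨c, hc, n, hn1, rfl⟩ := (Frattini_arg hn hS).exists_mul (h.norm hk)
  have hy := constt_mem {2}ᶜ hn1
  have ho : Odd (orderOf (constt {2}ᶜ n)) :=
    Nat.not_even_iff_odd.1 (mt even_iff_two_dvd.1 (piElt_compl.1 (p_elt_constt _ n)))
  have hy' : constt {2}ᶜ n ∉ 𝐂[W] := fun e => hk' (mem_cent_of_odd h.two (odd_orderOf h.odd hk) (by
    have e1 := coset_id (le_sup_right (a := W) e)
    rw [coset_constt _ (hn.2 hn1.1), constt1P, compl_compl, ← coset_kerl hc] at e1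
    exact coset_idr (hn.2 (h.norm hk)) (e1.eq_one
      ((piElt_compl.2 (odd_orderOf h.odd hk).not_two_dvd_nat).coset _))))
  generalize constt {2}ᶜ n = y at *
  have hyW : ⟪y⟫ ≤ 𝐍[W] := Subgroup.zpowers_le.2 hy.1
  have hWS := h1.trans hPS
  have s1 := sp_comm_cycle hS.pgroup ho hy.2 fun e => hy' (centS hWS e)
  have s2 := sp_comm_cycle h.two ho hy.1 hy'
  have l1 : ⁅S, ⟪y⟫⁆ ≤ S := commg_subl.2 (Subgroup.zpowers_le.2 hy.2)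
  have l2 : ⁅W, ⟪y⟫⁆ ≤ W := commg_subl.2 hyW
  have e1 := sp_uniq' hx s1 h (l1.trans (hS.le.trans hn.1)) hyW (normG W) h.norm hS.pgroup l1 hWS
  have e2 := sp_uniq' hx s2 h (l2.trans (normG W)) hyW (normG W) h.norm h.two l2 le_rfl
  have e3 : ⁅P, ⟪y⟫⁆ = W := le_antisymm ((commSg _ hPS).trans e1.le) (e2.ge.trans (commSg _ h1))
  exact ⟨⟪y⟫, e2 ▸ s2, commg_subl.1 (e3.le.trans h1), e3⟩

theorem sp_nrm (h : Sp W K) (hx : XS 𝐍[W]) :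
    (∀ Q ≤ 𝐍[W], IsPGroup 2 Q → Q ≤ W ⊔ 𝐂[W]) ∨
    (Nat.card W = 4 ∧ (∀ Q ≤ 𝐍[W], IsPGroup 2 Q → ⁅Q, Q⁆ ≤ W) ∧ 𝐂[W] ⊓ 𝐂[K] ≤ 𝐂[𝐍[W]] ∧
      core {2}ᶜ 𝐍[W] ≤ 𝐂[𝐍[W]]) := by
  have hO := pcore_normal {2}ᶜ 𝐍[W]
  have hOo := odd_core 𝐍[W]
  have hq := h.quo_core (normG W) h.norm
  obtain ⟨h1, h2, -⟩ := struct0 (hx.quo _) (trivg_pcore_quotient _ 𝐍[W]) hq (quotientS _ (normG W))
    (quotientS _ h.norm)
  have hxq := (hx.quo (core {2}ᶜ 𝐍[W])).mono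
    (sup_le (quotientS _ (normG W)) (quotientS _ h.norm))
  generalize core {2}ᶜ 𝐍[W] = O at *
  have hi : W ⊓ O = ⊥ := coprime_TIg (coprime_of_two_odd h.two hOo)
  have hOW : O ≤ 𝐂[W] := centsC.1 ((normalG W).cents_of_TI hO hi)
  have hKO : K ≤ 𝐍[O] := h.norm.trans hO.2
  have hWO : W ≤ 𝐍[O] := (normG W).trans hO.2
  have hoo : Odd (Nat.card ↥(O ⊔ K)) := Nat.not_even_iff_odd.1 (mt even_iff_two_dvd.1 (piSub_compl.1
    ((piSub_compl.2 hOo.not_two_dvd_nat).sup (piSub_compl.2 h.odd.not_two_dvd_nat) hKO)))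
  have e1 := quotient_subnormG 𝐍[W] (normalYl hKO)
  rw [quotientYidl hKO] at e1
  have hOY : O ≤ 𝐍[W] ⊓ 𝐍[O ⊔ K] := le_inf hO.1 (normsG le_sup_left)
  have hYi : W ⊓ (𝐍[W] ⊓ 𝐍[O ⊔ K]) ≤ W ⊓ 𝐂[K] := (inf_le_inf_left _ inf_le_right).trans
    ((coprime_norm_cent (sup_le hO.1 h.norm) (coprime_of_two_odd h.two hoo)).le.trans
      (inf_le_inf_left _ (centS le_sup_right)))
  have hYK : 𝐍[W] ⊓ 𝐍[O ⊔ K] ≤ 𝐍[O ⊔ K] := inf_le_right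
  have hYH : 𝐍[W] ⊓ 𝐍[O ⊔ K] ≤ 𝐍[W] := inf_le_left
  generalize 𝐍[W] ⊓ 𝐍[O ⊔ K] = Y at *
  have hY : W ⊔ Y = 𝐍[W] := le_antisymm (sup_le (normG W) hYH)
    ((quotientSGK hO.2 (hOY.trans le_sup_right)).1 (by rw [quotientY hWO (hYH.trans hO.2), e1, h2]))
  obtain ⟨S, hS⟩ := Sylow_exists 2 Y
  have hSO : S ≤ 𝐍[O] := hS.le.trans (hYH.trans hO.2)
  have hd := spDer h (hx.mono (sup_le (normG W) h.norm))
  by_cases hc : S ⁄ O ≤ 𝐂[K ⁄ O]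
  · left
    have h3 := spC hq hxq (quotient_pgroup O hS.pgroup) (quotient_norms O (hS.le.trans hYH)) hc
    have h4 : S ≤ 𝐂[W] := commG1P.1 (eq_bot_iff.2 ((le_inf (commg_subr.2 (hS.le.trans hYH))
      ((quotient_cents2 hSO hWO).1 h3)).trans hi.le))
    have h5 := join_cent_normal W
    refine fun Q hQ hQ2 => (piSub_singleton.2 hQ2).le_of_relIndex h5.2 hQ (piNat_compl_singleton.2 ?_)
    rw [(mulEq_of_sup (hYH.trans h5.2) (le_antisymm (sup_le h5.1 hYH)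
      (hY.ge.trans (sup_le_sup_right le_sup_left Y)))).relIndex_eq]
    exact fun e => hS.index (e.trans (indexgS Y (h4.trans le_sup_right)))
  right
  have h3 : ⁅K ⁄ O, S ⁄ O⁆ = K ⁄ O := eq_of_le_prime h1 (commg_subl.2
    ((quotientS O hS.le).trans (e1.le.trans inf_le_right))) (mt commG1P'.1 hc)
  rw [← quotientR hKO hSO] at h3
  have h4 : ⁅K, S⁆ ≤ ⁅𝐍[W], 𝐍[W]⁆ := commgSS h.norm (hS.le.trans hYH)
  obtain ⟨h5, T, hT, h6, h7, h8, h9⟩ := s3 h hx (normalG W) h.norm hY (hYi.trans hd.2.le)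
    (((quotientSK hKO (h4.trans ((der_sub _).trans hO.2))).1 h3.ge).trans
      (sup_le ((le_inf hO.1 hOW).trans le_sup_right) (h4.trans le_sup_left)))
  rw [inf_eq_right.2 (cent_sub W)] at h6
  have h10 : 𝐍[W] ≤ 𝐂[O] := (h9 _ (subcent_normal' hO.2) (le_inf hT (commG1P'.1 (eq_bot_iff.2
    ((le_inf ((commSg T (hOW.trans h6)).trans h8) (hO.commg_le hT)).trans hi.le))))).trans inf_le_right
  have h11 : ⁅𝐍[W], 𝐂[W]⁆ ≤ W := (sub_astabQR le_rfl (cent_sub W)).1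
    ((h9 _ (subcentSec_normal (cent_norm W) le_rfl) (le_inf hT ((sub_astabQR hT (cent_sub W)).2
      ((commgS T h6).trans h8)))).trans inf_le_right)
  have h12 : ⁅W, W⁆ = ⊥ := derG1P.2 (card_p2group_abelian (p := 2) h5)
  refine ⟨h5, fun Q hQ hQ2 => ?_, ?_, centsC.1 h10⟩
  · obtain ⟨P, hP⟩ := Sylow_exists 2 T
    obtain ⟨g, hg, e⟩ := Sylow_subJ (hP.trans_index hT (by rw [h7]; decide)) hQ hQ2
    refine (dergS e).trans ?_
    rw [← conj_commutator]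
    exact conj_le_of_mem_norm hg ((dergS hP.le).trans h8)
  · conv_rhs => rw [← hY]
    refine centsY inf_le_left (commG1P'.1 (eq_bot_iff.2 (le_trans (le_inf ?_ ?_) (hd.2.trans h12).le)))
    · exact (commgSS hYH inf_le_left).trans h11
    · have h13 : 𝐂[W] ⊓ 𝐂[K] ≤ 𝐂[O ⊔ K] :=
        centsY (inf_le_left.trans ((cent_sub W).trans h10)) inf_le_right
      exact (commgS Y h13).trans ((commg_subr.2 (norms_cent hYK)).trans (centS le_sup_right))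

theorem stLoc2 : StLoc2.{u} := fun _ _ _ =>
  ⟨sp_uniq, sp_uniq', sp_normal, fun h hx => (sp_nrm h hx).imp_right fun ⟨h1, h2, h3, h4⟩ =>
    ⟨h1, fun Q hQ hQ2 => ⟨h2 Q hQ hQ2,
      (inf_le_inf_right _ inf_le_right).trans (h3.trans (centS hQ))⟩, h4⟩, sp_fix⟩

end Cfsg.Acd
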