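import Cfsg.Agent.Acd.Loc2
import Cfsg.Agent.Grp.DoubleCover

/-! The extension problem. -/

set_option autoImplicit false
set_option maxHeartbeats 400000
set_option linter.unusedSectionVars false

namespace Cfsg.Acd

open Cfsg.FT
open scoped Pointwise Classical commutatorElement

universe u

variable {G : Type u} [Group G] [Finite G] {N C W K P T : Subgroup G} {y : G}

/-- a perfect group with maximal normal subgroup `N` -/
structure Ext (N : Subgroup G) : Prop where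
  xs : ∀ H : Subgroup G, H ≠ ⊤ → XS H
  nsol : ¬ Group.IsSolvable G
  max : MaxNormalIn N ⊤ ⊤

theorem sol_of_top (h : Group.IsSolvable (⊤ : Subgroup G)) : Group.IsSolvable G :=
  solvable_of_surjective (f := (⊤ : Subgroup G).subtype) fun x => ⟨⟨x, trivial⟩, rfl⟩

namespace Ext
variable (h : Ext N)
include h

theorem norm (X : Subgroup G) : X ≤ 𝐍[N] := le_top.trans h.max.norm

theorem mem (x : G) : x ∈ 𝐍[N] := h.max.norm trivial

theorem normal : N ⊴ ⊤ := ⟨le_top, h.max.norm⟩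

theorem sol : Group.IsSolvable N := (h.xs N h.max.lt.ne).sol

theorem perf : ⁅(⊤ : Subgroup G), (⊤ : Subgroup G)⁆ = ⊤ := by
  by_contra e
  exact h.nsol (sol_of_top (sol_of_der (h.xs _ e).sol))

theorem pre_top' : pre N ⊤ = ⊤ := eq_top_iff.2 ((h.norm ⊤).trans (pre_top N).ge)

theorem xs_pre {Y : Subgroup (Q N)} (hY : Y ≠ ⊤) : XS (pre N Y) :=
  h.xs _ fun e => hY (pre_inj.1 (e.trans h.pre_top'.symm))

theorem ms : MS (Q N) := by
  refine ⟨?_, fun e => h.nsol (sol_of_top (sol_of_quo h.sol (h.norm ⊤) inferInstance)),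
    fun Y hY => cosetpreK Y ▸ (h.xs_pre hY).quo N⟩
  haveI : Nontrivial (Q N) := by
    obtain ⟨x, -, hx⟩ := SetLike.exists_of_lt h.max.lt
    exact ⟨⟨coset N x, 1, mt (coset_eq_one_iff (h.mem x)).1 hx⟩⟩
  refine ⟨fun Y hY => ?_⟩
  have h1 : pre N Y ⊴ ⊤ := h.pre_top' ▸ cosetpre_normal.2 (normalIn_top.2 hY)
  exact (h.max.eq_or (sub_cosetpre Y) le_top h1.2).imp (fun e => pre_inj.1 (e.trans (pre_bot N).symm))
    fun e => pre_inj.1 (e.trans h.pre_top'.symm)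

theorem xs_of {E : Subgroup (Q N)} (hE : E ≠ ⊥) (hs : Group.IsSolvable E) : XS (pre N 𝐍[E]) :=
  h.xs_pre (h.ms.norm_ne_top hE hs)

theorem nil : Group.IsNilpotent N := by
  refine nilpotentS ((le_frat_iff le_top).2 fun M hM => ?_) (Phi_nil ⊤)
  by_contra e
  refine h.nsol (sol_of_top ?_)
  rw [← hM.sup_eq le_top e, sup_comm]
  exact sol_sup (h.norm M) h.sol (h.xs M hM.lt.ne).sol

theorem eq_top (hC : ⊤ ≤ 𝐍[C]) (hn : ¬ C ≤ N) : ⊤ ≤ C := by
  have h1 := (h.max.le_or_sup le_top hC).resolve_left hn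
  have h2 : ⊤ ⁄ C = N ⁄ C := by rw [← h1, quotientYidr (le_top.trans hC)]
  by_contra e
  have h3 := sol_der1_proper (h2 ▸ quotient_sol C h.sol : Group.IsSolvable (⊤ ⁄ C))
    (mt (quotient_sub1 hC).1 e)
  rw [← quotient_der hC, h.perf] at h3
  exact h3.ne rfl

theorem lift {V L : Subgroup (Q N)} (hs : Sp V L) : ∃ P y, Syl 2 P (pre N V) ∧ y ∈ 𝐍[P] ∧
    y ∈ pre N 𝐍[V] ∧ Sp ⁅P, ⟪y⟫⁆ ⟪y⟫ ∧ ⁅P, ⟪y⟫⁆ ⁄ N = V := by
  obtain ⟨P, hP⟩ := Sylow_exists 2 (pre N V)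
  have hPV : P ⁄ N = V := by
    have := hP.quo (h.norm P)
    rw [cosetpreK] at this
    exact this.eq_self hs.two
  obtain ⟨k, hk, hk'⟩ := SetLike.not_le_iff_exists.1 hs.not_cent
  obtain ⟨k, -, rfl⟩ := cosetP k
  obtain ⟨c, hc, n, hn1, rfl⟩ := (Frattini_arg (cosetpre_normal.2 (normalG V)) hP).exists_mul
    (mem_pre.2 ⟨h.mem k, hs.norm hk⟩)
  have hy := constt_mem {2}ᶜ hn1
  have ho : Odd (orderOf (constt {2}ᶜ n)) :=
    Nat.not_even_iff_odd.1 (mt even_iff_two_dvd.1 (piElt_compl.1 (p_elt_constt _ n)))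
  have hn := join_cent_normal V
  have hy' : coset N (constt {2}ᶜ n) ∉ 𝐂[V] := fun e => hk' (mem_cent_of_odd hs.two
    (odd_orderOf hs.odd hk) (by
      have e1 := coset_id (le_sup_right (a := V) e)
      rw [coset_constt _ (h.mem n), coset_constt _ (hn.2 (mem_pre.1 hn1.1).2), constt1P, compl_compl,
        ← coset_kerl (le_sup_left (b := 𝐂[V]) (mem_pre.1 hc).2), ← coset_mul (h.mem c) (h.mem n)] at e1
      exact coset_idr (hn.2 (hs.norm hk)) (e1.eq_one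
        ((piElt_compl.2 (odd_orderOf hs.odd hk).not_two_dvd_nat).coset _))))
  generalize constt {2}ᶜ n = y at *
  have s2 := sp_comm_cycle hs.two (ho.of_dvd_nat (orderOf_coset_dvd N y)) (mem_pre.1 hy.1).2 hy'
  have hyV : ⟪coset N y⟫ ≤ 𝐍[V] := Subgroup.zpowers_le.2 (mem_pre.1 hy.1).2
  have l2 := commg_subl.2 hyV
  refine ⟨P, y, hP, hy.2, hy.1, sp_comm_cycle hP.pgroup ho hy.2 fun e => hy' ?_, ?_⟩
  · rw [← hPV]; exact quotient_cent P N (mem_quotient N e)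
  · rw [quotientR (h.norm _) (h.norm _), hPV, quotient_cycle (h.mem y)]
    exact sp_uniq' (h.ms.xs_norm hs.ne (pgroup_sol hs.two)) s2 hs (l2.trans (normG V)) hyV (normG V)
      hs.norm hs.two l2 le_rfl

theorem central (h1 : Loc1 G) {V L : Subgroup (Q N)} (hs : Sp V L) : ⊤ ≤ 𝐂[N] := by
  obtain ⟨P, y, hP, hy, hy', hsp, he⟩ := h.lift hs
  have hx := h.xs_of hs.ne (pgroup_sol hs.two)
  have hPH : P ≤ pre N 𝐍[V] := hP.le.trans (pre_mono (normG V))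
  have hyH : ⟪y⟫ ≤ pre N 𝐍[V] := Subgroup.zpowers_le.2 hy'
  have hWP : ⁅P, ⟪y⟫⁆ ≤ P := commg_subl.2 (Subgroup.zpowers_le.2 hy)
  have hWN : ¬ ⁅P, ⟪y⟫⁆ ≤ N := fun e => hs.ne (he ▸ quotientS1 e)
  have hn : ∀ π, ⊤ ≤ 𝐍[core π N] := fun π => (h.normal.core π).2
  rw [← (nilpotent_pcoreC {2} h.nil).sup_eq]
  refine centsY (h.eq_top (norms_cent (hn _)) fun e => ?_) (h.eq_top (norms_cent (hn _)) fun e => ?_)
  · have h2 : core {2} N ≤ P := hP.le_of_normal (pcore_pgroup' 2 N)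
      ⟨(pcore_sub _ N).trans (sub_cosetpre V), le_top.trans (hn _)⟩
    have h3 : y ∈ 𝐂[core {2} N] := by
      by_contra e'
      have s := sp_comm_cycle (pcore_pgroup' 2 N) (Nat.card_zpowers y ▸ hsp.odd) (hn _ trivial) e'
      have l : ⁅core {2} N, ⟪y⟫⁆ ≤ core {2} N := commg_subl.2 (le_top.trans (hn _))
      exact hWN ((sp_uniq' hx hsp s (hWP.trans hPH) hyH (l.trans (h2.trans hPH)) hyH hP.pgroup hWP
        (l.trans h2)).le.trans (l.trans (pcore_sub _ N)))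
    exact hWN ((commgS P (Subgroup.zpowers_le.2 (e h3))).trans (commg_subr.2 (h.norm P)))
  · exact hWN ((h1.wc hsp (odd_core N) (le_top.trans (hn _)) (le_top.trans (hn _))
      (hx.mono (sup_le (sup_le ((pcore_sub _ N).trans (sub_cosetpre _)) (hWP.trans hPH)) hyH))).trans e)

theorem inf_le_der {p : ℕ} [Fact p.Prime] (hc : ⊤ ≤ 𝐂[N]) (hP : Syl p P ⊤) : N ⊓ P ≤ ⁅P, P⁆ :=
  le_trans (inf_le_inf_right P (le_inf (le_top.trans h.perf.ge) (le_inf le_top (centsC.1 hc))))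
    (der1_center_Sylow_le hP)

theorem odd_abelian (hc : ⊤ ≤ 𝐂[N]) (hO : OddFact (Q N)) {p : ℕ} [hp : Fact p.Prime] (h2 : p ≠ 2)
    (hP : Syl p P ⊤) : IsMulCommutative P := by
  have hz : N ⊓ P ≤ 𝐙[P] := le_inf inf_le_right (inf_le_left.trans (centsC.1 (le_top.trans hc)))
  have hcyc : IsCyclic (P ⁄ N) → IsMulCommutative P := fun e => by
    obtain ⟨f⟩ := second_isog (h.norm P)
    exact cyclic_factor_abelian hz (isCyclic_of_surjective f.symm.toMonoidHom f.symm.surjective)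
  by_cases h0 : P ⁄ N = ⊥
  · exact hcyc (h0 ▸ inferInstance)
  have hS := hP.quo (h.norm P)
  rw [quotientT] at hS
  obtain ⟨-, -, ⟨u, hu, hi⟩ | ⟨h7, -⟩⟩ := hO p hp.out h2 _ hS h0
  swap
  · exact hcyc (prime_cyclic (by rw [h7]; norm_num))
  obtain ⟨v, -, rfl⟩ := cosetP u
  rw [← constt_p_elt (piElt_singleton_iff_pgroup.2 hu), ← coset_constt _ (h.mem v)] at hi
  have hu := piElt_singleton_iff_pgroup.1 (p_elt_constt {2} v)
  generalize constt {2} v = u at *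
  have h3 : ⟪coset N u⟫ ≤ 𝐍[P ⁄ N] := Subgroup.zpowers_le.2 (mem_norm_of_conj_le
    (conj_le_iff_forall.2 fun a ha => hi a ha ▸ inv_mem ha))
  have h4 : ⟪u⟫ ≤ pre N 𝐍[P ⁄ N] := (sub_quotient_pre (h.norm _)).1 (quotient_cycle (h.mem u) ▸ h3)
  have h5 : ⟪u⟫ ≤ 𝐍[P] := by
    have e1 : ⟪u⟫ ≤ 𝐍[N ⊔ P] := quotientK (h.norm P) ▸ norms_pre (h.norm _) (quotient_cycle (h.mem u) ▸ h3)
    exact char_norm_trans ((hP.subl le_sup_right le_top).char
      (normalYr (cents_norm (centsC.1 (le_top.trans hc))))) e1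
  have hPo := odd_card_of_pgroup hP.pgroup h2
  have h6 := odd_comm_abelian hPo (cycle_abelian u) h5 (coprime_of_two_odd hu hPo).symm
    ((h.xs_of h0 (pgroup_sol hS.pgroup)).mono
      (sup_le ((sub_quotient_pre (h.norm P)).1 (normG _)) h4))
  have h7 : P ⁄ N ≤ ⁅P, ⟪u⟫⁆ ⁄ N := by
    rw [quotientR (h.norm _) (h.norm _), quotient_cycle (h.mem u)]
    refine fpf_le_commg (h3 (Subgroup.mem_zpowers _)) (eq_bot_iff.2 fun a ha => ?_)
    have e := hi a ha.1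
    rw [← mem_cent1.1 ha.2, mul_inv_cancel_right] at e
    exact mem_of_sq_mem (odd_orderOf (quotient_odd N hPo) ha.1) (by nth_rewrite 1 [e]; simp)
  have h8 := (quotientSK (h.norm _) (h.norm _)).1 h7
  refine abelianS h8 (abelianY.2 ⟨abelian_iff.2 (le_top.trans hc), h6, le_top.trans hc⟩)

theorem two (hc : ⊤ ≤ 𝐂[N]) (hO : OddFact (Q N)) : IsPGroup 2 N := by
  refine piSub_singleton.1 fun p hp hd => ?_
  by_contra h2
  haveI := Fact.mk hp
  obtain ⟨P, hP⟩ := Sylow_exists p (⊤ : Subgroup G)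
  have h3 := h.inf_le_der hc hP
  rw [derG1P.2 (h.odd_abelian hc hO h2 hP), inf_comm] at h3
  exact (Sylow_setI_normal h.normal hP).ne_bot hd (eq_bot_iff.2 h3)

theorem lift' (h2 : IsPGroup 2 N) {V L : Subgroup (Q N)} (hs : Sp V L) : ∃ W K, Sp W K ∧ W ⁄ N = V ∧
    K ≤ pre N 𝐍[V] ∧ pre N V = N ⊔ W := by
  obtain ⟨P, y, -, -, hy', hsp, he⟩ := h.lift hs
  exact ⟨_, _, hsp, he, Subgroup.zpowers_le.2 hy', by rw [← quotientK (h.norm _), he]⟩

/-- the quotient map -/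
noncomputable def toQ : G →* Q N := (quoHom (h.norm ⊤)).comp Subgroup.topEquiv.symm.toMonoidHom

theorem toQ_apply (x : G) : h.toQ x = coset N x := quoHom_apply (h.norm ⊤) ⟨x, trivial⟩

theorem toQ_surj : Function.Surjective h.toQ := fun y => by
  obtain ⟨x, -, rfl⟩ := cosetP y
  exact ⟨x, h.toQ_apply x⟩

theorem equiv (h0 : N = ⊥) : Nonempty (G ≃* Q N) :=
  ⟨MulEquiv.ofBijective h.toQ ⟨(injective_iff_map_eq_one _).2 fun x hx => by
    rw [h.toQ_apply, coset_eq_one_iff (h.mem x), h0] at hx; exact hx, h.toQ_surj⟩⟩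

theorem caseD (hc : ⊤ ≤ 𝐂[N]) (h2 : IsPGroup 2 N) (hT : Syl 2 T ⊤) (hD : TwoD (T ⁄ N))
    (hG : Nat.card (Q N) = 168) : N = ⊥ := by
  obtain ⟨σ, τ, m, hd, hm, hsp⟩ := hD
  obtain ⟨L, hs⟩ := hsp τ hd.mem_τ hd.notMem
  have hS := hT.quo (h.norm T)
  rw [quotientT] at hS
  have hV : ⟪σ ^ m⟫ ⊔ ⟪τ⟫ ≤ T ⁄ N :=
    sup_le (Subgroup.zpowers_le.2 (pow_mem hd.mem_σ m)) (Subgroup.zpowers_le.2 hd.mem_τ)
  have hab : IsMulCommutative ↥(⟪σ ^ m⟫ ⊔ ⟪τ⟫) := abelianY.2 ⟨cycle_abelian _, cycle_abelian _,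
    Subgroup.zpowers_le.2 (cent_cycle (σ ^ m) ▸ hd.le_centralizer_J hd.mem_τ)⟩
  have hτ : τ ∈ ⟪σ ^ m⟫ ⊔ ⟪τ⟫ := Subgroup.mem_sup_right (Subgroup.mem_zpowers τ)
  generalize ⟪σ ^ m⟫ ⊔ ⟪τ⟫ = V at *
  have hxV := h.ms.xs_norm hs.ne (pgroup_sol hs.two)
  have hn : T ⁄ N ≤ 𝐍[V] := by
    have e1 := hs.ab_idx hab (hxV.mono (sup_le (normG V) hs.norm))
    have e2 := hs.three_le
    have e3 := card_mul_relIndex hV
    have e5 : Nat.card ↥(T ⁄ N) ≤ 8 := by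
      obtain ⟨k, hk⟩ := exists_card_pgroup hS.pgroup
      have e6 := Subgroup.card_subgroup_dvd_card (T ⁄ N)
      rw [hG, hk] at e6
      rw [hk]
      by_contra e7
      have : 4 ≤ k := by
        by_contra e8
        have : 2 ^ k ≤ 2 ^ 3 := Nat.pow_le_pow_right two_pos (by omega)
        omega
      exact absurd ((pow_dvd_pow 2 this).trans e6) (by norm_num)
    have e6 := relIndex_pos V (T ⁄ N)
    have e7 : V.relIndex (T ⁄ N) = 1 ∨ V.relIndex (T ⁄ N) = 2 := by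
      have : 4 * V.relIndex (T ⁄ N) ≤ 8 := (Nat.mul_le_mul_right _ (by omega)).trans (e3.le.trans e5)
      omega
    exact e7.elim (fun e => normsG (Subgroup.relIndex_eq_one.1 e))
      fun e => (index_p_normal hS.pgroup hV e).2
  obtain ⟨W, K, hsp, he, hK, hP⟩ := h.lift' h2 hs
  have hNT : N ≤ T := hT.le_of_normal h2 h.normal
  have hWT : W ≤ T := (quotientSGK (h.norm W) hNT).1 (he ▸ hV)
  have hx := h.xs_of hs.ne (pgroup_sol hs.two)
  have hTW := sp_normal hx hsp hK hT.pgroup hWT ((sub_quotient_pre (h.norm T)).1 hn)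
  have hxW : XS 𝐍[W] := h.xs _ fun e => h.ms.norm_ne_top hs.ne (pgroup_sol hs.two)
    (eq_top_iff.2 (by have := quotient_norm W N; rwa [e, he, quotientT] at this))
  rcases sp_nrm hsp hxW with h3 | ⟨h3, h4, -⟩
  · have e1 := quotientS N (h3 T hTW hT.pgroup)
    rw [quotientY (h.norm _) (h.norm _), he] at e1
    have e2 := mem_cent.1 ((sup_le (abelian_iff.1 hab) (he ▸ quotient_cent W N)) (e1 hd.mem_σ)) τ hτ
    have e3 := hd.rel
    rw [e2, mul_inv_cancel_right, eq_inv_iff_mul_eq_one, ← sq] at e3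
    have := Nat.le_of_dvd two_pos (orderOf_dvd_of_pow_eq_one e3)
    rw [hd.ord] at this; omega
  · rw [eq_bot_iff, ← hsp.ab_cent (card_p2group_abelian (p := 2) h3)]
    exact le_inf (((le_inf le_rfl hNT).trans (h.inf_le_der hc hT)).trans (h4 T hTW hT.pgroup))
      (centsC.1 (le_top.trans hc))

theorem caseE (hc : ⊤ ≤ 𝐂[N]) (h2 : IsPGroup 2 N) (hT : Syl 2 T ⊤) (hE : TwoE (T ⁄ N)) :
    N = ⊥ ∨ (Nat.card ↥(T ⁄ N) = 4 ∧ ∃ z, z ≠ 1 ∧ ∀ x, x ∈ N ↔ x = 1 ∨ x = z) := by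
  obtain ⟨L, hs, -⟩ := hE
  obtain ⟨W, K, hsp, he, hK, hP⟩ := h.lift' h2 hs
  have hNT : N ≤ T := hT.le_of_normal h2 h.normal
  rw [quotientGK ⟨hNT, h.norm T⟩] at hP
  have h3 : N ≤ ⁅W, W⁆ := by
    have := (le_inf le_rfl hNT).trans (h.inf_le_der hc hT)
    rwa [hP, der_cprod (le_top.trans hc), derG1P.2 (abelian_iff.2 (le_top.trans hc)), bot_sup_eq] at this
  rcases sp_cases hsp ((h.xs_of hs.ne (pgroup_sol hs.two)).mono (sup_le
    ((sub_quotient_pre (h.norm W)).1 (he.le.trans (normG _))) hK)) with h4 | ⟨z, h4⟩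
  · rw [derG1P.2 h4.abelem.1] at h3
    exact Or.inl (eq_bot_iff.2 h3)
  refine or_iff_not_imp_left.2 fun h0 => ?_
  have ho : orderOf z = 2 := orderOf_eq_prime (by rw [sq, h4.sq]) h4.ne
  have h5 : N = ⟪z⟫ := eq_of_le_prime (by rw [Nat.card_zpowers, ho]; norm_num) (h4.der ▸ h3) h0
  refine ⟨?_, z, h4.ne, fun x => ?_⟩
  · have := card_quo_mul (K := N) (X := W) ⟨h3.trans (der_sub W), h.norm W⟩
    rw [he, h4.card, congrArg (fun X : Subgroup G => Nat.card X) h5, Nat.card_zpowers, ho] at this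
    omega
  · rw [h5]
    refine ⟨fun hx => ?_, by rintro (rfl | rfl) <;> simp⟩
    obtain ⟨k, hk, rfl⟩ := (mem_zpowers_iff_mem_range_orderOf.1 hx |> Finset.mem_image.1)
    rw [ho, Finset.mem_range] at hk
    interval_cases k <;> simp

end Ext

theorem stMain (h1 : StLoc1.{u}) (hO : StO.{u}) (hS : StSimple.{u}) : StMain.{u} := by
  intro G _ _ hx
  refine or_iff_not_imp_left.2 fun hs => ?_
  obtain ⟨N, hN, -⟩ := maxnormal_exists (W := (⊥ : Subgroup G)) (U := ⊤) (A := ⊤)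
    (lt_top_iff_ne_top.2 fun e => hs (sol_of_top (e ▸ solvable1))) (norms1 _)
  have h : Ext N := ⟨hx, hs, hN⟩
  obtain ⟨T, hT⟩ := Sylow_exists 2 (⊤ : Subgroup G)
  have hT' := hT.quo (h.norm T)
  rw [quotientT] at hT'
  rcases hS _ _ h.ms hT' with ⟨hE, hc, F, i1, i2, q, hq, hF, ⟨e⟩⟩ | ⟨hD, hc, ⟨e⟩⟩
  · have hz := (id hE).elim fun _ s => h.central (h1 G) s.1
    rcases h.caseE hz (h.two hz (hO _ h.ms)) hT hE with h0 | ⟨h4, z, hz1, hk⟩
    · obtain ⟨f⟩ := h.equiv h0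
      exact Or.inr (Or.inl ⟨F, i1, i2, q, hq, hF, ⟨f.trans e⟩⟩)
    · haveI := h.ms.simple
      rw [h4] at hc
      obtain ⟨f⟩ := psl25_of_simple_card_sixty h.ms.perfect hc
      refine Or.inr (Or.inr (sl25_of_double_cover h.perf (f.toMonoidHom.comp h.toQ)
        (f.surjective.comp h.toQ_surj) (by rw [← Nat.card_congr f.toEquiv, hc]; norm_num) hz1 fun x => ?_))
      rw [← hk, ← coset_eq_one_iff (h.mem x), ← h.toQ_apply]
      simp
  · have hz := (id hD).elim fun _ ⟨_, _, hd, _, s⟩ =>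
      (s _ hd.mem_τ hd.notMem).elim fun _ s => h.central (h1 G) s
    obtain ⟨f⟩ := h.equiv (h.caseD hz (h.two hz (hO _ h.ms)) hT hD hc)
    exact Or.inl ⟨f.trans e⟩

end Cfsg.Acd
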