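import Cfsg.Agent.Acd.Alp

/-! The odd Sylow subgroups of the minimal simple group. -/

set_option autoImplicit false
set_option linter.style.haveILetI false

namespace Cfsg.Acd

open Subgroup Cfsg.FT
open scoped Pointwise commutatorElement

universe u

theorem le_comm_norm {G : Type*} [Group G] [Finite G] (h : Loc1 G) (hG : MS G) {p : ℕ}
    [hp : Fact p.Prime] (h2 : p ≠ 2) {P : Subgroup G} (hP : Syl p P ⊤) : P ≤ ⁅𝐍[P], P⁆ := by
  refine le_of_ctl hP hG.perfect (alperin hP fun E hE h1 hS ih g hg a ha => ?_)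
  by_cases e : E = P
  · subst e
    exact mem_commg hg ha
  have hE2 := hP.pgroup.to_le hE
  have hlt := nilpotent_proper_norm (pgroup_nil hP.pgroup) (lt_of_le_of_ne hE e)
  have hl : PLen1 p 𝐍[E] := (plength1_iff_normal hS).2
    ⟨sup_le (pcore_sub _ _) hS.le, h.pc hp.out h2 (hG.xs_norm_pgroup h1 hE2) hS⟩
  obtain ⟨o, ho, n, hn, rfl⟩ := (hl.Frattini hS).exists_mul hg
  have hc : core {p}ᶜ 𝐍[E] ≤ 𝐂[E] := (pcore_normal _ _).cents_of_TI (normalG E)
    (coprime_TIg (coprime_pgroup hE2 (p'core_not_dvd p _)).symm)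
  have := ih _ inf_le_left (lt_of_le_of_ne (Subgroup.card_le_of_le hlt.le)
    fun e' => hlt.ne (card_eq_of_le hlt.le e'.ge)) n
    ((conj_eq_of_mem_norm hn.2).le.trans inf_le_left) a (hlt.le ha)
  have e1 := mem_cent.1 (hc ho) _ ((memJ_norm hn.1).2 ha)
  rwa [show o * n * a * (o * n)⁻¹ = o * (n * a * n⁻¹) * o⁻¹ by group, ← e1, mul_inv_cancel_right]

theorem stO (h1 : StLoc1.{u}) : StO.{u} := by
  intro G _ _ hG p hp h2 P hP hP1
  haveI := Fact.mk hp
  have h := h1 G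
  have hS : Syl p P 𝐍[P] := hP.subl (normG P) le_top
  obtain ⟨X, hd⟩ := SchurZassenhaus_split hS.hallSub (normalG P)
  have hX : ¬ p ∣ Nat.card X := index_sdprod hd ▸ hS.index
  have hD : ⁅P, X⁆ ≤ P := commg_subl.2 hd.norm
  have hPX : ⁅P, X⁆ = P := by
    refine le_antisymm hD ((quotient_sub1 (commg_norml P X)).1 ?_)
    by_contra e
    refine (sol_der1_proper (quotient_sol _ (pgroup_sol hP.pgroup)) e).not_ge ?_
    have := quotientS ⁅P, X⁆ (le_comm_norm h hG h2 hP)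
    rwa [← hd.sup_eq, quotientR (commg_norm P X) (commg_norml P X),
      quotientY (commg_norml P X) (commg_normr P X),
      commg_sup_cent' (quotient_norms _ hd.norm) (quotient_cents2r (commGC P X).ge)] at this
  obtain ⟨a1, a2, a3⟩ := h.ol hp h2 hP.pgroup hP1 hX hd.norm hPX
    (hd.sup_eq ▸ hG.xs_norm_pgroup hP1 hP.pgroup)
  have hC := abelian_iff.1 a1
  refine ⟨a1, ?_, a3.imp (fun ⟨u, _, e⟩ => ⟨u, e⟩) fun e => ⟨e.1, ?_⟩⟩
  · rw [hd.der]
    exact sup_le (sup_le ((der_sub P).trans hC) a2) (hD.trans hC)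
  · rw [(hd.mulEq.mono hC (cent_sub P) le_rfl hd.norm).relIndex_eq, e.2]

end Cfsg.Acd
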