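import Cfsg.Agent.Acd.AB

/-! Coprime action of abelian groups inside `XS`. -/

set_option autoImplicit false
set_option maxHeartbeats 400000
set_option linter.unusedSectionVars false

namespace Cfsg.Acd

open Cfsg.FT
open scoped Pointwise Classical commutatorElement

variable {G : Type*} [Group G] [Finite G]
variable {L H K V W U X : Subgroup G} {θ χ : G → ℂ} {g v w x a b t : G}

theorem exc_over_hall (hW : W ⊴ L) (hd : ⁅L, L⁆ ≤ W) (hc : (Nat.card W).Coprime (W.relIndex L))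
    (hθ : IsIrr W θ) : W.relIndex (L ⊓ inertia W θ) *
      ((L ⊓ inertia W θ).relIndex L * charDegree θ - 2) ≤ excOver L W θ := by
  have h1 := hθ.isCF.sub_Inertia hW.1
  obtain ⟨ψ, hψ, he⟩ := extend_coprime hθ h1 inf_le_right
    (hc.coprime_dvd_right (indexSg h1 inf_le_left))
  have := exc_over_lin hW hθ rfl hψ.isChar he
  rwa [sup_eq_left.2 ((dergS inf_le_left).trans hd)] at this

theorem der_join_comm (hX : IsMulCommutative X) (h : ⁅W, X⁆ = W) : ⁅W ⊔ X, W ⊔ X⁆ = W := by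
  rw [der1_join, derG1P.2 hX, h, sup_bot_eq, sup_eq_right.2 (der_sub W)]

theorem exists_nonlin (h : ¬ IsMulCommutative W) : ∃ θ, IsIrr W θ ∧ 2 ≤ charDegree θ := by
  rw [abelian_iff_forall_isLin] at h
  push Not at h
  obtain ⟨θ, hθ, h1⟩ := h
  have := hθ.charDegree_pos
  have h2 : charDegree θ ≠ 1 := fun e => h1 (hθ.isLin_iff.2 e)
  exact ⟨θ, hθ, by omega⟩

theorem exc_le_of_comm (hX : IsMulCommutative X) (hid : ⁅W, X⁆ = W) (h : XS (W ⊔ X)) :
    exc (W ⊔ X) ≤ W.relIndex (W ⊔ X) := by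
  have := h.acd
  rwa [Acd, der_join_comm hX hid] at this

theorem deg_star (hθ : IsIrr W θ) : charDegree (star θ) = charDegree θ := by
  have := hθ.star.one_eq
  rw [hθ.isChar.star_one, hθ.one_eq] at this
  exact_mod_cast this.symm

theorem odd_abelian (hWo : Odd (Nat.card W)) (hX : IsMulCommutative X) (hn : X ≤ 𝐍[W])
    (hc : (Nat.card W).Coprime (Nat.card X)) (hid : ⁅W, X⁆ = W) (h : XS (W ⊔ X)) :
    IsMulCommutative W := by
  by_contra hab
  obtain ⟨θ, hθ, h2⟩ := exists_nonlin hab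
  have hs := sdprodEY hn (coprime_TIg hc)
  have hd := der_join_comm hX hid
  have hc' : (Nat.card W).Coprime (W.relIndex (W ⊔ X)) := index_sdprod hs ▸ hc
  have hA := exc_le_of_comm hX hid h
  have h3 : 3 ≤ charDegree θ := by
    obtain ⟨k, hk⟩ := hθ.odd_charDegree hWo
    omega
  have h4 := exc_over_hall hs.normal hd.le hc' hθ
  have h5 := exc_over_hall hs.normal hd.le hc' hθ.star
  have h6 := relIndex_Inertia_mul hθ.isCF hs.left_le
  rw [inertia_star, deg_star hθ] at h5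
  have ht := relIndex_pos W ((W ⊔ X) ⊓ inertia W θ)
  have hs1 := relIndex_pos ((W ⊔ X) ⊓ inertia W θ) (W ⊔ X)
  have h8 := card_cfclass hs.normal.2 θ
  generalize W.relIndex ((W ⊔ X) ⊓ inertia W θ) = t at *
  generalize ((W ⊔ X) ⊓ inertia W θ).relIndex (W ⊔ X) = s at *
  have h9 : s * charDegree θ - 2 ≤ s := Nat.le_of_mul_le_mul_left
    ((h4.trans (excOver_le _ _ _)).trans (hA.trans h6.ge)) ht
  have h10 : s * 3 ≤ s * charDegree θ := Nat.mul_le_mul_left _ h3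
  obtain rfl : s = 1 := by omega
  have h12 : star θ ∉ cfclass (W ⊔ X) θ := fun e => hθ.star_ne hWo
    (by rintro rfl; rw [(isLin_cf1 W).charDegree_eq] at h2; omega)
    (Finset.card_le_one.1 h8.le _ e _ (cfclass_refl _ _))
  have h13 := excOver_add_le hs.normal hθ hθ.star h12
  have h14 : t * 1 ≤ t * (1 * charDegree θ - 2) := Nat.mul_le_mul_left _ (by omega)
  omega

theorem odd_comm_abelian (hU : Odd (Nat.card U)) (hX : IsMulCommutative X) (hn : X ≤ 𝐍[U])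
    (hc : (Nat.card U).Coprime (Nat.card X)) (h : XS (U ⊔ X)) : IsMulCommutative ↥⁅U, X⁆ :=
  have hWU : ⁅U, X⁆ ≤ U := commg_subl.2 hn
  odd_abelian (oddSg hWU hU) hX (commg_normr U X) (coprimeSg hWU hc) (coprime_commGid hn hc)
    (h.mono (sup_le_sup_right hWU X))

theorem inv_of_odd (hU : Odd (Nat.card U)) (ht : IsPGroup 2 ⟪t⟫) (hn : t ∈ 𝐍[U]) (h2 : t * t ∈ 𝐂[U])
    (h : XS (U ⊔ ⟪t⟫)) (ha : a ∈ ⁅U, ⟪t⟫⁆) : t * a * t⁻¹ = a⁻¹ := by
  have hn' : ⟪t⟫ ≤ 𝐍[U] := Subgroup.zpowers_le.2 hn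
  have hc := (coprime_of_two_odd ht hU).symm
  have hA := odd_comm_abelian hU (cycle_abelian t) hn' hc h
  have hAU : ⁅U, ⟪t⟫⁆ ≤ U := commg_subl.2 hn'
  have h1 := coprime_abel_cent_TI (commg_normr U ⟪t⟫) (coprimeSg hAU hc) hA
  rw [coprime_commGid hn' hc, cent_cycle] at h1
  have h3 : t * a * t⁻¹ ∈ ⁅U, ⟪t⟫⁆ := (memJ_norm (commg_normr U _ (Subgroup.mem_zpowers t))).2 ha
  have h4 : a * (t * a * t⁻¹) ∈ ⁅U, ⟪t⟫⁆ ⊓ 𝐂₁[t] := by
    refine ⟨mul_mem ha h3, mem_cent1.2 ?_⟩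
    have h5 := mem_cent.1 h2 a (hAU ha)
    calc _ = t * a * t⁻¹ * a * t := by rw [comm_of_abelian hA ha h3]
      _ = t * a * t⁻¹ * t⁻¹ * (t * a * t⁻¹) * (t * t) := by group
      _ = t * a * t⁻¹ * t⁻¹ * (t * a * t⁻¹) * (t * t) := rfl
      _ = t * (a * (t⁻¹ * (a * (t * t)) * t⁻¹)) := by group
      _ = _ := by rw [h5]; group
  rw [h1, Subgroup.mem_bot] at h4
  exact eq_inv_of_mul_eq_one_right h4

theorem three_le_idx (hK : Odd (Nat.card K)) (h : v ∉ 𝐂[K]) :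
    ∃ m, 1 ≤ m ∧ 𝐂₁[v].relIndex K = 2 * m + 1 := by
  obtain ⟨m, hm⟩ := hK.of_dvd_nat (relIndex_dvd_card 𝐂₁[v] K)
  rw [← idx_eq_one] at h
  exact ⟨m, by omega, hm⟩

theorem third_le {n : ℕ} (h : 3 ≤ n) : (1 : ℚ) / 3 ≤ 1 - 2 / n := by
  have h1 : (3 : ℚ) ≤ n := by exact_mod_cast h
  have : (2 : ℚ) / n ≤ 2 / 3 := div_le_div_of_nonneg_left zero_le_two (by norm_num) h1
  linarith

theorem fifth_le {n : ℕ} (h : 5 ≤ n) : (3 : ℚ) / 5 ≤ 1 - 2 / n := by
  have h1 : (5 : ℚ) ≤ n := by exact_mod_cast h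
  have : (2 : ℚ) / n ≤ 2 / 5 := div_le_div_of_nonneg_left zero_le_two (by norm_num) h1
  linarith

theorem seventh_le {n : ℕ} (h : 7 ≤ n) : (5 : ℚ) / 7 ≤ 1 - 2 / n := by
  have h1 : (7 : ℚ) ≤ n := by exact_mod_cast h
  have : (2 : ℚ) / n ≤ 2 / 7 := div_le_div_of_nonneg_left zero_le_two (by norm_num) h1
  linarith

theorem orb_disj (h : b ∉ orb K a) : Disjoint (orb K a) (orb K b) :=
  Finset.disjoint_left.2 fun _ h1 h2 => h (orb_eq h1 ▸ orb_symm h2)

theorem one_not_mem_orb (h : a ≠ 1) : (1 : G) ∉ orb K a := fun e => by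
  obtain ⟨k, -, e⟩ := mem_orb.1 (orb_symm e)
  exact h (by simpa using e)

theorem two_orbs (hV : IsMulCommutative V) (hK : IsMulCommutative K) (hn : K ≤ 𝐍[V])
    (hc : (Nat.card V).Coprime (Nat.card K)) (h : XS (V ⊔ K)) (ho : Odd (Nat.card K))
    (h0 : V ⊓ 𝐂[K] = ⊥) (ha : a ∈ V) (ha1 : a ≠ 1) (hb : b ∈ V) (hb1 : b ≠ 1) (hab : b ∉ orb K a) :
    (Nat.card V = 7 ∧ 𝐂₁[a].relIndex K = 3) ∨
    (Nat.card V = 9 ∧ 𝐂₁[a].relIndex K ≠ 𝐂₁[b].relIndex K) ∨ Nat.card V = 10 := by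
  have hnc : ∀ v ∈ V, v ≠ 1 → v ∉ 𝐂[K] := fun v hv h1 e =>
    h1 (Subgroup.mem_bot.1 (h0 ▸ (⟨hv, e⟩ : v ∈ V ⊓ 𝐂[K])))
  have key : ∀ R : Finset G, (∀ v ∈ R, v ∈ V ∧ v ≠ 1) → (∀ v ∈ R, ∀ w ∈ R, w ∈ orb K v → v = w) →
      ∑ v ∈ R, (1 - 2 / (𝐂₁[v].relIndex K : ℚ)) ≤ 1 := fun R h1 h2 => by
    have := abR hV hK hn hc h R (fun v hv => ⟨(h1 v hv).1, hnc v (h1 v hv).1 (h1 v hv).2⟩)
      fun v hv w hw k hk e => h2 v hv w hw (mem_orb.2 ⟨k, hk, e⟩)
    rwa [h0, Subgroup.card_bot, Nat.cast_one] at this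
  have hne : ∀ {x y : G}, y ∉ orb K x → x ≠ y := fun e e' => e (e' ▸ orb_self K _)
  have hs : ∀ {x y : G}, y ∉ orb K x → x ∉ orb K y := fun e e' => e (orb_symm e')
  obtain ⟨ma, ha2, ha3⟩ := three_le_idx ho (hnc a ha ha1)
  obtain ⟨mb, hb2, hb3⟩ := three_le_idx ho (hnc b hb hb1)
  have ta := third_le (n := 𝐂₁[a].relIndex K) (by omega)
  have tb := third_le (n := 𝐂₁[b].relIndex K) (by omega)
  by_cases hc3 : ∃ c ∈ V, c ≠ 1 ∧ c ∉ orb K a ∧ c ∉ orb K b
  · obtain ⟨c, hcV, hc1, hca, hcb⟩ := hc3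
    obtain ⟨mc, hc2, hc3⟩ := three_le_idx ho (hnc c hcV hc1)
    have tc := third_le (n := 𝐂₁[c].relIndex K) (by omega)
    have h3 := key {a, b, c} (by simp [*]) (by simp [hab, hca, hcb, hs hab, hs hca, hs hcb])
    rw [Finset.sum_insert (by simp [hne hab, hne hca]), Finset.sum_pair (hne hcb)] at h3
    have ea : 𝐂₁[a].relIndex K = 3 := by
      by_contra e; have := fifth_le (n := 𝐂₁[a].relIndex K) (by omega); linarith
    have eb : 𝐂₁[b].relIndex K = 3 := by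
      by_contra e; have := fifth_le (n := 𝐂₁[b].relIndex K) (by omega); linarith
    have ec : 𝐂₁[c].relIndex K = 3 := by
      by_contra e; have := fifth_le (n := 𝐂₁[c].relIndex K) (by omega); linarith
    have h4 : fs V = insert 1 (orb K a ∪ (orb K b ∪ orb K c)) := by
      ext d
      simp only [mem_fs, Finset.mem_insert, Finset.mem_union]
      refine ⟨fun hd => ?_, ?_⟩
      · by_contra hd'
        push Not at hd'
        obtain ⟨hd1, hda, hdb, hdc⟩ := hd'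
        obtain ⟨md, hd2, hd3⟩ := three_le_idx ho (hnc d hd hd1)
        have td := third_le (n := 𝐂₁[d].relIndex K) (by omega)
        have h5 := key {a, b, c, d} (by simp [*])
          (by simp [hab, hca, hcb, hs hab, hs hca, hs hcb, hda, hdb, hdc, hs hda, hs hdb, hs hdc])
        rw [Finset.sum_insert (by simp [hne hab, hne hca, hne hda]),
          Finset.sum_insert (by simp [hne hcb, hne hdb]), Finset.sum_pair (hne hdc)] at h5
        linarith
      · rintro (rfl | e | e | e)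
        exacts [one_mem _, orb_sub hn ha e, orb_sub hn hb e, orb_sub hn hcV e]
    right; right
    rw [← card_fs, h4, Finset.card_insert_of_notMem
      (by simp [one_not_mem_orb ha1, one_not_mem_orb hb1, one_not_mem_orb hc1]),
      Finset.card_union_of_disjoint (Finset.disjoint_union_right.2 ⟨orb_disj hab, orb_disj hca⟩),
      Finset.card_union_of_disjoint (orb_disj hcb), card_orb, card_orb, card_orb, ea, eb, ec]
  · have h3 := key {a, b} (by simp [*]) (by simp [hab, hs hab])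
    rw [Finset.sum_pair (hne hab)] at h3
    have h4 : fs V = insert 1 (orb K a ∪ orb K b) := by
      ext d
      simp only [mem_fs, Finset.mem_insert, Finset.mem_union]
      refine ⟨fun hd => ?_, ?_⟩
      · by_contra hd'
        push Not at hd'
        exact hc3 ⟨d, hd, hd'⟩
      · rintro (rfl | e | e)
        exacts [one_mem _, orb_sub hn ha e, orb_sub hn hb e]
    have h5 : Nat.card V = 𝐂₁[a].relIndex K + 𝐂₁[b].relIndex K + 1 := by
      rw [← card_fs, h4, Finset.card_insert_of_notMem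
        (by simp [one_not_mem_orb ha1, one_not_mem_orb hb1]),
        Finset.card_union_of_disjoint (orb_disj hab), card_orb, card_orb]
    have ea : 𝐂₁[a].relIndex K < 7 := by
      by_contra e; have := seventh_le (n := 𝐂₁[a].relIndex K) (by omega); linarith
    have eb : 𝐂₁[b].relIndex K < 7 := by
      by_contra e; have := seventh_le (n := 𝐂₁[b].relIndex K) (by omega); linarith
    have ec : 𝐂₁[a].relIndex K < 5 ∨ 𝐂₁[b].relIndex K < 5 := by
      by_contra e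
      have := fifth_le (n := 𝐂₁[a].relIndex K) (by omega)
      have := fifth_le (n := 𝐂₁[b].relIndex K) (by omega)
      linarith
    omega

theorem mem_of_sq_mem (ho : Odd (orderOf x)) (h : x * x ∈ H) : x ∈ H := by
  obtain ⟨m, hm⟩ := exists_pow_eq_self_of_coprime (x := x) (Nat.coprime_two_left.2 ho)
  rw [← hm]; exact pow_mem (by rwa [sq]) m

theorem odd_orderOf (hK : Odd (Nat.card K)) (hx : x ∈ K) : Odd (orderOf x) :=
  hK.of_dvd_nat (Subgroup.orderOf_dvd_natCard K hx)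

theorem inv_not_mem_orb (hK : Odd (Nat.card K)) (ha : Odd (orderOf a)) (h1 : a ≠ 1) :
    a⁻¹ ∉ orb K a := fun e => by
  obtain ⟨k, hk, e⟩ := mem_orb.1 e
  have h2 : k ∈ 𝐂₁[a] := mem_of_sq_mem (odd_orderOf hK hk) (mem_cent1.2 (by
    have : a = k * a⁻¹ * k⁻¹ := inv_injective (e.trans (by group))
    calc k * k * a = k * (k * a * k⁻¹) * k := by group
      _ = k * a⁻¹ * k⁻¹ * (k * k) := by rw [← e]; group
      _ = _ := by rw [← this]))
  rw [mem_cent1.1 h2, mul_inv_cancel_right] at e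
  exact h1 (Subgroup.mem_bot.1 (mem_of_sq_mem ha (by nth_rewrite 1 [← e]; simp)))

theorem inf_cent_comm (hX : IsMulCommutative X) (hn : X ≤ 𝐍[U])
    (hc : (Nat.card U).Coprime (Nat.card X)) : X ⊓ 𝐂[⁅U, X⁆] = X ⊓ 𝐂[U] := by
  refine le_antisymm (le_inf inf_le_left ?_) (inf_le_inf_left _ (centS (commg_subl.2 hn)))
  conv_rhs => rw [← coprime_cent_prod hn hc (Or.inr (abelian_sol hX))]
  exact centsY inf_le_right (inf_le_left.trans (centsC.1 inf_le_right))

theorem seven (hU : Odd (Nat.card U)) (hX : IsMulCommutative X) (ho : Odd (Nat.card X))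
    (hn : X ≤ 𝐍[U]) (hc : (Nat.card U).Coprime (Nat.card X)) (h : XS (U ⊔ X)) (h1 : ¬ X ≤ 𝐂[U]) :
    Nat.card ↥⁅U, X⁆ = 7 ∧ 𝐂[U].relIndex X = 3 := by
  have hA := odd_comm_abelian hU hX hn hc h
  have hAU : ⁅U, X⁆ ≤ U := commg_subl.2 hn
  have h2 := coprime_abel_cent_TI (commg_normr U X) (coprimeSg hAU hc) hA
  rw [coprime_commGid hn hc] at h2
  obtain ⟨a, ha, ha1⟩ := exists_ne_one (fun e => h1 (commG1P'.1 e))
  have h3 := two_orbs hA hX (commg_normr U X) (coprimeSg hAU hc) (h.mono (sup_le_sup_right hAU X))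
    ho h2 ha ha1 (inv_mem ha) (inv_ne_one.2 ha1) (inv_not_mem_orb ho (odd_orderOf hU (hAU ha)) ha1)
  have h4 := oddSg hAU hU
  rw [cent1_inv] at h3
  rcases h3 with ⟨h3, h5⟩ | h3 | h3
  · refine ⟨h3, ?_⟩
    rw [← Subgroup.inf_relIndex_left, ← inf_cent_comm hX hn hc, Subgroup.inf_relIndex_left,
      cent_prime (by rw [h3]; norm_num) ha ha1, h5]
  · exact absurd rfl h3.2
  · rw [h3] at h4; exact absurd h4 (by decide)

end Cfsg.Acd
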