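import Cfsg.Agent.Grp.PSL2Rec
import Mathlib.Algebra.Field.MinimalAxioms

/-!
# Coordinates for the recognition of `SL₂(2^n)`
-/

set_option autoImplicit false

namespace Cfsg.Acd

open Subgroup
open scoped OnePoint

universe u

variable {G : Type u} [Group G] {T D B : Subgroup G} {e u : G}

theorem rec_field [Finite G] (hD : ∀ a ∈ D, ∀ b ∈ D, a * b = b * a) (hn : ∀ d ∈ D, ∀ a ∈ T, d * a * d⁻¹ ∈ T) (he : e ∈ T)
    (he1 : e ≠ 1) (tr : ∀ a ∈ T, a ≠ 1 → ∃ d ∈ D, d * e * d⁻¹ = a) :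
    ∃ (F : Type) (_ : Field F) (c : F ≃ T), (∀ a b, (c (a + b) : G) = c a * c b) ∧
      (∀ d ∈ D, ∃ s : F, s ≠ 0 ∧ ∀ a, d * c a * d⁻¹ = c (s * a)) ∧
      ∀ s : F, s ≠ 0 → ∃ d ∈ D, ∀ a, d * c a * d⁻¹ = c (s * a) := by
  classical
  obtain ⟨F, ⟨c⟩⟩ : ∃ F : Type, Nonempty (F ≃ T) := ⟨Fin _, ⟨(Finite.equivFin T).symm⟩⟩
  choose! δ hδ hδ' using tr
  let m : T → T → T := fun a b => if h : (a : G) = 1 then 1 else
    ⟨δ a * b * (δ a)⁻¹, hn _ (hδ a a.2 h) b b.2⟩
  have hm1 : ∀ b, m 1 b = 1 := fun b => dif_pos rfl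
  have hm : ∀ a : T, (a : G) ≠ 1 → ∀ b : T, (m a b : G) = δ a * b * (δ a)⁻¹ := fun a h b =>
    congrArg Subtype.val (dif_neg h)
  have sw : ∀ d ∈ D, ∀ d' ∈ D, ∀ x : G, d * (d' * x * d'⁻¹) * d⁻¹ = d' * (d * x * d⁻¹) * d'⁻¹ :=
    fun d h d' h' x => by
      calc _ = (d * d') * x * (d * d')⁻¹ := by group
        _ = _ := by rw [hD d h d' h']; group
  have key : ∀ d ∈ D, ∀ a : T, d * e * d⁻¹ = a → ∀ b : T, (m a b : G) = d * b * d⁻¹ := by
    intro d hd a ha b
    have a1 : (a : G) ≠ 1 := fun h => he1 (conj_eq_one_iff.1 (ha.trans h))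
    rw [hm a a1]
    by_cases b1 : (b : G) = 1
    · simp [b1]
    · rw [← hδ' b b.2 b1, sw _ (hδ a a.2 a1) _ (hδ b b.2 b1), hδ' a a.2 a1, sw _ hd _ (hδ b b.2 b1),
        ha]
  have hm2 : ∀ a, m a 1 = 1 := fun a => by
    by_cases h : (a : G) = 1
    · exact dif_pos h
    · exact Subtype.ext (by rw [hm a h]; simp)
  have comm : ∀ a b, m a b = m b a := fun a b => by
    by_cases h : (a : G) = 1
    · rw [show a = 1 from Subtype.ext h, hm1, hm2]
    by_cases h' : (b : G) = 1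
    · rw [show b = 1 from Subtype.ext h', hm1, hm2]
    refine Subtype.ext ?_
    rw [hm a h, hm b h']
    conv_lhs => rw [← hδ' b b.2 h', sw _ (hδ a a.2 h) _ (hδ b b.2 h'), hδ' a a.2 h]
  letI : Add F := ⟨fun a b => c.symm (c a * c b)⟩
  letI : Mul F := ⟨fun a b => c.symm (m (c a) (c b))⟩
  letI : Neg F := ⟨fun a => c.symm (c a)⁻¹⟩
  letI : Zero F := ⟨c.symm 1⟩
  letI : One F := ⟨c.symm ⟨e, he⟩⟩
  letI : Inv F := ⟨fun a => c.symm (if h : (c a : G) = 1 then 1 else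
    ⟨(δ (c a))⁻¹ * e * (δ (c a))⁻¹⁻¹, hn _ (D.inv_mem (hδ _ (c a).2 h)) e he⟩)⟩
  have ha : ∀ a b : F, c (a + b) = c a * c b := fun a b => c.apply_symm_apply _
  have hx : ∀ a b : F, c (a * b) = m (c a) (c b) := fun a b => c.apply_symm_apply _
  have hg : ∀ a : F, c (-a) = (c a)⁻¹ := fun a => c.apply_symm_apply _
  have h0 : c 0 = 1 := c.apply_symm_apply _
  have h1 : c 1 = ⟨e, he⟩ := c.apply_symm_apply _
  have hne : ∀ a : F, a ≠ 0 → (c a : G) ≠ 1 := fun a h h' =>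
    h (c.injective (h0 ▸ Subtype.ext h'))
  refine ⟨F, Field.ofMinimalAxioms F (fun a b d => c.injective (by simp only [ha, mul_assoc]))
    (fun a => c.injective (by rw [ha, h0, one_mul]))
    (fun a => c.injective (by rw [ha, hg, h0, inv_mul_cancel])) (fun a b d => c.injective ?_)
    (fun a b => c.injective (by rw [hx, hx, comm]))
    (fun a => c.injective (Subtype.ext (by
      rw [hx, key 1 D.one_mem (c 1) (by simp [h1])]; simp))) (fun a h => c.injective ?_)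
    (congrArg c.symm (dif_pos (by rw [h0]; rfl))) (fun a b d => c.injective ?_)
    ⟨1, 0, fun h => he1 (by simpa [h0, h1] using congrArg (fun x => (c x : G)) h)⟩, c,
    fun a b => congrArg Subtype.val (ha a b), fun d hd => ⟨c.symm ⟨_, hn d hd e he⟩,
      fun h => he1 ((conj_eq_one_iff (a := d)).1 (by
        have := congrArg (fun x => (c x : G)) h
        simp only [h0, c.apply_symm_apply] at this
        exact this)),
      fun a => ((congrArg Subtype.val (hx _ a)).trans (key d hd _ (by simp) _)).symm⟩,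
    fun s hs => ⟨_, hδ _ (c s).2 (hne s hs), fun a =>
      ((congrArg Subtype.val (hx _ a)).trans (hm _ (hne s hs) _)).symm⟩⟩
  · simp only [hx]
    by_cases h : (c a : G) = 1
    · rw [show c a = 1 from Subtype.ext h, hm1, hm1, hm1]
    by_cases h' : (c b : G) = 1
    · rw [show c b = 1 from Subtype.ext h', hm1, hm2, hm1]
    refine Subtype.ext ?_
    rw [key _ (D.mul_mem (hδ _ (c a).2 h) (hδ _ (c b).2 h')) _ (by
      rw [hm _ h]; conv_rhs => rw [← hδ' _ (c b).2 h']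
      group), hm _ h, hm _ h']
    group
  · have e1 : c a⁻¹ = _ := (c.apply_symm_apply _).trans (dif_neg (hne a h))
    refine Subtype.ext ?_
    rw [hx, hm _ (hne a h), e1, h1]
    simp [mul_assoc]
  · simp only [hx, ha]
    by_cases h : (c a : G) = 1
    · rw [show c a = 1 from Subtype.ext h, hm1, hm1, hm1, one_mul]
    · exact Subtype.ext (by rw [Subgroup.coe_mul, hm _ h, hm _ h, hm _ h, Subgroup.coe_mul]; group)

theorem rec_iso [Finite G] {F : Type} [Field F] (c : F ≃ T)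
    (ha : ∀ a b, (c (a + b) : G) = c a * c b) (h2 : ∀ t ∈ T, t * t = 1) (hTB : T ≤ B)
    (hu : u * u = 1) (huB : u ∉ B) (hB : ∀ g, g ∉ B → ∃ t ∈ T, (t * u)⁻¹ * g ∈ B)
    (hTI : ∀ t ∈ T, u * t * u ∈ B → t = 1) (hD : ∀ d, d ∈ D ↔ d ∈ B ∧ u * d * u ∈ B)
    (hinv : ∀ d ∈ D, u * d * u = d⁻¹) (hf : ∀ d ∈ D, (∀ t ∈ T, d * t = t * d) → d = 1)
    (h1 : ∀ d ∈ D, ∃ s : F, s ≠ 0 ∧ ∀ a, d * c a * d⁻¹ = c (s * a))
    (h3 : ∀ s : F, s ≠ 0 → ∃ d ∈ D, ∀ a, d * c a * d⁻¹ = c (s * a)) :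
    B.index = Nat.card T + 1 ∧ Nonempty (G ≃* Matrix.ProjectiveSpecialLinearGroup (Fin 2) F) := by
  classical
  have : Finite F := Finite.of_equiv _ c.symm
  have hu' : u⁻¹ = u := inv_eq_of_mul_eq_one_right hu
  have c0 : (c 0 : G) = 1 := left_eq_mul.1 (by rw [← ha 0 0, add_zero])
  have hch : ∀ a : F, a + a = 0 := fun a => c.injective (Subtype.ext (by
    rw [ha, c0, h2 _ (c a).2]))
  have hsq : ∀ s : F, s ≠ 0 → ∃ r : Fˣ, (r : F) ^ 2 = s := fun s hs => by
    obtain ⟨r, hr⟩ := Finite.surjective_of_injective (f := fun x : F => x ^ 2) (fun x y h => by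
      have : (x + y) ^ 2 = 0 := by
        simp only at h
        linear_combination h + hch (x * y) + hch (y ^ 2)
      have := (pow_eq_zero_iff two_ne_zero).1 this
      linear_combination this - hch y) s
    exact ⟨Units.mk0 r (by rintro rfl; exact hs (by simpa using hr.symm)), hr⟩
  let f : OnePoint F → G ⧸ B := fun x => x.elim ((1 : G) : G ⧸ B) fun a => ((c a * u : G) : G ⧸ B)
  have fi : f ∞ = ((1 : G) : G ⧸ B) := rfl
  have fc : ∀ a : F, f a = ((c a * u : G) : G ⧸ B) := fun _ => rfl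
  have hne : ∀ a : F, f ∞ ≠ f a := fun a h => huB (by
    have := QuotientGroup.eq.1 h
    rwa [inv_one, one_mul, B.mul_mem_cancel_left (hTB (c a).2)] at this)
  have hbij : Function.Bijective f := by
    refine ⟨fun x y h => ?_, fun q => ?_⟩
    · induction x using OnePoint.rec <;> induction y using OnePoint.rec
      · rfl
      · exact absurd h (hne _)
      · exact absurd h.symm (hne _)
      · rename_i a b
        have := hTI ((c a)⁻¹ * c b) (T.mul_mem (T.inv_mem (c a).2) (c b).2) (by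
          simpa [hu', mul_assoc] using QuotientGroup.eq.1 h)
        rw [c.injective (Subtype.ext (inv_mul_eq_one.1 this))]
    · obtain ⟨g, rfl⟩ := QuotientGroup.mk_surjective q
      by_cases hg : g ∈ B
      · exact ⟨∞, QuotientGroup.eq.2 (by simpa using hg)⟩
      · obtain ⟨t, ht, h⟩ := hB g hg
        exact ⟨(c.symm ⟨t, ht⟩ : F), QuotientGroup.eq.2 (by simpa using h)⟩
  refine ⟨by rw [index, ← Nat.card_eq_of_bijective f hbij, ← Nat.card_congr c]; exact Finite.card_option,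
    ?_⟩
  let E := Equiv.ofBijective f hbij
  let φ : G →* Equiv.Perm (OnePoint F) :=
    E.symm.permCongrHom.toMonoidHom.comp (MulAction.toPermHom G (G ⧸ B))
  have hφ : ∀ g x y, g • f x = f y → φ g x = y := fun g x y h => E.symm_apply_eq.2 h
  have hφ' : ∀ g x, g • f x = f (φ g x) := fun g x => (E.apply_symm_apply _).symm
  have pi : ∀ g ∈ B, φ g ∞ = ∞ := fun g hg => hφ _ _ _ (QuotientGroup.eq.2 (by simpa using hg))
  have pT : ∀ a, φ (c a) = mobT a := fun a => Equiv.ext fun x => by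
    induction x using OnePoint.rec
    · rw [pi _ (hTB (c a).2), mobT_infty]
    · rw [mobT_coe, add_comm]
      exact hφ _ _ _ (by rw [fc, fc, ha, mul_assoc]; rfl)
  have pD : ∀ d ∈ D, ∀ s : F, (∀ a, d * c a * d⁻¹ = c (s * a)) → ∀ a : F, φ d a = (s * a : F) :=
    fun d hd s h a => hφ _ _ _ (QuotientGroup.eq.2 (by
      rw [← h]
      simpa [hu', mul_assoc] using ((hD _).1 (D.inv_mem hd)).2))
  have pD' : ∀ d ∈ D, ∀ r : Fˣ, (∀ a, d * c a * d⁻¹ = c (r ^ 2 * a)) → φ d = mobD r :=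
    fun d hd r h => Equiv.ext fun x => by
      induction x using OnePoint.rec
      · rw [pi _ ((hD d).1 hd).1, mobD_infty]
      · rw [pD d hd _ h, mobD_coe]
  have u0 : φ u (0 : F) = ∞ := hφ _ _ _ (QuotientGroup.eq.2 (by simp [c0, hu]))
  have ui : φ u ∞ = (0 : F) := hφ _ _ _ (QuotientGroup.eq.2 (by simp [c0]))
  obtain ⟨κ, hκ⟩ := OnePoint.ne_infty_iff_exists.1 (show φ u (1 : F) ≠ ∞ from fun h => by
    simpa using (φ u).injective (h.trans u0.symm))
  have κ0 : κ ≠ 0 := fun h =>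
    OnePoint.coe_ne_infty _ ((φ u).injective (hκ.symm.trans (h ▸ ui.symm)))
  obtain ⟨r, hr⟩ := hsq κ κ0
  have pW : φ u = mobW r := Equiv.ext fun x => by
    induction x using OnePoint.rec
    · rw [ui, mobW_infty]
    · rename_i a
      by_cases a0 : a = 0
      · rw [a0, u0, mobW_zero]
      obtain ⟨d, hd, h⟩ := h3 a a0
      have e1 : φ d (κ / a : F) = κ := by rw [pD d hd a h, mul_div_cancel₀ _ a0]
      have e2 : φ u a = φ d⁻¹ (φ u (1 : F)) := by
        rw [← hinv d hd, map_mul, map_mul, Equiv.Perm.mul_apply, Equiv.Perm.mul_apply,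
          ← Equiv.Perm.mul_apply (φ u) (φ u), ← map_mul, hu, map_one, Equiv.Perm.one_apply,
          pD d hd a h, mul_one]
      rw [e2, ← hκ, ← e1, ← Equiv.Perm.mul_apply, ← map_mul, inv_mul_cancel, map_one,
        Equiv.Perm.one_apply, mobW_coe _ a0, hr, neg_eq_of_add_eq_zero_left (hch κ)]
  have hfix : ∀ g, φ g ∞ = ∞ → φ g (0 : F) = (0 : F) → g ∈ D := fun g a b => by
    have a' := hφ' g ∞
    have b' := hφ' g (0 : F)
    rw [a] at a'
    rw [b] at b'
    refine (hD g).2 ⟨by simpa using QuotientGroup.eq.1 a'.symm, ?_⟩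
    simpa [c0, hu', mul_assoc] using QuotientGroup.eq.1 b'.symm
  have hinj : Function.Injective φ := (injective_iff_map_eq_one φ).2 fun g hg => by
    have hd := hfix g (by simp [hg]) (by simp [hg])
    obtain ⟨s, -, hs⟩ := h1 g hd
    have := pD g hd s hs 1
    rw [hg, Equiv.Perm.one_apply, mul_one, OnePoint.coe_eq_coe] at this
    refine hf g hd fun t ht => ?_
    have e := hs (c.symm ⟨t, ht⟩)
    rwa [← this, one_mul, c.apply_symm_apply, mul_inv_eq_iff_eq_mul] at e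
  have hr : φ.range = (mobPerm F).range := by
    refine le_antisymm (le_of_bruhat (w := φ u) (fun a => ⟨_, pT a⟩) (fun a => ⟨_, rfl⟩) ⟨u, rfl⟩
      (pW ▸ ⟨_, rfl⟩) u0 ?_) (le_of_bruhat (w := φ u) (fun a => ⟨_, rfl⟩) (fun a => ⟨_, pT a⟩)
      (pW ▸ ⟨_, rfl⟩) ⟨u, rfl⟩ u0 fun g hg a b => ?_)
    · rintro _ ⟨g, rfl⟩ a b
      obtain ⟨s, s0, hs⟩ := h1 g (hfix g a b)
      obtain ⟨r, rfl⟩ := hsq s s0
      rw [pD' g (hfix g a b) r hs]
      exact ⟨_, rfl⟩
    · obtain ⟨s, rfl⟩ := exists_mobD_of_range hg a b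
      obtain ⟨d, hd, h⟩ := h3 _ (pow_ne_zero 2 s.ne_zero)
      exact ⟨d, pD' d hd s h⟩
  exact ⟨(MonoidHom.ofInjective hinj).trans ((MulEquiv.subgroupCongr hr).trans
    (pslEquivRange F).symm)⟩

end Cfsg.Acd
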