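import Cfsg.Agent.Acd.Defs
import Cfsg.Agent.Acd.RecF

/-!
# Recognition of `SL₂(2^n)` (piece `StRec` of S4753)
-/

set_option autoImplicit false

namespace Cfsg.Acd

open Cfsg.FT Subgroup
open scoped Pointwise

universe u

variable {G : Type u} [Group G] [Finite G] {T : Subgroup G} {b d e g s t u : G}

/-- the hypotheses of `StRec` in element form -/
structure RecH (T : Subgroup G) : Prop where
  syl : Syl 2 T ⊤
  cent : ∀ t ∈ T, t ≠ 1 → 𝐂₁[t] = T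
  sq : ∀ t ∈ T, t * t = 1
  comm : ∀ a ∈ 𝐍[T], ∀ b ∈ 𝐍[T], a * b * a⁻¹ * b⁻¹ ∈ T

namespace RecH

omit [Finite G] in
theorem fix (h : RecH T) (ht : t ∈ T) (t1 : t ≠ 1) (e : g * t = t * g) : g ∈ T :=
  h.cent t ht t1 ▸ mem_cent1.2 e

omit [Finite G] in
theorem fix' (h : RecH T) (ht : t ∈ T) (t1 : t ≠ 1) (e : b * t * b⁻¹ = g * t * g⁻¹) :
    b⁻¹ * g ∈ T := h.fix ht t1 (by
  rw [mul_assoc, inv_mul_eq_iff_eq_mul, mul_inv_eq_iff_eq_mul.1 e.symm]; group)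

omit [Finite G] in
theorem ti (h : RecH T) (ht : t ∈ T) (t1 : t ≠ 1) (e : g * t * g⁻¹ ∈ T) : g ∈ 𝐍[T] := by
  have := h.cent _ e (mt conj_eq_one_iff.1 t1)
  rwa [cent1_conj, h.cent t ht t1, conj_eq_iff_mem_norm] at this

theorem root (h : RecH T) (hb : b ∈ 𝐍[T]) (e : b * b ∈ T) : b ∈ T := by
  have : Fact (Nat.Prime 2) := ⟨Nat.prime_two⟩
  have h4 : orderOf b ∣ 2 ^ 2 := orderOf_dvd_of_pow_eq_one (by
    rw [← h.sq _ e]; simp [pow_succ, mul_assoc])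
  obtain ⟨k, -, hk⟩ := (Nat.dvd_prime_pow Nat.prime_two).1 h4
  exact h.syl.le_of_norms' (IsPGroup.of_card (by rw [Nat.card_zpowers, hk])) le_top
    (zpowers_le.2 hb) (mem_zpowers b)

theorem exists_inv (h : RecH T) (hg : g ∉ 𝐍[T]) (hs : s ∈ T) (s1 : s ≠ 1) (ht : t ∈ T)
    (t1 : t ≠ 1) : ∃ j, j * j = 1 ∧ j * g * t * (j * g)⁻¹ = s ∧ j * g ∈ 𝐍[T] := by
  obtain ⟨v, hv⟩ : ∃ v, v = g * t * g⁻¹ := ⟨_, rfl⟩
  have v2 : v * v = 1 := by rw [hv]; simp [mul_assoc, ← mul_assoc t, h.sq t ht]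
  have s2 := h.sq s hs
  have ho : Odd (orderOf (s * v)) := Nat.not_even_iff_odd.1 fun h2 => by
    obtain ⟨z, hz, z2⟩ := exists_orderOf_two_mem_zpowers h2.two_dvd
    obtain ⟨a, c⟩ := commute_of_mem_zpowers_mul s2 v2 (mul_self_eq_one_of_orderOf_two z2) hz
    have z1 : z ≠ 1 := by rintro rfl; simp at z2
    exact hg (h.ti ht t1 (hv ▸ h.cent z (h.fix hs s1 (mem_cent1.1 a).symm) z1 ▸ c))
  obtain ⟨k, hk⟩ := ho
  have iv : ∀ n : ℕ, v * (s * v) ^ n = ((s * v) ^ n)⁻¹ * v := fun n => by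
    rw [← inv_pow]
    refine (SemiconjBy.pow_right ?_ n).eq
    rw [SemiconjBy, mul_inv_rev, inv_eq_of_mul_eq_one_right s2, inv_eq_of_mul_eq_one_right v2,
      mul_assoc]
  have e : (s * v) ^ (k + 1) * v * g * t * ((s * v) ^ (k + 1) * v * g)⁻¹ = s := by
    calc _ = (s * v) ^ (k + 1) * (v * v * v⁻¹) * ((s * v) ^ (k + 1))⁻¹ := by rw [hv]; group
      _ = (s * v) ^ (k + 1) * (s * v) ^ (k + 1) * v := by
        rw [mul_inv_cancel_right, mul_assoc, mul_assoc, mul_inv_eq_iff_eq_mul.2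
          (show v = (s * v) ^ (k + 1) * v * (s * v) ^ (k + 1) by rw [mul_assoc, iv]; group)]
      _ = s := by
        rw [← pow_add, show k + 1 + (k + 1) = 2 * k + 1 + 1 by ring, pow_succ, ← hk,
          pow_orderOf_eq_one, one_mul, mul_assoc, v2, mul_one]
  refine ⟨_, ?_, e, h.ti ht t1 (e.symm ▸ hs)⟩
  rw [mul_assoc, ← mul_assoc v, iv, mul_assoc, v2]
  group

theorem out (h : RecH T) (hu : u * u = 1) (hB : u ∉ 𝐍[T]) (ht : t ∈ T)
    (e : u * t * u ∈ 𝐍[T]) : t = 1 := by_contra fun t1 => hB (h.ti ht t1 (by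
  rw [inv_eq_of_mul_eq_one_right hu]
  refine h.root e ?_
  rw [show u * t * u * (u * t * u) = u * (t * (u * u) * t) * u by group, hu, mul_one, h.sq t ht,
    mul_one, hu]
  exact T.one_mem))

theorem exists_tr (h : RecH T) (hu : u * u = 1) (hB : u ∉ 𝐍[T]) (hs : s ∈ T) (s1 : s ≠ 1)
    (ht : t ∈ T) (t1 : t ≠ 1) : ∃ d ∈ 𝐍[T], u * d * u = d⁻¹ ∧ d * t * d⁻¹ = s := by
  obtain ⟨j, j2, e, hj⟩ := h.exists_inv hB hs s1 ht t1
  refine ⟨_, hj, ?_, e⟩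
  rw [mul_inv_rev, inv_eq_of_mul_eq_one_right j2, inv_eq_of_mul_eq_one_right hu, mul_assoc,
    mul_assoc, hu, mul_one]

theorem inverts (h : RecH T) (hu : u * u = 1) (hB : u ∉ 𝐍[T]) (he : e ∈ T) (e1 : e ≠ 1)
    (hd : d ∈ 𝐍[T]) (hd' : u * d * u ∈ 𝐍[T]) : u * d * u = d⁻¹ := by
  obtain ⟨c, hc, i, e⟩ := h.exists_tr hu hB ((memJ_norm hd).2 he) (mt conj_eq_one_iff.1 e1) he e1
  have := h.out hu hB (t := c⁻¹ * d) (h.fix' he e1 e) (by
    rw [show u * (c⁻¹ * d) * u = (u * c * u)⁻¹ * (u * u) * (u * u) * (u * u)⁻¹ * (u * d * u) by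
      rw [hu, mul_inv_rev, mul_inv_rev, inv_eq_of_mul_eq_one_right hu]
      simp [mul_assoc, ← mul_assoc u u, hu], hu, i]
    simpa using mul_mem hc hd')
  rwa [← inv_mul_eq_one.1 this]

theorem bruhat (h : RecH T) (hu : u * u = 1) (hB : u ∉ 𝐍[T]) (he : e ∈ T) (e1 : e ≠ 1)
    (hs : s ∈ T) (s1 : s ≠ 1) (se : s ≠ e) (hg : g ∉ 𝐍[T]) :
    ∃ t ∈ T, (t * u)⁻¹ * g ∈ 𝐍[T] := by
  obtain ⟨j, j2, -, hj⟩ := h.exists_inv hg he e1 he e1
  have jB : j ∉ 𝐍[T] := fun a => hg ((mul_mem_cancel_left a).1 hj)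
  obtain ⟨d, hd, i, a⟩ := h.exists_tr hu hB hs s1 he e1
  obtain ⟨c, hc, i', a'⟩ := h.exists_tr j2 jB hs s1 he e1
  have dT : d ∉ T := fun x => se (by
    rw [← a, mul_inv_eq_iff_eq_mul]; exact mem_cent1.1 (h.cent e he e1 ▸ x))
  have h0 : d⁻¹ * c ∈ T := h.fix' he e1 (a.trans a'.symm)
  obtain ⟨⟨t, ht⟩, e⟩ := Finite.surjective_of_injective
    (f := fun t : T => (⟨d⁻¹ * t * d * t⁻¹, mul_mem ((memJ_norm' hd).2 t.2) (inv_mem t.2)⟩ : T))
    (fun x y e => Subtype.ext (by_contra fun n => dT (h.fix (t := (y : G)⁻¹ * x)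
      (mul_mem (inv_mem y.2) x.2) (fun a => n (inv_mul_eq_one.1 a).symm) (by
        have e' : d⁻¹ * x * d * (x : G)⁻¹ = d⁻¹ * y * d * (y : G)⁻¹ := congrArg Subtype.val e
        calc _ = (y : G)⁻¹ * d * (d⁻¹ * y * d * (y : G)⁻¹) * x := by group
          _ = _ := by rw [← e']; group)))) ⟨_, h0⟩
  have e' : t * d * t⁻¹ = c := by
    have : d⁻¹ * t * d * t⁻¹ = d⁻¹ * c := congrArg Subtype.val e
    simpa [mul_assoc] using this
  have u' := inv_eq_of_mul_eq_one_right hu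
  have j' := inv_eq_of_mul_eq_one_right j2
  have cd : (u * t⁻¹ * j * t)⁻¹ * d * (u * t⁻¹ * j * t) = d := by
    calc _ = t⁻¹ * j⁻¹ * t * (u⁻¹ * d * u) * t⁻¹ * j * t := by group
      _ = t⁻¹ * (j * (t * d * t⁻¹) * j)⁻¹ * t := by rw [u', i, mul_inv_rev, mul_inv_rev, j']; group
      _ = d := by rw [e', i', ← e']; group
  have key : u * t⁻¹ * j * t ∈ 𝐍[T] := by_contra fun n => by
    obtain ⟨k, k2, -, hk⟩ := h.exists_inv n he e1 he e1
    set x := u * t⁻¹ * j * t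
    have k' := inv_eq_of_mul_eq_one_right k2
    have q : k * d * k = k * x * d * (k * x)⁻¹ := by
      rw [mul_assoc k x, ← inv_mul_eq_iff_eq_mul.1 ((mul_assoc _ _ _).symm.trans cd), mul_inv_rev, k']
      group
    have := h.inverts k2 (fun a => n ((mul_mem_cancel_left a).1 hk)) he e1 hd
      (q ▸ mul_mem (mul_mem hk hd) (inv_mem hk))
    have z := h.comm _ hk _ hd
    rw [← q, this] at z
    exact dT (by simpa using inv_mem (h.root (inv_mem hd) z))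
  refine ⟨t, ht, ?_⟩
  have := mul_mem (mul_mem key (inv_mem (normG T ht))) hj
  rwa [show u * t⁻¹ * j * t * t⁻¹ * (j * g) = u * t⁻¹ * (j * j) * g by group, j2, mul_one,
    ← u', ← mul_inv_rev] at this

end RecH

theorem stRec : StRec.{u} := by
  intro G _ _ T K hS hN hC hK hab hE
  have : Fact (Nat.Prime 2) := ⟨Nat.prime_two⟩
  obtain ⟨e, he, e1, s, hs, s1, se⟩ : ∃ e ∈ T, e ≠ 1 ∧ ∃ s ∈ T, s ≠ 1 ∧ s ≠ e := by
    have h3 : 3 ≤ ENat.card T := by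
      rw [ENat.card_eq_coe_natCard]; exact_mod_cast le_trans (by norm_num) hE.four
    obtain ⟨a, a1, -⟩ := ENat.exists_ne_ne_of_three_le h3 1 1
    obtain ⟨b, b1, b2⟩ := ENat.exists_ne_ne_of_three_le h3 1 a
    exact ⟨a, a.2, by simpa using a1, b, b.2, by simpa using b1, by simpa using b2⟩
  have hT : ∀ a ∈ T, ∀ b ∈ T, a * b = b * a := abelian_iff_forall.1 hE.abelem.1
  have act : ∀ a ∈ 𝐍[T], ∃ k ∈ K, ∀ t ∈ T, a * t * a⁻¹ = k * t * k⁻¹ := fun a ha => by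
    obtain ⟨k, hk, q⟩ := hE.trans e he e1 _ ((memJ_norm ha).2 he) (mt conj_eq_one_iff.1 e1)
    have : k⁻¹ * a ∈ T := hC e he e1 ▸ mem_cent1.2 (by
      rw [mul_assoc, inv_mul_eq_iff_eq_mul, mul_inv_eq_iff_eq_mul.1 q]; group)
    refine ⟨k, hk, fun t ht => ?_⟩
    calc _ = k * (k⁻¹ * a * t) * a⁻¹ := by group
      _ = _ := by rw [hT _ this t ht]; group
  have h : RecH T := ⟨hS, hC, fun t ht => by rw [← pow_two, hE.abelem.2 t ht], fun a ha b hb => by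
    obtain ⟨k, hk, q⟩ := act a ha
    obtain ⟨l, hl, r⟩ := act b hb
    have e' := (memJ_norm' (mul_mem hb ha)).2 he
    refine hC e he e1 ▸ mem_cent1.2 ?_
    set x := (b * a)⁻¹ * e * (b * a)
    have : a * (b * x * b⁻¹) * a⁻¹ = b * (a * x * a⁻¹) * b⁻¹ := by
      rw [q _ ((memJ_norm hb).2 e'), r _ ((memJ_norm ha).2 e'), q _ e', r _ e']
      calc _ = (k * l) * x * (k * l)⁻¹ := by group
        _ = _ := by rw [comm_of_abelian hab hk hl]; group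
    calc _ = a * (b * x * b⁻¹) * a⁻¹ * (a * b * a⁻¹ * b⁻¹) := by simp only [x]; group
      _ = _ := by rw [this]; simp only [x]; group⟩
  obtain ⟨g, hg⟩ : ∃ g, g ∉ 𝐍[T] := by_contra fun n => hN (eq_top_iff.2 fun g _ => by
    simpa using not_exists.1 n g)
  obtain ⟨u, hu, -, hj⟩ := h.exists_inv hg he e1 he e1
  have uB : u ∉ 𝐍[T] := fun a => hg ((mul_mem_cancel_left a).1 hj)
  have u' := inv_eq_of_mul_eq_one_right hu
  let D := 𝐍[T] ⊓ u⁻¹ •ᶜ 𝐍[T]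
  have hD : ∀ d, d ∈ D ↔ d ∈ 𝐍[T] ∧ u * d * u ∈ 𝐍[T] := fun d => by
    rw [mem_inf, mem_conj, inv_inv, u']
  have hinv : ∀ d ∈ D, u * d * u = d⁻¹ := fun d hd =>
    h.inverts hu uB he e1 ((hD d).1 hd).1 ((hD d).1 hd).2
  have hf : ∀ d ∈ D, d ∈ T → d = 1 := fun d hd ht => h.out hu uB ht ((hD d).1 hd).2
  have tr : ∀ a ∈ T, a ≠ 1 → ∃ d ∈ D, d * e * d⁻¹ = a := fun a ha a1 => by
    obtain ⟨d, hd, i, q⟩ := h.exists_tr hu uB ha a1 he e1
    exact ⟨d, (hD d).2 ⟨hd, i ▸ inv_mem hd⟩, q⟩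
  have hn : ∀ d ∈ D, ∀ a ∈ T, d * a * d⁻¹ ∈ T := fun d hd a ha => (memJ_norm ((hD d).1 hd).1).2 ha
  obtain ⟨F, _, c, ha, h1, h3⟩ := rec_field (fun a ha b hb => inv_injective (by
    rw [← hinv _ (mul_mem ha hb), mul_inv_rev, ← hinv a ha, ← hinv b hb]
    simp [mul_assoc, ← mul_assoc u u, hu])) hn he e1 tr
  obtain ⟨hi, iso⟩ := rec_iso c ha h.sq (normG T) hu uB
    (fun g hg => h.bruhat hu uB he e1 hs s1 se hg) (fun t ht => h.out hu uB ht) hD hinv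
    (fun d hd q => hf d hd (h.fix he e1 (q e he))) h1 h3
  have c1 : Nat.card D + 1 = Nat.card T := by
    rw [← Finite.card_option]
    refine Nat.card_eq_of_bijective (fun x => x.elim 1 fun d => ⟨_, hn d d.2 e he⟩)
      ⟨?_, fun a => ?_⟩
    · rintro (_ | x) (_ | y) q
      · rfl
      · exact absurd (conj_eq_one_iff.1 (congrArg Subtype.val q).symm) e1
      · exact absurd (conj_eq_one_iff.1 (congrArg Subtype.val q)) e1
      · rw [Subtype.ext (inv_mul_eq_one.1 (hf _ (mul_mem (inv_mem x.2) y.2)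
          (h.fix' he e1 (congrArg Subtype.val q))))]
    · by_cases a1 : (a : G) = 1
      · exact ⟨none, Subtype.ext a1.symm⟩
      · obtain ⟨d, hd, q⟩ := tr a a.2 a1
        exact ⟨some ⟨d, hd⟩, Subtype.ext q⟩
  have c2 := MulEq.card (show MulEq D T 𝐍[T] from ⟨inf_le_left, normG T, fun b hb => by
    obtain ⟨d, hd, q⟩ := tr _ ((memJ_norm hb).2 he) (mt conj_eq_one_iff.1 e1)
    exact ⟨d, hd, _, h.fix' he e1 q, by group⟩⟩)
  rw [show D ⊓ T = ⊥ from eq_bot_iff.2 fun d hd => hf d hd.1 hd.2, card_bot, mul_one] at c2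
  have := Finite.of_equiv _ c.symm
  have := Fintype.ofFinite F
  refine ⟨?_, F, inferInstance, this, by rw [← Nat.card_eq_fintype_card, Nat.card_congr c], iso⟩
  rw [← (𝐍[T]).card_mul_index, hi, c2, ← c1]
  rw [show (Nat.card D + 1) ^ 2 - 1 = Nat.card D * (Nat.card D + 2) by
    exact Nat.sub_eq_of_eq_add (by ring)]
  ring

end Cfsg.Acd
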