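import Cfsg.Agent.Acd.Sp

/-! Normal special subgroups. -/

set_option autoImplicit false
set_option maxHeartbeats 400000
set_option linter.unusedSectionVars false

namespace Cfsg.Acd

open Cfsg.FT
open scoped Pointwise Classical commutatorElement

variable {G : Type*} [Group G] [Finite G]
variable {L H K V W C Y R M A B : Subgroup G} {θ χ l : G → ℂ} {g v w x a b z : G}

theorem Sp.orbit_lin (h : Sp W K) (hx : XS H) (hW : W ⊴ H) (hK : K ≤ H) (hl : IsLin W l)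
    (h1 : l ≠ cf1 W) : (H ⊓ inertia W l).relIndex H = 𝐂[W].relIndex K ∧
      MulEq (H ⊓ inertia W l) K H := by
  obtain ⟨hp, he⟩ := spPrime h (hx.mono (sup_le hW.1 hK))
  have h2 : (H ⊓ inertia W l).relIndex K = 𝐂[W].relIndex K := by
    rw [← Subgroup.inf_relIndex_right, inf_right_comm, inf_eq_right.2 hK, Subgroup.inf_relIndex_left]
    refine ((Nat.dvd_prime hp).1 (indexgS K hl.isCF.cent_sub_inertia)).resolve_left fun e => ?_
    have := h.inertia_lin hl h1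
    rw [Subgroup.relIndex_eq_one.2 (le_inf le_rfl
      (sup_le hl.isCF.sub_inertia (Subgroup.relIndex_eq_one.1 e)))] at this
    omega
  have h3 : (H ⊓ inertia W l).relIndex H ≤ 𝐂[W].relIndex K := by
    rw [← card_cfclass hW.2]
    have : cfclass H l ⊆ ((irr W).filter (IsLin W)).erase (cf1 W) := fun φ hφ => by
      obtain ⟨g, hg, rfl⟩ := mem_cfclass.1 hφ
      have := hl.cfConj_norm (hW.2 hg)
      simp only [Finset.mem_erase, Finset.mem_filter, mem_irr, this, this.isIrr, and_true]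
      exact mt (cfConj_eq_cf1 (hW.2 hg)).1 h1
    have h4 := Finset.card_le_card this
    rw [Finset.card_erase_of_mem (by simp [isLin_cf1, isIrr_cf1]), card_lin_irr] at h4
    omega
  have h4 := mulEq_of_relIndex inf_le_left hK (h3.trans h2.ge)
  exact ⟨h4.relIndex_eq.trans h2, h4⟩

theorem ext_lin (hl : IsLin W l) (hW : W ⊴ H) (hY : W ⊔ Y = H) (hi : W ⊓ Y ≤ ⁅W, W⁆) :
    ∃ ψ, IsLin (H ⊓ inertia W l) ψ ∧ Res W ψ = l := by
  have h1 := hl.isCF.sub_Inertia hW.1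
  refine extend_lin_of_der hl h1 ?_
  set T := H ⊓ inertia W l with hT
  have hYH : Y ≤ H := hY ▸ le_sup_right
  have h2 : T = W ⊔ (Y ⊓ T) := by
    rw [← group_modl (hYH.trans hW.2) h1, hY, inf_eq_right.2 inf_le_left]
  have h3 : Y ⊓ T ≤ 𝐍[cfker W l] :=
    inf_le_right.trans (inf_le_right.trans (inertia_le_norm_cfker W l))
  have h4 : ⁅T, T⁆ ≤ cfker W l ⊔ (Y ⊓ T) := by
    conv_lhs => rw [h2, der1_join]
    refine sup_le (sup_le (hl.der_le_cfker.trans le_sup_left) ((der_sub _).trans le_sup_right))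
      (le_trans (commg_le_iff.2 fun x hx k hk => hl.mem_cfker.2 ?_) le_sup_left)
    rw [show x * k * x⁻¹ * k⁻¹ = x * (k * x⁻¹ * k⁻¹) by group, hl.map_mul_left hx,
      inertia_valJ hk.2.2, ← hl.map_mul_left hx, mul_inv_cancel, hl.one]
  refine (inf_le_inf_left W h4).trans ?_
  rw [inf_comm, group_modl h3 (cfker_le W l)]
  exact sup_le le_rfl ((inf_le_inf_right W inf_le_left).trans
    ((inf_comm Y W).le.trans (hi.trans hl.der_le_cfker)))

theorem two_le_deg (hθ : IsIrr W θ) (h : ¬ ⁅W, W⁆ ≤ cfker W θ) : 2 ≤ charDegree θ := by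
  have := hθ.charDegree_pos
  have := mt hθ.isLin_iff.2 (mt hθ.isLin_iff_der.1 h)
  omega

theorem exists_nonlin_ker (hW : W ⊴ H) (h : ¬ ⁅H, H⁆ ≤ W) :
    ∃ β, IsIrr H β ∧ W ≤ cfker H β ∧ 2 ≤ charDegree β := by
  obtain ⟨g, hg, hg'⟩ := SetLike.not_le_iff_exists.1 h
  obtain ⟨β, h1, h2, h3⟩ := exists_irr_le_cfker_notMem hW (der_sub H hg) hg'
  exact ⟨β, h1, h2, two_le_deg h1 fun e => h3 (e hg)⟩

theorem s3 (h : Sp W K) (hx : XS H) (hW : W ⊴ H) (hK : K ≤ H) (hY : W ⊔ Y = H)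
    (hi : W ⊓ Y ≤ ⁅W, W⁆) (hd : K ≤ ⁅H, H⁆ ⊔ (H ⊓ 𝐂[W])) :
    Nat.card W = 4 ∧ ∃ T ≤ H, H ⊓ 𝐂[W] ≤ T ∧ T.relIndex H = 3 ∧ ⁅T, T⁆ ≤ W ∧
      ∀ N, N ⊴ H → T ≤ N → H ≤ N := by
  obtain ⟨l, hl, hl1⟩ := exists_lin_ne_cf1 h.der_lt
  obtain ⟨h1, h2⟩ := h.orbit_lin hx hW hK hl hl1
  obtain ⟨ψ, hψ, he⟩ := ext_lin hl hW hY hi
  have hWT := hl.isCF.sub_Inertia hW.1
  have h3 := exc_over hW hl.isIrr rfl hψ.isChar he
  have h4 := exc_over_lin hW hl.isIrr rfl hψ.isChar he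
  have hCT : H ⊓ 𝐂[W] ≤ H ⊓ inertia W l := inf_le_inf_left H hl.isCF.cent_sub_inertia
  have hTH : H ⊓ inertia W l ≤ H := inf_le_left
  generalize H ⊓ inertia W l = T at *
  have h5 : ⁅H, H⁆ ⊔ T = H := le_antisymm (sup_le (der_sub H) hTH)
    (h2.sup_eq.ge.trans (sup_le le_sup_right (hd.trans (sup_le_sup_left hCT _))))
  have hN : ∀ N, N ⊴ H → T ≤ N → H ≤ N := fun N hN hT => by
    refine h5.ge.trans (sup_le (der1_min hN.2 ?_) hT)
    rw [← h2.sup_eq, quotientY (hTH.trans hN.2) (hK.trans hN.2), quotientS1 hT, bot_sup_eq]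
    exact quotient_abelian N h.ab
  have h6 : ⁅H, H⁆.relIndex H ≤ (W ⊔ ⁅T, T⁆).relIndex T := by
    rw [(mulEq_of_sup (hTH.trans (der_norm H)) h5).relIndex_eq]
    exact Nat.le_of_dvd (relIndex_pos _ _)
      (indexgS T (sup_le (h.comm.ge.trans (commgSS hW.1 hK)) (dergS hTH)))
  have h7 : exc H ≤ _ := le_trans hx.acd h6
  have h8 := excOver_le H W l
  have h9 := h.three_le
  have h10 := relIndex_pos (W ⊔ ⁅T, T⁆) T
  rw [hl.charDegree_eq, mul_one, h1] at h4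
  have h11 : 𝐂[W].relIndex K = 3 := by
    have := Nat.le_of_mul_le_mul_left ((h4.trans (h8.trans h7)).trans (mul_one _).ge) h10
    omega
  rw [h11] at h4 h1
  have hdeg : ∀ χ, IsIrr H χ → dot W χ l = 0 → charDegree χ ≤ 2 := fun χ hχ h0 => by
    have := excOver_add_single hχ h0
    omega
  refine ⟨?_, T, hTH, hCT, h1, ?_, hN⟩
  · have hab : IsMulCommutative W := by
      by_contra hab
      obtain ⟨θ, hθ, hθ2⟩ := exists_nonlin hab
      obtain ⟨χ, hχ, h0⟩ := hθ.exists_over hW.1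
      have hne : θ ≠ l := by rintro rfl; rw [hl.charDegree_eq] at hθ2; omega
      have e1 : dot W χ l = 0 := by
        by_contra e
        have := cfclass_one (clifford_mem_cfclass hW hχ hθ hl.isIrr h0 e)
        rw [hl.one, hθ.one_eq] at this
        have : charDegree θ = 1 := by exact_mod_cast this.symm
        omega
      have e2 := hdeg χ hχ e1
      have e3 : Res W χ = θ := (hχ.isChar.Res hW.1).eq_of_constt_of_charDegree_le hθ (by simpa using h0)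
        (by rw [deg_Res]; omega)
      obtain ⟨β, hβ, hβ1, hβ2⟩ := exists_nonlin_ker hW fun e => by
        rw [Subgroup.relIndex_eq_one.2 (hN T (sub_der1_normal (e.trans hWT) hTH) le_rfl)] at h1
        omega
      have e4 := hdeg _ (gallagher_irr hW hχ.isChar (e3 ▸ hθ) hβ hβ1) (by
        rw [← dot_Res_left, Res_ker_mul hβ1, dot_smul_left, dot_Res_left, e1, mul_zero])
      rw [deg_mul hβ.isChar hχ.isChar, ← deg_Res W χ, e3] at e4
      nlinarith
    rw [← h.ab_idx hab (hx.mono (sup_le hW.1 hK)), h11]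
  · by_contra e
    obtain ⟨β, hβ, hβ1, hβ2⟩ := exists_nonlin_ker (normalS hWT hTH hW) e
    have e1 := card_lin_ker (normalS hWT hTH hW)
    have e2 : β ∉ (irr T).filter (fun β => W ≤ cfker T β ∧ IsLin T β) := fun e => by
      have := (Finset.mem_filter.1 e).2.2.charDegree_eq; omega
    have e3 := Finset.sum_le_sum_of_subset (f := fun β => T.relIndex H * (charDegree β * charDegree l) - 2)
      (show insert β ((irr T).filter (fun β => W ≤ cfker T β ∧ IsLin T β)) ⊆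
        (irr T).filter (fun β => W ≤ cfker T β) from
        Finset.insert_subset (by simp [hβ, hβ1]) fun γ hγ => by
          simp only [Finset.mem_filter] at hγ ⊢; exact ⟨hγ.1, hγ.2.1⟩)
    rw [Finset.sum_insert e2, Finset.sum_congr rfl (g := fun _ => 1) fun γ hγ => by
      rw [(Finset.mem_filter.1 hγ).2.2.charDegree_eq, hl.charDegree_eq, h1], ← Finset.card_eq_sum_ones,
      e1, h1, hl.charDegree_eq] at e3
    rw [h1, hl.charDegree_eq] at h3
    omega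

theorem Sp.eq_of_le (h : Sp W K) (h' : Sp V K) (hx : XS (V ⊔ K)) (hle : W ≤ V) : W = V := by
  have hn : W ≤ 𝐍[⁅V, V⁆] := hle.trans (der_norm V)
  have h1 := h'.quo_der.ab_eq (der_abelian V) (h'.xs_der hx) (quotientS _ hle)
    (fun e => h.not_cent (centsS ((quotient_sub1 hn).1 e) (h'.cent_der hx))) (quotient_norms _ h.norm)
  exact Phi_nongen' hle (((quotientSK (der_norm V) hn).1 h1.ge).trans
    (sup_le_sup_right (der1_le_Phi h'.two) W))

theorem prime0 (hx : XS H) (h0 : core {2}ᶜ H = ⊥) (hA : A ≤ H) (ha : IsMulCommutative A)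
    (ho : Odd (Nat.card A)) (h1 : A ≠ ⊥) :
    Sp ⁅core {2} H, A⁆ A ∧ (Nat.card A).Prime ∧ Nat.card A < Nat.card ↥⁅core {2} H, A⁆ := by
  have hR := pcore_pgroup' 2 H
  have hc := coprime_of_two_odd hR ho
  have hn : A ≤ 𝐍[core {2} H] := hA.trans (pcore_normal _ H).2
  have h2 : A ⊓ 𝐂[core {2} H] = ⊥ := eq_bot_iff.2 ((le_inf ((inf_le_inf_right _ hA).trans
    (cent_sub_pcore hx.sol h0)) inf_le_left).trans (coprime_TIg hc).le)
  have h3 := sp_comm hR ha ho hn fun e => h1 (by rw [← h2, inf_eq_left.2 e])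
  obtain ⟨h4, h5⟩ := spPrime h3 (hx.mono (sup_le (comm_subG (pcore_sub _ H) hA) hA))
  rw [← Subgroup.inf_relIndex_left, inf_cent_comm ha hn hc, h2, Subgroup.relIndex_bot_left] at h4 h5
  exact ⟨h3, h4, (Nat.lt_succ_self _).trans_le
    (h5.le.trans (Nat.le_of_dvd Nat.card_pos (relIndex_dvd_card _ _)))⟩

theorem compl_conj (h : SDProd R A M) (h' : SDProd R B M) (hR : IsPGroup 2 R) (ho : Odd (Nat.card A)) :
    ∃ w ∈ ⁅R, A⁆, B = w •ᶜ A := by
  have hc := coprime_of_two_odd hR ho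
  obtain ⟨k, hk, rfl⟩ := SchurZassenhaus_trans h h' hc (Or.inl (pgroup_sol hR))
  obtain ⟨w, hw, c, hc, rfl⟩ := (coprime_cent_mulEq h.norm hc (Or.inl (pgroup_sol hR))).exists_mul hk
  exact ⟨w, hw, by rw [← conj_conj, conj_eq_of_mem_cent hc.2]⟩

theorem compl_comm (h : SDProd R A M) (h' : SDProd R B M) (hR : IsPGroup 2 R) (ho : Odd (Nat.card A)) :
    ⁅R, B⁆ = ⁅R, A⁆ := by
  obtain ⟨w, hw, rfl⟩ := compl_conj h h' hR ho
  conv_rhs => rw [← conj_eq_of_mem hw, conj_commutator, conj_eq_of_mem (commg_subl.2 h.norm hw)]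

theorem compl_frattini (h : SDProd R A M) (hR : IsPGroup 2 R) (ho : Odd (Nat.card A)) (hn : R ⊴ H)
    (hM : M ⊴ H) : ⁅R, A⁆ ⊴ H ∧ ⁅R, A⁆ ⊔ (H ⊓ 𝐍[A]) = H := by
  have key : ∀ g ∈ H, SDProd R (g •ᶜ A) M := fun g hg => by
    have := h.conj g
    rwa [hn.conj_eq hg, hM.conj_eq hg] at this
  have h1 : ⁅R, A⁆ ≤ H := (commg_subl.2 h.norm).trans hn.1
  refine ⟨⟨h1, normsP'.2 fun g hg => ?_⟩, le_antisymm (sup_le h1 inf_le_left) fun g hg => ?_⟩
  · rw [conj_commutator, hn.conj_eq hg, compl_comm h (key g hg) hR ho]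
  · obtain ⟨w, hw, e⟩ := compl_conj h (key g hg) hR ho
    rw [← mul_inv_cancel_left w g]
    refine Subgroup.mul_mem_sup hw ⟨H.mul_mem (H.inv_mem (h1 hw)) hg, conj_eq_iff_mem_norm.1 ?_⟩
    rw [← conj_conj, e, inv_conj_conj]

theorem key0 (hx : XS H) (h0 : core {2}ᶜ H = ⊥) (hRM : core {2} H < M) (hM : M ⊴ H)
    (hd : ⁅M, M⁆ ≤ core {2} H) (ho : ¬ 2 ∣ (core {2} H).relIndex M) (h : Sp W K) (hW : W ≤ H)
    (hK : K ≤ H) : SDProd (core {2} H) K M ∧ W = ⁅core {2} H, K⁆ := by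
  have hR := pcore_pgroup' 2 H
  have hRn : core {2} H ⊴ M := normalS hRM.le hM.1 (pcore_normal _ H)
  have hRH : Syl 2 (core {2} H) M := ⟨hRM.le, hR, ho⟩
  obtain ⟨E, hE, hKE⟩ := Hall_superset (π := {2}ᶜ) hx.sol hK (piSub_compl.2 h.odd.not_two_dvd_nat)
  have h1 := Hall_setI_normal hM hE
  have hs := (sdprod_normal_pHallP hRn hRH.hall).2 h1
  have hn : K ≤ 𝐍[E ⊓ M] := normsIG hKE (hK.trans hM.2)
  have hA : E ⊓ M ≤ H := inf_le_right.trans hM.1
  have ho' : Odd (Nat.card ↥(E ⊓ M)) := Nat.not_even_iff_odd.1 (mt even_iff_two_dvd.1 (piSub_compl.1 h1.pi))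
  have ho2 : Odd (Nat.card ↥(E ⊓ M ⊔ K)) := oddSg (sup_le inf_le_left hKE)
    (Nat.not_even_iff_odd.1 (mt even_iff_two_dvd.1 (piSub_compl.1 hE.pi)))
  generalize E ⊓ M = A at *
  have ha : IsMulCommutative A := derG1P.1 (eq_bot_iff.2
    ((le_inf ((dergS hs.right_le).trans hd) (der_sub A)).trans hs.inf_eq.le))
  obtain ⟨h2, h3, h4⟩ := prime0 hx h0 hA ha ho' (hs.lt_iff.1 hRM)
  have h5 : K ≤ 𝐂[A] := by
    by_contra e
    obtain ⟨h6, h7⟩ := compl_frattini hs hR ho' (pcore_normal _ H) hM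
    have h8 := (s3 h2 hx h6 hA h7 ((inf_le_inf_left _ inf_le_right).trans
      ((coprime_norm_cent h2.norm h2.coprime).trans (spDer h2 (hx.mono (sup_le h6.1 hA))).2).le)
      (((eq_of_le_prime h3 (commg_subl.2 hn) (mt commG1P'.1 e)).ge.trans (commgSS hA hK)).trans
        le_sup_left)).1
    have h9 : Nat.card A = 3 := by
      have := h3.two_le
      obtain ⟨k, hk⟩ := ho'
      omega
    exact e (cents_prime_of_coprime h3 hn (by rw [h9]; exact Nat.coprime_two_right.2 h.odd))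
  have h6 := (prime0 hx h0 (sup_le hA hK) (abelianY.2 ⟨ha, h.ab, h5⟩) ho2
    (fun e => h2.ne_bot' (eq_bot_iff.2 (le_sup_left.trans e.le)))).2.1
  obtain rfl : K = A := (eq_of_le_prime h6 le_sup_right h.ne_bot').trans
    (eq_of_le_prime h6 le_sup_left h2.ne_bot').symm
  refine ⟨hs, h.eq_of_le h2 (hx.mono (sup_le (comm_subG (pcore_sub _ H) hK) hK)) ?_⟩
  refine h.comm.ge.trans (commSg _ (sub_normal_Sylow hRH hRn ?_ h.two))
  rw [← h.comm, commGC]
  exact (commSg _ hs.right_le).trans (hM.commg_le hW)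

theorem struct0 (hx : XS H) (h0 : core {2}ᶜ H = ⊥) (h : Sp W K) (hW : W ≤ H) (hK : K ≤ H) :
    (Nat.card K).Prime ∧ W ⊔ (H ⊓ 𝐍[K]) = H ∧ ∀ W' K', Sp W' K' → W' ≤ H → K' ≤ H → W' = W := by
  have hR := pcore_pgroup' 2 H
  have hRn := pcore_normal {2} H
  obtain ⟨p, V, hp, hV, hm, hVH⟩ := sol_exists_normal_abelem (quotient_sol (core {2} H) hx.sol)
    (fun e => h.ne_bot' (eq_bot_iff.2 ((le_inf (hK.trans ((quotient_sub1 hRn.2).1 e)) le_rfl).trans
      (coprime_TIg (coprime_of_two_odd hR h.odd)).le))) (normG _)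
  obtain ⟨M, rfl, h1, h2⟩ := inv_quotientN hRn ⟨hVH, hm.norm⟩
  have h3 : core {2} H ⊴ M := normalS h1 h2.1 hRn
  have h4 := (quotient_neq1 h3).1 hm.ne_bot
  have h5 := der1_min h3.2 hV.1
  have h6 : ¬ 2 ∣ (core {2} H).relIndex M := by
    haveI := Fact.mk hp
    rw [← card_quotient h3.2]
    refine not_dvd_card_of_pgroup (abelem_pgroup hV) ?_
    rintro rfl
    exact hm.ne_bot (eq_bot_iff.2 ((pcore_max' (abelem_pgroup hV) ⟨hVH, hm.norm⟩).trans
      (trivg_pcore_quotient _ H).le))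
  obtain ⟨h7, h8⟩ := key0 hx h0 h4 h2 h5 h6 h hW hK
  refine ⟨(prime0 hx h0 hK h.ab h.odd h.ne_bot').2.1, h8 ▸ (compl_frattini h7 hR h.odd hRn h2).2,
    fun W' K' h' hW' hK' => ?_⟩
  obtain ⟨h9, h10⟩ := key0 hx h0 h4 h2 h5 h6 h' hW' hK'
  rw [h10, h8, compl_comm h7 h9 hR h.odd]

end Cfsg.Acd
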