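import Cfsg.Agent.Acd.Loc2
import Cfsg.Agent.Blk.SmallSimple
import Mathlib.NumberTheory.LucasLehmer

/-! The simple case. -/

set_option autoImplicit false
set_option maxHeartbeats 400000
set_option linter.unusedSectionVars false

namespace Cfsg.Acd

open Cfsg.FT
open scoped Pointwise Classical commutatorElement

universe u

theorem stSimple (hT : StT.{u}) (hO : StO.{u}) (hE : StE.{u}) (hD : StD.{u}) (hR : StRec.{u})
    (hC : StCount.{u}) : StSimple.{u} := by
  intro G _ _ T h hS
  have hcount : (∃ (z : G) (M : Subgroup G), DData z M) → Nat.card G = 168 :=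
    fun ⟨z, M, hd⟩ => hC G z M hd fun _ => h.sol
  have hc := card_mul_relIndex hS.le
  rw [Subgroup.card_top] at hc
  rcases hT G T h hS with hT | hT
  · left
    obtain ⟨K, hsp, hab⟩ := id hT
    have hx : XS (T ⊔ K) := h.xs_of_norm hsp.ne (pgroup_sol hsp.two) (sup_le (normG T) hsp.norm)
    have hspE := hsp.ab_spE hab.1 hx
    obtain ⟨h1, h2⟩ := hE G T h (hO G h) hS hT
    obtain ⟨q, hq⟩ := exists_card_pgroup hsp.two
    have h3 : ∀ t ∈ T, t ≠ 1 → 𝐂₁[t] = T := by
      rcases le_or_gt 8 (Nat.card T) with h4 | h4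
      · exact h2 h4
      have h5 : Nat.card T = 4 := by
        have := hspE.four
        rw [hq] at *
        rcases q with _ | _ | _ | q
        all_goals omega
      refine (hD G T h (hO G h) hS (Or.inr ⟨hT, h5, h1⟩)).resolve_right fun e => hS.index ?_
      rw [hcount e, h5] at hc
      omega
    obtain ⟨h4, F, i1, i2, h5, h6⟩ := hR G T K hS (h.norm_ne_top hsp.ne (pgroup_sol hsp.two)) h3
      hsp.norm hsp.ab hspE
    refine ⟨hT, h4, F, i1, i2, q, Nat.Prime.of_mersenne ?_, h5.trans hq, h6⟩
    have h7 := hsp.ab_idx hab.1 hx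
    rw [mersenne, ← hq, ← h7]
    exact hsp.ab_prime hab.1 hx
  · right
    have h1 : Nat.card G = 168 := by
      refine hcount ((hD G T h (hO G h) hS (Or.inl hT)).resolve_left fun e => ?_)
      obtain ⟨σ, τ, m, hd, hm, -⟩ := hT
      have h2 : σ ≠ 1 := by
        rintro rfl
        have := hd.ord
        rw [orderOf_one] at this; omega
      have h3 := hd.rel
      rw [mem_cent1.1 ((e σ hd.mem_σ h2).ge hd.mem_τ), mul_inv_cancel_right, eq_inv_iff_mul_eq_one,
        ← sq] at h3
      have := Nat.le_of_dvd two_pos (orderOf_dvd_of_pow_eq_one h3)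
      rw [hd.ord] at this; omega
    haveI := h.simple
    refine ⟨hT, h1, (simple_three_mul_pow_mul_pow (p := 7) (q := 2) (a := 1) (b := 3) ?_ (by norm_num)
      Nat.prime_two (by norm_num) (by rw [h1]; norm_num)).resolve_left (by omega)⟩
    by_contra e
    push Not at e
    exact h.ne_top_of_sol (abelian_sol (abelian_iff_forall.2 fun x _ y _ => e x y)) rfl

end Cfsg.Acd
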