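import Cfsg.Agent.Acd.Odd

/-! Special pairs inside `XS`. -/

set_option autoImplicit false
set_option maxHeartbeats 400000
set_option linter.unusedSectionVars false

namespace Cfsg.Acd

open Cfsg.FT
open scoped Pointwise Classical commutatorElement

universe u

variable {G : Type*} [Group G] [Finite G]
variable {L H K V W C : Subgroup G} {θ χ : G → ℂ} {g v w x a b z : G}

theorem Sp.ab_cent (h : Sp V K) (hV : IsMulCommutative V) : V ⊓ 𝐂[K] = ⊥ := by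
  have := coprime_abel_cent_TI h.norm h.coprime hV
  rwa [h.comm] at this

theorem Sp.ab_trans (h : Sp V K) (hV : IsMulCommutative V) (hx : XS (V ⊔ K)) (ha : a ∈ V)
    (ha1 : a ≠ 1) (hb : b ∈ V) (hb1 : b ≠ 1) : b ∈ orb K a := by
  by_contra e
  have h1 := two_orbs hV h.ab h.norm h.coprime hx h.odd (h.ab_cent hV) ha ha1 hb hb1 e
  have h2 := pgroup_pdiv h.two h.ne
  haveI : Fact (Nat.Prime 5) := ⟨by norm_num⟩
  have h3 := not_dvd_card_of_pgroup (q := 5) h.two (by norm_num)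
  omega

theorem Sp.ab_idx1 (h : Sp V K) (hV : IsMulCommutative V) (hx : XS (V ⊔ K)) (ha : a ∈ V)
    (ha1 : a ≠ 1) : 𝐂₁[a].relIndex K + 1 = Nat.card V := by
  have h4 : fs V = insert 1 (orb K a) := by
    ext d
    simp only [mem_fs, Finset.mem_insert]
    refine ⟨fun hd => ?_, ?_⟩
    · by_cases h1 : d = 1
      exacts [Or.inl h1, Or.inr (h.ab_trans hV hx ha ha1 hd h1)]
    · rintro (rfl | e)
      exacts [one_mem _, orb_sub h.norm ha e]
  rw [← card_fs, h4, Finset.card_insert_of_notMem (one_not_mem_orb ha1), card_orb]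

theorem Sp.ab_le_cent (h : Sp V K) (hV : IsMulCommutative V) (hx : XS (V ⊔ K)) (ha : a ∈ V)
    (ha1 : a ≠ 1) : 𝐂[K] ⊓ 𝐂₁[a] ≤ 𝐂[V] := fun y hy => mem_cent.2 fun b hb => by
  by_cases h1 : b = 1
  · simp [h1]
  obtain ⟨k, hk, rfl⟩ := mem_orb.1 (h.ab_trans hV hx ha ha1 hb h1)
  have e1 : Commute k y := mem_cent.1 hy.1 k hk
  have e2 : Commute a y := (mem_cent1.1 hy.2).symm
  exact ((e1.mul_left e2).mul_left e1.inv_left).eq

theorem Sp.ab_idx (h : Sp V K) (hV : IsMulCommutative V) (hx : XS (V ⊔ K)) :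
    𝐂[V].relIndex K + 1 = Nat.card V := by
  obtain ⟨a, ha, ha1⟩ := exists_ne_one h.ne
  rw [← h.ab_idx1 hV hx ha ha1, ← Subgroup.inf_relIndex_left K 𝐂[V], ← Subgroup.inf_relIndex_left K 𝐂₁[a],
    le_antisymm (inf_le_inf_left K (cent_le_cent1 ha)) (le_inf inf_le_left
      ((inf_le_inf_right _ (abelian_iff.1 h.ab)).trans (h.ab_le_cent hV hx ha ha1)))]

theorem Sp.ab_eq (h : Sp V K) (hV : IsMulCommutative V) (hx : XS (V ⊔ K)) (hW : W ≤ V) (h1 : W ≠ ⊥)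
    (hn : K ≤ 𝐍[W]) : W = V := by
  obtain ⟨a, ha, ha1⟩ := exists_ne_one h1
  refine le_antisymm hW fun b hb => ?_
  by_cases h1 : b = 1
  exacts [h1 ▸ one_mem _, orb_sub hn ha (h.ab_trans hV hx (hW ha) ha1 hb h1)]

theorem Sp.ab_sub (h : Sp V K) (hV : IsMulCommutative V) (hx : XS (V ⊔ K)) (hL : L ≤ K)
    (hc : ¬ L ≤ 𝐂[V]) : Sp V L := by
  have h1 := sp_comm h.two (abelianS hL h.ab) (oddSg hL h.odd) (hL.trans h.norm) hc
  rwa [h.ab_eq hV hx (commg_subl.2 (hL.trans h.norm)) h1.ne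
    (normsR h.norm (sub_abelian_norm h.ab hL))] at h1

theorem Sp.ab_prime (h : Sp V K) (hV : IsMulCommutative V) (hx : XS (V ⊔ K)) :
    (𝐂[V].relIndex K).Prime := by
  obtain ⟨p, hp, hd⟩ := Nat.exists_prime_and_dvd (mt Subgroup.relIndex_eq_one.1 h.not_cent)
  haveI := Fact.mk hp
  have hn : K ≤ 𝐍[K ⊓ 𝐂[V]] := (subcent_normal' h.norm).2
  rw [← Subgroup.inf_relIndex_left, ← card_quotient hn] at hd
  obtain ⟨X, hX, e⟩ := exists_card_p hd
  obtain ⟨Z, rfl, h1, h2⟩ := inv_quotientS inf_le_left hX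
  rw [card_quotient h1.2, ← Subgroup.inf_relIndex_left, ← inf_assoc, inf_eq_left.2 h2,
    Subgroup.inf_relIndex_left] at e
  have h3 := (h.ab_sub hV hx h2 (mt Subgroup.relIndex_eq_one.2 (e ▸ hp.ne_one))).ab_idx hV
    (hx.mono (sup_le_sup_left h2 _))
  have h4 := h.ab_idx hV hx
  rwa [show 𝐂[V].relIndex K = p by omega]

theorem Sp.ab_elem (h : Sp V K) (hV : IsMulCommutative V) (hx : XS (V ⊔ K)) :
    IsElementaryAbelian 2 V := by
  rw [← h.ab_eq hV hx (Ohm_sub 2 V) (Ohm1_ne_bot (pgroup_pdiv h.two h.ne)) (norms_Ohm1 2 h.norm)]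
  exact Ohm1_abelem hV

theorem Sp.three_le (h : Sp V K) : 3 ≤ 𝐂[V].relIndex K := by
  obtain ⟨m, hm⟩ := h.odd.of_dvd_nat (relIndex_dvd_card 𝐂[V] K)
  have := mt Subgroup.relIndex_eq_one.1 h.not_cent
  omega

theorem Sp.ab_spE (h : Sp V K) (hV : IsMulCommutative V) (hx : XS (V ⊔ K)) : SpE V K :=
  ⟨h.ab_elem hV hx, by have := h.ab_idx hV hx; have := h.three_le; omega,
    fun _ ha ha1 _ hb hb1 => mem_orb.1 (h.ab_trans hV hx ha ha1 hb hb1)⟩

theorem Sp.der_lt (h : Sp W K) : ⁅W, W⁆ < W := sol_der1_proper (pgroup_sol h.two) h.ne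

theorem Sp.norm_der (h : Sp W K) : K ≤ 𝐍[⁅W, W⁆] := normsR h.norm h.norm

theorem Sp.quo_der (h : Sp W K) : Sp (W ⁄ ⁅W, W⁆) (K ⁄ ⁅W, W⁆) :=
  h.quo (der_norm W) h.norm_der h.der_lt.2

theorem Sp.xs_der (h : Sp W K) (hx : XS (W ⊔ K)) : XS (W ⁄ ⁅W, W⁆ ⊔ K ⁄ ⁅W, W⁆) :=
  quotientY (der_norm W) h.norm_der ▸ hx.quo _

theorem Sp.idx_der (h : Sp W K) : 𝐂[W ⁄ ⁅W, W⁆].relIndex (K ⁄ ⁅W, W⁆) = 𝐂[W].relIndex K := by
  rw [← relIndex_pre_left _ h.norm_der, ← Subgroup.inf_relIndex_left, ← Subgroup.inf_relIndex_left K 𝐂[W]]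
  congr 1
  have hn : ∀ Y, K ⊓ Y ≤ 𝐍[⁅W, W⁆] := fun Y => inf_le_left.trans h.norm_der
  refine le_antisymm (le_inf inf_le_left ?_) (le_inf inf_le_left ((sub_quotient_pre (hn _)).1
    (quotient_cents _ inf_le_right)))
  refine coprime_nil_cent_der1 (coprimegS inf_le_left h.coprime) (pgroup_nil h.two) ?_
  rw [← quotient_cents2 (der_norm W) (hn _), centsC]
  exact (sub_quotient_pre (hn _)).2 inf_le_right

theorem spPrime (h : Sp W K) (hx : XS (W ⊔ K)) :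
    (𝐂[W].relIndex K).Prime ∧ 𝐂[W].relIndex K + 1 = ⁅W, W⁆.relIndex W := by
  rw [← h.idx_der, ← card_quotient (der_norm W)]
  exact ⟨h.quo_der.ab_prime (der_abelian W) (h.xs_der hx), h.quo_der.ab_idx (der_abelian W) (h.xs_der hx)⟩

theorem coset_der_ne (ha : a ∈ W) (ha' : a ∉ ⁅W, W⁆) : coset ⁅W, W⁆ a ≠ 1 :=
  mt (coset_eq_one_iff (der_norm W ha)).1 ha'

theorem spTrans (h : Sp W K) (hx : XS (W ⊔ K)) (ha : a ∈ W) (ha' : a ∉ ⁅W, W⁆) (hb : b ∈ W)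
    (hb' : b ∉ ⁅W, W⁆) : ∃ k ∈ K, b⁻¹ * (k * a * k⁻¹) ∈ ⁅W, W⁆ := by
  obtain ⟨y, hy, e⟩ := mem_orb.1 (h.quo_der.ab_trans (der_abelian W) (h.xs_der hx)
    (mem_quotient _ ha) (coset_der_ne ha ha') (mem_quotient _ hb) (coset_der_ne hb hb'))
  obtain ⟨k, hk, hk', rfl⟩ := mem_quo.1 hy
  rw [← coset_conj hk' (der_norm W ha)] at e
  exact ⟨k, hk, (coset_eq_iff (der_norm W hb) (der_norm W ((memJ_norm (h.norm hk)).2 ha))).1 e⟩

theorem Sp.inertia_lin (h : Sp W K) (hθ : IsLin W θ) (h1 : θ ≠ cf1 W) :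
    3 ≤ ((W ⊔ K) ⊓ inertia W θ).relIndex (W ⊔ K) := by
  have hs := sdprodEY h.norm (coprime_TIg h.coprime)
  obtain ⟨m, hm⟩ := h.odd.of_dvd_nat
    (index_sdprod hs ▸ indexgS (W ⊔ K) (hθ.isCF.sub_Inertia hs.left_le))
  have : ((W ⊔ K) ⊓ inertia W θ).relIndex (W ⊔ K) ≠ 1 := fun e => h1 <| by
    have h2 : K ≤ inertia W θ := le_sup_right.trans ((Subgroup.relIndex_eq_one.1 e).trans inf_le_right)
    rw [← hθ.isIrr.le_cfker_self]
    conv_lhs => rw [← h.comm]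
    refine commg_le_iff.2 fun x hx k hk => hθ.mem_cfker.2 ?_
    rw [show x * k * x⁻¹ * k⁻¹ = x * (k * x⁻¹ * k⁻¹) by group, hθ.map_mul_left hx,
      inertia_valJ (h2 hk), ← hθ.map_mul_left hx, mul_inv_cancel, hθ.one]
  omega

theorem Sp.le_inertia (h : Sp W K) (hx : XS (W ⊔ K)) (hθ : IsIrr W θ) (h2 : ¬ IsLin W θ) :
    K ≤ inertia W θ := by
  obtain ⟨l, hl, hl1⟩ := exists_lin_ne_cf1 h.der_lt
  have hs := sdprodEY h.norm (coprime_TIg h.coprime)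
  have hd := der_join_comm h.ab h.comm
  have hc' : (Nat.card W).Coprime (W.relIndex (W ⊔ K)) := index_sdprod hs ▸ h.coprime
  have hA := exc_le_of_comm h.ab h.comm hx
  have h3 : 2 ≤ charDegree θ := by
    have := hθ.charDegree_pos
    have := mt hθ.isLin_iff.2 h2
    omega
  have h4 := exc_over_hall hs.normal hd.le hc' hθ
  have h5 := exc_over_hall hs.normal hd.le hc' hl.isIrr
  have h6 := relIndex_Inertia_mul hθ.isCF hs.left_le
  have h7 := relIndex_Inertia_mul hl.isCF hs.left_le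
  have h8 := h.inertia_lin hl hl1
  have h9 := excOver_add_le hs.normal hθ hl.isIrr fun e => h2 (hθ.isLin ((cfclass_one e).symm.trans hl.one))
  obtain ⟨m, hm⟩ := h.odd.of_dvd_nat
    (index_sdprod hs ▸ indexgS (W ⊔ K) (hθ.isCF.sub_Inertia hs.left_le))
  have ht := relIndex_pos W ((W ⊔ K) ⊓ inertia W θ)
  refine hs.right_le.trans ((Subgroup.relIndex_eq_one.1 ?_).trans (inf_le_right (a := W ⊔ K)))
  rw [hl.charDegree_eq, mul_one] at h5
  generalize W.relIndex ((W ⊔ K) ⊓ inertia W θ) = t at *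
  generalize ((W ⊔ K) ⊓ inertia W θ).relIndex (W ⊔ K) = s at *
  generalize W.relIndex ((W ⊔ K) ⊓ inertia W l) = t' at *
  generalize ((W ⊔ K) ⊓ inertia W l).relIndex (W ⊔ K) = s' at *
  by_contra hs1
  have e1 : t' * s' ≤ t' * (3 * (s' - 2)) := Nat.mul_le_mul_left _ (by omega)
  have e2 : s * 2 ≤ s * charDegree θ := Nat.mul_le_mul_left _ h3
  have e3 : t * (2 * s + 1) ≤ t * (3 * (s * charDegree θ - 2)) := Nat.mul_le_mul_left _ (by omega)
  nlinarith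

theorem Sp.cent_der (h : Sp W K) (hx : XS (W ⊔ K)) : K ≤ 𝐂[⁅W, W⁆] := by
  obtain ⟨n, hn⟩ := ucnP.1 (pgroup_nil h.two)
  have := stable_series_cent (A := K) (n := n) (s := fun i => ⁅W, W⁆ ⊓ ucn i W) (by simp)
    (fun i _ => commg_le_iff.2 fun w hw k hk => ?_)
    fun i _ => coprimeSg (inf_le_left.trans (der_sub W)) h.coprime
  · rwa [hn, inf_eq_left.2 (der_sub W)] at this
  have h1 : k * w⁻¹ * k⁻¹ ∈ ⁅W, W⁆ := (memJ_norm (h.norm_der hk)).2 (inv_mem hw.1)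
  obtain ⟨g, hg, e⟩ := exists_conj_of_forall_irr (x := w⁻¹) (y := k * w⁻¹ * k⁻¹)
    (der_sub W (inv_mem hw.1)) fun χ hχ => by
      by_cases h2 : IsLin W χ
      · rw [cfker1 (h2.der_le_cfker h1), cfker1 (h2.der_le_cfker (inv_mem hw.1))]
      · rw [inertia_valJ (h.le_inertia hx hχ h2 hk)]
  rw [show w * k * w⁻¹ * k⁻¹ = w * (k * w⁻¹ * k⁻¹) by group]
  refine ⟨mul_mem hw.1 h1, ?_⟩
  have := (mem_ucn_succ.1 hw.2).2 g hg
  rw [commutatorElement_def] at this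
  rw [e, show w * (g * w⁻¹ * g⁻¹) = w * g * w⁻¹ * g⁻¹ by group]; exact this

theorem spDer (h : Sp W K) (hx : XS (W ⊔ K)) : K ≤ 𝐂[⁅W, W⁆] ∧ W ⊓ 𝐂[K] = ⁅W, W⁆ := by
  refine ⟨h.cent_der hx, le_antisymm ?_ (le_inf (der_sub W) (centsC.1 (h.cent_der hx)))⟩
  rw [← quotient_sub1 (inf_le_left.trans (der_norm W)), eq_bot_iff, ← h.quo_der.ab_cent (der_abelian W)]
  exact quotient_subcent _ _ _

theorem Sp.class2 (h : Sp W K) (hx : XS (W ⊔ K)) : W ≤ 𝐂[⁅W, W⁆] := by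
  have h1 := h.cent_der hx
  have := three_subgroup (X := W) (Y := ⁅W, W⁆) (Z := K)
    (commG1P'.2 (centsS (commg_subr.2 (der_norm W)) h1)) (by rw [commG1P'.2 h1]; simp)
  rwa [commGC K W, h.comm, commG1P] at this

theorem Sp.sq_mem (h : Sp W K) (hx : XS (W ⊔ K)) (ha : a ∈ W) : a * a ∈ ⁅W, W⁆ := by
  have := (h.quo_der.ab_elem (der_abelian W) (h.xs_der hx)).2 _ (mem_quotient _ ha)
  rwa [← coset_pow (der_norm W ha), coset_eq_one_iff (der_norm W (pow_mem ha 2)), sq] at this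

theorem Sp.der_sq (h : Sp W K) (hx : XS (W ⊔ K)) (hw : w ∈ ⁅W, W⁆) : w * w = 1 := by
  have h1 := h.class2 hx
  have hab : IsMulCommutative ↥⁅W, W⁆ := abelian_iff.2 ((der_sub W).trans h1)
  have : ⁅W, W⁆ ≤ Ohm1 2 ⁅W, W⁆ := commg_le_iff.2 fun a ha b hb => by
    have h2 : a * b * a⁻¹ * b⁻¹ ∈ ⁅W, W⁆ := mem_commg ha hb
    refine mem_Ohm1 h2 ?_
    have e1 := mem_cent.1 (h1 ha) _ h2
    have e2 := mem_cent.1 (h1 hb) _ (h.sq_mem hx ha)
    calc _ = (a * b * a⁻¹ * b⁻¹ * a) * b * a⁻¹ * b⁻¹ := by rw [sq]; group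
      _ = a * (a * b * a⁻¹ * b⁻¹) * b * a⁻¹ * b⁻¹ := by rw [e1]
      _ = (a * a * b) * (a * a)⁻¹ * b⁻¹ := by group
      _ = 1 := by rw [e2]; group
  rw [← sq]; exact (Ohm1_abelem hab).2 w (this hw)

theorem Sp.sq_eq (h : Sp W K) (hx : XS (W ⊔ K)) (ha : a ∈ W) (ha' : a ∉ ⁅W, W⁆) (hb : b ∈ W)
    (hb' : b ∉ ⁅W, W⁆) : a * a = b * b := by
  obtain ⟨k, hk, h1⟩ := spTrans h hx ha ha' hb hb'
  have e1 := mem_cent.1 (h.cent_der hx hk) _ (h.sq_mem hx ha)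
  have e2 := mem_cent.1 (h.class2 hx hb) _ h1
  have e3 := h.der_sq hx h1
  set w := b⁻¹ * (k * a * k⁻¹) with hw
  calc a * a = k * (a * a) * k⁻¹ := by rw [← e1]; group
    _ = b * (w * b) * w := by rw [hw]; group
    _ = b * b * (w * w) := by rw [e2]; group
    _ = _ := by rw [e3, mul_one]

theorem sp_cases (h : Sp W K) (hx : XS (W ⊔ K)) : SpE W K ∨ ∃ z, IsQ W z := by
  by_cases hab : IsMulCommutative W
  · exact Or.inl (h.ab_spE hab hx)
  obtain ⟨a, ha, ha'⟩ := SetLike.exists_of_lt h.der_lt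
  have h1 := h.class2 hx
  have hz := h.sq_mem hx ha
  have hz2 := h.der_sq hx hz
  set z := a * a with hzd
  have hsq : ∀ b ∈ W, b ∉ ⁅W, W⁆ → b * b = z := fun b hb hb' => h.sq_eq hx hb hb' ha ha'
  have hcomm : ∀ b ∈ W, ∀ c ∈ W, (b ∈ ⁅W, W⁆ ∨ c ∈ ⁅W, W⁆ ∨ b * c ∈ ⁅W, W⁆) ∧ b * c = c * b ∨
      b * c * b⁻¹ = c * z := fun b hb c hc => by
    by_cases e1 : b ∈ ⁅W, W⁆
    · exact Or.inl ⟨Or.inl e1, mem_cent.1 (h1 hc) b e1⟩
    by_cases e2 : c ∈ ⁅W, W⁆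
    · exact Or.inl ⟨Or.inr (Or.inl e2), (mem_cent.1 (h1 hb) c e2).symm⟩
    by_cases e3 : b * c ∈ ⁅W, W⁆
    · refine Or.inl ⟨Or.inr (Or.inr e3), mul_left_cancel (a := b) ?_⟩
      rw [← mem_cent.1 (h1 hb) _ e3, mul_assoc]
    right
    have e4 := hsq _ (mul_mem hb hc) e3
    have e5 := mem_cent.1 (h1 hb) _ hz
    have e6 := mem_cent.1 (h1 hc) _ hz
    calc b * c * b⁻¹ = (b * c * (b * c)) * c * (c * c)⁻¹ * (b * b)⁻¹ := by group
      _ = z * c * (z * z)⁻¹ := by rw [e4, hsq b hb e1, hsq c hc e2]; group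
      _ = _ := by rw [hz2, e6]; group
  have hz1 : z ≠ 1 := fun e => hab (abelian_iff_forall.2 fun b hb c hc => by
    rcases hcomm b hb c hc with e' | e'
    · exact e'.2
    · rw [e, mul_one] at e'; exact mul_inv_eq_iff_eq_mul.1 e')
  have hder : ⁅W, W⁆ = ⟪z⟫ := le_antisymm (commg_le_iff.2 fun b hb c hc => by
    rcases hcomm b hb c hc with e' | e'
    · rw [e'.2]; simp
    · rw [e', ← mem_cent.1 (h1 hc) _ hz]; simp) (Subgroup.zpowers_le.2 hz)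
  have ho : orderOf z = 2 := orderOf_eq_prime (by rwa [sq]) hz1
  have hmem : ∀ b ∈ ⁅W, W⁆, b = 1 ∨ b = z := fun b hb => by
    rw [hder] at hb
    obtain ⟨k, hk, rfl⟩ := (mem_zpowers_iff_mem_range_orderOf.1 hb |> Finset.mem_image.1)
    rw [ho, Finset.mem_range] at hk
    interval_cases k <;> simp
  refine Or.inr ⟨z, le_antisymm ?_ ?_, der_sub W hz, hz1, hz2, fun b hb => ?_, hder⟩
  · have e1 : 𝐂₁[a].relIndex W ≤ 2 := by
      rw [← card_orb]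
      refine (Finset.card_le_card fun c hc => ?_).trans (Finset.card_le_two (a := a) (b := a * z))
      obtain ⟨k, hk, rfl⟩ := mem_orb.1 hc
      rcases hcomm k hk a ha with e' | e'
      · simp [e'.2]
      · simp [e']
    have e2 : Nat.card ↥(W ⊓ 𝐂₁[a]) ≤ 4 := by
      rw [← card_fs]
      refine (Finset.card_le_card fun c hc => ?_).trans
        (Finset.card_le_four (a := 1) (b := z) (c := a⁻¹) (d := z * a⁻¹))
      obtain ⟨hc, hc'⟩ := mem_fs.1 hc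
      rcases hcomm c hc a ha with ⟨e' | e' | e', -⟩ | e'
      · rcases hmem c e' with rfl | rfl <;> simp
      · exact absurd e' ha'
      · rcases hmem _ e' with e | e
        · simp [eq_inv_of_mul_eq_one_left e]
        · simp [eq_mul_inv_of_mul_eq e]
      · rw [mem_cent1.1 hc', mul_inv_cancel_right] at e'
        exact absurd (by simpa using e') hz1
    rw [← card_mul_relIndex (inf_le_left : W ⊓ 𝐂₁[a] ≤ W), Subgroup.inf_relIndex_left]
    exact Nat.mul_le_mul e2 e1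
  · have e1 := (spPrime h hx).2
    have e2 := h.three_le
    rw [← card_mul_relIndex (der_sub W), ← e1, hder, Nat.card_zpowers, ho]
    omega
  · by_cases e : b ∈ ⁅W, W⁆
    · rcases hmem b e with e | e <;> simp [e]
    · exact Or.inr (Or.inr (hsq b hb e))

theorem spC (h : Sp W K) (hx : XS (W ⊔ K)) (hC : IsPGroup 2 C) (hn : C ≤ 𝐍[W]) (hc : C ≤ 𝐂[K]) :
    C ≤ 𝐂[W] := by
  have hn' : C ≤ 𝐍[⁅W, W⁆] := normsR hn hn
  obtain ⟨a, ha, ha1⟩ := exists_ne_one (nontrivial_cent_pgroup (quotient_pgroup ⁅W, W⁆ hC)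
    h.quo_der.two (quotient_norms _ hn) h.quo_der.ne)
  have h1 : ⁅W, C⁆ ≤ ⁅W, W⁆ := (quotient_cents2 (der_norm W) hn').1 (centsC.1
    ((le_inf (quotient_cents _ hc) (le_cent1.2 ha.2)).trans
      (h.quo_der.ab_le_cent (der_abelian W) (h.xs_der hx) ha.1 ha1)))
  have := three_subgroup (X := W) (Y := C) (Z := K)
    (commG1P'.2 (centsS h1 (h.cent_der hx))) (by rw [commG1P.2 hc]; simp)
  rwa [commGC K W, h.comm, commG1P'] at this

theorem stLoc0 : StLoc0.{u} := fun _ _ _ =>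
  ⟨XS.sol, abR, abS, odd_comm_abelian, fun h1 h2 h3 h4 h5 _ => inv_of_odd h1 h2 h3 h4 h5, seven,
    sp_cases, spDer, fun h1 h2 _ h3 h4 _ => spTrans h1 h2 h3 h4, spPrime, spC⟩

end Cfsg.Acd
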