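import Cfsg.Agent.Acd.Alp

/-! S4753, piece T: general lemmas on special subgroups of a Sylow `2`-subgroup. -/

set_option autoImplicit false
set_option maxHeartbeats 400000

namespace Cfsg.Acd.T

open Cfsg.FT Subgroup
open scoped Pointwise commutatorElement

variable {G : Type*} [Group G] [Finite G]
variable {T L W K W₁ K₁ W₂ K₂ P X : Subgroup G} {a b c t w x y z : G}

/-- the standing hypotheses -/
structure Ctx (G : Type*) [Group G] [Finite G] : Prop where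
  ms : MS G
  l0 : Loc0 G
  l1 : Loc1 G
  l2 : Loc2 G

omit [Finite G] in
theorem cyc2 (hc : c * c = 1) (hx : x ∈ ⟪c⟫) : x = 1 ∨ x = c := by
  obtain ⟨k, rfl⟩ := hx
  have : c ^ (2 : ℤ) = 1 := by rw [zpow_two, hc]
  obtain ⟨m, rfl | rfl⟩ := Int.even_or_odd' k <;> simp [zpow_add, zpow_mul, this]

omit [Finite G] in
theorem pg_cycle {n : ℕ} (h : y ^ 2 ^ n = 1) : IsPGroup 2 ⟪y⟫ := fun ⟨_, k, rfl⟩ =>
  ⟨n, Subtype.ext (by
    change (y ^ k) ^ 2 ^ n = 1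
    rw [← zpow_natCast, ← zpow_mul, mul_comm, zpow_mul, zpow_natCast, h, one_zpow])⟩

/-- elements of a four-group -/
theorem klein (hc : Nat.card W = 4) (he : IsElementaryAbelian 2 W) (ha : a ∈ W) (hb : b ∈ W)
    (h1 : a ≠ 1) (h2 : b ≠ 1) (h3 : b ≠ a) (hx : x ∈ W) : x = 1 ∨ x = a ∨ x = b ∨ x = a * b := by
  classical
  by_contra hn
  push Not at hn
  obtain ⟨n1, n2, n3, n4⟩ := hn
  have aa : a * a = 1 := sq a ▸ he.2 a ha
  have e1 : a * b ≠ 1 := fun e => h3 (mul_left_cancel (e.trans aa.symm))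
  have e2 : a * b ≠ a := fun e => h2 (mul_eq_left.1 e)
  have e3 : a * b ≠ b := fun e => h1 (mul_eq_right.1 e)
  have hs : ({x, 1, a, b, a * b} : Finset G).card = 5 := by
    rw [Finset.card_insert_of_notMem (by simp [n1, n2, n3, n4]),
      Finset.card_insert_of_notMem (by simp [h1.symm, h2.symm, e1.symm]),
      Finset.card_insert_of_notMem (by simp [h3.symm, e2.symm]),
      Finset.card_insert_of_notMem (by simp [e3.symm]), Finset.card_singleton]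
  have hsub : (({x, 1, a, b, a * b} : Finset G) : Set G) ⊆ (W : Set G) := by
    intro u hu
    simp only [Finset.coe_insert, Finset.coe_singleton, Set.mem_insert_iff,
      Set.mem_singleton_iff] at hu
    rcases hu with rfl | rfl | rfl | rfl | rfl
    exacts [hx, W.one_mem, ha, hb, W.mul_mem ha hb]
  have := Set.ncard_le_ncard hsub (Set.toFinite _)
  rw [Set.ncard_coe_finset, hs, ← Nat.card_coe_set_eq] at this
  change 5 ≤ Nat.card W at this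
  omega

theorem klein_cent (hc : Nat.card W = 4) (he : IsElementaryAbelian 2 W) (ha : a ∈ W) (hb : b ∈ W)
    (h1 : a ≠ 1) (h2 : b ≠ 1) (h3 : b ≠ a) (ya : a * y = y * a) (yb : b * y = y * b) :
    y ∈ 𝐂[W] := mem_cent.2 fun x hx => by
  rcases klein hc he ha hb h1 h2 h3 hx with rfl | rfl | rfl | rfl
  · simp
  · exact ya
  · exact yb
  · rw [mul_assoc, yb, ← mul_assoc, ya, mul_assoc]

theorem klein_eq (hc : Nat.card W = 4) (he : IsElementaryAbelian 2 W) (ha : a ∈ W) (hb : b ∈ W)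
    (h1 : a ≠ 1) (h2 : b ≠ 1) (h3 : b ≠ a) : ⟪a⟫ ⊔ ⟪b⟫ = W := by
  refine le_antisymm (sup_le (zpowers_le.2 ha) (zpowers_le.2 hb)) fun x hx => ?_
  rcases klein hc he ha hb h1 h2 h3 hx with rfl | rfl | rfl | rfl
  · exact one_mem _
  · exact mem_sup_left (mem_zpowers _)
  · exact mem_sup_right (mem_zpowers _)
  · exact mul_mem_sup (mem_zpowers _) (mem_zpowers _)

namespace Ctx
variable (H : Ctx G)
include H

theorem xsN (hP : IsPGroup 2 P) (h : Sp W K) (hW : W ≤ P) : XS 𝐍[P] :=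
  H.ms.xs_norm_pgroup (fun e => h.ne (le_bot_iff.1 (e ▸ hW))) hP

theorem xsW (h : Sp W K) : XS 𝐍[W] := H.xsN h.two h le_rfl

theorem xs (h : Sp W K) : XS (W ⊔ K) := (H.xsW h).mono (sup_le (normG W) h.norm)

theorem fix (h : Sp W K) (hP : IsPGroup 2 P) (hW : W ≤ P) (hc : P ≤ W ⊔ 𝐂[W]) :
    ∃ K', Sp W K' ∧ K' ≤ 𝐍[P] ∧ ⁅P, K'⁆ = W := H.l2.fix h (H.xsW h) hP hW hc

theorem uniqP (h1 : Sp W₁ K₁) (h2 : Sp W₂ K₂) (hP : IsPGroup 2 P) (l1 : W₁ ≤ P) (l2 : W₂ ≤ P)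
    (c1 : P ≤ W₁ ⊔ 𝐂[W₁]) (c2 : P ≤ W₂ ⊔ 𝐂[W₂]) : W₁ = W₂ := by
  obtain ⟨A, a1, a2, -⟩ := H.fix h1 hP l1 c1
  obtain ⟨B, b1, b2, -⟩ := H.fix h2 hP l2 c2
  exact H.l2.uniq' (H.xsN hP h1 l1) a1 b1 (normsG l1) a2 (normsG l2) b2 hP l1 l2

/-- commuting special subgroups are equal -/
theorem s2 (h1 : Sp W₁ K₁) (h2 : Sp W₂ K₂) (h : W₂ ≤ 𝐂[W₁]) : W₁ = W₂ :=
  H.uniqP h1 h2 (pgroup_sup h1.two h2.two (cents_norm h)) le_sup_left le_sup_right
    (sup_le_sup_left h _) (sup_le (le_sup_of_le_right (centsC.1 h)) le_sup_left)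

theorem nrmP (h : Sp W K) (hP : IsPGroup 2 P) (hW : W ≤ P) (hc : P ≤ W ⊔ 𝐂[W])
    (hX : IsPGroup 2 X) (hn : X ≤ 𝐍[P]) : X ≤ 𝐍[W] := by
  obtain ⟨A, a1, a2, -⟩ := H.fix h hP hW hc
  exact le_sup_right.trans (H.l2.normal (H.xsN hP h hW) a1 a2 (pgroup_sup hP hX hn)
    (le_sup_of_le_left hW) (sup_le (normG P) hn))

theorem tp (h : Sp W K) (hT : IsPGroup 2 T) (hW : W ≤ T) (hc : T ⊓ 𝐍[W] ≤ W ⊔ 𝐂[W]) :
    T ≤ W ⊔ 𝐂[W] := by
  have := nilpotent_sub_norm (pgroup_nil hT) (inf_le_left : T ⊓ (W ⊔ 𝐂[W]) ≤ T)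
    (le_inf inf_le_left ((le_inf inf_le_left (H.nrmP h hT.to_inf_left (le_inf hW le_sup_left)
      inf_le_right hT.to_inf_left inf_le_right)).trans hc))
  exact this.ge.trans inf_le_right

theorem ti (h : Sp W K) (ha : IsMulCommutative W) : W ⊓ 𝐂[K] = ⊥ :=
  (H.l0.spDer h (H.xs h)).2.trans (derG1P.2 ha)

theorem sqfix (h : Sp W K) (he : IsElementaryAbelian 2 W) (hy : y ∈ 𝐂[W]) (h2 : y * y ∈ W) :
    y * y = 1 := by
  have hp : IsPGroup 2 ⟪y⟫ := pg_cycle (n := 2) (by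
    have := he.2 _ h2
    rwa [← sq, ← pow_mul] at this)
  have hyc : ⟪y⟫ ≤ 𝐂[W] := zpowers_le.2 hy
  obtain ⟨A, a1, a2, a3⟩ := H.fix h (pgroup_sup h.two hp (cents_norm hyc)) le_sup_left
    (sup_le_sup_left hyc _)
  rw [← mem_bot, ← H.ti a1 he.1]
  refine ⟨h2, mem_cent.2 fun k hk => ?_⟩
  have h3 : ⁅y, k⁆ ∈ W := a3 ▸ mem_commg (mem_sup_right (mem_zpowers y)) hk
  have h4 := he.2 _ h3
  have h5 := mem_cent.1 hy _ h3
  rw [commutatorElement_def] at h4 h5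
  set u := y * k * y⁻¹ * k⁻¹ with hu
  have e : y * k = u * k * y := by rw [hu]; group
  have e2 : y * y * k = k * (y * y) := by
    rw [mul_assoc, e, ← mul_assoc, ← mul_assoc, ← h5, mul_assoc u, e, ← mul_assoc, ← mul_assoc,
      ← sq, h4, one_mul, mul_assoc]
  exact e2.symm

theorem nrmE (h : Sp W K) (hz : z * z = 1) (hzW : z ∉ W) (hzc : z ∈ 𝐂[W]) (hX : IsPGroup 2 X)
    (hXz : X ≤ 𝐂₁[z]) (hc : ⁅X, W⁆ ≤ ⟪z⟫) : X ≤ 𝐂[W] := by
  have hp : IsPGroup 2 ⟪z⟫ := pg_cycle (n := 1) (by rw [pow_one, sq, hz])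
  have hyc : ⟪z⟫ ≤ 𝐂[W] := zpowers_le.2 hzc
  have hn : X ≤ 𝐍[W ⊔ ⟪z⟫] := by
    rw [← commg_subr, commGC]
    refine commg_sup_le (normsG le_sup_left) (normsG le_sup_right) ?_ ?_
    · rw [commGC]; exact le_sup_of_le_right hc
    · rw [commG1P'.2 (by rwa [cent_cycle])]; exact bot_le
  have h1 := H.nrmP h (pgroup_sup h.two hp (cents_norm hyc)) le_sup_left (sup_le_sup_left hyc _)
    hX hn
  rw [← commG1P, eq_bot_iff]
  intro u hu
  rcases cyc2 hz (hc hu) with rfl | rfl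
  · exact one_mem _
  · exact absurd (commg_subr.2 h1 hu) hzW

theorem gen0 {p : ℕ} [Fact p.Prime] (hT : Syl p T ⊤)
    (h : ∀ E ≤ T, ∀ g ∈ 𝐍[E], g ∉ 𝐂[E] → p.Coprime (orderOf g) → ⁅E, ⟪g⟫⁆ ≤ L) : T ≤ L := by
  have key : T ≤ frat T ⊔ (T ⊓ L) := by
    refine le_of_ctl hT H.ms.perfect (alperin hT fun E hE _ hS _ => ?_)
    let S : Subgroup G :=
      { carrier := {g | g ∈ 𝐍[E] ∧ ∀ a ∈ E, g * a * g⁻¹ * a⁻¹ ∈ frat T ⊔ (T ⊓ L)}
        one_mem' := ⟨one_mem _, fun a _ => by simp⟩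
        mul_mem' := fun {g k} hg hk => ⟨mul_mem hg.1 hk.1, fun a ha => by
          have := mul_mem (hg.2 _ ((memJ_norm hk.1).2 ha)) (hk.2 a ha)
          convert this using 1
          group⟩
        inv_mem' := fun {g} hg => ⟨inv_mem hg.1, fun a ha => by
          have := inv_mem (hg.2 _ ((memJ_norm' hg.1).2 ha))
          convert this using 1
          group⟩ }
    suffices 𝐍[E] ≤ S from fun g hg => (this hg).2
    refine le_of_exists_syl fun q hq _ => ?_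
    by_cases h2 : q = p
    · subst h2
      exact ⟨_, hS, fun g hg => ⟨hg.2, fun a ha => mem_sup_left
        (der1_le_Phi hT.pgroup (mem_commg hg.1 (hE ha)))⟩⟩
    haveI := Fact.mk hq
    obtain ⟨R, hR⟩ := Sylow_exists q 𝐍[E]
    refine ⟨R, hR, fun g hg => ⟨hR.le hg, fun a ha => ?_⟩⟩
    by_cases hc : g ∈ 𝐂[E]
    · rw [← mem_cent.1 hc a ha]; simp
    have ho : p.Coprime (orderOf g) := by
      obtain ⟨n, hn⟩ := IsPGroup.iff_orderOf.1 hR.pgroup ⟨g, hg⟩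
      rw [← orderOf_coe] at hn
      change orderOf g = _ at hn
      exact hn ▸ ((Nat.coprime_primes Fact.out hq).2 (Ne.symm h2)).pow_right n
    have hl : ⁅E, ⟪g⟫⁆ ≤ T := (commg_subl.2 (zpowers_le.2 (hR.le hg))).trans hE
    refine mem_sup_right ((le_inf hl (h _ hE _ (hR.le hg) hc ho)) ?_)
    rw [commGC]
    exact mem_commg (mem_zpowers g) ha
  exact (Phi_nongen' inf_le_left key).ge.trans inf_le_right

/-- the Sylow subgroup is generated by the special subgroups -/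
theorem gen (hT : Syl 2 T ⊤) (h : ∀ W K, Sp W K → W ≤ T → W ≤ L) : T ≤ L :=
  H.gen0 hT fun _ hE _ hg hc ho => h _ _
    (sp_comm_cycle (hT.pgroup.to_le hE) (Nat.coprime_two_left.1 ho) hg hc)
    ((commg_subl.2 (zpowers_le.2 hg)).trans hE)

theorem ne_bot (hT : Syl 2 T ⊤) : T ≠ ⊥ := by
  intro hb
  have ho : ∀ A : Subgroup G, Odd (Nat.card A) := fun A => by
    have := hT.eq_bot_iff.1 hb
    rw [← Nat.not_even_iff_odd, even_iff_two_dvd]
    exact fun h => this (h.trans (card_dvd_of_le le_top))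
  haveI : Fact (Nat.Prime 7) := ⟨by norm_num⟩
  obtain ⟨S, hS⟩ := Sylow_exists 7 (⊤ : Subgroup G)
  refine H.ms.ne_top_of_sol (pgroup_sol hS.pgroup) (top_le_iff.1 (le_of_exists_syl fun p hp _ => ?_))
  by_cases h7 : p = 7
  · exact ⟨S, h7 ▸ hS, le_rfl⟩
  haveI := Fact.mk hp
  obtain ⟨R, hR⟩ := Sylow_exists p (⊤ : Subgroup G)
  refine ⟨R, hR, H.gen0 hR fun E hE g hg hc hco => ?_⟩
  have hE' := hR.pgroup.to_le hE
  obtain ⟨n, hn⟩ := exists_card_pgroup hE'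
  have hg' := zpowers_le.2 hg
  have := (H.l0.seven (ho E) (cycle_abelian g) (ho _) hg'
    (by rw [hn, Nat.card_zpowers]; exact hco.pow_left n)
    ((H.ms.xs_norm_pgroup (fun e => hc (by simp [e])) hE').mono (sup_le (normG E) hg'))
    (fun e => hc (e (mem_zpowers g)))).1
  have h1 := card_dvd_of_le (commg_subl.2 hg')
  rw [this, hn] at h1
  exact absurd ((Nat.prime_dvd_prime_iff_eq Fact.out hp).1
    ((Fact.out : Nat.Prime 7).dvd_of_dvd_pow h1)).symm h7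

theorem exists_sp (hT : Syl 2 T ⊤) (h : ¬ T ≤ L) : ∃ W K, Sp W K ∧ W ≤ T ∧ ¬ W ≤ L := by
  by_contra hn
  push Not at hn
  exact h (H.gen hT hn)

end Ctx

end Cfsg.Acd.T
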