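import Cfsg.Agent.Acd.T1

/-! S4753, piece T: the case `T ≤ W C(W)`. -/

set_option autoImplicit false
set_option maxHeartbeats 400000

namespace Cfsg.Acd.T

open Cfsg.FT Subgroup
open scoped Pointwise commutatorElement

universe u

variable {G : Type u} [Group G] [Finite G]
variable {T L W K W₁ K₁ W₂ K₂ P X : Subgroup G} {a b c t w x y z : G}

omit [Finite G] in
theorem isQ_cent (h : IsQ W z) : z ∈ 𝐂[W] := mem_cent.2 fun a ha => by
  have h1 : a * z * a⁻¹ ∈ W := mul_mem (mul_mem ha h.mem) (inv_mem ha)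
  rcases h.root _ h1 with e | e | e
  · exact absurd (conj_eq_one_iff.1 e) h.ne
  · exact mul_inv_eq_iff_eq_mul.1 e
  · rw [conj_mul, h.sq] at e
    exact absurd (by simpa using e.symm) h.ne

namespace Ctx
variable (H : Ctx G)
include H

theorem abelem_of_four (h : Sp W K) (hc : Nat.card W = 4) : IsElementaryAbelian 2 W := by
  rcases H.l0.sp h (H.xs h) with e | ⟨z, e⟩
  · exact e.abelem
  · have := e.card
    omega

theorem case_elem (hT : Syl 2 T ⊤) (h : Sp W K) (he : IsElementaryAbelian 2 W) (hW : W ≤ T)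
    (hc : T ≤ W ⊔ 𝐂[W]) : TwoE T := by
  have h1 : T ≤ 𝐂[W] := hc.trans (sup_le (abelian_iff.1 he.1) le_rfl)
  obtain rfl : W = T := le_antisymm hW (H.gen hT fun A B h2 h3 => (H.s2 h h2 (h3.trans h1)).ge)
  exact ⟨K, h, he⟩

theorem quat_uniq (hT : IsPGroup 2 T) (h : Sp W K) (hq : IsQ W z) (hW : W ≤ T)
    (hc : T ≤ W ⊔ 𝐂[W]) (h1 : Sp W₁ K₁) (hW₁ : W₁ ≤ T) : W = W₁ := by
  rcases H.l2.nrm h1 (H.xsW h1) with hA | ⟨h4, -⟩
  · exact H.uniqP h h1 hT hW hW₁ hc (H.tp h1 hT hW₁ (hA _ inf_le_right hT.to_inf_left))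
  have he := H.abelem_of_four h1 h4
  by_contra hne
  have hnc : ¬ W₁ ≤ 𝐂[W] := fun e => hne (H.s2 h h1 e)
  have hz := isQ_cent hq
  have hzT : T ≤ 𝐂₁[z] := hc.trans (sup_le (le_cent1.2 hz) (cent_le_cent1 hq.mem))
  by_cases hzW : z ∈ W₁
  · obtain ⟨v, hv, hv'⟩ := SetLike.not_le_iff_exists.1 hnc
    obtain ⟨a, ha, c, hc', rfl⟩ := (mem_join_norm (cent_sub W)).1 (hc (hW₁ hv))
    have h2 : a * a = z := by
      rcases hq.root a ha with rfl | rfl | e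
      · exact absurd (by simpa using hc') hv'
      · exact absurd (mul_mem hz hc') hv'
      · exact e
    have h3 : a ∈ 𝐂[W₁] := klein_cent h4 he hzW hv hq.ne (fun e => hv' (e ▸ one_mem _))
      (fun e => hv' (e ▸ hz)) (mem_cent.1 hz a ha).symm
      (by rw [mul_assoc, mem_cent.1 hc' a ha, ← mem_cent.1 hc' a ha])
    exact hq.ne (h2 ▸ H.sqfix h1 he h3 (h2 ▸ hzW))
  · refine hnc (centsC.1 (H.nrmE h1 hq.sq hzW (le_cent1.1 (hW₁.trans hzT)) h.two (hW.trans hzT) ?_))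
    refine (commgS _ (hW₁.trans hc)).trans ?_
    rw [commGC, commg_sup_cent' (cent_sub W) le_rfl, hq.der]

theorem case_quat (hB : StBS.{u}) (hT : Syl 2 T ⊤) (h : Sp W K) (hq : IsQ W z) (hW : W ≤ T)
    (hc : T ≤ W ⊔ 𝐂[W]) : False := by
  obtain rfl : W = T := le_antisymm hW
    (H.gen hT fun A B h2 h3 => (H.quat_uniq hT.pgroup h hq hW hc h2 h3).ge)
  obtain ⟨y, hy, hy'⟩ := SetLike.not_le_iff_exists.1 h.not_cent
  have hX := H.ms.xs_cent1 hq.ne
  have hW1 : W ≤ 𝐂₁[z] := le_cent1.2 (isQ_cent hq)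
  have hK1 : K ≤ 𝐂₁[z] := by
    have := (H.l0.spDer h (H.xs h)).1
    rwa [hq.der, cent_cycle] at this
  have hO := pcore_normal {2}ᶜ 𝐂₁[z]
  have hWO := H.l1.wc h (odd_core 𝐂₁[z]) (hW1.trans hO.norm) (hK1.trans hO.norm)
    (hX.mono (sup_le (sup_le hO.le hW1) hK1))
  refine hB G W z y H.ms.perfect hT hq (fun g hg => mem_norm_of_conj_le ?_) (h.norm hy)
    (h.odd.of_dvd_nat (orderOf_dvd_natCard K hy)) hy'
  have h1 := H.l2.uniq hX (h.conj g) h (conj_le_of_mem hg hW1) (conj_le_of_mem hg hK1) hW1 hK1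
  exact sub_normal_Sylow (hT.subl le_sup_right le_top) (normalYr (cents_norm (centsC.1 hWO))) h1
    (h.conj g).two

theorem case1 (hB : StBS.{u}) (hT : Syl 2 T ⊤) (h : Sp W K) (hW : W ≤ T)
    (hc : T ⊓ 𝐍[W] ≤ W ⊔ 𝐂[W]) : TwoE T := by
  have h1 := H.tp h hT.pgroup hW hc
  rcases H.l0.sp h (H.xs h) with e | ⟨z, e⟩
  · exact H.case_elem hT h e.abelem hW h1
  · exact (H.case_quat hB hT h e hW h1).elim

end Ctx

end Cfsg.Acd.T
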