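import Cfsg.Agent.Acd.T2

/-! S4753, piece T: special four-groups that are self-centralising. -/

set_option autoImplicit false
set_option maxHeartbeats 400000

namespace Cfsg.Acd.T

open Cfsg.FT Subgroup
open scoped Pointwise commutatorElement

variable {G : Type*} [Group G] [Finite G]
variable {T L W K W₁ K₁ W₂ K₂ P X : Subgroup G} {a b c q s t u w x y z : G}

/-- data attached to a special subgroup of the second type -/
structure BD (T W K : Subgroup G) (z w : G) : Prop where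
  sp : Sp W K
  le : W ≤ T
  card : Nat.card W = 4
  abelem : IsElementaryAbelian 2 W
  zW : z ∈ W
  wW : w ∈ W
  z1 : z ≠ 1
  w1 : w ≠ 1
  wz : w ≠ z
  zc : z ∈ 𝐂[T ⊓ 𝐍[W]]
  ex : ∃ q ∈ T ⊓ 𝐍[W], q ∉ 𝐂[W]
  dec : ∀ p ∈ T ⊓ 𝐂[W], ∃ a ∈ W, ∃ c ∈ T ⊓ 𝐂[W] ⊓ 𝐂[K], p = a * c
  cen : T ⊓ 𝐂[W] ⊓ 𝐂[K] ≤ 𝐂[T ⊓ 𝐍[W]]
  ti : W ⊓ 𝐂[K] = ⊥

theorem Ctx.bd (H : Ctx G) (hT : IsPGroup 2 T) (h : Sp W K) (hW : W ≤ T)
    (hc : ¬ T ⊓ 𝐍[W] ≤ W ⊔ 𝐂[W]) : ∃ K' z w, BD T W K' z w := by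
  obtain ⟨A, a1, a2, a3⟩ := H.fix h (P := T ⊓ (W ⊔ 𝐂[W])) hT.to_inf_left (le_inf hW le_sup_left)
    inf_le_right
  rcases H.l2.nrm a1 (H.xsW h) with hA | ⟨h4, hB, -⟩
  · exact absurd (hA _ inf_le_right hT.to_inf_left) hc
  have he := H.abelem_of_four h h4
  rw [sup_eq_right.2 (abelian_iff.1 he.1)] at a2 a3 hc
  obtain ⟨z, hz, z1⟩ := (bot_or_exists_ne_one _).resolve_left
    (nontrivial_cent_pgroup hT.to_inf_left h.two (inf_le_right : T ⊓ 𝐍[W] ≤ _) h.ne)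
  obtain ⟨w, hw, hw'⟩ := SetLike.not_le_iff_exists.1 fun e : W ≤ ⟪z⟫ => by
    have h1 := card_le_of_le e
    rw [h4, Nat.card_zpowers, abelem_order_p he hz.1 z1] at h1
    omega
  refine ⟨A, z, w, a1, hW, h4, he, hz.1, hw, z1, fun e => hw' (e ▸ one_mem _),
    fun e => hw' (e ▸ mem_zpowers _), hz.2, SetLike.not_le_iff_exists.1 hc, fun p hp => ?_, ?_,
    H.ti a1 he.1⟩
  · have h1 := coprime_cent_prod a2 (coprime_of_two_odd hT.to_inf_left a1.odd)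
      (Or.inr (abelian_sol a1.ab))
    rw [a3] at h1
    obtain ⟨a, ha, c, hc, e⟩ := (mem_join_norm ((inf_le_left.trans inf_le_right).trans
      (cent_sub W))).1 (h1.ge hp)
    exact ⟨a, ha, c, hc, e.symm⟩
  · refine le_trans ?_ (hB _ inf_le_right hT.to_inf_left).2
    exact inf_le_inf_right _ (le_inf (inf_le_inf_left _ (cent_sub W)) inf_le_right)

namespace BD
variable (B : BD T W K z w)
include B

omit [Finite G] in
theorem sq (ha : a ∈ W) : a * a = 1 := _root_.sq a ▸ B.abelem.2 a ha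

omit [Finite G] in
theorem zz : z * z = 1 := B.sq B.zW

omit [Finite G] in
theorem zq (hq : q ∈ T ⊓ 𝐍[W]) : q * z = z * q := mem_cent.1 B.zc q hq

omit [Finite G] in
theorem leQ : W ≤ T ⊓ 𝐍[W] := le_inf B.le (normG W)

omit [Finite G] in
theorem leC : W ≤ 𝐂[W] := abelian_iff.1 B.abelem.1

theorem el (ha : a ∈ W) : a = 1 ∨ a = z ∨ a = w ∨ a = z * w :=
  klein B.card B.abelem B.zW B.wW B.z1 B.w1 B.wz ha

theorem inn (hq : q ∈ T ⊓ 𝐍[W]) (h : w * q = q * w) : q ∈ 𝐂[W] :=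
  klein_cent B.card B.abelem B.zW B.wW B.z1 B.w1 B.wz (B.zq hq).symm h

theorem out (hq : q ∈ T ⊓ 𝐍[W]) (h : q ∉ 𝐂[W]) : q * w * q⁻¹ = z * w := by
  rcases B.el ((memJ_norm hq.2).2 B.wW) with e | e | e | e
  · exact absurd (conj_eq_one_iff.1 e) B.w1
  · rw [mul_inv_eq_iff_eq_mul, ← B.zq hq] at e
    exact absurd (mul_left_cancel e) B.wz
  · exact absurd (B.inn hq (mul_inv_eq_iff_eq_mul.1 e).symm) h
  · exact e

/-- an element of `W` is in `⟨z⟩`, or is moved by every outer element -/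
theorem out' (hq : q ∈ T ⊓ 𝐍[W]) (h : q ∉ 𝐂[W]) (ha : a ∈ W) :
    a = 1 ∨ a = z ∨ q * a * q⁻¹ = z * a := by
  rcases B.el ha with e | e | e | e
  · exact .inl e
  · exact .inr (.inl e)
  · exact .inr (.inr (e ▸ B.out hq h))
  · refine .inr (.inr ?_)
    rw [e, ← mul_assoc, B.zq hq, mul_assoc z, mul_assoc z, B.out hq h]

theorem two_out (hx : x ∈ T ⊓ 𝐍[W]) (hy : y ∈ T ⊓ 𝐍[W]) (h : x ∉ 𝐂[W]) (h' : y ∉ 𝐂[W]) :
    x⁻¹ * y ∈ 𝐂[W] := by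
  refine B.inn (mul_mem (inv_mem hx) hy) ?_
  have := (B.out hx h).trans (B.out hy h').symm
  calc w * (x⁻¹ * y) = x⁻¹ * (x * w * x⁻¹) * y := by group
    _ = x⁻¹ * y * w := by rw [this]; group

theorem comm_in (hx : x ∈ T ⊓ 𝐍[W]) (hy : y ∈ T ⊓ 𝐂[W]) : ⁅x, y⁆ ∈ ⟪z⟫ := by
  obtain ⟨a, ha, c, hc, rfl⟩ := B.dec y hy
  have h1 := mem_cent.1 (B.cen hc) x hx
  have e : ⁅x, a * c⁆ = x * a * x⁻¹ * a⁻¹ := by
    calc ⁅x, a * c⁆ = x * a * x⁻¹ * (x * c) * x⁻¹ * c⁻¹ * a⁻¹ := by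
          rw [commutatorElement_def]; group
      _ = x * a * x⁻¹ * a⁻¹ := by rw [h1]; group
  rw [e]
  by_cases hc : x ∈ 𝐂[W]
  · rw [← mem_cent.1 hc a ha]; simp
  rcases B.out' hx hc ha with rfl | rfl | e
  · simp
  · rw [B.zq hx]; simp
  · rw [e]; simp

theorem der : ⁅T ⊓ 𝐍[W], T ⊓ 𝐍[W]⁆ ≤ ⟪z⟫ := by
  refine commutator_le.2 fun x hx y hy => ?_
  by_cases h : y ∈ 𝐂[W]
  · exact B.comm_in hx ⟨hy.1, h⟩
  by_cases h' : x ∈ 𝐂[W]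
  · rw [← commutatorElement_inv]
    exact inv_mem (B.comm_in hy ⟨hx.1, h'⟩)
  have h1 := B.comm_in hx ⟨T.mul_mem (T.inv_mem hx.1) hy.1, B.two_out hx hy h' h⟩
  have e : ⁅x, y⁆ = x * ⁅x, x⁻¹ * y⁆ * x⁻¹ := by simp only [commutatorElement_def]; group
  rw [e]
  rcases cyc2 B.zz h1 with e | e <;> rw [e]
  · simp
  · rw [B.zq hx]; simp

/-- central elements of `W` -/
theorem cenW (ha : a ∈ W) (h : a ∈ 𝐂[T ⊓ 𝐍[W]]) : a = 1 ∨ a = z := by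
  obtain ⟨q, hq, hq'⟩ := B.ex
  rcases B.out' hq hq' ha with e | e | e
  · exact .inl e
  · exact .inr e
  · rw [mem_cent.1 h q hq, mul_inv_cancel_right] at e
    exact absurd (by simpa using e) B.z1

theorem other (H : Ctx G) (h1 : Sp W₁ K₁) (hl : W₁ ≤ T ⊓ 𝐍[W]) (hn : W ≠ W₁) :
    z ∈ W₁ ∧ ∃ t ∈ W₁, t ∉ 𝐂[W] := by
  have hnc : ¬ W₁ ≤ 𝐂[W] := fun e => hn (H.s2 B.sp h1 e)
  refine ⟨?_, SetLike.not_le_iff_exists.1 hnc⟩
  by_contra hz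
  exact hnc (centsC.1 (H.nrmE h1 B.zz hz (centS hl B.zc) B.sp.two (le_cent1.2 (B.leC B.zW))
    ((commgSS B.leQ hl).trans B.der)))

theorem other_uniq (H : Ctx G) (h1 : Sp W₁ K₁) (hl : W₁ ≤ T ⊓ 𝐍[W]) (hn : W ≠ W₁)
    (c1 : Nat.card W₁ = 4) (h2 : Sp W₂ K₂) (hl' : W₂ ≤ T ⊓ 𝐍[W]) (hn' : W ≠ W₂)
    (c2 : Nat.card W₂ = 4) : W₁ = W₂ := by
  obtain ⟨z1, t, ht, ht'⟩ := B.other H h1 hl hn
  obtain ⟨z2, u, hu, hu'⟩ := B.other H h2 hl' hn'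
  have e1 := H.abelem_of_four h1 c1
  have e2 := H.abelem_of_four h2 c2
  have zc := B.leC B.zW
  obtain ⟨a, ha, c, hc, e⟩ := B.dec _ ⟨T.mul_mem (T.inv_mem (hl ht).1) (hl' hu).1,
    B.two_out (hl ht) (hl' hu) ht' hu'⟩
  have tc := mem_cent.1 (B.cen hc) t (hl ht)
  rw [inv_mul_eq_iff_eq_mul] at e
  have key : t * a = a * t → W₁ = W₂ := fun ta => H.s2 h1 h2 (by
    rw [← klein_eq c2 e2 z2 hu B.z1 (fun e => hu' (e ▸ one_mem _)) (fun e => hu' (e ▸ zc))]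
    refine sup_le (zpowers_le.2 (centS hl B.zc)) (zpowers_le.2 ?_)
    refine klein_cent c1 e1 z1 ht B.z1 (fun e => ht' (e ▸ one_mem _)) (fun e => ht' (e ▸ zc))
      (B.zq (hl' hu)).symm ?_
    rw [e, mul_assoc t, mul_assoc a, ← tc, ← mul_assoc a, ← ta, mul_assoc])
  rcases B.out' (hl ht) ht' ha with rfl | rfl | e'
  · exact key (by simp)
  · exact key (B.zq (hl ht))
  have tt : t * t = 1 := _root_.sq t ▸ e1.2 t ht
  have uu : u * u = 1 := _root_.sq u ▸ e2.2 u hu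
  have ac := mem_cent.1 hc.1.2 a ha
  have h3 : z * (c * c) = 1 := by
    calc z * (c * c) = (z * a) * (t * t) * a * (c * c) := by
          rw [tt, mul_one, mul_assoc z a a, B.sq ha, mul_one]
      _ = t * (a * (t * (a * c)) * c) := by rw [← e']; group
      _ = t * (a * c) * (t * (a * c)) := by
          rw [mul_assoc a, mul_assoc t (a * c) c, mul_assoc a c c, mul_assoc t (a * c),
            mul_assoc a c, ← mul_assoc c t, ← tc, mul_assoc t c, ← mul_assoc c a, ← ac, mul_assoc a c]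
      _ = 1 := by rw [← e, uu]
  have h4 : z ∈ W ⊓ 𝐂[K] := ⟨B.zW, by
    rw [eq_inv_of_mul_eq_one_left h3]; exact 𝐂[K].inv_mem (𝐂[K].mul_mem hc.2 hc.2)⟩
  rw [B.ti] at h4
  exact absurd h4 B.z1

end BD

end Cfsg.Acd.T
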