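import Cfsg.Agent.Acd.T3

/-! S4753, piece T: special four-groups of the second type are self-centralising. -/

set_option autoImplicit false
set_option maxHeartbeats 400000

namespace Cfsg.Acd.T

open Cfsg.FT Subgroup
open scoped Pointwise commutatorElement

variable {G : Type*} [Group G] [Finite G]
variable {T L W K W₁ K₁ W₂ K₂ P X : Subgroup G} {a b c q s t u w x y z : G}

namespace BD
variable (B : BD T W K z w)
include B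

omit [Finite G] in
theorem z_notMem : z ∉ 𝐂[K] := fun h => B.z1 (mem_bot.1 (B.ti ▸ (⟨B.zW, h⟩ : z ∈ W ⊓ 𝐂[K])))

theorem qt (H : Ctx G) (hT : Syl 2 T ⊤) (c4 : ∀ A R, Sp A R → A ≤ T → Nat.card A = 4)
    (hQ : T ≤ 𝐍[W]) (hc : c ∈ T ⊓ 𝐂[W] ⊓ 𝐂[K]) : c = 1 := by
  have hQ' : T ≤ T ⊓ 𝐍[W] := le_inf le_rfl hQ
  obtain ⟨A, R, h1, h2, h3⟩ := H.exists_sp hT (L := W) fun e => by
    obtain ⟨q, hq, hq'⟩ := B.ex
    exact hq' (B.leC (e hq.1))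
  have hne : W ≠ A := fun e => h3 e.ge
  obtain ⟨hz, t, ht, ht'⟩ := B.other H h1 (h2.trans hQ') hne
  have he := H.abelem_of_four h1 (c4 _ _ h1 h2)
  have h4 : T ≤ W ⊔ ⟪t⟫ := H.gen hT fun A' R' h4 h5 => by
    by_cases e : W = A'
    · exact e ▸ le_sup_left
    rw [← B.other_uniq H h1 (h2.trans hQ') hne (c4 _ _ h1 h2) h4 (h5.trans hQ') e (c4 _ _ h4 h5),
      ← klein_eq (c4 _ _ h1 h2) he hz ht B.z1 (fun e => ht' (e ▸ one_mem _))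
        (fun e => ht' (e ▸ B.leC B.zW))]
    exact sup_le_sup_right (zpowers_le.2 B.zW) _
  obtain ⟨a, ha, y, hy, rfl⟩ := (mem_join_norm (zpowers_le.2 (hQ (h2 ht)))).1 (h4 hc.1.1)
  rcases cyc2 (_root_.sq t ▸ he.2 t ht) hy with rfl | rfl
  · rw [mul_one] at hc ⊢
    exact mem_bot.1 (B.ti ▸ (⟨ha, hc.2⟩ : a ∈ W ⊓ 𝐂[K]))
  · exact absurd ((𝐂[W].mul_mem_cancel_left (B.leC ha)).1 hc.1.2) ht'

theorem sz (hs : s ∈ 𝐍[T ⊓ 𝐍[W]]) : s * z * s⁻¹ = z := by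
  obtain ⟨q, hq, hq'⟩ := B.ex
  have h1 : z ∈ ⁅T ⊓ 𝐍[W], T ⊓ 𝐍[W]⁆ := by
    have := mem_commg hq (B.leQ B.wW)
    rwa [commutatorElement_def, B.out hq hq', mul_inv_cancel_right] at this
  rcases cyc2 B.zz (B.der ((memJ_norm ((der_char _).norm_le hs)).2 h1)) with e | e
  · exact absurd (conj_eq_one_iff.1 e) B.z1
  · exact e

theorem conj_ti (H : Ctx G) (hT : IsPGroup 2 T) (hs : s ∈ 𝐍[T ⊓ 𝐍[W]]) (hs' : s ∉ 𝐍[W])
    (hu : u ∈ T ⊓ 𝐂[W] ⊓ 𝐂[K]) (hu' : s * u * s⁻¹ ∈ T ⊓ 𝐂[W] ⊓ 𝐂[K]) : u = 1 := by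
  by_contra h1
  refine hs' (conj_eq_iff_mem_norm.1 (H.l2.uniq' (H.ms.xs_cent1 (mt conj_eq_one_iff.1 h1))
    (B.sp.conj s) B.sp ?_ ?_ (le_cent1.2 hu'.1.2) (le_cent1.2 hu'.2) hT.to_inf_left
    (conj_le_of_mem_norm hs B.leQ) B.leQ))
  · rw [cent1_conj, conj_le_conj]; exact le_cent1.2 hu.1.2
  · rw [cent1_conj, conj_le_conj]; exact le_cent1.2 hu.2

theorem conj_c0 (H : Ctx G) (hT : IsPGroup 2 T) (hs : s ∈ 𝐍[T ⊓ 𝐍[W]]) (hs' : s ∉ 𝐍[W])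
    (hu : u ∈ T ⊓ 𝐂[W] ⊓ 𝐂[K]) (h1 : u ≠ 1) : ∃ c ∈ T ⊓ 𝐂[W] ⊓ 𝐂[K], s * u * s⁻¹ = z * c := by
  have h2 : s * u * s⁻¹ ∈ 𝐙[T ⊓ 𝐍[W]] :=
    (memJ_norm ((center_char _).norm_le hs)).2 ⟨⟨hu.1.1, cent_sub W hu.1.2⟩, B.cen hu⟩
  obtain ⟨a, ha, c, hc, e⟩ := B.dec _ ⟨h2.1.1, centS B.leQ h2.2⟩
  rcases B.cenW ha ((𝐂[T ⊓ 𝐍[W]].mul_mem_cancel_right (B.cen hc)).1 (e ▸ h2.2)) with rfl | rfl
  · rw [one_mul] at e
    exact absurd (B.conj_ti H hT hs hs' hu (e ▸ hc)) h1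
  · exact ⟨c, hc, e⟩

theorem conj_c (H : Ctx G) (hT : IsPGroup 2 T) (hs : s ∈ 𝐍[T ⊓ 𝐍[W]]) (hs' : s ∉ 𝐍[W])
    (hu : u ∈ T ⊓ 𝐂[W] ⊓ 𝐂[K]) (h1 : u ≠ 1) : s * u * s⁻¹ = z * u := by
  obtain ⟨c, hc, e⟩ := B.conj_c0 H hT hs hs' hu h1
  by_cases h2 : c = 1
  · rw [h2, mul_one, ← B.sz hs, mul_left_inj, mul_right_inj] at e
    exact absurd (e ▸ hu.2) B.z_notMem
  obtain ⟨d, hd, e'⟩ := B.conj_c0 H hT hs hs' hc h2
  have h3 := B.conj_ti H hT hs hs' (mul_mem (inv_mem hu) hc) (by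
    have : s * (u⁻¹ * c) * s⁻¹ = c⁻¹ * d := by
      calc s * (u⁻¹ * c) * s⁻¹ = (s * u * s⁻¹)⁻¹ * (s * c * s⁻¹) := by group
        _ = c⁻¹ * d := by rw [e, e']; group
    exact this ▸ mul_mem (inv_mem hc) hd)
  rw [e, inv_mul_eq_one.1 h3]

theorem exists_out (H : Ctx G) (hT : Syl 2 T ⊤) (c4 : ∀ A R, Sp A R → A ≤ T → Nat.card A = 4)
    (hQ : ¬ T ≤ 𝐍[W]) : ∃ A R, Sp A R ∧ A ≤ T ⊓ 𝐍[T ⊓ 𝐍[W]] ∧ ¬ A ≤ T ⊓ 𝐍[W] := by
  by_contra hn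
  push Not at hn
  have hnil := pgroup_nil hT.pgroup
  have hlt := nilpotent_proper_norm hnil
    (lt_of_le_of_ne (inf_le_left : T ⊓ 𝐍[W] ≤ T) fun e => hQ (e.ge.trans inf_le_right))
  obtain ⟨s, hs, hs'⟩ := SetLike.exists_of_lt hlt
  have h1 := nilpotent_sub_norm hnil (inf_le_left : T ⊓ 𝐍[T ⊓ 𝐍[W]] ≤ T) fun g hg => by
    have h2 := hn _ _ (B.sp.conj g) (conj_le_of_mem_norm hg.2 (B.leQ.trans hlt.le))
    by_cases e : W = g •ᶜ W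
    · exact hlt.le ⟨hg.1, conj_eq_iff_mem_norm.1 e.symm⟩
    have h3 := B.other_uniq H (B.sp.conj g) h2 e (by rw [card_conj, B.card]) (B.sp.conj s)
      (conj_le_of_mem_norm hs.2 B.leQ) (fun e => hs' ⟨hs.1, conj_eq_iff_mem_norm.1 e.symm⟩)
      (by rw [card_conj, B.card])
    have h4 : s⁻¹ * g ∈ T ⊓ 𝐍[W] := ⟨T.mul_mem (T.inv_mem hs.1) hg.1, conj_eq_iff_mem_norm.1 (by
      rw [← conj_conj, h3, inv_conj_conj])⟩
    simpa using mul_mem hs (hlt.le h4)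
  exact hQ ((H.gen hT fun A R h2 h3 => hn A R h2 (h1.symm ▸ h3)).trans inf_le_right)

theorem cbot (H : Ctx G) (hT : Syl 2 T ⊤) (c4 : ∀ A R, Sp A R → A ≤ T → Nat.card A = 4)
    (hc : c ∈ T ⊓ 𝐂[W] ⊓ 𝐂[K]) : c = 1 := by
  by_cases hQ : T ≤ 𝐍[W]
  · exact B.qt H hT c4 hQ hc
  by_contra c1
  obtain ⟨A, R, h1, h2, h3⟩ := B.exists_out H hT c4 hQ
  obtain ⟨s, hs, hs'⟩ := SetLike.not_le_iff_exists.1 h3
  have hA := c4 _ _ h1 (h2.trans inf_le_left)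
  have he := H.abelem_of_four h1 hA
  have sN : s ∉ 𝐍[W] := fun e => hs' ⟨(h2 hs).1, e⟩
  have sc := B.conj_c H hT.pgroup (h2 hs).2 sN hc c1
  have hz : z ∈ A := by
    by_contra hz
    have h4 := H.nrmE (X := T ⊓ 𝐂[W] ⊓ 𝐂[K]) h1 B.zz hz
      (mem_cent.2 fun x hx => mul_inv_eq_iff_eq_mul.1 (B.sz (h2 hx).2))
      hT.pgroup.to_inf_left.to_inf_left
      ((inf_le_left.trans inf_le_right).trans (cent_le_cent1 B.zW))
      (commutator_le.2 fun x hx y hy => by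
        by_cases x1 : x = 1
        · simp [x1]
        by_cases yN : y ∈ 𝐍[W]
        · rw [commutatorElement_eq_one_iff_mul_comm.2 (mem_cent.1 (B.cen hx) y ⟨(h2 hy).1, yN⟩).symm]
          exact one_mem _
        rw [← commutatorElement_inv, commutatorElement_def,
          B.conj_c H hT.pgroup (h2 hy).2 yN hx x1, mul_inv_cancel_right]
        exact inv_mem (mem_zpowers z))
    rw [mem_cent.1 (h4 hc) s hs, mul_inv_cancel_right] at sc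
    exact B.z1 (by simpa using sc)
  have ss : s * s = 1 := _root_.sq s ▸ he.2 s hs
  have sz := B.sz (h2 hs).2
  have vQ : s * w * s⁻¹ ∈ T ⊓ 𝐍[W] := (memJ_norm (h2 hs).2).2 (B.leQ B.wW)
  have vC : s * w * s⁻¹ ∉ 𝐂[W] := fun e => sN (conj_eq_iff_mem_norm.1 (H.s2 B.sp (B.sp.conj s)
    (conj_le_iff_forall.2 fun a ha => by
      rcases B.el ha with rfl | rfl | rfl | rfl
      · simp
      · rw [sz]; exact B.leC ha
      · exact e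
      · rw [← conj_mul, sz]; exact mul_mem (B.leC B.zW) e)).symm)
  have vv : s * w * s⁻¹ * (s * w * s⁻¹) = 1 := by rw [conj_mul, B.sq B.wW]; simp
  have sv : s * (s * w * s⁻¹) * s⁻¹ = w := by
    calc s * (s * w * s⁻¹) * s⁻¹ = (s * s) * w * (s * s)⁻¹ := by group
      _ = w := by rw [ss]; simp
  have vw := B.out vQ vC
  have cQ : c ∈ T ⊓ 𝐍[W] := ⟨hc.1.1, cent_sub W hc.1.2⟩
  have cc : c * c = 1 := B.conj_ti H hT.pgroup (h2 hs).2 sN (mul_mem hc hc) (by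
    rw [← conj_mul, sc, mul_assoc, ← mul_assoc c, B.zq cQ, ← mul_assoc, ← mul_assoc, B.zz, one_mul]
    exact mul_mem hc hc)
  have vc := mem_cent.1 (B.cen hc) _ vQ
  have vz := B.zq vQ
  generalize hv : s * w * s⁻¹ = v at *
  have wc := mem_cent.1 hc.1.2 w B.wW
  have wz := B.zq (B.leQ B.wW)
  rw [mul_inv_eq_iff_eq_mul] at vw
  have y2 : w * v * c * (w * v * c) = z := by
    calc w * v * c * (w * v * c) = w * v * (c * w) * v * c := by group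
      _ = w * (v * w) * (c * v) * c := by rw [← wc]; group
      _ = (w * z) * w * (v * v) * (c * c) := by rw [vw, ← vc]; group
      _ = z := by rw [vv, cc, wz, mul_one, mul_one, mul_assoc, B.sq B.wW, mul_one]
  have yC : w * v * c ∈ 𝐂[A] := by
    refine klein_cent hA he hz hs B.z1 (fun e => hs' (e ▸ one_mem _))
      (fun e => hs' (e ▸ B.leQ B.zW)) (B.zq (mul_mem (mul_mem (B.leQ B.wW) vQ) cQ)).symm ?_
    rw [← mul_inv_eq_iff_eq_mul, ← conj_mul, ← conj_mul, sv, sc, hv, vw, ← mul_assoc, mul_assoc _ v z,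
      vz, ← mul_assoc, mul_assoc z w z, wz, ← mul_assoc, B.zz, one_mul]
  exact B.z1 (y2 ▸ H.sqfix h1 he yC (y2 ▸ hz))

theorem selfc (H : Ctx G) (hT : Syl 2 T ⊤) (c4 : ∀ A R, Sp A R → A ≤ T → Nat.card A = 4) :
    T ⊓ 𝐂[W] ≤ W := fun p hp => by
  obtain ⟨a, ha, c, hc, rfl⟩ := B.dec p hp
  rwa [B.cbot H hT c4 hc, mul_one]

end BD

end Cfsg.Acd.T
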