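import Cfsg.Agent.Acd.T4

/-! S4753, piece T: the Sylow `2`-subgroup is elementary or dihedral. -/

set_option autoImplicit false
set_option maxHeartbeats 400000

namespace Cfsg.Acd

open Cfsg.FT Subgroup
open scoped Pointwise commutatorElement

universe u

namespace T

variable {G : Type*} [Group G] [Finite G]
variable {T L W K W₁ K₁ W₂ K₂ P X : Subgroup G} {a b c q s t u w x y z : G}

theorem BD.card_le (B : BD T W K z w) (hT : IsPGroup 2 T) (hc : T ⊓ 𝐂[W] ≤ W) :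
    Nat.card T ≤ 4 * Nat.card (frat T) := by
  obtain ⟨j, hj, j1⟩ := (bot_or_exists_ne_one _).resolve_left
    (center_nil_ne_bot (pgroup_nil hT) fun e => B.sp.ne (le_bot_iff.1 (e ▸ B.le)))
  obtain rfl : j = z :=
    (B.cenW (hc ⟨hj.1, centS B.le hj.2⟩) (centS inf_le_left hj.2)).resolve_left j1
  have h1 : 𝐂₁[w] ⊓ T ≤ W := fun x hx => hc ⟨hx.2, klein_cent B.card B.abelem B.zW B.wW B.z1 B.w1
    B.wz (mem_cent.1 hj.2 x hx.2).symm (mem_cent1.1 hx.1).symm⟩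
  have h2 := index_centralizer_le_card (G := T) (K := (frat T).subgroupOf T)
    (x := ⟨w, B.le B.wW⟩) fun g => der1_le_Phi hT (mem_commg g.2 (B.le B.wW))
  rw [centralizer_singleton_subgroupOf, card_subgroupOf, inf_eq_left.2 (Phi_sub T)] at h2
  have h3 := card_mul_relIndex (inf_le_right : 𝐂₁[w] ⊓ T ≤ T)
  rw [inf_relIndex_right] at h3
  have h4 := card_le_of_le h1
  rw [B.card] at h4
  exact h3 ▸ Nat.mul_le_mul h4 h2

theorem Ctx.case2 (H : Ctx G) (hT : Syl 2 T ⊤)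
    (hall : ∀ W K, Sp W K → W ≤ T → ¬ T ⊓ 𝐍[W] ≤ W ⊔ 𝐂[W]) : TwoD T := by
  have hp := hT.pgroup
  have bd := fun W K h1 h2 => H.bd hp h1 h2 (hall W K h1 h2)
  have c4 : ∀ A R, Sp A R → A ≤ T → Nat.card A = 4 := fun A R h1 h2 =>
    let ⟨_, _, _, B⟩ := bd A R h1 h2; B.card
  have hΦ := Phi_proper (H.ne_bot hT)
  obtain ⟨A, R, a1, a2, a3⟩ := H.exists_sp hT hΦ.not_ge
  obtain ⟨R₁, z, w, B⟩ := bd A R a1 a2
  obtain ⟨t, ht, ht'⟩ := SetLike.not_le_iff_exists.1 a3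
  have tT := zpowers_le.2 (a2 ht)
  obtain ⟨A', R', b1, b2, b3⟩ := H.exists_sp hT (L := frat T ⊔ ⟪t⟫) fun e => by
    have h1 := card_le_of_le (a2.trans (Phi_nongen' tT e).ge)
    have := orderOf_le_of_pow_eq_one two_pos (B.abelem.2 t ht)
    rw [B.card, Nat.card_zpowers] at h1
    omega
  obtain ⟨R₂, z', w', B'⟩ := bd A' R' b1 b2
  obtain ⟨τ, hτ, hτ'⟩ := SetLike.not_le_iff_exists.1 b3
  have τT := zpowers_le.2 (b2 hτ)
  have hgen : ⟪t⟫ ⊔ ⟪τ⟫ = T := by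
    refine Phi_nongen' (sup_le tT τT) (card_eq_of_le (sup_le hΦ.le (sup_le tT τT)) ?_).ge
    have l1 : frat T < frat T ⊔ ⟪t⟫ := lt_of_le_of_ne le_sup_left fun e =>
      ht' (e ▸ mem_sup_right (mem_zpowers t))
    have l2 : frat T ⊔ ⟪t⟫ < frat T ⊔ (⟪t⟫ ⊔ ⟪τ⟫) := lt_of_le_of_ne (sup_le_sup_left le_sup_left _)
      fun e => hτ' (e ▸ mem_sup_right (mem_sup_right (mem_zpowers τ)))
    have h1 := card_mul_le_of_lt (hp.to_le (sup_le hΦ.le tT)) l1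
    have h2 := card_mul_le_of_lt (hp.to_le (sup_le hΦ.le (sup_le tT τT))) l2
    have h3 := B.card_le hp (B.selfc H hT c4)
    omega
  have tt := B.sq ht
  have ττ := B'.sq hτ
  have nc : t * τ ≠ τ * t := fun e => by
    obtain ⟨q, hq, hq'⟩ := B.ex
    exact hq' (sub_abelian_cent (hgen ▸ abelianY.2 ⟨cycle_abelian t, cycle_abelian τ, by
      rw [cent_cycle, zpowers_le, mem_cent1, e]⟩) a2 hq.1)
  have rel : τ * (t * τ) * τ⁻¹ = (t * τ)⁻¹ := by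
    rw [mul_inv_rev, inv_eq_of_mul_eq_one_right tt, ← mul_assoc, mul_inv_cancel_right,
      inv_eq_of_mul_eq_one_right ττ]
  obtain ⟨n, hn⟩ := IsPGroup.iff_orderOf.1 hp ⟨t * τ, mul_mem (a2 ht) (b2 hτ)⟩
  rw [← orderOf_coe] at hn
  change orderOf (t * τ) = _ at hn
  obtain ⟨n, rfl⟩ : ∃ k, n = k + 2 := by
    refine ⟨n - 2, ?_⟩
    by_contra h
    have h1 : (t * τ) ^ 2 = 1 := orderOf_dvd_iff_pow_eq_one.1
      (hn ▸ (pow_dvd_pow 2 (by omega : n ≤ 1)))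
    refine nc ?_
    rw [sq] at h1
    rw [← eq_inv_of_mul_eq_one_left h1, ← mul_assoc, mul_inv_cancel_right] at rel
    exact rel.symm
  have D : IsDih T (t * τ) τ (2 ^ (n + 1)) := IsDih.of_closure
    (by have := Nat.one_le_two_pow (n := n); omega) (by rw [hn]; ring) ττ rel (by
      rw [← hgen]
      refine le_antisymm ((closure_le _).2 ?_) (sup_le (zpowers_le.2 ?_) (zpowers_le.2 ?_))
      · rintro _ (rfl | rfl)
        · exact mul_mem_sup (mem_zpowers _) (mem_zpowers _)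
        · exact mem_sup_right (mem_zpowers _)
      · have := mul_mem (subset_closure (k := {t * τ, τ}) (.inl rfl))
          (subset_closure (k := {t * τ, τ}) (.inr rfl))
        rwa [mul_assoc, ττ, mul_one] at this
      · exact subset_closure (.inr rfl))
  refine ⟨t * τ, τ, _, D, by have := Nat.one_le_two_pow (n := n); omega, fun v hv hv' => ?_⟩
  have hJ := D.le_centralizer_J
  have J1 : (t * τ) ^ 2 ^ (n + 1) ≠ 1 := fun e => by simpa [e] using D.orderOf_J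
  have JT : (t * τ) ^ 2 ^ (n + 1) ∈ T := pow_mem D.mem_σ _
  generalize (t * τ) ^ 2 ^ (n + 1) = J at *
  have e1 : ⟪J⟫ ⊔ ⟪t⟫ = A := klein_eq B.card B.abelem
    (B.selfc H hT c4 ⟨JT, le_cent1.1 (a2.trans hJ)⟩) ht J1 (fun e => nc (by simp [e]))
    (fun e => nc (e ▸ (mem_cent1.1 (hJ (b2 hτ))).symm))
  have e2 : ⟪J⟫ ⊔ ⟪τ⟫ = A' := klein_eq B'.card B'.abelem
    (B'.selfc H hT c4 ⟨JT, le_cent1.1 (b2.trans hJ)⟩) hτ J1 (fun e => nc (by simp [e]))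
    (fun e => nc (e ▸ mem_cent1.1 (hJ (a2 ht))))
  obtain ⟨_, ⟨k, rfl⟩, rfl⟩ := D.exists_eq_mul hv hv'
  have key : ∀ (j : ℤ) (r : G) (E S : Subgroup G), Sp E S → ⟪J⟫ ⊔ ⟪r⟫ = E → r ∈ T →
      r ∉ ⟪t * τ⟫ → ∃ K, Sp (⟪J⟫ ⊔ ⟪(t * τ) ^ (2 * j) * r⟫) K := fun j r E S h1 h2 h3 h4 => by
    have h5 := h1.conj ((t * τ) ^ j)
    have h6 := D.conj_of_notMem h3 h4 (zpow_mem_zpowers _ j)
    rw [← h2, conj_sup, conj_zpowers, conj_zpowers,
      mem_cent1.1 (hJ (zpow_mem D.mem_σ j)), mul_inv_cancel_right, ← h6] at h5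
    have h7 := D.mul_self_of_notMem h3 h4
    rw [← mul_assoc, ← mul_assoc, mul_assoc _ r r, h7, mul_one, inv_eq_of_mul_eq_one_right h7,
      ← zpow_add, ← two_mul] at h5
    exact ⟨_, h5⟩
  obtain ⟨j, rfl | rfl⟩ := Int.even_or_odd' k
  · exact key j τ _ _ b1 e2 (b2 hτ) D.notMem
  · have := key j t _ _ a1 e1 (a2 ht) (by
      have := D.mul_τ_notMem (mem_zpowers (t * τ))
      rwa [mul_assoc, ττ, mul_one] at this)
    simpa only [zpow_add_one, mul_assoc, ττ, mul_one] using this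

end T

theorem stT (h0 : StLoc0.{u}) (h1 : StLoc1.{u}) (h2 : StLoc2.{u}) (hB : StBS.{u}) : StT.{u} := by
  intro G _ _ S hG hT
  have H : T.Ctx G := ⟨hG, h0 G, h1 G, h2 G⟩
  by_cases h : ∃ W K, Sp W K ∧ W ≤ S ∧ S ⊓ 𝐍[W] ≤ W ⊔ 𝐂[W]
  · obtain ⟨W, K, a, b, c⟩ := h
    exact .inl (H.case1 hB hT a b c)
  · exact .inr (H.case2 hT fun W K a b c => h ⟨W, K, a, b, c⟩)

end Cfsg.Acd
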